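import Mathlib

set_option autoImplicit false

namespace Cfsg.Agent.H41.TwBurn

open scoped BigOperators

section Tw

variable {G : Type*} [Group G] [Fintype G] {Y : Type*} [MulAction G Y] [DecidableEq Y]

/-- Twisted Burnside lemma: for a transitive action on a (finite, invariant) set `s` and any
self-map `φ` of `s`, the number of pairs `(g, y)` with `g • y = φ y` is `|G|`. -/
theorem twisted_burnside (s : Finset Y) (hne : s.Nonempty)
    (hinv : ∀ g : G, ∀ a ∈ s, g • a ∈ s)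
    (htr : ∀ a ∈ s, ∀ b ∈ s, ∃ g : G, g • a = b)
    (φ : Y → Y) (hφ : ∀ a ∈ s, φ a ∈ s) :
    ∑ g : G, (s.filter (fun y => g • y = φ y)).card = Fintype.card G := by
  classical
  have key : ∀ y ∈ s, (Finset.univ.filter (fun g : G => g • y = φ y)).card * s.card
      = Fintype.card G := by
    intro y hy
    have h1 : ∀ b ∈ s, (Finset.univ.filter (fun g : G => g • y = b)).card
        = (Finset.univ.filter (fun g : G => g • y = φ y)).card := by
      intro b hb
      obtain ⟨k, hk⟩ := htr b hb (φ y) (hφ y hy)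
      refine Finset.card_bij (fun g _ => k * g) ?_ ?_ ?_
      · intro g hg
        simp only [Finset.mem_filter, Finset.mem_univ, true_and] at hg ⊢
        rw [mul_smul, hg, hk]
      · intro g1 _ g2 _ h
        exact mul_left_cancel h
      · intro g hg
        simp only [Finset.mem_filter, Finset.mem_univ, true_and] at hg
        refine ⟨k⁻¹ * g, ?_, by simp⟩
        simp only [Finset.mem_filter, Finset.mem_univ, true_and]
        rw [mul_smul, hg, ← hk, inv_smul_smul]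
    have h2 : Fintype.card G = ∑ b ∈ s, (Finset.univ.filter (fun g : G => g • y = b)).card := by
      rw [← Finset.card_univ]
      exact Finset.card_eq_sum_card_fiberwise (fun g _ => hinv g y hy)
    rw [h2, Finset.sum_congr rfl h1, Finset.sum_const, smul_eq_mul, mul_comm]
  have h3 : (∑ g : G, (s.filter (fun y => g • y = φ y)).card) * s.card
      = Fintype.card G * s.card := by
    have h4 : ∑ g : G, (s.filter (fun y => g • y = φ y)).card
        = ∑ y ∈ s, (Finset.univ.filter (fun g : G => g • y = φ y)).card := by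
      simp_rw [Finset.card_filter]
      exact Finset.sum_comm
    rw [h4, Finset.sum_mul, Finset.sum_congr rfl key, Finset.sum_const, smul_eq_mul, mul_comm]
  exact Nat.eq_of_mul_eq_mul_right hne.card_pos h3

end Tw

theorem card_filter_dep {α β : Type*} [Fintype α] [Fintype β] [DecidableEq α] [DecidableEq β]
    (s : Finset α) (t : α → Finset β) :
    (Finset.univ.filter (fun p : α × β => p.1 ∈ s ∧ p.2 ∈ t p.1)).card
      = ∑ a ∈ s, (t a).card := by
  rw [Finset.card_eq_sum_card_fiberwise (f := Prod.fst) (t := s)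
    (fun p hp => (Finset.mem_filter.1 hp).2.1)]
  refine Finset.sum_congr rfl (fun a ha => ?_)
  refine Finset.card_bij (fun p _ => p.2) ?_ ?_ ?_
  · intro p hp
    simp only [Finset.mem_filter, Finset.mem_univ, true_and] at hp
    obtain ⟨⟨_, h2⟩, h3⟩ := hp
    rw [← h3]
    exact h2
  · rintro ⟨a1, b1⟩ h1 ⟨a2, b2⟩ h2 h
    simp only [Finset.mem_filter, Finset.mem_univ, true_and] at h1 h2
    exact Prod.ext (h1.2.trans h2.2.symm) h
  · intro b hb
    exact ⟨(a, b), by simp [ha, hb], rfl⟩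

section Tuples

variable (X : Type*) [Fintype X] [DecidableEq X]

/-- ordered pairs of distinct points -/
def T2 : Finset (X × X) := Finset.univ.filter (fun p => p.1 ≠ p.2)

/-- ordered triples of distinct points -/
def T3 : Finset ((X × X) × X) :=
  Finset.univ.filter (fun p => p.1.1 ≠ p.1.2 ∧ p.1.1 ≠ p.2 ∧ p.1.2 ≠ p.2)

/-- ordered quadruples of distinct points -/
def T4 : Finset ((X × X) × (X × X)) :=
  Finset.univ.filter (fun p => p.1.1 ≠ p.1.2 ∧ p.2.1 ≠ p.2.2 ∧ p.1.1 ≠ p.2.1 ∧ p.1.1 ≠ p.2.2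
    ∧ p.1.2 ≠ p.2.1 ∧ p.1.2 ≠ p.2.2)

variable {X}

theorem mem_T2 {a b : X} : (a, b) ∈ T2 X ↔ a ≠ b := by simp [T2]

theorem mem_T3 {a b c : X} : ((a, b), c) ∈ T3 X ↔ a ≠ b ∧ a ≠ c ∧ b ≠ c := by simp [T3]

theorem mem_T4 {a b c d : X} :
    ((a, b), (c, d)) ∈ T4 X ↔ a ≠ b ∧ c ≠ d ∧ a ≠ c ∧ a ≠ d ∧ b ≠ c ∧ b ≠ d := by simp [T4]

variable {G : Type*} [Group G] [MulAction G X]

theorem T2_inv (g : G) : ∀ a ∈ T2 X, g • a ∈ T2 X := by
  rintro ⟨a, b⟩ h
  rw [Prod.smul_mk, mem_T2]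
  rw [mem_T2] at h
  simpa using h

theorem T3_inv (g : G) : ∀ a ∈ T3 X, g • a ∈ T3 X := by
  rintro ⟨⟨a, b⟩, c⟩ h
  rw [Prod.smul_mk, Prod.smul_mk, mem_T3]
  rw [mem_T3] at h
  simpa using h

theorem T4_inv (g : G) : ∀ a ∈ T4 X, g • a ∈ T4 X := by
  rintro ⟨⟨a, b⟩, ⟨c, d⟩⟩ h
  rw [Prod.smul_mk, Prod.smul_mk, Prod.smul_mk, mem_T4]
  rw [mem_T4] at h
  simpa using h

theorem T2_trans [MulAction.IsMultiplyPretransitive G X 2] :
    ∀ a ∈ T2 X, ∀ b ∈ T2 X, ∃ g : G, g • a = b := by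
  rintro ⟨a, b⟩ h ⟨a', b'⟩ h'
  rw [mem_T2] at h h'
  obtain ⟨g, h1, h2⟩ := (MulAction.is_two_pretransitive_iff (G := G) (α := X)).1 inferInstance h h'
  exact ⟨g, by rw [Prod.smul_mk, h1, h2]⟩

theorem T3_trans [MulAction.IsMultiplyPretransitive G X 3] :
    ∀ a ∈ T3 X, ∀ b ∈ T3 X, ∃ g : G, g • a = b := by
  rintro ⟨⟨a, b⟩, c⟩ h ⟨⟨a', b'⟩, c'⟩ h'
  rw [mem_T3] at h h'
  have inj : Function.Injective ![a, b, c] := by
    intro i j hij
    fin_cases i <;> fin_cases j <;> simp_all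
  have inj' : Function.Injective ![a', b', c'] := by
    intro i j hij
    fin_cases i <;> fin_cases j <;> simp_all
  obtain ⟨g, hg⟩ := MulAction.exists_smul_eq G (⟨![a, b, c], inj⟩ : Fin 3 ↪ X)
    ⟨![a', b', c'], inj'⟩
  refine ⟨g, ?_⟩
  have e0 := DFunLike.congr_fun hg 0
  have e1 := DFunLike.congr_fun hg 1
  have e2 := DFunLike.congr_fun hg 2
  simp only [Function.Embedding.smul_apply, Function.Embedding.coeFn_mk] at e0 e1 e2
  simp only [Matrix.cons_val_zero, Matrix.cons_val_one, Matrix.cons_val] at e0 e1 e2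
  rw [Prod.smul_mk, Prod.smul_mk, e0, e1, e2]

theorem T4_trans [MulAction.IsMultiplyPretransitive G X 4] :
    ∀ a ∈ T4 X, ∀ b ∈ T4 X, ∃ g : G, g • a = b := by
  rintro ⟨⟨a, b⟩, ⟨c, d⟩⟩ h ⟨⟨a', b'⟩, ⟨c', d'⟩⟩ h'
  rw [mem_T4] at h h'
  have inj : Function.Injective ![a, b, c, d] := by
    intro i j hij
    fin_cases i <;> fin_cases j <;> simp_all
  have inj' : Function.Injective ![a', b', c', d'] := by
    intro i j hij
    fin_cases i <;> fin_cases j <;> simp_all
  obtain ⟨g, hg⟩ := MulAction.exists_smul_eq G (⟨![a, b, c, d], inj⟩ : Fin 4 ↪ X)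
    ⟨![a', b', c', d'], inj'⟩
  refine ⟨g, ?_⟩
  have e0 := DFunLike.congr_fun hg 0
  have e1 := DFunLike.congr_fun hg 1
  have e2 := DFunLike.congr_fun hg 2
  have e3 := DFunLike.congr_fun hg 3
  simp only [Function.Embedding.smul_apply, Function.Embedding.coeFn_mk] at e0 e1 e2 e3
  simp only [Matrix.cons_val_zero, Matrix.cons_val_one, Matrix.cons_val] at e0 e1 e2 e3
  rw [Prod.smul_mk, Prod.smul_mk, Prod.smul_mk, e0, e1, e2, e3]

theorem T4_nonempty (h : 4 ≤ Fintype.card X) : (T4 X).Nonempty := by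
  obtain ⟨y⟩ : Nonempty (Fin 4 ↪ X) := Function.Embedding.nonempty_of_card_le (by simpa using h)
  refine ⟨((y 0, y 1), (y 2, y 3)), ?_⟩
  rw [mem_T4]
  simp only [ne_eq, EmbeddingLike.apply_eq_iff_eq]
  decide

theorem T3_nonempty (h : 3 ≤ Fintype.card X) : (T3 X).Nonempty := by
  obtain ⟨y⟩ : Nonempty (Fin 3 ↪ X) := Function.Embedding.nonempty_of_card_le (by simpa using h)
  refine ⟨((y 0, y 1), y 2), ?_⟩
  rw [mem_T3]
  simp only [ne_eq, EmbeddingLike.apply_eq_iff_eq]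
  decide

theorem T2_nonempty (h : 2 ≤ Fintype.card X) : (T2 X).Nonempty := by
  obtain ⟨y⟩ : Nonempty (Fin 2 ↪ X) := Function.Embedding.nonempty_of_card_le (by simpa using h)
  refine ⟨(y 0, y 1), ?_⟩
  rw [mem_T2]
  simp only [ne_eq, EmbeddingLike.apply_eq_iff_eq]
  decide

end Tuples


section Counts

variable (X : Type*) [Fintype X] [DecidableEq X] {G : Type*} [Group G] [MulAction G X]

/-- fixed points -/
def Fx (g : G) : Finset X := Finset.univ.filter (fun x => g • x = x)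

/-- ordered pairs swapped by `g` -/
def Sw (g : G) : Finset (X × X) :=
  Finset.univ.filter (fun p => g • p.1 = p.2 ∧ g • p.2 = p.1 ∧ p.1 ≠ p.2)

variable {X}

theorem mem_Fx {g : G} {x : X} : x ∈ Fx X g ↔ g • x = x := by simp [Fx]

theorem mem_Sw {g : G} {a b : X} : (a, b) ∈ Sw X g ↔ g • a = b ∧ g • b = a ∧ a ≠ b := by simp [Sw]

theorem cA2 (g : G) : (T2 X).filter (fun p => g • p = p) = (Fx X g).offDiag := by
  ext ⟨a, b⟩
  simp only [Finset.mem_filter, mem_T2, Prod.smul_mk, Prod.mk.injEq, Finset.mem_offDiag, mem_Fx]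
  tauto

theorem cB2 (g : G) : (T2 X).filter (fun p => g • p = p.swap) = Sw X g := by
  ext ⟨a, b⟩
  simp only [Finset.mem_filter, mem_T2, Prod.smul_mk, Prod.swap_prod_mk, Prod.mk.injEq, mem_Sw]
  tauto

theorem cB3 (g : G) :
    (T3 X).filter (fun p => g • p = (p.1.swap, p.2)) = Sw X g ×ˢ Fx X g := by
  ext ⟨⟨a, b⟩, c⟩
  simp only [Finset.mem_filter, mem_T3, Prod.smul_mk, Prod.swap_prod_mk, Prod.mk.injEq,
    Finset.mem_product, mem_Sw, mem_Fx]
  constructor
  · rintro ⟨⟨h1, h2, h3⟩, ⟨h4, h5⟩, h6⟩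
    exact ⟨⟨h4, h5, h1⟩, h6⟩
  · rintro ⟨⟨h4, h5, h1⟩, h6⟩
    refine ⟨⟨h1, ?_, ?_⟩, ⟨h4, h5⟩, h6⟩
    · rintro rfl
      exact h1 (h6.symm.trans h4)
    · rintro rfl
      exact h1 (h5.symm.trans h6)

theorem cB4 (g : G) :
    (T4 X).filter (fun p => g • p = (p.1.swap, p.2)) = Sw X g ×ˢ (Fx X g).offDiag := by
  ext ⟨⟨a, b⟩, ⟨c, d⟩⟩
  simp only [Finset.mem_filter, mem_T4, Prod.smul_mk, Prod.swap_prod_mk, Prod.mk.injEq,
    Finset.mem_product, mem_Sw, mem_Fx, Finset.mem_offDiag]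
  constructor
  · rintro ⟨⟨h1, h2, h3, h3a, h3b, h3c⟩, ⟨h4, h5⟩, h6, h7⟩
    exact ⟨⟨h4, h5, h1⟩, h6, h7, h2⟩
  · rintro ⟨⟨h4, h5, h1⟩, h6, h7, h2⟩
    refine ⟨⟨h1, h2, ?_, ?_, ?_, ?_⟩, ⟨h4, h5⟩, h6, h7⟩
    · rintro rfl
      exact h1 (h6.symm.trans h4)
    · rintro rfl
      exact h1 (h7.symm.trans h4)
    · rintro rfl
      exact h1 (h5.symm.trans h6)
    · rintro rfl
      exact h1 (h5.symm.trans h7)

theorem cA4 (g : G) :
    (T4 X).filter (fun p => g • p = p)
      = Finset.univ.filter (fun p : (X × X) × (X × X) =>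
          p.1 ∈ (Fx X g).offDiag ∧ p.2 ∈ ((Fx X g) \ {p.1.1, p.1.2}).offDiag) := by
  ext ⟨⟨a, b⟩, ⟨c, d⟩⟩
  simp only [Finset.mem_filter, mem_T4, Prod.smul_mk, Prod.mk.injEq, Finset.mem_univ, true_and,
    mem_Fx, Finset.mem_offDiag, Finset.mem_sdiff, Finset.mem_insert, Finset.mem_singleton]
  constructor
  · rintro ⟨⟨h1, h2, h3, h4, h5, h6⟩, ⟨h7, h8⟩, h9, h10⟩
    refine ⟨⟨h7, h8, h1⟩, ⟨h9, ?_⟩, ⟨h10, ?_⟩, h2⟩
    · rintro (rfl | rfl)
      · exact h3 rfl
      · exact h5 rfl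
    · rintro (rfl | rfl)
      · exact h4 rfl
      · exact h6 rfl
  · rintro ⟨⟨h7, h8, h1⟩, ⟨h9, hc⟩, ⟨h10, hd⟩, h2⟩
    push Not at hc hd
    exact ⟨⟨h1, h2, hc.1.symm, hd.1.symm, hc.2.symm, hd.2.symm⟩, ⟨h7, h8⟩, h9, h10⟩

theorem cC4 (g : G) :
    (T4 X).filter (fun p => g • p = (p.1.swap, p.2.swap))
      = Finset.univ.filter (fun p : (X × X) × (X × X) =>
          p.1 ∈ Sw X g ∧ p.2 ∈ (Sw X g) \ {p.1, p.1.swap}) := by
  ext ⟨⟨a, b⟩, ⟨c, d⟩⟩
  simp only [Finset.mem_filter, mem_T4, Prod.smul_mk, Prod.swap_prod_mk, Prod.mk.injEq,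
    Finset.mem_univ, true_and, mem_Sw, Finset.mem_sdiff, Finset.mem_insert, Finset.mem_singleton]
  constructor
  · rintro ⟨⟨h1, h2, h3, h4, h5, h6⟩, ⟨h7, h8⟩, h9, h10⟩
    refine ⟨⟨h7, h8, h1⟩, ⟨h9, h10, h2⟩, ?_⟩
    rintro (⟨rfl, rfl⟩ | ⟨rfl, rfl⟩)
    · exact h3 rfl
    · exact h4 rfl
  · rintro ⟨⟨h7, h8, h1⟩, ⟨h9, h10, h2⟩, hn⟩
    push Not at hn
    refine ⟨⟨h1, h2, ?_, ?_, ?_, ?_⟩, ⟨h7, h8⟩, h9, h10⟩
    · rintro rfl
      exact hn.1 rfl (h9.symm.trans h7)
    · rintro rfl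
      exact hn.2 (h10.symm.trans h7) rfl
    · rintro rfl
      exact hn.2 rfl (h9.symm.trans h8)
    · rintro rfl
      exact hn.1 (h10.symm.trans h8) rfl

theorem swap_mem_Sw {g : G} {p : X × X} (hp : p ∈ Sw X g) : p.swap ∈ Sw X g ∧ p.swap ≠ p := by
  obtain ⟨a, b⟩ := p
  rw [mem_Sw] at hp
  rw [Prod.swap_prod_mk, mem_Sw]
  refine ⟨⟨hp.2.1, hp.1, hp.2.2.symm⟩, ?_⟩
  intro h
  exact hp.2.2 (Prod.mk.inj h).2

end Counts


section Moments

variable (X : Type*) [Fintype X] [DecidableEq X] (G : Type*) [Group G] [Fintype G] [MulAction G X]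

theorem sum_A1 [MulAction.IsPretransitive G X] [Nonempty X] :
    ∑ g : G, ((Fx X g).card : ℂ) = Fintype.card G := by
  have h := twisted_burnside (G := G) (Finset.univ : Finset X) Finset.univ_nonempty
    (fun _ _ _ => Finset.mem_univ _) (fun a _ b _ => MulAction.exists_smul_eq G a b) id
    (fun _ _ => Finset.mem_univ _)
  rw [← h, Nat.cast_sum]
  rfl

theorem sum_A2 [MulAction.IsMultiplyPretransitive G X 2] (h2 : 2 ≤ Fintype.card X) :
    ∑ g : G, (((Fx X g).card : ℂ) * (Fx X g).card - (Fx X g).card) = Fintype.card G := by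
  have h := twisted_burnside (G := G) (T2 X) (T2_nonempty h2) T2_inv T2_trans id (fun _ h => h)
  have e : ∀ g : G, (((T2 X).filter (fun p => g • p = id p)).card : ℂ)
      = (Fx X g).card * (Fx X g).card - (Fx X g).card := by
    intro g
    have : (T2 X).filter (fun p => g • p = id p) = (Fx X g).offDiag := cA2 g
    rw [this, Finset.offDiag_card, Nat.cast_sub (Nat.le_mul_self _), Nat.cast_mul]
  rw [← h, Nat.cast_sum]
  exact Finset.sum_congr rfl (fun g _ => (e g).symm)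

theorem sum_B2 [MulAction.IsMultiplyPretransitive G X 2] (h2 : 2 ≤ Fintype.card X) :
    ∑ g : G, ((Sw X g).card : ℂ) = Fintype.card G := by
  have h := twisted_burnside (G := G) (T2 X) (T2_nonempty h2) T2_inv T2_trans Prod.swap (by
    rintro ⟨a, b⟩ h
    rw [mem_T2] at h
    rw [Prod.swap_prod_mk, mem_T2]
    exact h.symm)
  rw [← h, Nat.cast_sum]
  refine Finset.sum_congr rfl (fun g _ => ?_)
  rw [cB2]

theorem sum_B3 [MulAction.IsMultiplyPretransitive G X 3] (h3 : 3 ≤ Fintype.card X) :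
    ∑ g : G, (((Sw X g).card : ℂ) * (Fx X g).card) = Fintype.card G := by
  have h := twisted_burnside (G := G) (T3 X) (T3_nonempty h3) T3_inv T3_trans
    (fun p => (p.1.swap, p.2)) (by
    rintro ⟨⟨a, b⟩, c⟩ h
    rw [mem_T3] at h
    rw [Prod.swap_prod_mk, mem_T3]
    exact ⟨h.1.symm, h.2.2, h.2.1⟩)
  rw [← h, Nat.cast_sum]
  refine Finset.sum_congr rfl (fun g _ => ?_)
  rw [cB3, Finset.card_product, Nat.cast_mul]

theorem sum_B4 [MulAction.IsMultiplyPretransitive G X 4] (h4 : 4 ≤ Fintype.card X) :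
    ∑ g : G, (((Sw X g).card : ℂ) * (((Fx X g).card : ℂ) * (Fx X g).card - (Fx X g).card))
      = Fintype.card G := by
  have h := twisted_burnside (G := G) (T4 X) (T4_nonempty h4) T4_inv T4_trans
    (fun p => (p.1.swap, p.2)) (by
    rintro ⟨⟨a, b⟩, ⟨c, d⟩⟩ h
    rw [mem_T4] at h
    rw [Prod.swap_prod_mk, mem_T4]
    exact ⟨h.1.symm, h.2.1, h.2.2.2.2.1, h.2.2.2.2.2, h.2.2.1, h.2.2.2.1⟩)
  rw [← h, Nat.cast_sum]
  refine Finset.sum_congr rfl (fun g _ => ?_)
  rw [cB4, Finset.card_product, Nat.cast_mul, Finset.offDiag_card,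
    Nat.cast_sub (Nat.le_mul_self _), Nat.cast_mul]

theorem sum_A4 [MulAction.IsMultiplyPretransitive G X 4] (h4 : 4 ≤ Fintype.card X) :
    ∑ g : G, (((Fx X g).card : ℂ) * ((Fx X g).card - 1) * ((Fx X g).card - 2)
      * ((Fx X g).card - 3)) = Fintype.card G := by
  have h := twisted_burnside (G := G) (T4 X) (T4_nonempty h4) T4_inv T4_trans id (fun _ h => h)
  rw [← h, Nat.cast_sum]
  refine Finset.sum_congr rfl (fun g _ => ?_)
  have e : (T4 X).filter (fun p => g • p = id p)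
      = Finset.univ.filter (fun p : (X × X) × (X × X) =>
          p.1 ∈ (Fx X g).offDiag ∧ p.2 ∈ ((Fx X g) \ {p.1.1, p.1.2}).offDiag) := cA4 g
  rw [e, card_filter_dep (Fx X g).offDiag (fun q => (Fx X g \ {q.1, q.2}).offDiag), Nat.cast_sum]
  have e2 : ∀ p ∈ (Fx X g).offDiag, (((Fx X g \ {p.1, p.2}).offDiag.card : ℕ) : ℂ)
      = ((Fx X g).card - 2) * ((Fx X g).card - 2) - (((Fx X g).card : ℂ) - 2) := by
    intro p hp
    rw [Finset.mem_offDiag] at hp
    have hsub : ({p.1, p.2} : Finset X) ⊆ Fx X g := by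
      intro x hx
      rw [Finset.mem_insert, Finset.mem_singleton] at hx
      rcases hx with rfl | rfl
      · exact hp.1
      · exact hp.2.1
    have hc2 : ({p.1, p.2} : Finset X).card = 2 := Finset.card_pair hp.2.2
    have hle : 2 ≤ (Fx X g).card := hc2 ▸ Finset.card_le_card hsub
    rw [Finset.offDiag_card, Nat.cast_sub (Nat.le_mul_self _), Nat.cast_mul,
      Finset.card_sdiff_of_subset hsub, hc2, Nat.cast_sub hle]
    norm_num
  rw [Finset.sum_congr rfl e2, Finset.sum_const, Finset.offDiag_card, nsmul_eq_mul,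
    Nat.cast_sub (Nat.le_mul_self _), Nat.cast_mul]
  ring

theorem sum_C4 [MulAction.IsMultiplyPretransitive G X 4] (h4 : 4 ≤ Fintype.card X) :
    ∑ g : G, (((Sw X g).card : ℂ) * ((Sw X g).card - 2)) = Fintype.card G := by
  have h := twisted_burnside (G := G) (T4 X) (T4_nonempty h4) T4_inv T4_trans
    (fun p => (p.1.swap, p.2.swap)) (by
    rintro ⟨⟨a, b⟩, ⟨c, d⟩⟩ h
    rw [mem_T4] at h
    rw [Prod.swap_prod_mk, Prod.swap_prod_mk, mem_T4]
    exact ⟨h.1.symm, h.2.1.symm, h.2.2.2.2.2, h.2.2.2.2.1, h.2.2.2.1, h.2.2.1⟩)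
  rw [← h, Nat.cast_sum]
  refine Finset.sum_congr rfl (fun g _ => ?_)
  rw [cC4, card_filter_dep (Sw X g) (fun q => Sw X g \ {q, q.swap}), Nat.cast_sum]
  have e2 : ∀ p ∈ Sw X g, (((Sw X g \ {p, p.swap}).card : ℕ) : ℂ)
      = ((Sw X g).card : ℂ) - 2 := by
    intro p hp
    obtain ⟨hp1, hp2⟩ := swap_mem_Sw hp
    have hsub : ({p, p.swap} : Finset (X × X)) ⊆ Sw X g := by
      intro x hx
      rw [Finset.mem_insert, Finset.mem_singleton] at hx
      rcases hx with rfl | rfl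
      · exact hp
      · exact hp1
    have hc2 : ({p, p.swap} : Finset (X × X)).card = 2 := Finset.card_pair hp2.symm
    have hle : 2 ≤ (Sw X g).card := hc2 ▸ Finset.card_le_card hsub
    rw [Finset.card_sdiff_of_subset hsub, hc2, Nat.cast_sub hle]
    norm_num
  rw [Finset.sum_congr rfl e2, Finset.sum_const, nsmul_eq_mul]

theorem moment2 [MulAction.IsMultiplyPretransitive G X 4] (h4 : 4 ≤ Fintype.card X) :
    ∑ g : G, (((Fx X g).card : ℂ) ^ 2 - 3 * ((Fx X g).card : ℂ) + ((Sw X g).card : ℂ)) ^ 2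
      = 4 * (Fintype.card G : ℂ) := by
  have hc : (4 : ℕ) ≤ Nat.card X := by rw [Nat.card_eq_fintype_card]; exact h4
  have i3 : MulAction.IsMultiplyPretransitive G X 3 :=
    MulAction.isMultiplyPretransitive_of_le (n := 4) (by norm_num) hc
  have i2 : MulAction.IsMultiplyPretransitive G X 2 :=
    MulAction.isMultiplyPretransitive_of_le (n := 4) (by norm_num) hc
  have i1 : MulAction.IsMultiplyPretransitive G X 1 :=
    MulAction.isMultiplyPretransitive_of_le (n := 4) (by norm_num) hc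
  have i0 : MulAction.IsPretransitive G X := MulAction.is_one_pretransitive_iff.1 i1
  have hne : Nonempty X := Fintype.card_pos_iff.1 (by omega)
  have a1 := sum_A1 X G
  have a2 := sum_A2 X G (by omega)
  have b2 := sum_B2 X G (by omega)
  have b3 := sum_B3 X G (by omega)
  have b4 := sum_B4 X G h4
  have a4 := sum_A4 X G h4
  have c4 := sum_C4 X G h4
  have e : ∀ g : G, (((Fx X g).card : ℂ) ^ 2 - 3 * (Fx X g).card + (Sw X g).card) ^ 2
      = (((Fx X g).card : ℂ) * ((Fx X g).card - 1) * ((Fx X g).card - 2) * ((Fx X g).card - 3))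
        - 2 * (((Fx X g).card : ℂ) * (Fx X g).card - (Fx X g).card)
        + 4 * ((Fx X g).card : ℂ)
        + 2 * (((Sw X g).card : ℂ) * (((Fx X g).card : ℂ) * (Fx X g).card - (Fx X g).card))
        - 4 * (((Sw X g).card : ℂ) * (Fx X g).card)
        + (((Sw X g).card : ℂ) * ((Sw X g).card - 2))
        + 2 * ((Sw X g).card : ℂ) := by
    intro g
    ring
  have a2' : ∑ g : G, (((Fx X g).card : ℂ) * (Fx X g).card) = 2 * (Fintype.card G : ℂ) := by
    have h := a2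
    rw [Finset.sum_sub_distrib, a1] at h
    linear_combination h
  rw [Finset.sum_congr rfl (fun g _ => e g)]
  simp only [Finset.sum_add_distrib, Finset.sum_sub_distrib, ← Finset.mul_sum]
  rw [a1, a2', b2, b3, b4, a4, c4]
  ring

theorem moment3 [MulAction.IsMultiplyPretransitive G X 4] (h4 : 4 ≤ Fintype.card X) :
    ∑ g : G, (((Fx X g).card : ℂ) ^ 2 - 3 * ((Fx X g).card : ℂ) + 2 - ((Sw X g).card : ℂ)) ^ 2
      = 4 * (Fintype.card G : ℂ) := by
  have hc : (4 : ℕ) ≤ Nat.card X := by rw [Nat.card_eq_fintype_card]; exact h4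
  have i3 : MulAction.IsMultiplyPretransitive G X 3 :=
    MulAction.isMultiplyPretransitive_of_le (n := 4) (by norm_num) hc
  have i2 : MulAction.IsMultiplyPretransitive G X 2 :=
    MulAction.isMultiplyPretransitive_of_le (n := 4) (by norm_num) hc
  have i1 : MulAction.IsMultiplyPretransitive G X 1 :=
    MulAction.isMultiplyPretransitive_of_le (n := 4) (by norm_num) hc
  have i0 : MulAction.IsPretransitive G X := MulAction.is_one_pretransitive_iff.1 i1
  have hne : Nonempty X := Fintype.card_pos_iff.1 (by omega)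
  have a1 := sum_A1 X G
  have a2 := sum_A2 X G (by omega)
  have b2 := sum_B2 X G (by omega)
  have b3 := sum_B3 X G (by omega)
  have b4 := sum_B4 X G h4
  have a4 := sum_A4 X G h4
  have c4 := sum_C4 X G h4
  have e : ∀ g : G, (((Fx X g).card : ℂ) ^ 2 - 3 * (Fx X g).card + 2 - (Sw X g).card) ^ 2
      = (((Fx X g).card : ℂ) * ((Fx X g).card - 1) * ((Fx X g).card - 2) * ((Fx X g).card - 3))
        + 2 * (((Fx X g).card : ℂ) * (Fx X g).card - (Fx X g).card)
        - 4 * ((Fx X g).card : ℂ)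
        + 4
        - 2 * (((Sw X g).card : ℂ) * (((Fx X g).card : ℂ) * (Fx X g).card - (Fx X g).card))
        + 4 * (((Sw X g).card : ℂ) * (Fx X g).card)
        + (((Sw X g).card : ℂ) * ((Sw X g).card - 2))
        - 2 * ((Sw X g).card : ℂ) := by
    intro g
    ring
  have a2' : ∑ g : G, (((Fx X g).card : ℂ) * (Fx X g).card) = 2 * (Fintype.card G : ℂ) := by
    have h := a2
    rw [Finset.sum_sub_distrib, a1] at h
    linear_combination h
  rw [Finset.sum_congr rfl (fun g _ => e g)]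
  simp only [Finset.sum_add_distrib, Finset.sum_sub_distrib, ← Finset.mul_sum]
  rw [a1, a2', b2, b3, b4, a4, c4]
  simp only [Finset.sum_const, Finset.card_univ, nsmul_eq_mul]
  ring

end Moments

end Cfsg.Agent.H41.TwBurn
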