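import Mathlib
import Cfsg.Agent.H41.TwBurn

set_option autoImplicit false

namespace Cfsg.Agent.H41.AltElts

open Cfsg.Agent.H41.TwBurn Equiv

section Transport

variable {α β : Type*} [Fintype α] [DecidableEq α] [Fintype β] [DecidableEq β]

theorem Fx_permCongr (e : α ≃ β) (σ : Perm α) :
    (Fx β (e.permCongr σ)).card = (Fx α σ).card := by
  have : Fx β (e.permCongr σ) = (Fx α σ).map e.toEmbedding := by
    ext y
    rw [Finset.mem_map_equiv, mem_Fx, mem_Fx, Equiv.Perm.smul_def, Equiv.Perm.smul_def,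
      Equiv.permCongr_apply]
    exact e.apply_eq_iff_eq_symm_apply
  rw [this, Finset.card_map]

theorem Sw_permCongr (e : α ≃ β) (σ : Perm α) :
    (Sw β (e.permCongr σ)).card = (Sw α σ).card := by
  have : Sw β (e.permCongr σ) = (Sw α σ).map (e.prodCongr e).toEmbedding := by
    ext ⟨c, d⟩
    rw [Finset.mem_map_equiv, Equiv.prodCongr_symm, Equiv.prodCongr_apply, Prod.map_apply,
      mem_Sw, mem_Sw]
    simp only [Equiv.Perm.smul_def, Equiv.permCongr_apply]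
    rw [e.apply_eq_iff_eq_symm_apply, e.apply_eq_iff_eq_symm_apply, e.symm.injective.ne_iff]
  rw [this, Finset.card_map]

end Transport

/-- a `k₁`-cycle, `c` cycles of length `k₂`, and `r` fixed points -/
def sig (k₁ k₂ c r : ℕ) : Perm (Fin k₁ ⊕ (Fin c × Fin k₂) ⊕ Fin r) :=
  Equiv.Perm.sumCongr (finRotate k₁)
    (Equiv.Perm.sumCongr (Equiv.prodCongrRight (fun _ : Fin c => finRotate k₂))
      (Equiv.refl (Fin r)))

theorem pcr_pow {α β : Type*} (τ : Perm β) (N : ℕ) (p : α × β) :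
    ((Equiv.prodCongrRight (fun _ : α => τ) : Perm (α × β)) ^ N) p = (p.1, (τ ^ N) p.2) := by
  induction N generalizing p with
  | zero => rfl
  | succ m ih =>
    rw [pow_succ, Equiv.Perm.mul_apply, pow_succ, Equiv.Perm.mul_apply]
    obtain ⟨a, b⟩ := p
    rw [Equiv.prodCongrRight_apply, ih]

theorem orderOf_finRotate' (k : ℕ) (hk : 2 ≤ k) : orderOf (finRotate k) = k := by
  rw [(isCycle_finRotate_of_le hk).orderOf, support_finRotate_of_le hk, Finset.card_univ,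
    Fintype.card_fin]

theorem frpow (k N : ℕ) (hk : 2 ≤ k) (h : k ∣ N) : (finRotate k) ^ N = 1 := by
  apply orderOf_dvd_iff_pow_eq_one.1
  rw [orderOf_finRotate' k hk]
  exact h

theorem finRotate_ne (k : ℕ) (hk : 2 ≤ k) (i : Fin k) : finRotate k i ≠ i := by
  have hi : i ∈ (finRotate k).support := by
    rw [support_finRotate_of_le hk]
    exact Finset.mem_univ _
  exact Equiv.Perm.mem_support.1 hi

theorem finRotate_sq_ne (k : ℕ) (hk : 3 ≤ k) (i : Fin k) : finRotate k (finRotate k i) ≠ i := by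
  intro h
  have hc := isCycle_finRotate_of_le (by omega : 2 ≤ k)
  have h1 : (finRotate k) ^ 2 = 1 := hc.pow_eq_one_iff.2
    ⟨i, finRotate_ne k (by omega) i, by rw [pow_two, Equiv.Perm.mul_apply]; exact h⟩
  have h3 := orderOf_dvd_of_pow_eq_one h1
  rw [orderOf_finRotate' k (by omega)] at h3
  have := Nat.le_of_dvd (by norm_num) h3
  omega

theorem sig_pow (k₁ k₂ c r N : ℕ) (h1 : (finRotate k₁) ^ N = 1) (h2 : (finRotate k₂) ^ N = 1) :
    (sig k₁ k₂ c r) ^ N = 1 := by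
  have hP : (Equiv.prodCongrRight (fun _ : Fin c => finRotate k₂) : Perm (Fin c × Fin k₂)) ^ N
      = 1 := by
    refine Equiv.Perm.ext (fun p => ?_)
    rw [pcr_pow, h2]
    rfl
  have e1 : sig k₁ k₂ c r = Equiv.Perm.sumCongrHom _ _ (finRotate k₁,
      Equiv.Perm.sumCongrHom _ _ (Equiv.prodCongrRight (fun _ : Fin c => finRotate k₂), 1)) := rfl
  rw [e1, ← map_pow, Prod.pow_mk, ← map_pow, Prod.pow_mk, h1, hP, one_pow]
  rw [← Prod.one_eq_mk, map_one, ← Prod.one_eq_mk, map_one]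

theorem sig_sign (k₁ k₂ c r : ℕ) :
    Equiv.Perm.sign (sig k₁ k₂ c r) = (-1) ^ ((k₁ - 1) + (k₂ - 1) * c) := by
  unfold sig
  rw [Equiv.Perm.sign_sumCongr, Equiv.Perm.sign_sumCongr, Equiv.Perm.sign_prodCongrRight,
    Finset.prod_const, sign_finRotate, sign_finRotate, Finset.card_univ, Fintype.card_fin,
    Equiv.Perm.sign_refl, mul_one, pow_add, ← pow_mul]

theorem sig_Fx (k₁ k₂ c r : ℕ) (h1 : 2 ≤ k₁) (h2 : 2 ≤ k₂) :
    (Fx (Fin k₁ ⊕ (Fin c × Fin k₂) ⊕ Fin r) (sig k₁ k₂ c r)).card = r := by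
  have : Fx (Fin k₁ ⊕ (Fin c × Fin k₂) ⊕ Fin r) (sig k₁ k₂ c r)
      = Finset.univ.image
        (fun j : Fin r => (Sum.inr (Sum.inr j) : Fin k₁ ⊕ (Fin c × Fin k₂) ⊕ Fin r)) := by
    ext x
    rw [mem_Fx, Equiv.Perm.smul_def, Finset.mem_image]
    rcases x with i | ⟨a, j⟩ | j
    · constructor
      · intro h
        have h' : (Sum.inl (finRotate k₁ i) : Fin k₁ ⊕ (Fin c × Fin k₂) ⊕ Fin r) = Sum.inl i := h
        exact absurd (Sum.inl.inj h') (finRotate_ne k₁ h1 i)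
      · rintro ⟨j, _, hj⟩
        cases hj
    · constructor
      · intro h
        have h' : (Sum.inr (Sum.inl (a, finRotate k₂ j)) : Fin k₁ ⊕ (Fin c × Fin k₂) ⊕ Fin r)
            = Sum.inr (Sum.inl (a, j)) := h
        exact absurd (Prod.mk.inj (Sum.inl.inj (Sum.inr.inj h'))).2 (finRotate_ne k₂ h2 j)
      · rintro ⟨j', _, hj⟩
        cases hj
    · constructor
      · intro _
        exact ⟨j, Finset.mem_univ _, rfl⟩
      · intro _
        rfl
  rw [this, Finset.card_image_of_injective _ (fun a b h => Sum.inr.inj (Sum.inr.inj h)),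
    Finset.card_univ, Fintype.card_fin]

theorem sig_Sw (k₁ k₂ c r : ℕ) (h1 : 3 ≤ k₁) (h2 : 3 ≤ k₂) :
    (Sw (Fin k₁ ⊕ (Fin c × Fin k₂) ⊕ Fin r) (sig k₁ k₂ c r)).card = 0 := by
  rw [Finset.card_eq_zero, Finset.eq_empty_iff_forall_notMem]
  rintro ⟨x, y⟩ h
  rw [mem_Sw, Equiv.Perm.smul_def, Equiv.Perm.smul_def] at h
  obtain ⟨hx, hy, hne⟩ := h
  have hxx : sig k₁ k₂ c r (sig k₁ k₂ c r x) = x := by rw [hx, hy]
  have hx' : sig k₁ k₂ c r x ≠ x := by
    rw [hx]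
    exact hne.symm
  rcases x with i | ⟨a, j⟩ | j
  · have h' : (Sum.inl (finRotate k₁ (finRotate k₁ i)) : Fin k₁ ⊕ (Fin c × Fin k₂) ⊕ Fin r)
        = Sum.inl i := hxx
    exact finRotate_sq_ne k₁ h1 i (Sum.inl.inj h')
  · have h' : (Sum.inr (Sum.inl (a, finRotate k₂ (finRotate k₂ j))) :
        Fin k₁ ⊕ (Fin c × Fin k₂) ⊕ Fin r) = Sum.inr (Sum.inl (a, j)) := hxx
    exact finRotate_sq_ne k₂ h2 j (Prod.mk.inj (Sum.inl.inj (Sum.inr.inj h'))).2
  · exact hx' rfl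

/-- A permutation of `Fin n` with one `k₁`-cycle, `c` cycles of length `k₂` and `r` fixed
points. -/
theorem exists_elt (k₁ k₂ c r n N : ℕ) (hk1 : 2 ≤ k₁) (hk2 : 2 ≤ k₂) (hn : k₁ + c * k₂ + r = n)
    (hN1 : k₁ ∣ N) (hN2 : k₂ ∣ N) :
    ∃ x : Perm (Fin n), x ^ N = 1 ∧ Equiv.Perm.sign x = (-1) ^ ((k₁ - 1) + (k₂ - 1) * c)
      ∧ (Fx (Fin n) x).card = r ∧ (3 ≤ k₁ → 3 ≤ k₂ → (Sw (Fin n) x).card = 0) := by
  have hcard : Fintype.card (Fin k₁ ⊕ (Fin c × Fin k₂) ⊕ Fin r) = n := by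
    simp only [Fintype.card_sum, Fintype.card_prod, Fintype.card_fin]
    omega
  obtain ⟨e⟩ : Nonempty ((Fin k₁ ⊕ (Fin c × Fin k₂) ⊕ Fin r) ≃ Fin n) :=
    ⟨Fintype.equivFinOfCardEq hcard⟩
  refine ⟨e.permCongr (sig k₁ k₂ c r), ?_, ?_, ?_, ?_⟩
  · have : e.permCongr (sig k₁ k₂ c r) = e.permCongrHom (sig k₁ k₂ c r) := rfl
    rw [this, ← map_pow, sig_pow _ _ _ _ _ (frpow k₁ N hk1 hN1) (frpow k₂ N hk2 hN2), map_one]
  · rw [Equiv.Perm.sign_permCongr, sig_sign]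
  · rw [Fx_permCongr, sig_Fx _ _ _ _ hk1 hk2]
  · intro h1 h2
    rw [Sw_permCongr, sig_Sw _ _ _ _ h1 h2]

end Cfsg.Agent.H41.AltElts
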