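import Mathlib

set_option autoImplicit false
set_option linter.unusedSimpArgs false
set_option linter.unusedSectionVars false
set_option linter.unusedVariables false
set_option linter.style.haveILetI false
set_option linter.flexible false

namespace Cfsg.Agent.H41

open Matrix

/-- `SL_n(2)`. -/
abbrev SLF2 (n : ℕ) := Matrix.SpecialLinearGroup (Fin n) (ZMod 2)

theorem zmod2_eq (x : ZMod 2) : x = 0 ∨ x = 1 := by
  revert x
  decide

theorem zmod2_add_self (x : ZMod 2) : x + x = 0 := by
  revert x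
  decide

variable {n : ℕ}

/-- The Borel subgroup of upper triangular matrices of `SL_n(2)`. -/
def borelF2 (n : ℕ) : Subgroup (SLF2 n) where
  carrier := {g | (g : Matrix (Fin n) (Fin n) (ZMod 2)).BlockTriangular id}
  mul_mem' := by
    intro a b ha hb
    show ((a * b : SLF2 n) : Matrix (Fin n) (Fin n) (ZMod 2)).BlockTriangular id
    rw [Matrix.SpecialLinearGroup.coe_mul]
    exact Matrix.BlockTriangular.mul ha hb
  one_mem' := by
    show ((1 : SLF2 n) : Matrix (Fin n) (Fin n) (ZMod 2)).BlockTriangular id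
    rw [Matrix.SpecialLinearGroup.coe_one]
    exact Matrix.blockTriangular_one
  inv_mem' := by
    intro a ha
    show ((a⁻¹ : SLF2 n) : Matrix (Fin n) (Fin n) (ZMod 2)).BlockTriangular id
    have hu : IsUnit (a : Matrix (Fin n) (Fin n) (ZMod 2)).det := by
      rw [a.det_coe]
      exact isUnit_one
    haveI := Matrix.invertibleOfIsUnitDet _ hu
    have h1 : ((a : Matrix (Fin n) (Fin n) (ZMod 2))⁻¹).BlockTriangular id :=
      Matrix.blockTriangular_inv_of_blockTriangular ha
    have h2 : (a : Matrix (Fin n) (Fin n) (ZMod 2))⁻¹ =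
        ((a⁻¹ : SLF2 n) : Matrix (Fin n) (Fin n) (ZMod 2)) := by
      apply Matrix.inv_eq_right_inv
      rw [← Matrix.SpecialLinearGroup.coe_mul, mul_inv_cancel, Matrix.SpecialLinearGroup.coe_one]
    rw [← h2]
    exact h1

theorem mem_borelF2 (g : SLF2 n) :
    g ∈ borelF2 n ↔ ∀ i j : Fin n, j < i → (g : Matrix (Fin n) (Fin n) (ZMod 2)) i j = 0 :=
  ⟨fun h i j hij => h hij, fun h i j hij => h i j hij⟩

theorem borelF2_diag (g : SLF2 n) (hg : g ∈ borelF2 n) (i : Fin n) :
    (g : Matrix (Fin n) (Fin n) (ZMod 2)) i i = 1 := by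
  rcases zmod2_eq ((g : Matrix (Fin n) (Fin n) (ZMod 2)) i i) with h | h
  · exfalso
    have h1 : (g : Matrix (Fin n) (Fin n) (ZMod 2)).det =
        ∏ i, (g : Matrix (Fin n) (Fin n) (ZMod 2)) i i :=
      Matrix.det_of_isUpperTriangular hg
    rw [g.det_coe, Finset.prod_eq_zero
      (f := fun k => (g : Matrix (Fin n) (Fin n) (ZMod 2)) k k) (Finset.mem_univ i) h] at h1
    exact one_ne_zero h1
  · exact h

/-- The unitriangular matrix `1 + c dᵀ`. -/
def mkB (c d : Fin n → ZMod 2) (h : ∀ a b : Fin n, b ≤ a → c a * d b = 0) : SLF2 n :=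
  ⟨1 + Matrix.vecMulVec c d, by
    have hut : (1 + Matrix.vecMulVec c d : Matrix (Fin n) (Fin n) (ZMod 2)).BlockTriangular id := by
      intro i j hij
      have hij' : j < i := hij
      rw [Matrix.add_apply, Matrix.one_apply_ne hij'.ne', Matrix.vecMulVec_apply, h i j hij'.le,
        add_zero]
    rw [Matrix.det_of_isUpperTriangular hut]
    apply Finset.prod_eq_one
    intro i _
    rw [Matrix.add_apply, Matrix.one_apply_eq, Matrix.vecMulVec_apply, h i i le_rfl, add_zero]⟩

theorem coe_mkB (c d : Fin n → ZMod 2) (h : ∀ a b : Fin n, b ≤ a → c a * d b = 0) :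
    (mkB c d h : Matrix (Fin n) (Fin n) (ZMod 2)) = 1 + Matrix.vecMulVec c d := rfl

theorem mkB_mem (c d : Fin n → ZMod 2) (h : ∀ a b : Fin n, b ≤ a → c a * d b = 0) :
    mkB c d h ∈ borelF2 n := by
  rw [mem_borelF2]
  intro i j hij
  rw [coe_mkB, Matrix.add_apply, Matrix.one_apply_ne hij.ne', Matrix.vecMulVec_apply,
    h i j hij.le, add_zero]

/-- The Borel subgroup is a `2`-group. -/
theorem borelF2_isPGroup (n : ℕ) : IsPGroup 2 (borelF2 n) := by
  rintro ⟨g, hg⟩
  refine ⟨n, ?_⟩
  apply Subtype.ext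
  apply Subtype.ext
  show ((g ^ 2 ^ n : SLF2 n) : Matrix (Fin n) (Fin n) (ZMod 2)) = 1
  rw [Matrix.SpecialLinearGroup.coe_pow]
  obtain ⟨ν, hν⟩ : ∃ ν : Matrix (Fin n) (Fin n) (ZMod 2),
      ν = (g : Matrix (Fin n) (Fin n) (ZMod 2)) - 1 := ⟨_, rfl⟩
  have hg1 : (g : Matrix (Fin n) (Fin n) (ZMod 2)) = 1 + ν := by rw [hν]; abel
  have hstrict : ∀ m : ℕ, ∀ i j : Fin n, (j : ℕ) < (i : ℕ) + m → (ν ^ m) i j = 0 := by
    intro m
    induction m with
    | zero =>
      intro i j hij
      rw [pow_zero, Matrix.one_apply_ne]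
      intro h
      rw [h] at hij
      omega
    | succ m ih =>
      intro i j hij
      rw [pow_succ, Matrix.mul_apply]
      apply Finset.sum_eq_zero
      intro k _
      by_cases hk : (k : ℕ) < (i : ℕ) + m
      · rw [ih i k hk, zero_mul]
      · have hjk : (j : ℕ) ≤ (k : ℕ) := by omega
        have h2 : ν k j = 0 := by
          rw [hν, Matrix.sub_apply]
          rcases Nat.lt_or_eq_of_le hjk with h | h
          · rw [(mem_borelF2 g).1 hg k j (Fin.lt_def.2 h), Matrix.one_apply_ne, sub_zero]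
            intro h'
            rw [h'] at h
            omega
          · have hkj : j = k := Fin.ext h
            rw [hkj, borelF2_diag g hg k, Matrix.one_apply_eq, sub_self]
        rw [h2, mul_zero]
  have hpow : ∀ k : ℕ, (1 + ν) ^ 2 ^ k = 1 + ν ^ 2 ^ k := by
    intro k
    induction k with
    | zero => simp
    | succ k ih =>
      rw [pow_succ, pow_mul, ih, pow_mul, sq, sq, mul_add, add_mul, add_mul, one_mul, mul_one,
        one_mul]
      have h2 : ν ^ 2 ^ k + ν ^ 2 ^ k = 0 := by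
        ext i j
        rw [Matrix.add_apply, zmod2_add_self]
        rfl
      calc 1 + ν ^ 2 ^ k + (ν ^ 2 ^ k + ν ^ 2 ^ k * ν ^ 2 ^ k)
          = 1 + (ν ^ 2 ^ k + ν ^ 2 ^ k) + ν ^ 2 ^ k * ν ^ 2 ^ k := by abel
        _ = 1 + ν ^ 2 ^ k * ν ^ 2 ^ k := by rw [h2, add_zero]
  rw [hg1, hpow]
  have h0 : ν ^ 2 ^ n = 0 := by
    ext i j
    apply hstrict
    have := Nat.lt_two_pow_self (n := n)
    have := j.2
    omega
  rw [h0, add_zero]

end Cfsg.Agent.H41
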