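import Mathlib
import Cfsg.Agent.H41.BorelF2

set_option autoImplicit false
set_option linter.unusedSimpArgs false
set_option linter.unusedSectionVars false
set_option linter.unusedVariables false
set_option linter.style.haveILetI false
set_option linter.flexible false

namespace Cfsg.Agent.H41

open Matrix

variable {n : ℕ}

/-- Vectors supported on the first `k` coordinates. -/
def LowV (k : ℕ) (v : Fin n → ZMod 2) : Prop := ∀ j : Fin n, k ≤ (j : ℕ) → v j = 0

theorem lowV_sub_of_borel (g : SLF2 n) (hg : g ∈ borelF2 n) (k : ℕ) (v : Fin n → ZMod 2)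
    (hv : LowV (k + 1) v) :
    LowV k ((g : Matrix (Fin n) (Fin n) (ZMod 2)) *ᵥ v - v) := by
  intro a ha
  rw [Pi.sub_apply, Matrix.mulVec, dotProduct]
  have h1 : ∑ c, (g : Matrix (Fin n) (Fin n) (ZMod 2)) a c * v c = v a := by
    rw [Finset.sum_eq_single a]
    · rw [borelF2_diag g hg a, one_mul]
    · intro c _ hca
      rcases lt_or_gt_of_ne hca with h | h
      · rw [(mem_borelF2 g).1 hg a c h, zero_mul]
      · rw [hv c (by have := Fin.lt_def.1 h; omega), mul_zero]
    · intro h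
      exact absurd (Finset.mem_univ a) h
  rw [h1, sub_self]

theorem lowV_of_forall (k : ℕ) (w : Fin n → ZMod 2)
    (h : ∀ b ∈ borelF2 n, LowV k ((b : Matrix (Fin n) (Fin n) (ZMod 2)) *ᵥ w - w)) :
    LowV (k + 1) w := by
  intro j hj
  by_contra hne
  have hw : w j = 1 := (zmod2_eq (w j)).resolve_left hne
  have hkn : k < n := by
    have := j.2
    omega
  obtain ⟨b, hb⟩ : ∃ b : SLF2 n, b = mkB (Pi.single ⟨k, hkn⟩ 1) (Pi.single j 1) (by
      intro a c hca
      by_cases ha : a = ⟨k, hkn⟩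
      · by_cases hc : c = j
        · exfalso
          rw [ha, hc] at hca
          have := Fin.le_def.1 hca
          simp at this
          omega
        · rw [Pi.single_eq_of_ne hc, mul_zero]
      · rw [Pi.single_eq_of_ne ha, zero_mul]) := ⟨_, rfl⟩
  have h1 := h b (by rw [hb]; exact mkB_mem _ _ _) ⟨k, hkn⟩ le_rfl
  rw [hb, coe_mkB, Matrix.add_mulVec, Matrix.one_mulVec, add_sub_cancel_left] at h1
  have h2 : (Matrix.vecMulVec (Pi.single (⟨k, hkn⟩ : Fin n) (1 : ZMod 2)) (Pi.single j 1) *ᵥ w)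
      ⟨k, hkn⟩ = w j := by
    rw [Matrix.mulVec, dotProduct, Finset.sum_eq_single j]
    · rw [Matrix.vecMulVec_apply, Pi.single_eq_same, Pi.single_eq_same, one_mul, one_mul]
    · intro c _ hc
      rw [Matrix.vecMulVec_apply, Pi.single_eq_of_ne hc, mul_zero, zero_mul]
    · intro h'
      exact absurd (Finset.mem_univ j) h'
  rw [h2, hw] at h1
  exact one_ne_zero h1

/-- The Borel subgroup is self-normalizing. -/
theorem borelF2_normalizer (g : SLF2 n) (hg : ∀ b ∈ borelF2 n, g * b * g⁻¹ ∈ borelF2 n) :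
    g ∈ borelF2 n := by
  have hg' : ∀ b ∈ borelF2 n, g⁻¹ * b * g ∈ borelF2 n := by
    have hmem : g ∈ Subgroup.normalizer (borelF2 n : Set (SLF2 n)) :=
      Subgroup.mem_normalizer_fintype hg
    intro b hb
    have h1 := (Subgroup.mem_normalizer_iff.1 (inv_mem hmem)) b
    rw [inv_inv] at h1
    exact h1.1 hb
  have key : ∀ k : ℕ, ∀ v : Fin n → ZMod 2, LowV k v →
      LowV k ((g : Matrix (Fin n) (Fin n) (ZMod 2)) *ᵥ v) := by
    intro k
    induction k with
    | zero =>
      intro v hv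
      have h0 : v = 0 := by
        ext j
        exact hv j (Nat.zero_le _)
      rw [h0, Matrix.mulVec_zero]
      intro j _
      rfl
    | succ k ih =>
      intro v hv
      apply lowV_of_forall
      intro b hb
      have h1 := lowV_sub_of_borel (g⁻¹ * b * g) (hg' b hb) k v hv
      have h2 := ih _ h1
      have e : (g : Matrix (Fin n) (Fin n) (ZMod 2)) *ᵥ
          (((g⁻¹ * b * g : SLF2 n) : Matrix (Fin n) (Fin n) (ZMod 2)) *ᵥ v - v) =
          (b : Matrix (Fin n) (Fin n) (ZMod 2)) *ᵥ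
            ((g : Matrix (Fin n) (Fin n) (ZMod 2)) *ᵥ v) -
            (g : Matrix (Fin n) (Fin n) (ZMod 2)) *ᵥ v := by
        rw [Matrix.mulVec_sub, Matrix.mulVec_mulVec, ← Matrix.SpecialLinearGroup.coe_mul]
        have e2 : g * (g⁻¹ * b * g) = b * g := by group
        rw [e2, Matrix.SpecialLinearGroup.coe_mul, ← Matrix.mulVec_mulVec]
      rw [e] at h2
      exact h2
  rw [mem_borelF2]
  intro i j hij
  have h1 := key ((j : ℕ) + 1) (Pi.single j 1) (by
    intro c hc
    rw [Pi.single_eq_of_ne]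
    intro h
    rw [h] at hc
    omega)
  have h2 := h1 i (by have := Fin.lt_def.1 hij; omega)
  rw [Matrix.mulVec_single_one] at h2
  exact h2

/-- `g` maps the Borel subgroup to an opposite one. -/
def OppF2 (g : SLF2 n) : Prop := ∀ t ∈ borelF2 n, g⁻¹ * t * g ∈ borelF2 n → t = 1

theorem oppF2_mul (g u u' : SLF2 n) (hu : u ∈ borelF2 n) (hu' : u' ∈ borelF2 n)
    (h : OppF2 g) : OppF2 (u * g * u') := by
  intro t ht ht'
  have h1 : g⁻¹ * (u⁻¹ * t * u) * g ∈ borelF2 n := by
    have e : g⁻¹ * (u⁻¹ * t * u) * g = u' * ((u * g * u')⁻¹ * t * (u * g * u')) * u'⁻¹ := by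
      group
    rw [e]
    exact mul_mem (mul_mem hu' ht') (inv_mem hu')
  have h2 := h (u⁻¹ * t * u) (mul_mem (mul_mem (inv_mem hu) ht) hu) h1
  have e2 : t = u * (u⁻¹ * t * u) * u⁻¹ := by group
  rw [e2, h2]
  group

/-- The first `k` columns and the last `k` rows are those of the antidiagonal matrix. -/
def RedF2 (k : ℕ) (g : SLF2 n) : Prop :=
  ∀ j : Fin n, (j : ℕ) < k →
    (∀ a : Fin n, (g : Matrix (Fin n) (Fin n) (ZMod 2)) a j = if a = Fin.rev j then 1 else 0) ∧
    (∀ b : Fin n, (g : Matrix (Fin n) (Fin n) (ZMod 2)) (Fin.rev j) b = if b = j then 1 else 0)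

theorem redF2_step (g : SLF2 n) (hopp : OppF2 g) (k : ℕ) (hk : k < n) (hred : RedF2 k g) :
    ∃ u ∈ borelF2 n, ∃ u' ∈ borelF2 n, RedF2 (k + 1) (u * g * u') := by
  obtain ⟨kk, hkk⟩ : ∃ kk : Fin n, kk = ⟨k, hk⟩ := ⟨_, rfl⟩
  obtain ⟨r, hr⟩ : ∃ r : Fin n, r = Fin.rev kk := ⟨_, rfl⟩
  obtain ⟨M, hM⟩ : ∃ M : Matrix (Fin n) (Fin n) (ZMod 2),
      M = (g : Matrix (Fin n) (Fin n) (ZMod 2)) := ⟨_, rfl⟩
  have hkkv : (kk : ℕ) = k := by rw [hkk]
  have F1 : ∀ j : Fin n, (j : ℕ) < k → ∀ a, M a j = if a = Fin.rev j then 1 else 0 := by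
    intro j hj
    rw [hM]
    exact (hred j hj).1
  have F2 : ∀ j : Fin n, (j : ℕ) < k → ∀ b, M (Fin.rev j) b = if b = j then 1 else 0 := by
    intro j hj
    rw [hM]
    exact (hred j hj).2
  have F4 : ∀ a : Fin n, r < a → M a kk = 0 := by
    intro a ha
    have hj : ((Fin.rev a : Fin n) : ℕ) < k := by
      rw [Fin.val_rev]
      have h1 := Fin.lt_def.1 ha
      rw [hr, Fin.val_rev, hkkv] at h1
      omega
    have h2 := F2 (Fin.rev a) hj kk
    rw [Fin.rev_rev] at h2
    rw [h2, if_neg]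
    intro h
    rw [← h, hkkv] at hj
    omega
  have F5 : ∀ b : Fin n, (b : ℕ) < k → M r b = 0 := by
    intro b hb
    rw [F1 b hb r, if_neg]
    intro h
    rw [hr] at h
    have h2 := Fin.rev_injective h
    rw [← h2, hkkv] at hb
    omega
  have F3 : M r kk = 1 := by
    by_contra hne
    have h0 : M r kk = 0 := (zmod2_eq _).resolve_right hne
    obtain ⟨v, hv⟩ : ∃ v : Fin n → ZMod 2, v = fun a => M a kk := ⟨_, rfl⟩
    have hv0 : ∀ a : Fin n, r ≤ a → v a = 0 := by
      intro a ha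
      rw [hv]
      rcases eq_or_lt_of_le ha with h | h
      · rw [← h]
        exact h0
      · exact F4 a h
    obtain ⟨t, ht⟩ : ∃ t : SLF2 n, t = mkB v (Pi.single r 1) (by
      intro a b hba
      by_cases hb : b = r
      · rw [hv0 a (hb ▸ hba), zero_mul]
      · rw [Pi.single_eq_of_ne hb, mul_zero]) := ⟨_, rfl⟩
    have htB : t ∈ borelF2 n := by
      rw [ht]
      exact mkB_mem _ _ _
    have hconj : ((g⁻¹ * t * g : SLF2 n) : Matrix (Fin n) (Fin n) (ZMod 2)) =
        1 + Matrix.vecMulVec (Pi.single kk 1) (fun b => M r b) := by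
      have e1 : ((g⁻¹ : SLF2 n) : Matrix (Fin n) (Fin n) (ZMod 2)) *ᵥ v = Pi.single kk 1 := by
        have e2 : v = (g : Matrix (Fin n) (Fin n) (ZMod 2)) *ᵥ Pi.single kk 1 := by
          rw [Matrix.mulVec_single_one, hv, ← hM]
          rfl
        rw [e2, Matrix.mulVec_mulVec, ← Matrix.SpecialLinearGroup.coe_mul, inv_mul_cancel,
          Matrix.SpecialLinearGroup.coe_one, Matrix.one_mulVec]
      rw [Matrix.SpecialLinearGroup.coe_mul, Matrix.SpecialLinearGroup.coe_mul, ht, coe_mkB,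
        mul_add, mul_one, add_mul, ← Matrix.SpecialLinearGroup.coe_mul, inv_mul_cancel,
        Matrix.SpecialLinearGroup.coe_one, Matrix.mul_vecMulVec, Matrix.vecMulVec_mul,
        Matrix.single_one_vecMul, e1, ← hM]
      rfl
    have hconjB : g⁻¹ * t * g ∈ borelF2 n := by
      rw [mem_borelF2]
      intro a b hba
      rw [hconj, Matrix.add_apply, Matrix.one_apply_ne hba.ne', Matrix.vecMulVec_apply, zero_add]
      by_cases ha : a = kk
      · rw [F5 b (by rw [ha] at hba; have := Fin.lt_def.1 hba; omega), mul_zero]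
      · rw [Pi.single_eq_of_ne ha, zero_mul]
    have ht1 := hopp t htB hconjB
    have hvz : ∀ a, M a kk = 0 := by
      intro a
      have h1 := congrArg (fun s : SLF2 n => (s : Matrix (Fin n) (Fin n) (ZMod 2)) a r) ht1
      beta_reduce at h1
      rw [ht, coe_mkB, Matrix.add_apply, Matrix.vecMulVec_apply, Pi.single_eq_same, mul_one,
        Matrix.SpecialLinearGroup.coe_one] at h1
      have h2 : v a = 0 := by linear_combination h1
      rw [hv] at h2
      exact h2
    have hdet := Matrix.det_eq_zero_of_column_eq_zero kk hvz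
    rw [hM, g.det_coe] at hdet
    exact one_ne_zero hdet
  -- the row operation
  obtain ⟨c, hc⟩ : ∃ c : Fin n → ZMod 2, c = fun a => if a < r then M a kk else 0 := ⟨_, rfl⟩
  obtain ⟨u₁, hu₁⟩ : ∃ u₁ : SLF2 n, u₁ = mkB c (Pi.single r 1) (by
      intro a b hba
      by_cases hb : b = r
      · have h0 : c a = 0 := by
          rw [hc]
          beta_reduce
          rw [if_neg]
          rw [hb] at hba
          exact not_lt.2 hba
        rw [h0, zero_mul]
      · rw [Pi.single_eq_of_ne hb, mul_zero]) := ⟨_, rfl⟩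
  obtain ⟨M₁, hM₁⟩ : ∃ M₁ : Matrix (Fin n) (Fin n) (ZMod 2),
      M₁ = ((u₁ * g : SLF2 n) : Matrix (Fin n) (Fin n) (ZMod 2)) := ⟨_, rfl⟩
  have hM₁' : ∀ a b, M₁ a b = M a b + c a * M r b := by
    intro a b
    rw [hM₁, Matrix.SpecialLinearGroup.coe_mul, hu₁, coe_mkB, add_mul, one_mul,
      Matrix.vecMulVec_mul, Matrix.single_one_vecMul, Matrix.add_apply, Matrix.vecMulVec_apply,
      ← hM]
    rfl
  have G1 : ∀ a, M₁ a kk = if a = r then 1 else 0 := by
    intro a
    rw [hM₁', F3, mul_one, hc]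
    beta_reduce
    rcases lt_trichotomy a r with h | h | h
    · rw [if_pos h, zmod2_add_self, if_neg h.ne]
    · rw [if_neg (by rw [h]; exact lt_irrefl r), add_zero, h, F3, if_pos rfl]
    · rw [if_neg (not_lt.2 h.le), add_zero, F4 a h, if_neg h.ne']
  have G2 : ∀ j : Fin n, (j : ℕ) < k → ∀ a, M₁ a j = if a = Fin.rev j then 1 else 0 := by
    intro j hj a
    rw [hM₁', F5 j hj, mul_zero, add_zero, F1 j hj a]
  have G3 : ∀ j : Fin n, (j : ℕ) < k → ∀ b, M₁ (Fin.rev j) b = if b = j then 1 else 0 := by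
    intro j hj b
    have hcj : c (Fin.rev j) = 0 := by
      rw [hc]
      beta_reduce
      rw [if_neg]
      rw [hr, Fin.rev_lt_rev, Fin.lt_def, hkkv]
      omega
    rw [hM₁', hcj, zero_mul, add_zero, F2 j hj b]
  -- the column operation
  obtain ⟨ρ, hρ⟩ : ∃ ρ : Fin n → ZMod 2, ρ = fun b => if kk < b then M₁ r b else 0 := ⟨_, rfl⟩
  obtain ⟨u₂, hu₂⟩ : ∃ u₂ : SLF2 n, u₂ = mkB (Pi.single kk 1) ρ (by
      intro a b hba
      by_cases ha : a = kk
      · have h0 : ρ b = 0 := by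
          rw [hρ]
          beta_reduce
          rw [if_neg]
          rw [ha] at hba
          exact not_lt.2 hba
        rw [h0, mul_zero]
      · rw [Pi.single_eq_of_ne ha, zero_mul]) := ⟨_, rfl⟩
  obtain ⟨M₂, hM₂⟩ : ∃ M₂ : Matrix (Fin n) (Fin n) (ZMod 2),
      M₂ = ((u₁ * g * u₂ : SLF2 n) : Matrix (Fin n) (Fin n) (ZMod 2)) := ⟨_, rfl⟩
  have hM₂' : ∀ a b, M₂ a b = M₁ a b + (if a = r then 1 else 0) * ρ b := by
    intro a b
    rw [hM₂, Matrix.SpecialLinearGroup.coe_mul, ← hM₁, hu₂, coe_mkB, mul_add, mul_one,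
      Matrix.mul_vecMulVec, Matrix.mulVec_single_one, Matrix.add_apply, Matrix.vecMulVec_apply,
      ← G1 a]
    rfl
  refine ⟨u₁, by rw [hu₁]; exact mkB_mem _ _ _, u₂, by rw [hu₂]; exact mkB_mem _ _ _, ?_⟩
  intro j hj
  rw [← hM₂]
  by_cases hjk : (j : ℕ) < k
  · constructor
    · intro a
      have hρj : ρ j = 0 := by
        rw [hρ]
        beta_reduce
        rw [if_neg]
        rw [Fin.lt_def, hkkv]
        omega
      rw [hM₂', hρj, mul_zero, add_zero, G2 j hjk a]
    · intro b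
      have hne : Fin.rev j ≠ r := by
        rw [hr]
        intro h
        have h2 := Fin.rev_injective h
        rw [h2, hkkv] at hjk
        omega
      rw [hM₂', if_neg hne, zero_mul, add_zero, G3 j hjk b]
  · have hjkk : j = kk := by
      apply Fin.ext
      rw [hkkv]
      omega
    rw [hjkk]
    constructor
    · intro a
      have hρk : ρ kk = 0 := by
        rw [hρ]
        beta_reduce
        rw [if_neg (lt_irrefl kk)]
      rw [hM₂', hρk, mul_zero, add_zero, G1 a, hr]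
    · intro b
      rw [← hr, hM₂', if_pos rfl, one_mul, hρ]
      beta_reduce
      rcases lt_trichotomy kk b with h | h | h
      · rw [if_pos h, zmod2_add_self, if_neg h.ne']
      · rw [if_neg (by rw [h]; exact lt_irrefl b), add_zero, ← h, G1 r, if_pos rfl, if_pos rfl]
      · rw [if_neg (not_lt.2 h.le), add_zero,
          G2 b (by rw [← hkkv]; exact Fin.lt_def.1 h) r, if_neg, if_neg h.ne]
        rw [hr]
        intro h'
        exact h.ne (Fin.rev_injective h').symm

theorem exists_redF2 (g : SLF2 n) (hopp : OppF2 g) (k : ℕ) (hk : k ≤ n) :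
    ∃ u ∈ borelF2 n, ∃ u' ∈ borelF2 n, RedF2 k (u * g * u') := by
  induction k with
  | zero =>
    refine ⟨1, one_mem _, 1, one_mem _, ?_⟩
    intro j hj
    exact absurd hj (Nat.not_lt_zero _)
  | succ k ih =>
    obtain ⟨u, hu, u', hu', hred⟩ := ih (by omega)
    obtain ⟨u₁, hu₁, u₂, hu₂, hred'⟩ :=
      redF2_step (u * g * u') (oppF2_mul g u u' hu hu' hopp) k (by omega) hred
    refine ⟨u₁ * u, mul_mem hu₁ hu, u' * u₂, mul_mem hu' hu₂, ?_⟩
    have e : u₁ * u * g * (u' * u₂) = u₁ * (u * g * u') * u₂ := by group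
    rw [e]
    exact hred'

/-- Any two elements conjugating the Borel subgroup to an opposite one lie in the same double
coset. -/
theorem oppF2_unique (g₁ g₂ : SLF2 n) (h₁ : OppF2 g₁) (h₂ : OppF2 g₂) :
    ∃ u ∈ borelF2 n, ∃ u' ∈ borelF2 n, g₂ = u * g₁ * u' := by
  obtain ⟨u₁, hu₁, u₁', hu₁', hr₁⟩ := exists_redF2 g₁ h₁ n le_rfl
  obtain ⟨u₂, hu₂, u₂', hu₂', hr₂⟩ := exists_redF2 g₂ h₂ n le_rfl
  have heq : u₁ * g₁ * u₁' = u₂ * g₂ * u₂' := by
    apply Subtype.ext
    ext a b
    rw [(hr₁ b b.2).1 a, (hr₂ b b.2).1 a]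
  refine ⟨u₂⁻¹ * u₁, mul_mem (inv_mem hu₂) hu₁, u₁' * u₂'⁻¹, mul_mem hu₁' (inv_mem hu₂'), ?_⟩
  have e : g₂ = u₂⁻¹ * (u₂ * g₂ * u₂') * u₂'⁻¹ := by group
  rw [e, ← heq]
  group

end Cfsg.Agent.H41
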