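import Mathlib

set_option autoImplicit false

namespace Cfsg.Agent.H41

open Matrix

variable {F : Type*} [Field F]

/-- The commutant of a non-scalar `2 × 2` matrix `A` is spanned by `1` and `A`. -/
theorem commutant_two (A B : Matrix (Fin 2) (Fin 2) F)
    (hA : A 0 1 ≠ 0 ∨ A 1 0 ≠ 0 ∨ A 0 0 ≠ A 1 1) (hAB : A * B = B * A) :
    ∃ u v : F, B = u • (1 : Matrix (Fin 2) (Fin 2) F) + v • A := by
  have e1 := congrFun (congrFun hAB 0) 0
  have e2 := congrFun (congrFun hAB 0) 1
  have e3 := congrFun (congrFun hAB 1) 0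
  simp only [Matrix.mul_apply, Fin.sum_univ_two] at e1 e2 e3
  rcases hA with h | h | h
  · refine ⟨B 0 0 - B 0 1 / A 0 1 * A 0 0, B 0 1 / A 0 1, ?_⟩
    ext i j
    fin_cases i <;> fin_cases j <;> simp <;> field_simp
    · linear_combination e1
    · linear_combination e2
  · refine ⟨B 0 0 - B 1 0 / A 1 0 * A 0 0, B 1 0 / A 1 0, ?_⟩
    ext i j
    fin_cases i <;> fin_cases j <;> simp <;> field_simp
    · linear_combination (-1 : F) * e1
    · linear_combination (-1 : F) * e3
  · have h' : A 0 0 - A 1 1 ≠ 0 := sub_ne_zero.2 h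
    by_cases h01 : A 0 1 = 0
    swap
    · refine ⟨B 0 0 - B 0 1 / A 0 1 * A 0 0, B 0 1 / A 0 1, ?_⟩
      ext i j
      fin_cases i <;> fin_cases j <;> simp <;> field_simp
      · linear_combination e1
      · linear_combination e2
    by_cases h10 : A 1 0 = 0
    swap
    · refine ⟨B 0 0 - B 1 0 / A 1 0 * A 0 0, B 1 0 / A 1 0, ?_⟩
      ext i j
      fin_cases i <;> fin_cases j <;> simp <;> field_simp
      · linear_combination (-1 : F) * e1
      · linear_combination (-1 : F) * e3
    rw [h01] at e2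
    rw [h10] at e3
    have b01 : B 0 1 = 0 := by
      have : B 0 1 * (A 0 0 - A 1 1) = 0 := by linear_combination e2
      rcases mul_eq_zero.1 this with h0 | h0
      · exact h0
      · exact absurd h0 h'
    have b10 : B 1 0 = 0 := by
      have : B 1 0 * (A 0 0 - A 1 1) = 0 := by linear_combination (-1 : F) * e3
      rcases mul_eq_zero.1 this with h0 | h0
      · exact h0
      · exact absurd h0 h'
    refine ⟨B 0 0 - (B 0 0 - B 1 1) / (A 0 0 - A 1 1) * A 0 0, (B 0 0 - B 1 1) / (A 0 0 - A 1 1), ?_⟩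
    ext i j
    fin_cases i <;> fin_cases j <;> simp [h01, h10, b01, b10] <;> field_simp <;> ring

end Cfsg.Agent.H41
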