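import Mathlib

/-!
# The 2-part of the order of `GL_n(q)`, `q` odd
-/

set_option autoImplicit false

namespace Cfsg.Agent.H41.GLRankA

theorem val_prod {ι : Type*} (s : Finset ι) (f : ι → ℕ) (hf : ∀ i ∈ s, f i ≠ 0) :
    padicValNat 2 (∏ i ∈ s, f i) = ∑ i ∈ s, padicValNat 2 (f i) := by
  classical
  induction s using Finset.induction_on with
  | empty => simp
  | insert a s ha ih =>
    rw [Finset.prod_insert ha, Finset.sum_insert ha,
      padicValNat.mul (hf a (Finset.mem_insert_self a s))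
        (Finset.prod_ne_zero_iff.2 fun i hi => hf i (Finset.mem_insert_of_mem hi)),
      ih fun i hi => hf i (Finset.mem_insert_of_mem hi)]

theorem val_two_mod_four (x : ℕ) (hx : x % 4 = 2) : padicValNat 2 x = 1 := by
  have h1 : x = 2 * (x / 2) := by omega
  have h2 : ¬ 2 ∣ x / 2 := by omega
  rw [h1, padicValNat.mul (by norm_num) (by omega), padicValNat_self,
    padicValNat.eq_zero_of_not_dvd h2]

theorem val_odd (x : ℕ) (hx : ¬ 2 ∣ x) : padicValNat 2 x = 0 :=
  padicValNat.eq_zero_of_not_dvd hx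

theorem one_lt_pow' (q : ℕ) (hq1 : 1 < q) (j : ℕ) (hj : j ≠ 0) : 1 < q ^ j :=
  Nat.one_lt_pow hj hq1

/-- `v_2` of the order formula, as a sum -/
theorem val_gl (q : ℕ) (hq : ¬ 2 ∣ q) (hq1 : 1 < q) (n : ℕ) :
    padicValNat 2 (∏ i : Fin n, (q ^ n - q ^ (i : ℕ)))
      = ∑ j ∈ Finset.range n, padicValNat 2 (q ^ (j + 1) - 1) := by
  rw [Fin.prod_univ_eq_prod_range (fun i => q ^ n - q ^ i) n]
  have hsplit : ∀ i ∈ Finset.range n, q ^ n - q ^ i = q ^ i * (q ^ (n - 1 - i + 1) - 1) := by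
    intro i hi
    rw [Finset.mem_range] at hi
    have h1 : n - 1 - i + 1 = n - i := by omega
    rw [h1, Nat.mul_sub, mul_one, ← pow_add]
    congr 2
    omega
  have hne : ∀ i ∈ Finset.range n, q ^ n - q ^ i ≠ 0 := by
    intro i hi
    rw [hsplit i hi]
    have h1 := one_lt_pow' q hq1 (n - 1 - i + 1) (by omega)
    have h2 : 0 < q ^ i := Nat.pow_pos (by omega)
    exact Nat.mul_ne_zero (by omega) (by omega)
  rw [val_prod _ _ hne]
  have hterm : ∀ i ∈ Finset.range n, padicValNat 2 (q ^ n - q ^ i)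
      = padicValNat 2 (q ^ (n - 1 - i + 1) - 1) := by
    intro i hi
    rw [hsplit i hi]
    have h1 := one_lt_pow' q hq1 (n - 1 - i + 1) (by omega)
    have h2 : 0 < q ^ i := Nat.pow_pos (by omega)
    rw [padicValNat.mul (by omega) (by omega), val_odd (q ^ i), zero_add]
    intro h3
    exact hq (Nat.Prime.dvd_of_dvd_pow Nat.prime_two h3)
  rw [Finset.sum_congr rfl hterm]
  exact Finset.sum_range_reflect (fun j => padicValNat 2 (q ^ (j + 1) - 1)) n

theorem pow_mod_four_one (q : ℕ) (hq : q % 4 = 1) (j : ℕ) : q ^ j % 4 = 1 := by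
  rw [Nat.pow_mod, hq, one_pow]
  rfl

theorem sq_mod_four (q : ℕ) (hq : q % 4 = 3) : q ^ 2 % 4 = 1 := by
  rw [Nat.pow_mod, hq]

theorem pow_mod_four_three (q : ℕ) (hq : q % 4 = 3) (k : ℕ) : q ^ (2 * k + 1) % 4 = 3 := by
  rw [pow_succ, pow_mul, Nat.mul_mod, pow_mod_four_one _ (sq_mod_four q hq), hq]

/-- lifting the exponent, `q ≡ 1 (mod 4)` -/
theorem val_pow_sub_one_of_one (q : ℕ) (hq : q % 4 = 1) (hq1 : 1 < q) (j : ℕ) (hj : j ≠ 0) :
    padicValNat 2 (q ^ j - 1) = padicValNat 2 (q - 1) + padicValNat 2 j := by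
  have hq2 : ¬ 2 ∣ q := by omega
  have h1 := padicValNat.pow_two_sub_one hq1 hq2 (n := 2 * j) (by omega) (even_two_mul j)
  have h2 : padicValNat 2 (2 * j) = 1 + padicValNat 2 j := by
    rw [padicValNat.mul (by norm_num) hj, padicValNat_self]
  have h3 : padicValNat 2 (q + 1) = 1 := val_two_mod_four _ (by omega)
  have hqj := pow_mod_four_one q hq j
  have hqj1 := one_lt_pow' q hq1 j hj
  have h4 : q ^ (2 * j) - 1 = (q ^ j - 1) * (q ^ j + 1) := by
    have h5 : q ^ (2 * j) = q ^ j * q ^ j := by rw [two_mul, pow_add]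
    rw [h5]
    obtain ⟨x, hx⟩ : ∃ x, q ^ j = x + 1 := ⟨q ^ j - 1, by omega⟩
    rw [hx]
    simp only [Nat.add_sub_cancel]
    have h6 : (x + 1) * (x + 1) - 1 = x * (x + 1 + 1) := by
      have : (x + 1) * (x + 1) = x * (x + 1 + 1) + 1 := by ring
      omega
    exact h6
  have h5 : padicValNat 2 (q ^ j + 1) = 1 := val_two_mod_four _ (by omega)
  rw [h4, padicValNat.mul (by omega) (by omega), h5, h2, h3] at h1
  omega

/-- `q ≡ 3 (mod 4)`, odd exponent -/
theorem val_pow_sub_one_of_three_odd (q : ℕ) (hq : q % 4 = 3) (k : ℕ) :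
    padicValNat 2 (q ^ (2 * k + 1) - 1) = 1 := by
  have h1 := pow_mod_four_three q hq k
  exact val_two_mod_four _ (by omega)

/-- `q ≡ 3 (mod 4)`, even exponent -/
theorem val_pow_sub_one_of_three_even (q : ℕ) (hq : q % 4 = 3) (i : ℕ) (hi : i ≠ 0) :
    padicValNat 2 (q ^ (2 * i) - 1) = padicValNat 2 (q + 1) + 1 + padicValNat 2 i := by
  have hq2 : ¬ 2 ∣ q := by omega
  have hq1 : 1 < q := by omega
  have h1 := padicValNat.pow_two_sub_one hq1 hq2 (n := 2 * i) (by omega) (even_two_mul i)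
  have h2 : padicValNat 2 (2 * i) = 1 + padicValNat 2 i := by
    rw [padicValNat.mul (by norm_num) hi, padicValNat_self]
  have h3 : padicValNat 2 (q - 1) = 1 := val_two_mod_four _ (by omega)
  rw [h2, h3] at h1
  omega

theorem val_factorial_succ (k : ℕ) :
    padicValNat 2 (k + 1).factorial = padicValNat 2 (k + 1) + padicValNat 2 k.factorial := by
  rw [Nat.factorial_succ, padicValNat.mul (by omega) (Nat.factorial_ne_zero k)]

theorem sum_of_one (q : ℕ) (hq : q % 4 = 1) (hq1 : 1 < q) (n : ℕ) :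
    ∑ j ∈ Finset.range n, padicValNat 2 (q ^ (j + 1) - 1)
      = n * padicValNat 2 (q - 1) + padicValNat 2 n.factorial := by
  induction n with
  | zero => simp
  | succ n ih =>
    rw [Finset.sum_range_succ, ih, val_pow_sub_one_of_one q hq hq1 (n + 1) (by omega),
      val_factorial_succ]
    ring

theorem sum_of_three (q : ℕ) (hq : q % 4 = 3) (n : ℕ) :
    ∑ j ∈ Finset.range n, padicValNat 2 (q ^ (j + 1) - 1)
      = n + (n / 2) * padicValNat 2 (q + 1) + padicValNat 2 (n / 2).factorial := by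
  induction n with
  | zero => simp
  | succ n ih =>
    rw [Finset.sum_range_succ, ih]
    rcases Nat.even_or_odd' n with ⟨k, hk | hk⟩
    · -- n = 2k, n + 1 odd
      have e1 : n / 2 = k := by omega
      have e2 : (n + 1) / 2 = k := by omega
      rw [e1, e2, hk, val_pow_sub_one_of_three_odd q hq k]
      ring
    · -- n = 2k+1, n+1 = 2(k+1)
      have e1 : n / 2 = k := by omega
      have e2 : (n + 1) / 2 = k + 1 := by omega
      have e3 : n + 1 = 2 * (k + 1) := by omega
      rw [e1, e2, e3, val_pow_sub_one_of_three_even q hq (k + 1) (by omega), val_factorial_succ]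
      have e4 : 2 * (k + 1) - 1 = n := by omega
      rw [hk]
      ring_nf

theorem val_gl_of_one (q : ℕ) (hq : q % 4 = 1) (hq1 : 1 < q) (n : ℕ) :
    padicValNat 2 (∏ i : Fin n, (q ^ n - q ^ (i : ℕ)))
      = n * padicValNat 2 (q - 1) + padicValNat 2 n.factorial := by
  rw [val_gl q (by omega) hq1, sum_of_one q hq hq1]

theorem val_gl_of_three (q : ℕ) (hq : q % 4 = 3) (n : ℕ) :
    padicValNat 2 (∏ i : Fin n, (q ^ n - q ^ (i : ℕ)))
      = n + (n / 2) * padicValNat 2 (q + 1) + padicValNat 2 (n / 2).factorial := by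
  rw [val_gl q (by omega) (by omega), sum_of_three q hq]

end Cfsg.Agent.H41.GLRankA
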