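import Mathlib

/-!
# Block matrices for the normal 2-rank of `GL_n(q)`

Index type `(Fin c × Fin m) ⊕ Fin r`: `m` blocks of size `c` and `r` blocks of size `1`.

* `psi`: the block-diagonal embedding of `(Fin m → M_c(F)) × (Fin r → F)`;
* `del`: the sign matrices, constant on blocks;
* `kap`: the permutations of the `m` blocks;
* `Xm`: for `c = 2`, the matrix acting as `a (1 + J)` on each `2`-block and trivially on the rest.
-/

set_option autoImplicit false

namespace Cfsg.Agent.H41.GLRankC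

open Matrix

/-- index type -/
abbrev Idx (c m r : ℕ) := (Fin c × Fin m) ⊕ Fin r

/-- block label of an index -/
def blk (c m r : ℕ) : Idx c m r → Fin m ⊕ Fin r := Sum.map Prod.snd id

section

variable (F : Type*) [Field F] (c m r : ℕ)

/-- block-diagonal embedding -/
def psi : ((Fin m → Matrix (Fin c) (Fin c) F) × (Fin r → F)) →*
    Matrix (Idx c m r) (Idx c m r) F where
  toFun A := fromBlocks (blockDiagonal A.1) 0 0 (diagonal A.2)
  map_one' := by
    show fromBlocks (blockDiagonal (1 : Fin m → Matrix (Fin c) (Fin c) F)) 0 0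
      (diagonal (1 : Fin r → F)) = 1
    rw [blockDiagonal_one]
    have : diagonal (1 : Fin r → F) = 1 := diagonal_one
    rw [this, fromBlocks_one]
  map_mul' A B := by
    show fromBlocks (blockDiagonal (fun k => A.1 k * B.1 k)) 0 0
        (diagonal (fun i => A.2 i * B.2 i)) =
      fromBlocks (blockDiagonal A.1) 0 0 (diagonal A.2)
        * fromBlocks (blockDiagonal B.1) 0 0 (diagonal B.2)
    rw [fromBlocks_multiply, blockDiagonal_mul, diagonal_mul_diagonal]
    simp only [Matrix.mul_zero, Matrix.zero_mul, add_zero, zero_add]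

theorem psi_apply (A : (Fin m → Matrix (Fin c) (Fin c) F) × (Fin r → F)) :
    psi F c m r A = fromBlocks (blockDiagonal A.1) 0 0 (diagonal A.2) := rfl

theorem psi_injective : Function.Injective (psi F c m r) := by
  intro A B h
  rw [psi_apply, psi_apply] at h
  have h1 := fromBlocks_inj.1 h
  exact Prod.ext (blockDiagonal_injective h1.1) (diagonal_injective h1.2.2.2)

/-- the block-diagonal units -/
def tau : ((Fin m → Matrix (Fin c) (Fin c) F) × (Fin r → F))ˣ →* GL (Idx c m r) F :=
  Units.map (psi F c m r)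

theorem tau_injective : Function.Injective (tau F c m r) :=
  Units.map_injective (psi_injective F c m r)

theorem card_units [Fintype F] :
    Nat.card ((Fin m → Matrix (Fin c) (Fin c) F) × (Fin r → F))ˣ
      = Nat.card (GL (Fin c) F) ^ m * (Fintype.card F - 1) ^ r := by
  rw [Nat.card_congr (MulEquiv.prodUnits).toEquiv, Nat.card_prod,
    Nat.card_congr (MulEquiv.piUnits).toEquiv, Nat.card_congr (MulEquiv.piUnits).toEquiv,
    Nat.card_fun, Nat.card_fun, Nat.card_fin, Nat.card_fin, Nat.card_units,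
    Nat.card_eq_fintype_card (α := F)]

/-- the sign matrices as a monoid hom into matrices -/
def del0 : (Fin m ⊕ Fin r → ℤˣ) →* Matrix (Idx c m r) (Idx c m r) F where
  toFun ε := diagonal fun i => (((ε (blk c m r i) : ℤˣ) : ℤ) : F)
  map_one' := by
    rw [← diagonal_one]
    congr 1
    funext i
    simp
  map_mul' ε ε' := by
    rw [diagonal_mul_diagonal]
    congr 1
    funext i
    simp

/-- the sign matrices -/
def del : (Fin m ⊕ Fin r → ℤˣ) →* GL (Idx c m r) F := (del0 F c m r).toHomUnits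

theorem del_val (ε : Fin m ⊕ Fin r → ℤˣ) :
    ((del F c m r ε : GL (Idx c m r) F) : Matrix (Idx c m r) (Idx c m r) F)
      = diagonal fun i => (((ε (blk c m r i) : ℤˣ) : ℤ) : F) := rfl

theorem sign_sq (ε : Fin m ⊕ Fin r → ℤˣ) : ε * ε = 1 := by
  funext i
  exact Int.units_mul_self (ε i)

theorem del_injective (h2 : (2 : F) ≠ 0) (hc : 0 < c) : Function.Injective (del F c m r) := by
  intro ε ε' h
  have h1 : ((del F c m r ε : GL (Idx c m r) F) : Matrix (Idx c m r) (Idx c m r) F)
      = (del F c m r ε' : GL (Idx c m r) F) := congrArg Units.val h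
  rw [del_val, del_val] at h1
  have h1' := diagonal_injective h1
  funext β
  obtain ⟨i, hi⟩ : ∃ i, blk c m r i = β := by
    rcases β with s | j
    · exact ⟨Sum.inl (⟨0, hc⟩, s), rfl⟩
    · exact ⟨Sum.inr j, rfl⟩
  have h3 := congrFun h1' i
  simp only [hi] at h3
  rcases Int.units_eq_one_or (ε β) with h4 | h4 <;> rcases Int.units_eq_one_or (ε' β) with h5 | h5
  · rw [h4, h5]
  · exfalso
    rw [h4, h5] at h3
    apply h2
    have : (1 : F) = -1 := by simpa using h3
    linear_combination this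
  · exfalso
    rw [h4, h5] at h3
    apply h2
    have : (-1 : F) = 1 := by simpa using h3
    linear_combination -this
  · rw [h4, h5]

theorem tau_comm_del (A : ((Fin m → Matrix (Fin c) (Fin c) F) × (Fin r → F))ˣ)
    (ε : Fin m ⊕ Fin r → ℤˣ) : tau F c m r A * del F c m r ε = del F c m r ε * tau F c m r A := by
  apply Units.ext
  rw [Units.val_mul, Units.val_mul, del_val]
  show psi F c m r A.1 * _ = _ * psi F c m r A.1
  rw [psi_apply]
  ext i j
  rw [mul_diagonal, diagonal_mul]
  rcases i with ⟨a, s⟩ | i <;> rcases j with ⟨a', s'⟩ | j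
  · simp only [fromBlocks_apply₁₁, blockDiagonal_apply, blk, Sum.map_inl]
    by_cases hs : s = s'
    · subst hs
      rw [if_pos rfl, mul_comm]
    · rw [if_neg hs, zero_mul, mul_zero]
  · simp
  · simp
  · simp only [fromBlocks_apply₂₂, blk, Sum.map_inr, id]
    by_cases hij : i = j
    · subst hij
      rw [mul_comm]
    · rw [diagonal_apply_ne _ hij, zero_mul, mul_zero]

/-- block permutations as permutations of the index type -/
def liftPerm : Equiv.Perm (Fin m) →* Equiv.Perm (Idx c m r) where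
  toFun σ := Equiv.sumCongr (Equiv.prodCongr (Equiv.refl (Fin c)) σ) (Equiv.refl (Fin r))
  map_one' := by
    ext x
    rcases x with ⟨a, s⟩ | j <;> rfl
  map_mul' σ τ := by
    ext x
    rcases x with ⟨a, s⟩ | j <;> rfl

/-- block permutation matrices -/
def kap : Equiv.Perm (Fin m) →* GL (Idx c m r) F :=
  ((Matrix.permMatrixHom (R := F)).comp (liftPerm c m r)).toHomUnits

theorem kap_val (σ : Equiv.Perm (Fin m)) :
    ((kap F c m r σ : GL (Idx c m r) F) : Matrix (Idx c m r) (Idx c m r) F)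
      = ((liftPerm c m r σ)⁻¹).permMatrix F := rfl

theorem blk_lift (σ : Equiv.Perm (Fin m)) (i : Idx c m r) :
    blk c m r ((liftPerm c m r σ)⁻¹ i)
      = (Equiv.sumCongr σ (Equiv.refl (Fin r))).symm (blk c m r i) := by
  rcases i with ⟨a, s⟩ | j <;> rfl

theorem kap_mul_del (σ : Equiv.Perm (Fin m)) (ε : Fin m ⊕ Fin r → ℤˣ) :
    kap F c m r σ * del F c m r ε
      = del F c m r (fun β => ε ((Equiv.sumCongr σ (Equiv.refl (Fin r))).symm β))
        * kap F c m r σ := by
  apply Units.ext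
  rw [Units.val_mul, Units.val_mul, del_val, del_val, kap_val]
  ext i j
  rw [mul_diagonal, diagonal_mul]
  simp only [Equiv.Perm.permMatrix, PEquiv.toMatrix_apply, Equiv.toPEquiv_apply, Option.mem_def,
    Option.some.injEq]
  by_cases h : (liftPerm c m r σ)⁻¹ i = j
  · rw [if_pos h, one_mul, mul_one, ← h, blk_lift]
  · rw [if_neg h, zero_mul, mul_zero]

theorem kap_faithful (h2 : (2 : F) ≠ 0) (hc : 0 < c) (σ : Equiv.Perm (Fin m))
    (h : ∀ ε, kap F c m r σ * del F c m r ε = del F c m r ε * kap F c m r σ) : σ = 1 := by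
  have key : ∀ ε : Fin m ⊕ Fin r → ℤˣ,
      (fun β => ε ((Equiv.sumCongr σ (Equiv.refl (Fin r))).symm β)) = ε := by
    intro ε
    apply del_injective F c m r h2 hc
    have h1 := h ε
    rw [kap_mul_del] at h1
    exact mul_right_cancel h1
  apply Equiv.ext
  intro s
  rw [Equiv.Perm.one_apply]
  by_contra hne
  obtain ⟨ε₀, hε₀⟩ : ∃ ε₀ : Fin m ⊕ Fin r → ℤˣ,
      ε₀ = fun β => if β = Sum.inl (σ s) then -1 else 1 := ⟨_, rfl⟩
  have hL : ε₀ (Sum.inl s) = 1 := by
    rw [hε₀]
    exact if_neg (fun h => hne (Sum.inl_injective h).symm)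
  have hR : ε₀ (Sum.inl (σ s)) = -1 := by
    rw [hε₀]
    exact if_pos rfl
  have h7 : (Equiv.sumCongr σ (Equiv.refl (Fin r))).symm (Sum.inl (σ s)) = Sum.inl s := by
    simp
  have h6 : ε₀ ((Equiv.sumCongr σ (Equiv.refl (Fin r))).symm (Sum.inl (σ s)))
      = ε₀ (Sum.inl (σ s)) := congrFun (key ε₀) _
  rw [h7, hL, hR] at h6
  exact absurd h6 (by decide)

end

section order8

variable (F : Type*) [Field F] (m r : ℕ)

/-- rotation by a quarter turn -/
def J2 : Matrix (Fin 2) (Fin 2) F := !![0, -1; 1, 0]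

theorem J2_mul : J2 F * J2 F = -1 := by
  ext i j
  fin_cases i <;> fin_cases j <;> simp [J2, Matrix.mul_apply, Fin.sum_univ_two]

/-- the quarter turn on each block -/
def Jb : Matrix (Fin 2 × Fin m) (Fin 2 × Fin m) F := blockDiagonal fun _ => J2 F

theorem Jb_mul : Jb F m * Jb F m = -1 := by
  rw [Jb, ← blockDiagonal_mul]
  simp only [J2_mul]
  have h1 : (fun _ : Fin m => (-1 : Matrix (Fin 2) (Fin 2) F))
      = -(1 : Fin m → Matrix (Fin 2) (Fin 2) F) := rfl
  rw [h1, blockDiagonal_neg, blockDiagonal_one]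

/-- `a (1 + J)` on each `2`-block, identity on the remaining coordinates -/
def Xm (a : F) : Matrix (Idx 2 m r) (Idx 2 m r) F := fromBlocks (a • (1 + Jb F m)) 0 0 1

theorem Xm_sq (a : F) : Xm F m r a * Xm F m r a = fromBlocks ((2 * a * a) • Jb F m) 0 0 1 := by
  rw [Xm, fromBlocks_multiply]
  simp only [Matrix.mul_zero, Matrix.zero_mul, add_zero, zero_add, Matrix.mul_one]
  congr 1
  rw [smul_mul_smul_comm]
  have h1 : (1 + Jb F m) * (1 + Jb F m) = Jb F m + Jb F m := by
    have h2 : (1 + Jb F m) * (1 + Jb F m) = 1 + Jb F m + Jb F m + Jb F m * Jb F m := by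
      noncomm_ring
    rw [h2, Jb_mul]
    abel
  rw [h1, ← two_smul F (Jb F m), smul_smul]
  congr 1
  ring

theorem Xm_pow_eight (a : F) (hs : (2 * a * a) * (2 * a * a) = 1) : Xm F m r a ^ 8 = 1 := by
  have h4 : (Xm F m r a * Xm F m r a) * (Xm F m r a * Xm F m r a)
      = fromBlocks (-1) 0 0 1 := by
    rw [Xm_sq, fromBlocks_multiply]
    simp only [Matrix.mul_zero, Matrix.zero_mul, add_zero, zero_add, Matrix.mul_one]
    rw [smul_mul_smul_comm, hs, one_smul, Jb_mul]
  have h8 : Xm F m r a ^ 8 = ((Xm F m r a * Xm F m r a) * (Xm F m r a * Xm F m r a))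
      * ((Xm F m r a * Xm F m r a) * (Xm F m r a * Xm F m r a)) := by
    noncomm_ring
  rw [h8, h4, fromBlocks_multiply]
  simp only [Matrix.mul_zero, Matrix.zero_mul, add_zero, zero_add, Matrix.mul_one, mul_neg,
    neg_neg]
  exact fromBlocks_one

theorem Xm_poly (a : F) :
    (Xm F m r a * Xm F m r a - (2 * a) • Xm F m r a
      + (2 * a * a) • (1 : Matrix (Idx 2 m r) (Idx 2 m r) F)) * (Xm F m r a - 1) = 0 := by
  have e1 : Xm F m r a * Xm F m r a - (2 * a) • Xm F m r a
      + (2 * a * a) • (1 : Matrix (Idx 2 m r) (Idx 2 m r) F)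
      = fromBlocks 0 0 0 ((1 - 2 * a + 2 * a * a) • (1 : Matrix (Fin r) (Fin r) F)) := by
    rw [Xm_sq, Xm, ← fromBlocks_one, sub_eq_add_neg, fromBlocks_smul, fromBlocks_smul,
      fromBlocks_neg, fromBlocks_add, fromBlocks_add]
    congr 1
    · rw [smul_smul, smul_add]
      abel
    · simp
    · simp
    · rw [add_smul, sub_smul, one_smul]
      abel
  have e2 : Xm F m r a - 1 = fromBlocks (a • (1 + Jb F m) - 1) 0 0 0 := by
    rw [Xm, ← fromBlocks_one, sub_eq_add_neg, fromBlocks_neg, fromBlocks_add]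
    congr 1
    · abel
    · simp
    · simp
    · simp
  rw [e1, e2, fromBlocks_multiply]
  simp only [Matrix.mul_zero, Matrix.zero_mul, add_zero]
  exact fromBlocks_zero

theorem Xm_fixed (a : F) (hd : 1 - 2 * a + 2 * a * a ≠ 0) (v : Idx 2 m r → F)
    (hv : (Xm F m r a).mulVec v = v) (x : Fin 2 × Fin m) : v (Sum.inl x) = 0 := by
  obtain ⟨v₁, hv₁⟩ : ∃ v₁ : Fin 2 × Fin m → F, v₁ = v ∘ Sum.inl := ⟨_, rfl⟩
  obtain ⟨v₂, hv₂⟩ : ∃ v₂ : Fin r → F, v₂ = v ∘ Sum.inr := ⟨_, rfl⟩
  have hvs : v = Sum.elim v₁ v₂ := by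
    rw [hv₁, hv₂, Sum.elim_comp_inl_inr]
  have h1 : (a • (1 + Jb F m)).mulVec v₁ = v₁ := by
    rw [hvs, Xm, fromBlocks_mulVec] at hv
    funext y
    have h2 := congrFun hv (Sum.inl y)
    simpa using h2
  have h3 : (a • (1 + Jb F m) - 1).mulVec v₁ = 0 := by
    rw [sub_mulVec, h1, one_mulVec, sub_self]
  have h4 : (a • (1 - Jb F m) - 1) * (a • (1 + Jb F m) - 1)
      = (1 - 2 * a + 2 * a * a) • (1 : Matrix (Fin 2 × Fin m) (Fin 2 × Fin m) F) := by
    have h5 : (a • (1 - Jb F m) - 1) * (a • (1 + Jb F m) - 1)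
        = (a * a) • (1 - Jb F m * Jb F m) - (2 * a) • (1 : Matrix (Fin 2 × Fin m) (Fin 2 × Fin m) F)
          + 1 := by
      simp only [sub_mul, mul_sub, smul_mul_smul_comm, mul_add, add_mul, Matrix.one_mul,
        Matrix.mul_one, smul_sub, smul_add, two_mul, add_smul, mul_smul]
      abel
    rw [h5, Jb_mul, sub_neg_eq_add, ← two_smul F (1 : Matrix (Fin 2 × Fin m) (Fin 2 × Fin m) F),
      smul_smul, add_smul, sub_smul, one_smul]
    have e : a * a * 2 = 2 * a * a := by ring
    rw [e]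
    abel
  have h6 := congrArg (fun w => (a • (1 - Jb F m) - 1).mulVec w) h3
  simp only [mulVec_mulVec, h4, mulVec_zero] at h6
  rw [smul_mulVec, one_mulVec] at h6
  have h7 := congrFun h6 x
  rw [Pi.smul_apply, smul_eq_mul, Pi.zero_apply] at h7
  rcases mul_eq_zero.1 h7 with h8 | h8
  · exact absurd h8 hd
  · rw [hv₁] at h8
    exact h8

theorem Xm_fixed' (hr : r ≤ 1) (a : F) (hd : 1 - 2 * a + 2 * a * a ≠ 0) (v : Idx 2 m r → F)
    (hv : (Xm F m r a).mulVec v = v) :
    v = (∑ j : Fin r, v (Sum.inr j)) • (Sum.elim 0 (fun _ => 1) : Idx 2 m r → F) := by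
  funext i
  rcases i with x | j
  · rw [Xm_fixed F m r a hd v hv x]
    simp
  · have : Subsingleton (Fin r) := by
      constructor
      intro p q
      apply Fin.ext
      have := p.2
      have := q.2
      omega
    rw [Pi.smul_apply, Sum.elim_inr, smul_eq_mul, mul_one,
      Finset.sum_eq_single j (fun j' _ hne => absurd (Subsingleton.elim j' j) hne)
        (fun h => absurd (Finset.mem_univ j) h)]

end order8

section field

variable (F : Type*) [Field F] [Fintype F]

/-- `-1` is not a square when `q ≡ 3 (mod 4)` -/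
theorem neg_one_nonsquare (hq : Fintype.card F % 4 = 3) : ∀ c : F, c * c ≠ -1 := by
  intro c hc
  have h1 : IsSquare (-1 : F) := ⟨c, hc.symm⟩
  rw [FiniteField.isSquare_neg_one_iff] at h1
  exact h1 hq

/-- one of `2, -2` is a square -/
theorem exists_half_sq (hq : Fintype.card F % 4 = 3) :
    ∃ a : F, a ≠ 0 ∧ (2 * a * a) * (2 * a * a) = 1 := by
  classical
  have hns := neg_one_nonsquare F hq
  have hchar : ringChar F ≠ 2 := by
    intro h
    have h1 : Fintype.card F % 2 = 0 := FiniteField.even_card_of_char_two h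
    omega
  have h2 : (2 : F) ≠ 0 := Ring.two_ne_zero hchar
  have hm1 : quadraticChar F (-1) = -1 := by
    rw [quadraticChar_neg_one_iff_not_isSquare]
    rintro ⟨c, hc⟩
    exact hns c hc.symm
  have key : ∀ t : F, t ≠ 0 → IsSquare t → (t = 2 ∨ t = -2) →
      ∃ a : F, a ≠ 0 ∧ (2 * a * a) * (2 * a * a) = 1 := by
    rintro t ht ⟨s, hs⟩ ht2
    have hs0 : s ≠ 0 := by
      intro h0
      rw [h0, mul_zero] at hs
      exact ht hs
    refine ⟨s⁻¹, inv_ne_zero hs0, ?_⟩
    have h3 : 2 * s⁻¹ * s⁻¹ = 2 / t := by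
      rw [hs]
      field_simp
    rw [h3]
    rcases ht2 with h4 | h4
    · rw [h4]
      field_simp
    · rw [h4]
      field_simp
  rcases quadraticChar_dichotomy h2 with h3 | h3
  · exact key 2 h2 ((quadraticChar_one_iff_isSquare h2).1 h3) (Or.inl rfl)
  · have h4 : quadraticChar F (-2) = 1 := by
      have : (-2 : F) = (-1) * 2 := by ring
      rw [this, map_mul, hm1, h3]
      norm_num
    have hn2 : (-2 : F) ≠ 0 := neg_ne_zero.2 h2
    exact key (-2) hn2 ((quadraticChar_one_iff_isSquare hn2).1 h4) (Or.inr rfl)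

end field

end Cfsg.Agent.H41.GLRankC
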