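import Mathlib
import Cfsg.Prelude.Def_Transfer

/-!
# Generic group theory for normal elementary abelian subgroups of Sylow 2-subgroups

* `card_normalizer_dvd`: the order of the normalizer of the image of `δ` is divisible by
  `|T| * |K|` when `T` centralizes the image and `K` acts faithfully on it.
* `exists_normal_elemAb`: if the normalizer of an elementary abelian 2-subgroup `δ(D)` contains a
  Sylow 2-subgroup of `G`, every Sylow 2-subgroup has a normal elementary abelian subgroup of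
  order `|D|`.
-/

set_option autoImplicit false

namespace Cfsg.Agent.H41.GLRankG

theorem card_normalizer_dvd {G D T K : Type*} [Group G] [Finite G] [Group D] [Group T] [Group K]
    (δ : D →* G) (τ : T →* G) (κ : K →* G) (hτ : Function.Injective τ)
    (hcomm : ∀ t d, τ t * δ d = δ d * τ t)
    (hκ : ∀ σ d, ∃ d', κ σ * δ d = δ d' * κ σ)
    (hfaith : ∀ σ, (∀ d, κ σ * δ d = δ d * κ σ) → σ = 1) :
    Nat.card T * Nat.card K ∣ Nat.card ↥(Subgroup.normalizer (δ.range : Set G)) := by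
  classical
  obtain ⟨N, hN⟩ : ∃ N : Subgroup G, N = Subgroup.normalizer (δ.range : Set G) := ⟨_, rfl⟩
  rw [← hN]
  have hDN : (δ.range.subgroupOf N).Normal := by
    rw [hN]
    exact Subgroup.normal_in_normalizer
  have hτN : ∀ t, τ t ∈ N := by
    intro t
    rw [hN, Subgroup.mem_normalizer_iff]
    intro h
    constructor
    · rintro ⟨d, rfl⟩
      rw [hcomm, mul_assoc, mul_inv_cancel, mul_one]
      exact ⟨d, rfl⟩
    · rintro ⟨d, hd⟩
      refine ⟨d, ?_⟩
      have h1 : h = (τ t)⁻¹ * δ d * τ t := by rw [hd]; group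
      rw [h1, mul_assoc, ← hcomm, ← mul_assoc, inv_mul_cancel, one_mul]
  have hκN : ∀ σ, κ σ ∈ N := by
    intro σ
    rw [hN, Subgroup.mem_normalizer_iff]
    intro h
    constructor
    · rintro ⟨d, rfl⟩
      obtain ⟨d', hd'⟩ := hκ σ d
      rw [hd', mul_assoc, mul_inv_cancel, mul_one]
      exact ⟨d', rfl⟩
    · rintro ⟨d, hd⟩
      obtain ⟨d', hd'⟩ := hκ σ⁻¹ d
      refine ⟨d', ?_⟩
      have h1 : h = κ σ⁻¹ * δ d * (κ σ⁻¹)⁻¹ := by rw [hd, map_inv]; group
      rw [h1, hd', mul_assoc, mul_inv_cancel, mul_one]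
  let θ : ↥N →* MulAut ↥(δ.range.subgroupOf N) := MulAut.conjNormal
  let τ' : T →* ↥N := τ.codRestrict N hτN
  let κ' : K →* ↥N := κ.codRestrict N hκN
  have hτ' : Function.Injective τ' := by
    intro A B h
    exact hτ (congrArg Subtype.val h)
  have h1 : τ'.range ≤ θ.ker := by
    rintro _ ⟨A, rfl⟩
    rw [MonoidHom.mem_ker]
    apply MulEquiv.ext
    intro d
    rw [MulAut.one_apply]
    obtain ⟨ε, hε⟩ : (d : ↥N).1 ∈ δ.range := d.2
    apply Subtype.ext
    rw [show (((θ (τ' A)) d : ↥(δ.range.subgroupOf N)) : ↥N) = τ' A * d * (τ' A)⁻¹ from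
      MulAut.conjNormal_apply _ _]
    apply Subtype.ext
    show τ A * (d : ↥N).1 * (τ A)⁻¹ = (d : ↥N).1
    rw [← hε, hcomm, mul_assoc, mul_inv_cancel, mul_one]
  have h3 : Function.Injective (θ.comp κ') := by
    rw [injective_iff_map_eq_one]
    intro σ hσ
    apply hfaith
    intro ε
    have hd : δ ε ∈ δ.range := ⟨ε, rfl⟩
    have hdN : δ ε ∈ N := by
      rw [hN]
      exact Subgroup.le_normalizer hd
    let d : ↥(δ.range.subgroupOf N) := ⟨⟨δ ε, hdN⟩, hd⟩
    have h4 := congrArg (fun f : MulAut ↥(δ.range.subgroupOf N) =>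
      ((f d : ↥(δ.range.subgroupOf N)) : ↥N).1) hσ
    have h5 : (((θ (κ' σ)) d : ↥(δ.range.subgroupOf N)) : ↥N) = κ' σ * d * (κ' σ)⁻¹ :=
      MulAut.conjNormal_apply _ _
    simp only [MonoidHom.comp_apply, MulAut.one_apply] at h4
    rw [h5] at h4
    have h6 : κ σ * δ ε * (κ σ)⁻¹ = δ ε := h4
    calc κ σ * δ ε = (κ σ * δ ε * (κ σ)⁻¹) * κ σ := by group
      _ = δ ε * κ σ := by rw [h6]
  have hcard := Subgroup.card_mul_index θ.ker
  rw [Subgroup.index_ker] at hcard
  rw [← hcard]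
  apply Nat.mul_dvd_mul
  · have e1 : Nat.card τ'.range = Nat.card T := by
      rw [← Nat.card_congr (MonoidHom.ofInjective hτ').toEquiv]
    rw [← e1]
    exact Subgroup.card_dvd_of_le h1
  · have e2 : Nat.card (θ.comp κ').range = Nat.card K := by
      rw [← Nat.card_congr (MonoidHom.ofInjective h3).toEquiv]
    rw [← e2]
    apply Subgroup.card_dvd_of_le
    rintro _ ⟨σ, rfl⟩
    exact ⟨κ' σ, rfl⟩

theorem exists_normal_elemAb {G D : Type*} [Group G] [Finite G] [Group D] (δ : D →* G)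
    (hδ : Function.Injective δ) (hsq : ∀ d : D, d * d = 1)
    (hfac : (Nat.card G).factorization 2
      ≤ (Nat.card ↥(Subgroup.normalizer (δ.range : Set G))).factorization 2)
    (S : Sylow 2 G) :
    ∃ E : Subgroup ↥(S : Subgroup G), E.Normal ∧ Cfsg.IsElementaryAbelian 2 E ∧
      Nat.card ↥E = Nat.card D := by
  classical
  obtain ⟨N, hN⟩ : ∃ N : Subgroup G, N = Subgroup.normalizer (δ.range : Set G) := ⟨_, rfl⟩
  rw [← hN] at hfac
  have hcomm : ∀ d e : D, d * e = e * d := by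
    intro d e
    have h1 := hsq (d * e)
    have h2 := hsq d
    have h3 := hsq e
    have hd : d⁻¹ = d := inv_eq_of_mul_eq_one_right h2
    have he : e⁻¹ = e := inv_eq_of_mul_eq_one_right h3
    have hde : (d * e)⁻¹ = d * e := inv_eq_of_mul_eq_one_right h1
    rw [← hde, mul_inv_rev, hd, he]
  have hfac' : (Nat.card ↥N).factorization 2 = (Nat.card G).factorization 2 := by
    apply le_antisymm
    · exact (Nat.factorization_le_iff_dvd Nat.card_pos.ne' Nat.card_pos.ne').mpr
        (Subgroup.card_subgroup_dvd_card _) 2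
    · exact hfac
  have hD2 : IsPGroup 2 ↥(δ.range.subgroupOf N) := by
    intro g
    refine ⟨1, ?_⟩
    obtain ⟨d, hd⟩ : (g : ↥N).1 ∈ δ.range := g.2
    apply Subtype.ext
    apply Subtype.ext
    rw [pow_one, sq]
    show (g : ↥N).1 * (g : ↥N).1 = 1
    rw [← hd, ← map_mul, hsq, map_one]
  obtain ⟨PN, hPN⟩ := IsPGroup.exists_le_sylow hD2
  let Q : Subgroup G := (PN : Subgroup ↥N).map N.subtype
  have hQcard : Nat.card Q = 2 ^ (Nat.card G).factorization 2 := by
    rw [Subgroup.card_map_of_injective (Subgroup.subtype_injective _), Sylow.card_eq_multiplicity,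
      hfac']
  obtain ⟨P, hP⟩ : ∃ P : Sylow 2 G, (P : Subgroup G) = Q := ⟨Sylow.ofCard Q hQcard, rfl⟩
  have hDP : δ.range ≤ (P : Subgroup G) := by
    intro d hd
    rw [hP]
    have hdN : d ∈ N := by
      rw [hN]
      exact Subgroup.le_normalizer hd
    exact ⟨⟨d, hdN⟩, hPN (show (⟨d, hdN⟩ : ↥N) ∈ δ.range.subgroupOf N from hd), rfl⟩
  have hPNle : (P : Subgroup G) ≤ N := by
    rw [hP]
    rintro _ ⟨x, _, rfl⟩
    exact x.2
  obtain ⟨g, hg⟩ := MulAction.exists_smul_eq G P S
  have hS : ∀ x : G, x ∈ (S : Subgroup G) ↔ g⁻¹ * x * g ∈ (P : Subgroup G) := by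
    intro x
    rw [← hg, Sylow.coe_subgroup_smul, Subgroup.mem_pointwise_smul_iff_inv_smul_mem]
    simp [MulAut.smul_def]
  let Dg : Subgroup G := δ.range.map (MulAut.conj g).toMonoidHom
  have hDg : ∀ x : G, x ∈ Dg ↔ g⁻¹ * x * g ∈ δ.range := by
    intro x
    constructor
    · rintro ⟨d, hd, rfl⟩
      have : g⁻¹ * (MulAut.conj g).toMonoidHom d * g = d := by
        simp [MulAut.conj_apply]
        group
      rw [this]
      exact hd
    · intro hx
      refine ⟨g⁻¹ * x * g, hx, ?_⟩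
      simp [MulAut.conj_apply]
      group
  have hDgS : Dg ≤ (S : Subgroup G) := fun x hx => (hS x).2 (hDP ((hDg x).1 hx))
  have hrsq : ∀ y ∈ δ.range, y * y = 1 := by
    rintro _ ⟨d, rfl⟩
    rw [← map_mul, hsq, map_one]
  have hrcomm : ∀ y ∈ δ.range, ∀ y' ∈ δ.range, y * y' = y' * y := by
    rintro _ ⟨d, rfl⟩ _ ⟨d', rfl⟩
    rw [← map_mul, ← map_mul, hcomm]
  refine ⟨Dg.subgroupOf (S : Subgroup G), ?_, ?_, ?_⟩
  · constructor
    intro x hx s
    rw [Subgroup.mem_subgroupOf] at hx ⊢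
    rw [hDg] at hx ⊢
    have hsN : g⁻¹ * (s : G) * g ∈ N := hPNle ((hS s).1 s.2)
    rw [hN] at hsN
    have h3 := (Subgroup.mem_normalizer_iff.mp hsN (g⁻¹ * (x : G) * g)).1 hx
    have h4 : g⁻¹ * ((s * x * s⁻¹ : ↥(S : Subgroup G)) : G) * g =
        g⁻¹ * (s : G) * g * (g⁻¹ * (x : G) * g) * (g⁻¹ * (s : G) * g)⁻¹ := by
      rw [Subgroup.coe_mul, Subgroup.coe_mul, Subgroup.coe_inv]
      group
    rw [h4]
    exact h3
  · refine ⟨⟨⟨fun a b => ?_⟩⟩, fun a ha => ?_⟩
    · have ha := (hDg _).1 a.2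
      have hb := (hDg _).1 b.2
      have h3 := hrcomm _ ha _ hb
      apply Subtype.ext
      apply Subtype.ext
      have h4 : ((a : ↥(S : Subgroup G)) : G) * b = b * a := by
        have h5 : g⁻¹ * (((a : ↥(S : Subgroup G)) : G) * b) * g = g⁻¹ * (b * a) * g := by
          calc g⁻¹ * (((a : ↥(S : Subgroup G)) : G) * b) * g
              = (g⁻¹ * a * g) * (g⁻¹ * b * g) := by group
            _ = (g⁻¹ * b * g) * (g⁻¹ * a * g) := h3
            _ = g⁻¹ * (b * a) * g := by group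
        exact mul_left_cancel (mul_right_cancel h5)
      exact h4
    · have ha' := (hDg _).1 ha
      have h3 := hrsq _ ha'
      apply Subtype.ext
      rw [sq]
      have h5 : g⁻¹ * ((a : G) * a) * g = g⁻¹ * 1 * g := by
        calc g⁻¹ * ((a : G) * a) * g
            = (g⁻¹ * a * g) * (g⁻¹ * a * g) := by group
          _ = 1 := h3
          _ = g⁻¹ * 1 * g := by group
      exact mul_left_cancel (mul_right_cancel h5)
  · rw [Nat.card_congr (Subgroup.subgroupOfEquivOfLe hDgS).toEquiv,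
      Subgroup.card_map_of_injective (MulEquiv.injective _),
      ← Nat.card_congr (MonoidHom.ofInjective hδ).toEquiv]

end Cfsg.Agent.H41.GLRankG
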