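import Mathlib
import Cfsg.Agent.Lib.Helper37.InvolDiag

/-!
# Upper bound for normalized elementary abelian 2-groups of linear maps (`-1` a non-square)

A commuting family of involutions normalized by an invertible `X` with
`(X² - 2aX + 2a²)(X - 1) = 0`, fixed space of dimension at most one, over a field in which `-1`
is not a square, has at most `2 ^ ((n + 1) / 2)` members.
-/

set_option autoImplicit false

namespace Cfsg.Agent.H41.GLRankU

open Module

section

variable {F : Type*} [Field F] {V : Type*} [AddCommGroup V] [Module F V]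

/-- A common eigenvector spanning its joint eigenspace. -/
def IsoVec {α : Type*} (f : α → Module.End F V) (v : V) : Prop :=
  v ≠ 0 ∧ (∀ a, ∃ c : F, f a v = c • v) ∧
    ∀ v' : V, (∀ a (c : F), f a v = c • v → f a v' = c • v') → ∃ d : F, v' = d • v

theorem isoVec_map {α : Type*} (f : α → Module.End F V) (X Y : Module.End F V)
    (hXY : X * Y = 1) (hYX : Y * X = 1)
    (hnorm : ∀ a, ∃ a', f a * X = X * f a') (hnorm' : ∀ a', ∃ a, f a * X = X * f a')
    {v : V} (hv : IsoVec f v) : IsoVec f (X v) := by
  have hYXv : ∀ u, Y (X u) = u := fun u => by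
    have := congrArg (fun g : Module.End F V => g u) hYX
    simpa using this
  have hXYv : ∀ u, X (Y u) = u := fun u => by
    have := congrArg (fun g : Module.End F V => g u) hXY
    simpa using this
  obtain ⟨hv0, hv1, hv2⟩ := hv
  refine ⟨?_, ?_, ?_⟩
  · intro h
    apply hv0
    rw [← hYXv v, h, map_zero]
  · intro a
    obtain ⟨a', ha'⟩ := hnorm a
    obtain ⟨c, hc⟩ := hv1 a'
    refine ⟨c, ?_⟩
    have h1 := congrArg (fun g : Module.End F V => g v) ha'
    simp only [Module.End.mul_apply] at h1
    rw [h1, hc, map_smul]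
  · intro v' hv'
    have h1 : ∀ a' (c : F), f a' v = c • v → f a' (Y v') = c • Y v' := by
      intro a' c hc
      obtain ⟨a, ha⟩ := hnorm' a'
      have h2 : f a (X v) = c • X v := by
        have h5 := congrArg (fun g : Module.End F V => g v) ha
        simp only [Module.End.mul_apply] at h5
        rw [h5, hc, map_smul]
      have h3 := hv' a c h2
      have h4 : f a' (Y v') = Y (f a v') := by
        have h5 := congrArg (fun g : Module.End F V => Y (g (Y v'))) ha
        simp only [Module.End.mul_apply] at h5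
        rw [hXYv, hYXv] at h5
        exact h5.symm
      rw [h4, h3, map_smul]
    obtain ⟨d, hd⟩ := hv2 (Y v') h1
    refine ⟨d, ?_⟩
    rw [← hXYv v', hd, map_smul]

theorem repr_apply_eig {α ι : Type*} (f : α → Module.End F V) (b : Basis ι F V) (ε : ι → α → F)
    (h : ∀ i a, f a (b i) = ε i a • b i) (a : α) (v : V) (j : ι) :
    b.repr (f a v) j = ε j a * b.repr v j := by
  classical
  have h1 : (Finsupp.lapply j).comp (b.repr.toLinearMap.comp (f a))
      = ε j a • (Finsupp.lapply j).comp b.repr.toLinearMap := by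
    apply b.ext
    intro k
    simp only [LinearMap.comp_apply, LinearEquiv.coe_coe, Finsupp.lapply_apply,
      LinearMap.smul_apply, h k a, map_smul, Basis.repr_self, Finsupp.smul_apply, smul_eq_mul,
      Finsupp.single_apply]
    by_cases hk : k = j
    · subst hk; simp
    · simp [hk]
  have h2 := congrArg (fun g : V →ₗ[F] F => g v) h1
  simpa using h2

theorem isoVec_basis {α ι : Type*} (f : α → Module.End F V) (b : Basis ι F V) (ε : ι → α → F)
    (h : ∀ i a, f a (b i) = ε i a • b i) (i : ι) (hi : ∀ j, ε j = ε i → j = i) :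
    IsoVec f (b i) := by
  classical
  refine ⟨b.ne_zero i, fun a => ⟨ε i a, h i a⟩, ?_⟩
  intro v' hv'
  refine ⟨b.repr v' i, ?_⟩
  apply b.repr.injective
  ext j
  rw [map_smul, Basis.repr_self, Finsupp.smul_apply, Finsupp.single_apply, smul_eq_mul]
  by_cases hj : i = j
  · subst hj; simp
  · rw [if_neg hj, mul_zero]
    have hne : ε j ≠ ε i := fun h' => hj (hi j h').symm
    obtain ⟨a, ha⟩ := Function.ne_iff.1 hne
    have h1 := hv' a (ε i a) (h i a)
    have h2 := repr_apply_eig f b ε h a v' j
    rw [h1, map_smul, Finsupp.smul_apply, smul_eq_mul] at h2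
    have h3 : (ε i a - ε j a) * b.repr v' j = 0 := by rw [sub_mul, h2, sub_self]
    rcases mul_eq_zero.1 h3 with h4 | h4
    · exact absurd (sub_eq_zero.1 h4).symm ha
    · exact h4

theorem isoVec_eq_smul_basis {α ι : Type*} (f : α → Module.End F V) (b : Basis ι F V)
    (ε : ι → α → F) (h : ∀ i a, f a (b i) = ε i a • b i) {v : V} (hv : IsoVec f v) :
    ∃ (j : ι) (d : F), d ≠ 0 ∧ v = d • b j := by
  obtain ⟨hv0, hv1, hv2⟩ := hv
  have hex : ∃ j, b.repr v j ≠ 0 := by
    by_contra hcon
    push Not at hcon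
    apply hv0
    apply b.repr.injective
    ext j
    rw [hcon j]
    simp
  obtain ⟨j, hj⟩ := hex
  have h1 : ∀ a (c : F), f a v = c • v → f a (b j) = c • b j := by
    intro a c hc
    have h2 := repr_apply_eig f b ε h a v j
    rw [hc, map_smul, Finsupp.smul_apply, smul_eq_mul] at h2
    have h3 : c = ε j a := mul_right_cancel₀ hj h2
    rw [h j a, h3]
  obtain ⟨d, hd⟩ := hv2 (b j) h1
  have hd0 : d ≠ 0 := by
    intro h0
    rw [h0, zero_smul] at hd
    exact b.ne_zero j hd
  refine ⟨j, d⁻¹, inv_ne_zero hd0, ?_⟩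
  rw [hd, smul_smul, inv_mul_cancel₀ hd0, one_smul]

/-- no eigenvectors for the quadratic part -/
theorem quad_no_eig (hns : ∀ c : F, c * c ≠ -1) (X : Module.End F V) (a : F) (ha : a ≠ 0)
    (w : V) (hq : X (X w) = (2 * a) • X w - (2 * a * a) • w) (e : F) (he : X w = e • w) :
    w = 0 := by
  have h1 : (e * e - 2 * a * e + 2 * a * a) • w = 0 := by
    have h2 : X (X w) = (e * e) • w := by rw [he, map_smul, he, smul_smul]
    rw [h2, he, smul_smul] at hq
    rw [add_smul, sub_smul, hq]
    abel
  rcases smul_eq_zero.1 h1 with h3 | h3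
  · exfalso
    apply hns ((e - a) / a)
    field_simp
    linear_combination h3
  · exact h3

/-- `X ^ k v ∈ F v` for `k = 1, 2, 3` forces `X v = v`. -/
theorem fixed_of_eig (h2 : (2 : F) ≠ 0) (hns : ∀ c : F, c * c ≠ -1) (X : Module.End F V) (a : F)
    (ha : a ≠ 0)
    (hp : (X * X - (2 * a) • X + (2 * a * a) • (1 : Module.End F V)) * (X - 1) = 0) (v : V)
    (c : F) (hc : X v = c • v ∨ X (X v) = c • v ∨ X (X (X v)) = c • v) : X v = v := by
  obtain ⟨w, hw⟩ : ∃ w, w = X v - v := ⟨_, rfl⟩
  have hq : X (X w) = (2 * a) • X w - (2 * a * a) • w := by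
    have h1 := congrArg (fun g : Module.End F V => g v) hp
    simp only [Module.End.mul_apply, LinearMap.sub_apply, LinearMap.add_apply,
      LinearMap.smul_apply, Module.End.one_apply, LinearMap.zero_apply] at h1
    rw [← hw] at h1
    rw [← sub_eq_zero, ← h1]
    abel
  have h2a : (2 * a) ≠ 0 := mul_ne_zero h2 ha
  have h2aa : (2 * a * a) ≠ 0 := mul_ne_zero h2a ha
  have hw0 : w = 0 := by
    rcases hc with hc | hc | hc
    · apply quad_no_eig hns X a ha w hq c
      rw [hw, map_sub, hc, map_smul, hc, smul_sub]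
    · have h1 : X (X w) = c • w := by
        rw [hw, map_sub, map_sub, hc, map_smul, smul_sub]
      apply quad_no_eig hns X a ha w hq ((c + 2 * a * a) / (2 * a))
      rw [h1] at hq
      have h3 : (2 * a) • X w = (c + 2 * a * a) • w := by
        rw [add_smul, hq]
        abel
      rw [div_eq_inv_mul, ← smul_smul, ← h3, smul_smul, inv_mul_cancel₀ h2a, one_smul]
    · have h1 : X (X (X w)) = c • w := by
        rw [hw, map_sub, map_sub, map_sub, hc, map_smul, smul_sub]
      have h3 : X (X (X w)) = (2 * a * a) • X w - (4 * a * a * a) • w := by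
        rw [hq, map_sub, map_smul, map_smul, hq, smul_sub, smul_smul, smul_smul]
        have e1 : (2 * a * (2 * a) : F) = 2 * a * a + 2 * a * a := by ring
        have e2 : (2 * a * (2 * a * a) : F) = 4 * a * a * a := by ring
        rw [e1, e2, add_smul]
        abel
      apply quad_no_eig hns X a ha w hq ((c + 4 * a * a * a) / (2 * a * a))
      rw [h1] at h3
      have h4 : (2 * a * a) • X w = (c + 4 * a * a * a) • w := by
        rw [add_smul, h3]
        abel
      rw [div_eq_inv_mul, ← smul_smul, ← h4, smul_smul, inv_mul_cancel₀ h2aa, one_smul]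
  rw [hw0] at hw
  exact (sub_eq_zero.1 hw.symm)

/-- isolated common eigenvectors are fixed by `X` -/
theorem fixed_of_isoVec {α ι : Type*} (h2 : (2 : F) ≠ 0) (hns : ∀ c : F, c * c ≠ -1)
    (f : α → Module.End F V) (b : Basis ι F V) (ε : ι → α → F)
    (h : ∀ i a, f a (b i) = ε i a • b i)
    (X Y : Module.End F V) (hXY : X * Y = 1) (hYX : Y * X = 1)
    (hnorm : ∀ a, ∃ a', f a * X = X * f a') (hnorm' : ∀ a', ∃ a, f a * X = X * f a')
    (a : F) (ha : a ≠ 0)
    (hp : (X * X - (2 * a) • X + (2 * a * a) • (1 : Module.End F V)) * (X - 1) = 0)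
    {v : V} (hv : IsoVec f v) : X v = v := by
  classical
  have hYXv : ∀ u, Y (X u) = u := fun u => by
    have := congrArg (fun g : Module.End F V => g u) hYX
    simpa using this
  have hv1 := isoVec_map f X Y hXY hYX hnorm hnorm' hv
  have hv2 := isoVec_map f X Y hXY hYX hnorm hnorm' hv1
  have hv3 := isoVec_map f X Y hXY hYX hnorm hnorm' hv2
  obtain ⟨j0, d0, hd0, e0⟩ := isoVec_eq_smul_basis f b ε h hv
  obtain ⟨j1, d1, hd1, e1⟩ := isoVec_eq_smul_basis f b ε h hv1
  obtain ⟨j2, d2, hd2, e2⟩ := isoVec_eq_smul_basis f b ε h hv2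
  obtain ⟨j3, d3, hd3, e3⟩ := isoVec_eq_smul_basis f b ε h hv3
  -- the cubic relation
  have hcub : X (X (X v)) = (1 + 2 * a) • X (X v) - (2 * a + 2 * a * a) • X v
      + (2 * a * a) • v := by
    have h1 := congrArg (fun g : Module.End F V => g v) hp
    simp only [Module.End.mul_apply, LinearMap.sub_apply, LinearMap.add_apply,
      LinearMap.smul_apply, Module.End.one_apply, LinearMap.zero_apply, map_sub, smul_sub] at h1
    rw [← sub_eq_zero, ← h1]
    simp only [add_smul, one_smul]
    abel
  by_cases h32 : j3 = j2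
  · apply fixed_of_eig h2 hns X a ha hp v (d3 * d2⁻¹)
    left
    have h4 : X (X (X v)) = (d3 * d2⁻¹) • X (X v) := by
      rw [e3, e2, h32, smul_smul, mul_assoc, inv_mul_cancel₀ hd2, mul_one]
    have h5 := congrArg (fun u => Y (Y u)) h4
    simp only [map_smul, hYXv] at h5
    exact h5
  by_cases h31 : j3 = j1
  · apply fixed_of_eig h2 hns X a ha hp v (d3 * d1⁻¹)
    right; left
    have h4 : X (X (X v)) = (d3 * d1⁻¹) • X v := by
      rw [e3, e1, h31, smul_smul, mul_assoc, inv_mul_cancel₀ hd1, mul_one]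
    have h5 := congrArg (fun u => Y u) h4
    simp only [map_smul, hYXv] at h5
    exact h5
  by_cases h30 : j3 = j0
  · apply fixed_of_eig h2 hns X a ha hp v (d3 * d0⁻¹)
    right; right
    conv_rhs => rw [e0]
    rw [e3, h30, smul_smul, mul_assoc, inv_mul_cancel₀ hd0, mul_one]
  · exfalso
    apply hd3
    have h6 := congrArg (fun u => b.repr u j3) hcub
    rw [e3] at h6
    conv_rhs at h6 => rw [e2, e1, e0]
    simp only [map_smul, map_add, map_sub, Basis.repr_self, Finsupp.smul_apply, Finsupp.add_apply,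
      Finsupp.sub_apply, Finsupp.single_apply, smul_eq_mul, if_true] at h6
    rw [if_neg (Ne.symm h32), if_neg (Ne.symm h31), if_neg (Ne.symm h30)] at h6
    simpa using h6

/-- **Upper bound.** -/
theorem card_le_of_normalized [FiniteDimensional F V] (h2 : (2 : F) ≠ 0)
    (hns : ∀ c : F, c * c ≠ -1) {α : Type*} [Finite α]
    (f : α → Module.End F V) (hinj : Function.Injective f)
    (hcomm : ∀ a b, f a * f b = f b * f a) (hsq : ∀ a, f a * f a = 1)
    (X Y : Module.End F V) (hXY : X * Y = 1) (hYX : Y * X = 1)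
    (hnorm : ∀ a, ∃ a', f a * X = X * f a') (hnorm' : ∀ a', ∃ a, f a * X = X * f a')
    (a : F) (ha : a ≠ 0)
    (hp : (X * X - (2 * a) • X + (2 * a * a) • (1 : Module.End F V)) * (X - 1) = 0)
    (φ : V → F) (l₀ : V) (hfix : ∀ v, X v = v → v = φ v • l₀) (hn : 1 ≤ finrank F V) :
    Nat.card α ≤ 2 ^ ((finrank F V + 1) / 2) := by
  classical
  obtain ⟨b, ε, h⟩ := Cfsg.Agent.Lib.Helper37.InvolDiag.exists_eigenbasis h2 f hcomm hsq
  have hpm : ∀ i a, ε i a = 1 ∨ ε i a = -1 := by
    intro i a
    have h1 : f a (f a (b i)) = b i := by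
      have := congrArg (fun g : Module.End F V => g (b i)) (hsq a)
      simpa using this
    rw [h i a, map_smul, h i a, smul_smul] at h1
    have h3 : (ε i a * ε i a - 1) • b i = 0 := by rw [sub_smul, h1, one_smul, sub_self]
    rcases smul_eq_zero.1 h3 with h4 | h4
    · have h5 : (ε i a - 1) * (ε i a + 1) = 0 := by linear_combination h4
      rcases mul_eq_zero.1 h5 with h6 | h6
      · exact Or.inl (sub_eq_zero.1 h6)
      · exact Or.inr (eq_neg_of_add_eq_zero_left h6)
    · exact absurd h4 (b.ne_zero i)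
  have hne : (1 : F) ≠ -1 := by
    intro h1
    apply h2
    linear_combination h1
  -- at most one isolated index
  have hiso : ∀ i i', (∀ j, ε j = ε i → j = i) → (∀ j, ε j = ε i' → j = i') → i = i' := by
    intro i i' hi hi'
    have h1 := fixed_of_isoVec h2 hns f b ε h X Y hXY hYX hnorm hnorm' a ha hp
      (isoVec_basis f b ε h i hi)
    have h1' := fixed_of_isoVec h2 hns f b ε h X Y hXY hYX hnorm hnorm' a ha hp
      (isoVec_basis f b ε h i' hi')
    have h3 := hfix _ h1
    have h3' := hfix _ h1'
    by_contra hii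
    have h4 : φ (b i') • b i = φ (b i) • b i' := by
      conv_lhs => rw [h3]
      conv_rhs => rw [h3']
      rw [smul_smul, smul_smul, mul_comm]
    have h5 := congrArg (fun u => b.repr u i) h4
    simp only [map_smul, Basis.repr_self, Finsupp.smul_apply, Finsupp.single_apply, smul_eq_mul,
      if_true] at h5
    rw [if_neg (Ne.symm hii), mul_one, mul_zero] at h5
    rw [h5, zero_smul] at h3'
    exact b.ne_zero i' h3'
  obtain ⟨n, hn'⟩ : ∃ n, n = finrank F V := ⟨_, rfl⟩
  -- the set of weights
  obtain ⟨W, hW⟩ : ∃ W : Finset (α → F), W = Finset.univ.image ε := ⟨_, rfl⟩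
  have hcardW : Nat.card α ≤ 2 ^ W.card := by
    let ψ : α → (W → Bool) := fun a w => decide (w.1 a = 1)
    have hψ : Function.Injective ψ := by
      intro a a' haa
      apply hinj
      have heq : ∀ i, ε i a = ε i a' := by
        intro i
        have hmem : ε i ∈ W := by rw [hW]; exact Finset.mem_image_of_mem _ (Finset.mem_univ i)
        have h1 := congrFun haa ⟨ε i, hmem⟩
        simp only [ψ, decide_eq_decide] at h1
        rcases hpm i a with h3 | h3 <;> rcases hpm i a' with h3' | h3'
        · rw [h3, h3']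
        · exact absurd (h1.mp h3) (by rw [h3']; exact fun h => hne h.symm)
        · exact absurd (h1.mpr h3') (by rw [h3]; exact fun h => hne h.symm)
        · rw [h3, h3']
      apply b.ext
      intro i
      rw [h i a, h i a', heq i]
    calc Nat.card α ≤ Nat.card (W → Bool) := Nat.card_le_card_of_injective ψ hψ
      _ = 2 ^ W.card := by
        rw [Nat.card_eq_fintype_card, Fintype.card_fun, Fintype.card_bool, Fintype.card_coe]
  have hWle : 2 * W.card ≤ finrank F V + 1 := by
    -- a base index
    have hi0 : ∃ i0 : Fin (finrank F V), ∀ i, (∀ j, ε j = ε i → j = i) → i = i0 := by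
      by_cases hex : ∃ i, ∀ j, ε j = ε i → j = i
      · obtain ⟨i0, hi0⟩ := hex
        exact ⟨i0, fun i hi => hiso i i0 hi hi0⟩
      · exact ⟨⟨0, hn⟩, fun i hi => absurd ⟨i, hi⟩ hex⟩
    obtain ⟨i0, hi0⟩ := hi0
    have hfib := Finset.card_eq_sum_card_fiberwise (s := (Finset.univ : Finset (Fin (finrank F V))))
      (t := W) (f := ε) (fun i _ => by rw [hW]; exact Finset.mem_image_of_mem _ (Finset.mem_univ i))
    rw [Finset.card_univ, Fintype.card_fin] at hfib
    have hle : ∀ w ∈ W, 2 ≤ (Finset.univ.filter (fun i => ε i = w)).card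
        + (if w = ε i0 then 1 else 0) := by
      intro w hw
      rw [hW, Finset.mem_image] at hw
      obtain ⟨i, -, rfl⟩ := hw
      by_cases hw0 : ε i = ε i0
      · rw [if_pos hw0]
        have : 1 ≤ (Finset.univ.filter (fun i' => ε i' = ε i)).card :=
          Finset.card_pos.2 ⟨i, Finset.mem_filter.2 ⟨Finset.mem_univ _, rfl⟩⟩
        omega
      · rw [if_neg hw0, add_zero]
        have hni : ¬ ∀ j, ε j = ε i → j = i := fun hi => hw0 (by rw [hi0 i hi])
        push Not at hni
        obtain ⟨j, hj, hji⟩ := hni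
        exact Finset.one_lt_card.2 ⟨i, Finset.mem_filter.2 ⟨Finset.mem_univ _, rfl⟩, j,
          Finset.mem_filter.2 ⟨Finset.mem_univ _, hj⟩, Ne.symm hji⟩
    have hsum := Finset.sum_le_sum hle
    rw [Finset.sum_const, smul_eq_mul, Finset.sum_add_distrib, ← hfib, Finset.sum_ite_eq'] at hsum
    have : (if ε i0 ∈ W then 1 else 0) ≤ 1 := by split_ifs <;> omega
    omega
  calc Nat.card α ≤ 2 ^ W.card := hcardW
    _ ≤ 2 ^ ((finrank F V + 1) / 2) := by
      apply Nat.pow_le_pow_right (by norm_num)
      omega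

end

end Cfsg.Agent.H41.GLRankU
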