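import Mathlib
import Cfsg.Prelude.Def_Transfer
import Cfsg.Agent.H41.GLRankU
import Cfsg.Agent.H41.GLRankG
import Cfsg.Agent.H41.GLRankA
import Cfsg.Agent.H41.GLRankC
import Cfsg.Agent.Lib.Helper37.InvolDiag

/-!
# Normal elementary abelian subgroups of Sylow 2-subgroups of `GL_n(q)`: assembly
-/

set_option autoImplicit false

namespace Cfsg.Agent.H41.GLRankM

open Matrix Cfsg.Agent.H41.GLRankC

section

variable {F : Type*} [Field F] [Fintype F]

/-- existence for the block structure `(c, m, r)` -/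
theorem exists_of_blocks (n c m r : ℕ) (hn : n = c * m + r) (hc : 0 < c) (h2 : (2 : F) ≠ 0)
    (hval : padicValNat 2 (Nat.card (GL (Fin n) F))
      ≤ padicValNat 2 (Nat.card (GL (Fin c) F) ^ m * (Fintype.card F - 1) ^ r * m.factorial))
    (S : Sylow 2 (GL (Fin n) F)) :
    ∃ E : Subgroup ↥(S : Subgroup (GL (Fin n) F)), E.Normal ∧ Cfsg.IsElementaryAbelian 2 E ∧
      Nat.card ↥E = 2 ^ (m + r) := by
  classical
  have hcard : Fintype.card (Fin n) = Fintype.card (Idx c m r) := by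
    simp [hn]
  obtain ⟨e⟩ : Nonempty (Fin n ≃ Idx c m r) := ⟨Fintype.equivOfCardEq hcard⟩
  obtain ⟨Φ⟩ : Nonempty (GL (Idx c m r) F ≃* GL (Fin n) F) :=
    ⟨Units.mapEquiv (Matrix.reindexAlgEquiv F F e.symm).toMulEquiv⟩
  obtain ⟨δ, hδdef⟩ : ∃ δ : (Fin m ⊕ Fin r → ℤˣ) →* GL (Fin n) F,
      δ = Φ.toMonoidHom.comp (del F c m r) := ⟨_, rfl⟩
  obtain ⟨τ, hτdef⟩ : ∃ τ : ((Fin m → Matrix (Fin c) (Fin c) F) × (Fin r → F))ˣ →* GL (Fin n) F,
      τ = Φ.toMonoidHom.comp (tau F c m r) := ⟨_, rfl⟩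
  obtain ⟨κ, hκdef⟩ : ∃ κ : Equiv.Perm (Fin m) →* GL (Fin n) F,
      κ = Φ.toMonoidHom.comp (kap F c m r) := ⟨_, rfl⟩
  have hδa : ∀ d, δ d = Φ (del F c m r d) := fun d => by rw [hδdef]; rfl
  have hτa : ∀ t, τ t = Φ (tau F c m r t) := fun t => by rw [hτdef]; rfl
  have hκa : ∀ σ, κ σ = Φ (kap F c m r σ) := fun σ => by rw [hκdef]; rfl
  have hδ : Function.Injective δ := by
    intro d d' h
    rw [hδa, hδa] at h
    exact del_injective F c m r h2 hc (Φ.injective h)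
  have hτ : Function.Injective τ := by
    intro d d' h
    rw [hτa, hτa] at h
    exact tau_injective F c m r (Φ.injective h)
  have hdvd := Cfsg.Agent.H41.GLRankG.card_normalizer_dvd δ τ κ hτ
    (fun t d => by
      rw [hτa, hδa, ← map_mul, ← map_mul, tau_comm_del])
    (fun σ d => ⟨fun β => d ((Equiv.sumCongr σ (Equiv.refl (Fin r))).symm β), by
      rw [hκa, hδa, hδa, ← map_mul, ← map_mul, kap_mul_del]⟩)
    (fun σ h => kap_faithful F c m r h2 hc σ (fun ε => by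
      have h1 := h ε
      rw [hκa, hδa, ← map_mul, ← map_mul] at h1
      exact Φ.injective h1))
  rw [card_units, Nat.card_perm, Nat.card_fin] at hdvd
  have hne : Nat.card (GL (Fin c) F) ^ m * (Fintype.card F - 1) ^ r * m.factorial ≠ 0 :=
    ne_zero_of_dvd_ne_zero Nat.card_pos.ne' hdvd
  have hfac : (Nat.card (GL (Fin n) F)).factorization 2
      ≤ (Nat.card ↥(Subgroup.normalizer (δ.range : Set (GL (Fin n) F)))).factorization 2 := by
    rw [Nat.factorization_def _ Nat.prime_two]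
    refine le_trans hval ?_
    rw [← Nat.factorization_def _ Nat.prime_two]
    exact (Nat.factorization_le_iff_dvd hne Nat.card_pos.ne').mpr hdvd 2
  obtain ⟨E, hE1, hE2, hE3⟩ :=
    Cfsg.Agent.H41.GLRankG.exists_normal_elemAb δ hδ (sign_sq m r) hfac S
  refine ⟨E, hE1, hE2, ?_⟩
  rw [hE3, Nat.card_fun, Nat.card_sum, Nat.card_fin, Nat.card_fin, Nat.card_eq_fintype_card,
    Fintype.card_units_int]

/-- upper bound, `q ≡ 1 (mod 4)` (in fact any odd `q`) -/
theorem upper_one (n : ℕ) (h2 : (2 : F) ≠ 0) (S : Sylow 2 (GL (Fin n) F))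
    (E : Subgroup ↥(S : Subgroup (GL (Fin n) F))) (hE : Cfsg.IsElementaryAbelian 2 E) :
    Nat.card ↥E ≤ 2 ^ n := by
  classical
  have h1 := Cfsg.Agent.Lib.Helper37.InvolDiag.card_le_two_pow h2
    (fun a : ↥E => (((a : ↥(S : Subgroup (GL (Fin n) F))) : GL (Fin n) F) :
      Matrix (Fin n) (Fin n) F))
    (fun a a' h => Subtype.ext (Subtype.ext (Units.ext h)))
    (fun a b => by
      have h3 : a * b = b * a := hE.1.is_comm.comm a b
      have h4 := congrArg (fun y : ↥E =>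
        (((y : ↥(S : Subgroup (GL (Fin n) F))) : GL (Fin n) F) : Matrix (Fin n) (Fin n) F)) h3
      simpa using h4)
    (fun a => by
      have h3 := hE.2 (a : ↥(S : Subgroup (GL (Fin n) F))) a.2
      have h4 := congrArg (fun y : ↥(S : Subgroup (GL (Fin n) F)) =>
        ((y : GL (Fin n) F) : Matrix (Fin n) (Fin n) F)) h3
      simpa [sq] using h4)
  rwa [Fintype.card_fin] at h1

/-- upper bound, `q ≡ 3 (mod 4)` -/
theorem upper_three (n : ℕ) (hn : 1 ≤ n) (hq : Fintype.card F % 4 = 3)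
    (S : Sylow 2 (GL (Fin n) F)) (E : Subgroup ↥(S : Subgroup (GL (Fin n) F))) (hEn : E.Normal)
    (hE : Cfsg.IsElementaryAbelian 2 E) : Nat.card ↥E ≤ 2 ^ ((n + 1) / 2) := by
  classical
  obtain ⟨m, hm⟩ : ∃ m, m = n / 2 := ⟨_, rfl⟩
  obtain ⟨r, hr⟩ : ∃ r, r = n % 2 := ⟨_, rfl⟩
  have hnmr : n = 2 * m + r := by omega
  have hr1 : r ≤ 1 := by omega
  have hns := neg_one_nonsquare F hq
  obtain ⟨a, ha, hs⟩ := exists_half_sq F hq
  have hchar : ringChar F ≠ 2 := by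
    intro h
    have h1 : Fintype.card F % 2 = 0 := FiniteField.even_card_of_char_two h
    omega
  have h2 : (2 : F) ≠ 0 := Ring.two_ne_zero hchar
  have hd : 1 - 2 * a + 2 * a * a ≠ 0 := by
    intro h0
    apply hns ((1 - a) / a)
    field_simp
    linear_combination h0
  have hcard : Fintype.card (Fin n) = Fintype.card (Idx 2 m r) := by
    simp [hnmr]
  obtain ⟨e⟩ : Nonempty (Fin n ≃ Idx 2 m r) := ⟨Fintype.equivOfCardEq hcard⟩
  obtain ⟨Φ⟩ : Nonempty (GL (Fin n) F ≃* GL (Idx 2 m r) F) :=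
    ⟨Units.mapEquiv (Matrix.reindexAlgEquiv F F e).toMulEquiv⟩
  -- the element of order 8
  have hX8 := Xm_pow_eight F m r a hs
  obtain ⟨Xu, hXu⟩ : ∃ Xu : GL (Idx 2 m r) F,
      (Xu : Matrix (Idx 2 m r) (Idx 2 m r) F) = Xm F m r a :=
    ⟨⟨Xm F m r a, Xm F m r a ^ 7, by rw [← pow_succ', hX8], by rw [← pow_succ, hX8]⟩, rfl⟩
  have hXu8 : Xu ^ 8 = 1 := by
    apply Units.ext
    rw [Units.val_pow_eq_pow_val, hXu, hX8]
    rfl
  obtain ⟨x₀, hx₀⟩ : ∃ x₀ : GL (Fin n) F, Φ x₀ = Xu := ⟨Φ.symm Xu, Φ.apply_symm_apply Xu⟩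
  have hx₀8 : x₀ ^ 8 = 1 := by
    apply Φ.injective
    rw [map_pow, hx₀, hXu8, map_one]
  have hP : IsPGroup 2 ↥(Subgroup.zpowers x₀) := by
    intro y
    refine ⟨3, ?_⟩
    obtain ⟨k, hk⟩ := Subgroup.mem_zpowers_iff.1 y.2
    apply Subtype.ext
    rw [Subgroup.coe_pow, ← hk, Subgroup.coe_one]
    have e8 : (2 : ℕ) ^ 3 = 8 := by norm_num
    rw [e8, ← zpow_natCast, ← _root_.zpow_mul, mul_comm, _root_.zpow_mul, zpow_natCast, hx₀8,
      _root_.one_zpow]
  obtain ⟨P₀, hP₀⟩ := IsPGroup.exists_le_sylow hP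
  obtain ⟨g, hg⟩ := MulAction.exists_smul_eq (GL (Fin n) F) P₀ S
  have hS : ∀ x : GL (Fin n) F, x ∈ (S : Subgroup (GL (Fin n) F)) ↔
      g⁻¹ * x * g ∈ (P₀ : Subgroup (GL (Fin n) F)) := by
    intro x
    rw [← hg, Sylow.coe_subgroup_smul, Subgroup.mem_pointwise_smul_iff_inv_smul_mem]
    simp [MulAut.smul_def]
  have hxS : g * x₀ * g⁻¹ ∈ (S : Subgroup (GL (Fin n) F)) := by
    rw [hS]
    have h1 : g⁻¹ * (g * x₀ * g⁻¹) * g = x₀ := by group
    rw [h1]
    exact hP₀ (Subgroup.mem_zpowers x₀)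
  -- the representation
  obtain ⟨ρ, hρ⟩ : ∃ ρ : GL (Fin n) F →* Module.End F (Idx 2 m r → F),
      ∀ y, ρ y = Matrix.toLinAlgEquiv' ((Φ (g⁻¹ * y * g) : GL (Idx 2 m r) F) :
        Matrix (Idx 2 m r) (Idx 2 m r) F) := by
    refine ⟨{ toFun := fun y => Matrix.toLinAlgEquiv' ((Φ (g⁻¹ * y * g) : GL (Idx 2 m r) F) :
        Matrix (Idx 2 m r) (Idx 2 m r) F), map_one' := ?_, map_mul' := ?_ }, fun y => rfl⟩
    · have h1 : g⁻¹ * 1 * g = 1 := by group
      rw [h1, map_one, Units.val_one, map_one]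
    · intro y y'
      have h1 : g⁻¹ * (y * y') * g = (g⁻¹ * y * g) * (g⁻¹ * y' * g) := by group
      rw [h1, map_mul, Units.val_mul, map_mul]
  have hρinj : Function.Injective ρ := by
    intro y y' h
    rw [hρ, hρ] at h
    have h1 := Φ.injective (Units.ext (Matrix.toLinAlgEquiv'.injective h))
    exact mul_left_cancel (mul_right_cancel h1)
  obtain ⟨xs, hxs⟩ : ∃ xs : ↥(S : Subgroup (GL (Fin n) F)), (xs : GL (Fin n) F) = g * x₀ * g⁻¹ :=
    ⟨⟨_, hxS⟩, rfl⟩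
  have hρx : ρ (xs : GL (Fin n) F) = Matrix.toLinAlgEquiv' (Xm F m r a) := by
    rw [hρ, hxs]
    have h1 : g⁻¹ * (g * x₀ * g⁻¹) * g = x₀ := by group
    rw [h1, hx₀, hXu]
  have hfr : Module.finrank F (Idx 2 m r → F) = n := by
    rw [Module.finrank_fintype_fun_eq_card, ← hcard, Fintype.card_fin]
  have hmain := Cfsg.Agent.H41.GLRankU.card_le_of_normalized (F := F) (V := Idx 2 m r → F) h2 hns
    (fun b : ↥E => ρ ((b : ↥(S : Subgroup (GL (Fin n) F))) : GL (Fin n) F))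
    (fun b b' h => Subtype.ext (Subtype.ext (hρinj h)))
    (fun b b' => by
      have h3 : b * b' = b' * b := hE.1.is_comm.comm b b'
      have h4 := congrArg (fun y : ↥E =>
        ρ ((y : ↥(S : Subgroup (GL (Fin n) F))) : GL (Fin n) F)) h3
      simpa using h4)
    (fun b => by
      have h3 := hE.2 (b : ↥(S : Subgroup (GL (Fin n) F))) b.2
      have h4 := congrArg (fun y : ↥(S : Subgroup (GL (Fin n) F)) => ρ (y : GL (Fin n) F)) h3
      simpa [sq] using h4)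
    (ρ (xs : GL (Fin n) F)) (ρ ((xs : GL (Fin n) F))⁻¹)
    (by rw [← map_mul, mul_inv_cancel, map_one])
    (by rw [← map_mul, inv_mul_cancel, map_one])
    (fun b => by
      refine ⟨⟨xs⁻¹ * b * xs, ?_⟩, ?_⟩
      · have h3 := hEn.conj_mem b b.2 xs⁻¹
        rwa [inv_inv] at h3
      · show ρ _ * ρ _ = ρ _ * ρ _
        rw [← map_mul, ← map_mul]
        congr 1
        simp only [Subgroup.coe_mul, Subgroup.coe_inv]
        group)
    (fun b' => by
      refine ⟨⟨xs * b' * xs⁻¹, hEn.conj_mem b' b'.2 xs⟩, ?_⟩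
      show ρ _ * ρ _ = ρ _ * ρ _
      rw [← map_mul, ← map_mul]
      congr 1
      simp only [Subgroup.coe_mul, Subgroup.coe_inv]
      group)
    a ha
    (by
      rw [hρx, ← map_mul, ← map_smul, ← map_one (Matrix.toLinAlgEquiv' (R := F) (n := Idx 2 m r)),
        ← map_smul, ← map_sub, ← map_add, ← map_sub, ← map_mul, Xm_poly, map_zero])
    (fun v => ∑ j : Fin r, v (Sum.inr j)) (Sum.elim 0 (fun _ => 1))
    (fun v hv => by
      rw [hρx] at hv
      exact Xm_fixed' F m r hr1 a hd v hv)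
    (by rw [hfr]; exact hn)
  rwa [hfr] at hmain

end

end Cfsg.Agent.H41.GLRankM
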