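import Mathlib
import Cfsg.Agent.H41.PSL2Basic
import Cfsg.Agent.H41.SL2Poly
import Cfsg.Agent.H41.SL2Quad

set_option autoImplicit false

namespace Cfsg.Agent.H41

open Matrix

section graph

/-- A graph in which any two distinct vertices are adjacent or have a common neighbour, and
which is not complete, is connected of diameter `2`. -/
theorem graph_diam_two {V : Type*} (G : SimpleGraph V)
    (h2 : ∀ x y : V, x ≠ y → G.Adj x y ∨ ∃ z, G.Adj x z ∧ G.Adj z y)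
    (hne : ∃ x y : V, x ≠ y ∧ ¬ G.Adj x y) : G.Connected ∧ G.diam = 2 := by
  obtain ⟨x₀, y₀, hxy, hnadj⟩ := hne
  have hle : ∀ x y : V, G.edist x y ≤ 2 := by
    intro x y
    by_cases hxy' : x = y
    · subst hxy'
      simp
    · rcases h2 x y hxy' with h | ⟨z, h1, h2'⟩
      · have : G.edist x y = 1 := SimpleGraph.edist_eq_one_iff_adj.2 h
        rw [this]
        norm_num
      · have hw := (SimpleGraph.Walk.cons h1 (SimpleGraph.Walk.cons h2' SimpleGraph.Walk.nil)).edist_le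
        simpa using hw
  have hdiam : G.ediam ≤ 2 := SimpleGraph.ediam_le_of_edist_le hle
  have hnt : G.ediam ≠ ⊤ := ne_top_of_le_ne_top (by simp) hdiam
  have : Nonempty V := ⟨x₀⟩
  refine ⟨SimpleGraph.connected_of_ediam_ne_top hnt, ?_⟩
  have h2le : (2 : ℕ∞) ≤ G.edist x₀ y₀ := by
    by_contra hlt
    push Not at hlt
    have hnt' : G.edist x₀ y₀ ≠ ⊤ := ne_top_of_lt hlt
    obtain ⟨n, hn⟩ := ENat.ne_top_iff_exists.1 hnt'
    rw [← hn] at hlt
    have hn2 : n < 2 := by exact_mod_cast hlt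
    interval_cases n
    · exact hxy (SimpleGraph.edist_eq_zero_iff.1 hn.symm)
    · exact hnadj (SimpleGraph.edist_eq_one_iff_adj.1 hn.symm)
  have h3 : G.ediam = 2 := le_antisymm hdiam (le_trans h2le SimpleGraph.edist_le_ediam)
  rw [SimpleGraph.diam, h3]
  rfl

end graph

variable {F : Type*} [Field F]

/-- The trace of an element of `SL₂`. -/
def tr2 (g : Matrix.SpecialLinearGroup (Fin 2) F) : F := ent g 0 0 + ent g 1 1

/-- Some odd power is `±1`. -/
def OddPow (g : Matrix.SpecialLinearGroup (Fin 2) F) : Prop :=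
  ∃ m : ℕ, Odd m ∧ ∃ ε : F, ε * ε = 1 ∧
    (g : Matrix (Fin 2) (Fin 2) F) ^ m = ε • (1 : Matrix (Fin 2) (Fin 2) F)

theorem odd_orderOf_of_oddPow (g : Matrix.SpecialLinearGroup (Fin 2) F) (h : OddPow g) :
    Odd (orderOf (g : Matrix.ProjectiveSpecialLinearGroup (Fin 2) F)) := by
  obtain ⟨m, hm, ε, hε, hpow⟩ := h
  have h1 : (g : Matrix.ProjectiveSpecialLinearGroup (Fin 2) F) ^ m = 1 :=
    (psl_mk_pow_eq_one_iff g m).2 ⟨ε, hε, hpow⟩
  exact Odd.of_dvd_nat hm (orderOf_dvd_of_pow_eq_one h1)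

theorem tr2_mul (g h : Matrix.SpecialLinearGroup (Fin 2) F) :
    tr2 (g * h) = ent g 0 0 * ent h 0 0 + ent g 0 1 * ent h 1 0 + ent g 1 0 * ent h 0 1
      + ent g 1 1 * ent h 1 1 := by
  rw [tr2, sl2_mul00, sl2_mul11]
  ring

theorem tr2_mul_comm (g h : Matrix.SpecialLinearGroup (Fin 2) F) : tr2 (g * h) = tr2 (h * g) := by
  rw [tr2_mul, tr2_mul]
  ring

/-- Data of a trace-zero element. -/
theorem tr2_zero_data (g : Matrix.SpecialLinearGroup (Fin 2) F) (hg : tr2 g = 0) :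
    ent g 1 1 = - ent g 0 0 ∧ ent g 0 0 * ent g 0 0 + ent g 0 1 * ent g 1 0 = -1 := by
  have hdet := sl2_det g
  have h11 : ent g 1 1 = - ent g 0 0 := by
    rw [tr2] at hg
    linear_combination hg
  refine ⟨h11, ?_⟩
  rw [h11] at hdet
  linear_combination (-1 : F) * hdet

theorem tr2_mul_zero (g h : Matrix.SpecialLinearGroup (Fin 2) F) (hg : tr2 g = 0) (hh : tr2 h = 0) :
    tr2 (g * h) = 2 * ent g 0 0 * ent h 0 0 + ent g 0 1 * ent h 1 0 + ent g 1 0 * ent h 0 1 := by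
  rw [tr2_mul, (tr2_zero_data g hg).1, (tr2_zero_data h hh).1]
  ring

theorem sq_of_tr2_zero (g : Matrix.SpecialLinearGroup (Fin 2) F) (hg : tr2 g = 0) :
    (g : Matrix (Fin 2) (Fin 2) F) * (g : Matrix (Fin 2) (Fin 2) F) = -1 := by
  have h := mul_self_eq_of_det_one (g : Matrix (Fin 2) (Fin 2) F) g.2
  have h0 : (g : Matrix (Fin 2) (Fin 2) F) 0 0 + (g : Matrix (Fin 2) (Fin 2) F) 1 1 = 0 := hg
  rw [h, h0, zero_smul, zero_sub]

theorem mk_sq_of_tr2_zero (g : Matrix.SpecialLinearGroup (Fin 2) F) (hg : tr2 g = 0) :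
    (g : Matrix.ProjectiveSpecialLinearGroup (Fin 2) F) ^ 2 = 1 := by
  rw [psl_mk_pow_eq_one_iff]
  refine ⟨-1, by ring, ?_⟩
  rw [pow_two, sq_of_tr2_zero g hg]
  simp

theorem tr2_zero_of_orderOf (g : Matrix.SpecialLinearGroup (Fin 2) F)
    (h : orderOf (g : Matrix.ProjectiveSpecialLinearGroup (Fin 2) F) = 2) : tr2 g = 0 := by
  have h1 : (g : Matrix.ProjectiveSpecialLinearGroup (Fin 2) F) ^ 2 = 1 := by
    have h0 := pow_orderOf_eq_one (g : Matrix.ProjectiveSpecialLinearGroup (Fin 2) F)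
    rwa [h] at h0
  have hne : (g : Matrix.ProjectiveSpecialLinearGroup (Fin 2) F) ≠ 1 := by
    intro h0
    rw [h0, orderOf_one] at h
    omega
  obtain ⟨r, hr, hpow⟩ := (psl_mk_pow_eq_one_iff g 2).1 h1
  have hCH := mul_self_eq_of_det_one (g : Matrix (Fin 2) (Fin 2) F) g.2
  rw [pow_two, hCH] at hpow
  by_contra ht
  apply hne
  rw [psl_mk_eq_one_iff]
  have ht' : ent g 0 0 + ent g 1 1 ≠ 0 := ht
  have hg : (g : Matrix (Fin 2) (Fin 2) F) =
      ((r + 1) / (ent g 0 0 + ent g 1 1)) • (1 : Matrix (Fin 2) (Fin 2) F) := by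
    have h3 : (ent g 0 0 + ent g 1 1) • (g : Matrix (Fin 2) (Fin 2) F) =
        (r + 1) • (1 : Matrix (Fin 2) (Fin 2) F) := by
      have h5 := hpow
      rw [sub_eq_iff_eq_add] at h5
      have h6 : (ent g 0 0 + ent g 1 1) • (g : Matrix (Fin 2) (Fin 2) F) =
          r • (1 : Matrix (Fin 2) (Fin 2) F) + 1 := h5
      rw [h6, add_smul, one_smul]
    have h4 : (g : Matrix (Fin 2) (Fin 2) F) = (ent g 0 0 + ent g 1 1)⁻¹ •
        ((ent g 0 0 + ent g 1 1) • (g : Matrix (Fin 2) (Fin 2) F)) := by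
      rw [smul_smul, inv_mul_cancel₀ ht', one_smul]
    rw [h4, h3, smul_smul]
    congr 1
    field_simp
  refine ⟨(r + 1) / (ent g 0 0 + ent g 1 1), ?_, hg⟩
  have hdet := g.2
  have hdet2 : (((r + 1) / (ent g 0 0 + ent g 1 1)) • (1 : Matrix (Fin 2) (Fin 2) F)).det = 1 := by
    rw [← hg]
    exact hdet
  rw [Matrix.det_smul, Fintype.card_fin, Matrix.det_one, mul_one] at hdet2
  rw [← pow_two]
  exact hdet2

theorem mk_eq_imp (g h : Matrix.SpecialLinearGroup (Fin 2) F)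
    (he : (g : Matrix.ProjectiveSpecialLinearGroup (Fin 2) F) = h) :
    ∃ r : F, r * r = 1 ∧ ∀ i j, ent h i j = r * ent g i j := by
  have h1 : ((g⁻¹ * h : Matrix.SpecialLinearGroup (Fin 2) F) :
      Matrix.ProjectiveSpecialLinearGroup (Fin 2) F) = 1 := by
    rw [QuotientGroup.mk_mul, QuotientGroup.mk_inv, he, inv_mul_cancel]
  obtain ⟨r, hr, hmat⟩ := (psl_mk_eq_one_iff _).1 h1
  refine ⟨r, hr, ?_⟩
  have h2 : h = g * (g⁻¹ * h) := by group
  have h3 : (h : Matrix (Fin 2) (Fin 2) F) = r • (g : Matrix (Fin 2) (Fin 2) F) := by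
    conv_lhs => rw [h2]
    rw [Matrix.SpecialLinearGroup.coe_mul, hmat, Matrix.mul_smul, Matrix.mul_one]
  intro i j
  have h4 := congrFun (congrFun h3 i) j
  simpa using h4

theorem tr2_of_mk_eq (g h : Matrix.SpecialLinearGroup (Fin 2) F) (hg : tr2 g = 0)
    (he : (g : Matrix.ProjectiveSpecialLinearGroup (Fin 2) F) = h) :
    ∃ r : F, r * r = 1 ∧ tr2 (g * h) = -2 * r ∧
      ∀ k : Matrix.SpecialLinearGroup (Fin 2) F, tr2 (k * h) = r * tr2 (k * g) := by
  obtain ⟨r, hr, hent⟩ := mk_eq_imp g h he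
  obtain ⟨h11, hdet⟩ := tr2_zero_data g hg
  refine ⟨r, hr, ?_, ?_⟩
  · rw [tr2_mul, hent 0 0, hent 1 0, hent 0 1, hent 1 1, h11]
    linear_combination (2 * r) * hdet
  · intro k
    rw [tr2_mul, tr2_mul, hent 0 0, hent 1 0, hent 0 1, hent 1 1]
    ring

/-- Conjugacy in `PSL₂` from an intertwining matrix with square determinant. -/
theorem isConj_of_intertwine (A C : Matrix.SpecialLinearGroup (Fin 2) F)
    (M : Matrix (Fin 2) (Fin 2) F) (δ : F) (hδ : δ ≠ 0) (hdet : M.det = δ * δ)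
    (h : M * (A : Matrix (Fin 2) (Fin 2) F) = (C : Matrix (Fin 2) (Fin 2) F) * M) :
    IsConj (A : Matrix.ProjectiveSpecialLinearGroup (Fin 2) F)
      (C : Matrix.ProjectiveSpecialLinearGroup (Fin 2) F) := by
  have hdet' : (δ⁻¹ • M).det = 1 := by
    rw [Matrix.det_smul, Fintype.card_fin, hdet]
    field_simp
  obtain ⟨N, hN⟩ : ∃ N : Matrix.SpecialLinearGroup (Fin 2) F,
      (N : Matrix (Fin 2) (Fin 2) F) = δ⁻¹ • M := ⟨⟨δ⁻¹ • M, hdet'⟩, rfl⟩
  have hg : N * A = C * N := by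
    apply Subtype.ext
    show (N : Matrix (Fin 2) (Fin 2) F) * (A : Matrix (Fin 2) (Fin 2) F) =
      (C : Matrix (Fin 2) (Fin 2) F) * (N : Matrix (Fin 2) (Fin 2) F)
    rw [hN, Matrix.smul_mul, Matrix.mul_smul, h]
  rw [isConj_iff]
  refine ⟨(N : Matrix.ProjectiveSpecialLinearGroup (Fin 2) F), ?_⟩
  rw [← QuotientGroup.mk_mul, hg, QuotientGroup.mk_mul, mul_inv_cancel_right]

theorem isConj_of_tr2_zero_add (A C : Matrix.SpecialLinearGroup (Fin 2) F) (hA : tr2 A = 0)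
    (hC : tr2 C = 0) (δ : F) (hδ : δ ≠ 0) (h : 2 - tr2 (A * C) = δ * δ) :
    IsConj (A : Matrix.ProjectiveSpecialLinearGroup (Fin 2) F)
      (C : Matrix.ProjectiveSpecialLinearGroup (Fin 2) F) := by
  apply isConj_of_intertwine A C ((A : Matrix (Fin 2) (Fin 2) F) + (C : Matrix (Fin 2) (Fin 2) F)) δ hδ
  · rw [← h, tr2_mul_zero A C hA hC, Matrix.det_fin_two]
    obtain ⟨hA1, hA2⟩ := tr2_zero_data A hA
    obtain ⟨hC1, hC2⟩ := tr2_zero_data C hC
    simp only [Matrix.add_apply]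
    have e1 : (A : Matrix (Fin 2) (Fin 2) F) 1 1 = - ent A 0 0 := hA1
    have e2 : (C : Matrix (Fin 2) (Fin 2) F) 1 1 = - ent C 0 0 := hC1
    rw [e1, e2]
    linear_combination (-1 : F) * hA2 - hC2
  · rw [add_mul, mul_add, sq_of_tr2_zero A hA, sq_of_tr2_zero C hC]
    abel

theorem isConj_of_tr2_zero_sub (A C : Matrix.SpecialLinearGroup (Fin 2) F) (hA : tr2 A = 0)
    (hC : tr2 C = 0) (δ : F) (hδ : δ ≠ 0) (h : 2 + tr2 (A * C) = δ * δ) :
    IsConj (A : Matrix.ProjectiveSpecialLinearGroup (Fin 2) F)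
      (C : Matrix.ProjectiveSpecialLinearGroup (Fin 2) F) := by
  have h1 : IsConj (A : Matrix.ProjectiveSpecialLinearGroup (Fin 2) F)
      ((negOne * C : Matrix.SpecialLinearGroup (Fin 2) F) :
        Matrix.ProjectiveSpecialLinearGroup (Fin 2) F) := by
    apply isConj_of_intertwine A (negOne * C)
      ((A : Matrix (Fin 2) (Fin 2) F) - (C : Matrix (Fin 2) (Fin 2) F)) δ hδ
    · rw [← h, tr2_mul_zero A C hA hC, Matrix.det_fin_two]
      obtain ⟨hA1, hA2⟩ := tr2_zero_data A hA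
      obtain ⟨hC1, hC2⟩ := tr2_zero_data C hC
      simp only [Matrix.sub_apply]
      have e1 : (A : Matrix (Fin 2) (Fin 2) F) 1 1 = - ent A 0 0 := hA1
      have e2 : (C : Matrix (Fin 2) (Fin 2) F) 1 1 = - ent C 0 0 := hC1
      rw [e1, e2]
      linear_combination (-1 : F) * hA2 - hC2
    · rw [Matrix.SpecialLinearGroup.coe_mul, negOne_coe, sub_mul, mul_sub, sq_of_tr2_zero A hA]
      simp only [neg_mul, one_mul]
      rw [sq_of_tr2_zero C hC]
      abel
  rwa [psl_mk_negOne_mul] at h1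

end Cfsg.Agent.H41
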