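import Mathlib
import Cfsg.Agent.H41.InvGraphA

set_option autoImplicit false

namespace Cfsg.Agent.H41

open Matrix

variable {F : Type*} [Field F]

theorem oddPow_of_unip (p : ℕ) [Fact p.Prime] [CharP F p] (hp : p ≠ 2)
    (g : Matrix.SpecialLinearGroup (Fin 2) F) (ε : F) (hε : ε * ε = 1) (ht : tr2 g = ε + ε) :
    OddPow g := by
  refine ⟨p, (Fact.out : p.Prime).odd_of_ne_two hp, ε ^ p, ?_, ?_⟩
  · rw [← mul_pow, hε, one_pow]
  · apply pow_eq_smul_of_tpoly_dvd _ g.2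
    exact tpoly_dvd_of_double_root p _ ε ht.symm hε

theorem oddPow_of_split [Fintype F] (hq : Fintype.card F % 4 = 3)
    (g : Matrix.SpecialLinearGroup (Fin 2) F) (c : F) (hc : c ≠ 0) (hc1 : c * c ≠ 1)
    (ht : tr2 g = c + c⁻¹) : OddPow g := by
  have h2m : c ^ (2 * ((Fintype.card F - 1) / 2)) = 1 := by
    have h1 : 2 * ((Fintype.card F - 1) / 2) = Fintype.card F - 1 := by omega
    rw [h1, FiniteField.pow_card_sub_one_eq_one c hc]
  have hsq : c ^ ((Fintype.card F - 1) / 2) * c ^ ((Fintype.card F - 1) / 2) = 1 := by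
    rw [← pow_add, ← two_mul]
    exact h2m
  refine ⟨(Fintype.card F - 1) / 2, ?_, c ^ ((Fintype.card F - 1) / 2), hsq, ?_⟩
  · rw [Nat.odd_iff]
    omega
  · apply pow_eq_smul_of_tpoly_dvd _ g.2
    apply tpoly_dvd_of_roots _ c c⁻¹ _ ht.symm (mul_inv_cancel₀ hc) ?_ _ rfl
    · rw [inv_pow]
      exact inv_eq_of_mul_eq_one_left hsq
    · intro h
      apply hc1
      nth_rewrite 2 [h]
      exact mul_inv_cancel₀ hc

theorem oddPow_char_two [Fintype F] [CharP F 2] (g : Matrix.SpecialLinearGroup (Fin 2) F)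
    (ht : tr2 g ≠ 0) : OddPow g := by
  have : Fact (Nat.Prime 2) := ⟨Nat.prime_two⟩
  obtain ⟨k, ε, hk, hε, hpow⟩ := exists_pow_eq_smul 2 (g : Matrix (Fin 2) (Fin 2) F) g.2
  have h2 : (2 : F) = 0 := CharP.ofNat_eq_zero F 2
  have hq : Even (Fintype.card F) := by
    rw [Nat.even_iff]
    exact FiniteField.even_card_iff_char_two.1 (CharP.ringChar_of_prime_eq_zero Nat.prime_two h2)
  have hq1 : 1 ≤ Fintype.card F := Fintype.card_pos
  have hodd : Odd (Fintype.card F - 1) := by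
    obtain ⟨m, hm⟩ := hq
    rw [Nat.odd_iff]
    omega
  have hgcd : Nat.gcd 2 (Fintype.card F - 1) = 1 := by
    exact Nat.coprime_two_left.2 hodd
  rw [hgcd, Nat.div_one, Nat.div_one] at hk
  rcases hk with rfl | rfl | rfl
  · exfalso
    have hCH := mul_self_eq_of_det_one (g : Matrix (Fin 2) (Fin 2) F) g.2
    rw [pow_two, hCH] at hpow
    have e01 := congrFun (congrFun hpow 0) 1
    have e10 := congrFun (congrFun hpow 1) 0
    have e00 := congrFun (congrFun hpow 0) 0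
    have e11 := congrFun (congrFun hpow 1) 1
    simp at e01 e10 e00 e11
    have ht' : ent g 0 0 + ent g 1 1 ≠ 0 := ht
    apply ht
    have h01 : ent g 0 1 = 0 := by
      rcases e01 with h | h
      · exact absurd h ht'
      · exact h
    have h10 : ent g 1 0 = 0 := by
      rcases e10 with h | h
      · exact absurd h ht'
      · exact h
    have h5 : (ent g 0 0 + ent g 1 1) * (ent g 0 0 - ent g 1 1) = 0 := by
      have e00' : (ent g 0 0 + ent g 1 1) * ent g 0 0 - 1 = ε := e00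
      have e11' : (ent g 0 0 + ent g 1 1) * ent g 1 1 - 1 = ε := e11
      linear_combination e00' - e11'
    rcases mul_eq_zero.1 h5 with h | h
    · exact absurd h ht'
    · rw [tr2]
      have h6 : ent g 0 0 = ent g 1 1 := sub_eq_zero.1 h
      rw [h6]
      linear_combination (ent g 1 1) * h2
  · exact ⟨_, hodd, ε, hε, hpow⟩
  · refine ⟨_, ?_, ε, hε, hpow⟩
    obtain ⟨m, hm⟩ := hq
    rw [Nat.odd_iff]
    omega

theorem oddPow_negOne_mul (g : Matrix.SpecialLinearGroup (Fin 2) F) (h : OddPow (negOne * g)) :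
    OddPow g := by
  obtain ⟨m, hm, ε, hε, hpow⟩ := h
  refine ⟨m, hm, -ε, by linear_combination hε, ?_⟩
  rw [Matrix.SpecialLinearGroup.coe_mul, negOne_coe, neg_one_mul, Odd.neg_pow hm] at hpow
  rw [neg_smul, ← hpow, neg_neg]

/-- Construction of a trace-zero element with prescribed entries. -/
theorem exists_trace_zero (X Y Z D : F) (hD : D ≠ 0) (h : X * X + Y * Z + D * D = 0) :
    ∃ C : Matrix.SpecialLinearGroup (Fin 2) F, tr2 C = 0 ∧
      ∀ A : Matrix.SpecialLinearGroup (Fin 2) F, tr2 A = 0 →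
        D * tr2 (A * C) = 2 * ent A 0 0 * X + ent A 0 1 * Z + ent A 1 0 * Y := by
  have hdet : (X / D) * (-(X / D)) - (Y / D) * (Z / D) = 1 := by
    field_simp
    linear_combination (-1 : F) * h
  refine ⟨mkSL (X / D) (Y / D) (Z / D) (-(X / D)) hdet, ?_, ?_⟩
  · rw [tr2, mkSL00, mkSL11]
    ring
  · intro A hA
    rw [tr2_mul, mkSL00, mkSL01, mkSL10, mkSL11, (tr2_zero_data A hA).1]
    field_simp
    ring

/-- Polynomial identities, case where `-1` is a square. -/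
theorem ident_sq (a b c a2 b2 c2 i : F) (hA : a * a + b * c = -1) (hB : a2 * a2 + b2 * c2 = -1)
    (hi : i * i = -1) :
    (2 * (a - a2) - i * (b * c2 - b2 * c)) * (2 * (a - a2) - i * (b * c2 - b2 * c)) + (2 * (b - b2) - 2 * i * (a * b2 - b * a2)) * (2 * (c - c2) - 2 * i * (c * a2 - a * c2)) + ((2 * a * a2 + b * c2 + c * b2) + 2) * ((2 * a * a2 + b * c2 + c * b2) + 2) = 0 ∧
    2 * a * (2 * (a - a2) - i * (b * c2 - b2 * c)) + b * (2 * (c - c2) - 2 * i * (c * a2 - a * c2)) + c * (2 * (b - b2) - 2 * i * (a * b2 - b * a2)) = ((2 * a * a2 + b * c2 + c * b2) + 2) * (-2) ∧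
    2 * a2 * (2 * (a - a2) - i * (b * c2 - b2 * c)) + b2 * (2 * (c - c2) - 2 * i * (c * a2 - a * c2)) + c2 * (2 * (b - b2) - 2 * i * (a * b2 - b * a2)) = ((2 * a * a2 + b * c2 + c * b2) + 2) * 2 := by
  refine ⟨?_, ?_, ?_⟩
  · linear_combination (4 + 4 * a2^2 - 4 * b2 * c2 * i^2) * hA + (-4 * b * c - 4 * b * c * i^2) * hB + (4 * a * a2 * b * c2 + 4 * a * a2 * b2 * c + 6 * b * b2 * c * c2 + 4 * b * c + b^2 * c2^2 + 4 * b2 * c2 + b2^2 * c^2) * hi
  · linear_combination (4) * hA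
  · linear_combination (-4) * hB

/-- Polynomial identities, general case. -/
theorem ident_ns (a b c a2 b2 c2 u G : F) (hA : a * a + b * c = -1) (hB : a2 * a2 + b2 * c2 = -1)
    (hG : G * G = (2 + (2 * a * a2 + b * c2 + c * b2)) * (2 - (2 * a * a2 + b * c2 + c * b2) - u * u)) :
    (u * (2 + (2 * a * a2 + b * c2 + c * b2)) * (a + a2) + G * (b * c2 - b2 * c)) * (u * (2 + (2 * a * a2 + b * c2 + c * b2)) * (a + a2) + G * (b * c2 - b2 * c)) + (u * (2 + (2 * a * a2 + b * c2 + c * b2)) * (b + b2) + 2 * G * (a * b2 - b * a2)) * (u * (2 + (2 * a * a2 + b * c2 + c * b2)) * (c + c2) + 2 * G * (c * a2 - a * c2)) + ((2 * a * a2 + b * c2 + c * b2) * (2 * a * a2 + b * c2 + c * b2) - 4) * ((2 * a * a2 + b * c2 + c * b2) * (2 * a * a2 + b * c2 + c * b2) - 4) = 0 ∧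
    2 * a * (u * (2 + (2 * a * a2 + b * c2 + c * b2)) * (a + a2) + G * (b * c2 - b2 * c)) + b * (u * (2 + (2 * a * a2 + b * c2 + c * b2)) * (c + c2) + 2 * G * (c * a2 - a * c2)) + c * (u * (2 + (2 * a * a2 + b * c2 + c * b2)) * (b + b2) + 2 * G * (a * b2 - b * a2)) = ((2 * a * a2 + b * c2 + c * b2) * (2 * a * a2 + b * c2 + c * b2) - 4) * u ∧
    2 * a2 * (u * (2 + (2 * a * a2 + b * c2 + c * b2)) * (a + a2) + G * (b * c2 - b2 * c)) + b2 * (u * (2 + (2 * a * a2 + b * c2 + c * b2)) * (c + c2) + 2 * G * (c * a2 - a * c2)) + c2 * (u * (2 + (2 * a * a2 + b * c2 + c * b2)) * (b + b2) + 2 * G * (a * b2 - b * a2)) = ((2 * a * a2 + b * c2 + c * b2) * (2 * a * a2 + b * c2 + c * b2) - 4) * u := by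
  refine ⟨?_, ?_, ?_⟩
  · linear_combination (4 * a * a2 * b * c2 + 4 * a * a2 * b2 * c - 4 * a^2 * b2 * c2 - 4 * a2^2 * b * c - 2 * b * b2 * c * c2 + b^2 * c2^2 + b2^2 * c^2) * hG + (16 * a * a2 * b * b2 * c2^2 + 4 * a * a2 * b * c2 * u^2 + 4 * a * a2 * b2 * c * u^2 + 8 * a * a2 * b2 * c2 * u^2 + 16 * a * a2 * b2^2 * c * c2 + 8 * a * a2 * u^2 + 16 * a * a2^3 * b * c2 + 16 * a * a2^3 * b2 * c + 8 * a * a2^3 * u^2 + 16 * a^2 * a2^2 * b2 * c2 + 4 * a^2 * a2^2 * u^2 + 16 * a^2 * a2^4 - 32 * a2^2 + 8 * a2^2 * b * b2 * c * c2 + 4 * a2^2 * b * c2 * u^2 + 4 * a2^2 * b^2 * c2^2 + 4 * a2^2 * b2 * c * u^2 - 16 * a2^2 * b2 * c2 + 4 * a2^2 * b2 * c2 * u^2 + 4 * a2^2 * b2^2 * c^2 + 12 * a2^2 * u^2 - 16 * a2^4 + 4 * a2^4 * u^2 + 2 * b * b2 * c * c2 * u^2 + 4 * b * b2 * c2^2 * u^2 + 8 * b * b2^2 * c * c2^2 + 4 * b * c2 * u^2 + 4 * b^2 * b2 * c2^3 + b^2 * c2^2 * u^2 + 4 * b2 * c * u^2 - 16 * b2 * c2 + 8 * b2 * c2 * u^2 + 4 * b2^2 * c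 * c2 * u^2 + b2^2 * c^2 * u^2 + 4 * b2^3 * c^2 * c2 + 4 * u^2) * hA + (16 - 16 * a * a2 * b * c2 + 4 * a * a2 * b * c2 * u^2 - 16 * a * a2 * b2 * c + 4 * a * a2 * b2 * c * u^2 + 16 * a2^2 + 16 * a2^2 * b * c - 4 * a2^2 * b * c * u^2 - 4 * a2^2 * u^2 - 8 * b * b2 * c * c2 + 2 * b * b2 * c * c2 * u^2 - 4 * b^2 * c2^2 + b^2 * c2^2 * u^2 - 4 * b2^2 * c^2 + b2^2 * c^2 * u^2 - 4 * u^2) * hB
  · linear_combination (4 * a * a2 * u + 2 * b * c2 * u + 2 * b2 * c * u + 4 * u) * hA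
  · linear_combination (4 * a * a2 * u + 2 * b * c2 * u + 2 * b2 * c * u + 4 * u) * hB

theorem two_ne_zero_of_char (p : ℕ) [Fact p.Prime] [CharP F p] (hp : p ≠ 2) : (2 : F) ≠ 0 := by
  intro h
  have h' : ((2 : ℕ) : F) = 0 := by exact_mod_cast h
  rw [CharP.cast_eq_zero_iff F p 2] at h'
  exact hp ((Nat.prime_dvd_prime_iff_eq Fact.out Nat.prime_two).1 h')

/-- The case where `-1` is a square. -/
theorem case_sq (p : ℕ) [Fact p.Prime] [CharP F p] (hp : p ≠ 2) (i : F) (hi : i * i = -1)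
    (A B : Matrix.SpecialLinearGroup (Fin 2) F) (hA : tr2 A = 0) (hB : tr2 B = 0) :
    OddPow (A * B) ∨ ∃ C : Matrix.SpecialLinearGroup (Fin 2) F,
      IsConj (A : Matrix.ProjectiveSpecialLinearGroup (Fin 2) F) (C : Matrix.ProjectiveSpecialLinearGroup (Fin 2) F) ∧ (A : Matrix.ProjectiveSpecialLinearGroup (Fin 2) F) ≠ (C : Matrix.ProjectiveSpecialLinearGroup (Fin 2) F) ∧ (C : Matrix.ProjectiveSpecialLinearGroup (Fin 2) F) ≠ (B : Matrix.ProjectiveSpecialLinearGroup (Fin 2) F) ∧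
      OddPow (A * C) ∧ OddPow (B * C) := by
  have h2 : (2 : F) ≠ 0 := two_ne_zero_of_char p hp
  obtain ⟨hA1, hA2⟩ := tr2_zero_data A hA
  obtain ⟨hB1, hB2⟩ := tr2_zero_data B hB
  have hτ := tr2_mul_zero A B hA hB
  by_cases h1 : tr2 (A * B) = 2
  · left
    exact oddPow_of_unip p hp _ 1 (by ring) (by rw [h1]; ring)
  by_cases h1' : tr2 (A * B) = -2
  · left
    exact oddPow_of_unip p hp _ (-1) (by ring) (by rw [h1']; ring)
  right
  have hD : tr2 (A * B) + 2 ≠ 0 := fun h => h1' (by linear_combination h)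
  obtain ⟨e1, e2, e3⟩ := ident_sq (ent A 0 0) (ent A 0 1) (ent A 1 0) (ent B 0 0) (ent B 0 1)
    (ent B 1 0) i hA2 hB2 hi
  rw [← hτ] at e1 e2 e3
  obtain ⟨C, hC, hCtr⟩ := exists_trace_zero _ _ _ (tr2 (A * B) + 2) hD e1
  have hAC : tr2 (A * C) = -2 := by
    apply mul_left_cancel₀ hD
    rw [hCtr A hA]
    exact e2
  have hBC : tr2 (B * C) = 2 := by
    apply mul_left_cancel₀ hD
    rw [hCtr B hB]
    exact e3
  refine ⟨C, ?_, ?_, ?_, ?_, ?_⟩
  · exact isConj_of_tr2_zero_add A C hA hC 2 h2 (by rw [hAC]; ring)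
  · intro he
    obtain ⟨r, hr, hr1, hr2⟩ := tr2_of_mk_eq A C hA he
    have hr' : r = 1 := by
      rw [hAC] at hr1
      apply mul_left_cancel₀ h2
      linear_combination hr1
    have h3 := hr2 B
    rw [hBC, hr', one_mul, tr2_mul_comm B A] at h3
    exact h1 h3.symm
  · intro he
    obtain ⟨r, hr, hr1, hr2⟩ := tr2_of_mk_eq C B hC he
    have hr' : r = -1 := by
      rw [tr2_mul_comm C B, hBC] at hr1
      apply mul_left_cancel₀ h2
      linear_combination hr1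
    have h3 := hr2 A
    rw [hAC, hr'] at h3
    apply h1
    rw [h3]
    ring
  · exact oddPow_of_unip p hp _ (-1) (by ring) (by rw [hAC]; ring)
  · exact oddPow_of_unip p hp _ 1 (by ring) (by rw [hBC]; ring)

theorem sq_or_neg_sq [Fintype F] (hm1 : ¬ IsSquare (-1 : F)) (v : F) :
    IsSquare v ∨ IsSquare (-v) := by
  classical
  by_cases hv : v = 0
  · left
    rw [hv]
    exact IsSquare.zero
  by_cases hs : IsSquare v
  · exact Or.inl hs
  right
  have h1 := quadraticChar_neg_one_iff_not_isSquare.2 hs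
  have h2 := quadraticChar_neg_one_iff_not_isSquare.2 hm1
  have h3 : quadraticChar F (-v) = 1 := by
    have h4 : -v = (-1) * v := by ring
    rw [h4, map_mul, h1, h2]
    norm_num
  exact (quadraticChar_one_iff_isSquare (neg_ne_zero.2 hv)).1 h3

theorem exists_nonsq_sq_add_one [Fintype F] (hm1 : ¬ IsSquare (-1 : F)) :
    ∃ x : F, ¬ IsSquare (x * x + 1) := by
  by_contra hcon
  push Not at hcon
  have h : ∀ n : ℕ, IsSquare ((n : F)) := by
    intro n
    induction n with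
    | zero => simp
    | succ n ih =>
      obtain ⟨x, hx⟩ := ih
      rw [Nat.cast_succ, hx]
      exact hcon x
  apply hm1
  have h1 := h (Fintype.card F - 1)
  rw [Nat.cast_sub Fintype.card_pos, FiniteField.cast_card_eq_zero, Nat.cast_one, zero_sub] at h1
  exact h1

theorem exists_sq_quad [Fintype F] (hq : 4 ≤ Fintype.card F) (h2 : (2 : F) ≠ 0) (τ : F) :
    ∃ w : F, w ≠ 0 ∧ IsSquare (w * w + τ * w + 1) := by
  classical
  obtain ⟨r, hr⟩ : ∃ r : F, r ∉ ({0, 1 - τ / 2, -1 - τ / 2} : Finset F) := by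
    by_contra hcon
    push Not at hcon
    have h1 : (Finset.univ : Finset F) ⊆ {0, 1 - τ / 2, -1 - τ / 2} := fun x _ => hcon x
    have h2 := Finset.card_le_card h1
    have h3 : ({0, 1 - τ / 2, -1 - τ / 2} : Finset F).card ≤ 3 := Finset.card_le_three
    rw [Finset.card_univ] at h2
    omega
  simp only [Finset.mem_insert, Finset.mem_singleton, not_or] at hr
  obtain ⟨hr0, hr1, hr2⟩ := hr
  have h4 : (4 : F) ≠ 0 := by
    have h5 : (4 : F) = 2 * 2 := by norm_num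
    rw [h5]
    exact mul_ne_zero h2 h2
  refine ⟨((4 - τ * τ) / 4 / r - r - τ) / 2, ?_, ((4 - τ * τ) / 4 / r + r) / 2, ?_⟩
  · intro h
    have hX : (4 - τ * τ) / 4 / r - r - τ = 0 := (div_eq_zero_iff.1 h).resolve_right h2
    have hX2 : (4 - τ * τ) / 4 / r = r + τ := by linear_combination hX
    rw [div_eq_iff hr0, div_eq_iff h4] at hX2
    have h6 : (r - (1 - τ / 2)) * (r - (-1 - τ / 2)) = 0 := by
      field_simp
      linear_combination (-1 : F) * hX2
    rcases mul_eq_zero.1 h6 with h5 | h5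
    · exact hr1 (sub_eq_zero.1 h5)
    · exact hr2 (sub_eq_zero.1 h5)
  · field_simp
    ring

theorem signed_sq [Fintype F] (hm1 : ¬ IsSquare (-1 : F)) (w : F) (hw : w ≠ 0) :
    ∃ s c₁ : F, (s = 1 ∨ s = -1) ∧ c₁ ≠ 0 ∧ w = s * (c₁ * c₁) := by
  rcases sq_or_neg_sq hm1 w with ⟨e, he⟩ | ⟨e, he⟩
  · refine ⟨1, e, Or.inl rfl, ?_, by rw [one_mul]; exact he⟩
    rintro rfl
    apply hw
    rw [he]
    ring
  · refine ⟨-1, e, Or.inr rfl, ?_, by rw [← he]; ring⟩
    rintro rfl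
    apply hw
    have h1 : -w = 0 := by rw [he]; ring
    exact neg_eq_zero.1 h1

theorem exists_s_c_m [Fintype F] (hq : 4 ≤ Fintype.card F) (h2 : (2 : F) ≠ 0)
    (hm1 : ¬ IsSquare (-1 : F)) (τ : F) (hτ : ¬ IsSquare (τ * τ - 4)) :
    ∃ s c₁ m : F, (s = 1 ∨ s = -1) ∧ c₁ ≠ 0 ∧ c₁ * c₁ ≠ 1 ∧
      m * m = -(2 + s * τ) * (c₁ ^ 4 + s * τ * c₁ ^ 2 + 1) := by
  obtain ⟨κ, hκ⟩ : IsSquare (4 - τ * τ) := by
    rcases sq_or_neg_sq hm1 (τ * τ - 4) with h | h
    · exact absurd h hτ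
    · have h1 : -(τ * τ - 4) = 4 - τ * τ := by ring
      rwa [h1] at h
  have hκ0 : κ ≠ 0 := by
    rintro rfl
    apply hτ
    exact ⟨0, by linear_combination (-1 : F) * hκ⟩
  have hsame : IsSquare (2 + τ) ↔ IsSquare (2 - τ) := by
    constructor
    · rintro ⟨α, hα⟩
      have hα0 : α ≠ 0 := by
        rintro rfl
        apply hκ0
        have h1 : κ * κ = 0 := by linear_combination (-1 : F) * hκ + (2 - τ) * hα
        exact mul_self_eq_zero.1 h1
      refine ⟨κ / α, ?_⟩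
      field_simp
      linear_combination hκ + (τ - 2) * hα
    · rintro ⟨α, hα⟩
      have hα0 : α ≠ 0 := by
        rintro rfl
        apply hκ0
        have h1 : κ * κ = 0 := by linear_combination (-1 : F) * hκ + (2 + τ) * hα
        exact mul_self_eq_zero.1 h1
      refine ⟨κ / α, ?_⟩
      field_simp
      linear_combination hκ + (-τ - 2) * hα
  obtain ⟨w, hw0, hw⟩ : ∃ w : F, w ≠ 0 ∧
      (IsSquare (w * w + τ * w + 1) ↔ ¬ IsSquare (2 + τ)) := by
    by_cases hs : IsSquare (2 + τ)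
    · obtain ⟨x, hx⟩ := exists_nonsq_sq_add_one hm1
      have hns : ¬ IsSquare ((κ * x / 2 - τ / 2) * (κ * x / 2 - τ / 2) +
          τ * (κ * x / 2 - τ / 2) + 1) := by
        rintro ⟨y, hy⟩
        apply hx
        refine ⟨2 * y / κ, ?_⟩
        rw [div_mul_div_comm, eq_div_iff (mul_ne_zero hκ0 hκ0)]
        field_simp at hy
        linear_combination hy - hκ
      refine ⟨κ * x / 2 - τ / 2, ?_, ?_⟩
      · intro h0
        apply hns
        rw [h0]
        exact ⟨1, by ring⟩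
      · exact ⟨fun h => absurd h hns, fun h => absurd hs h⟩
    · obtain ⟨w, hw0, hw⟩ := exists_sq_quad hq h2 τ
      exact ⟨w, hw0, ⟨fun _ => hs, fun _ => hw⟩⟩
  obtain ⟨s, c₁, hs, hc0, hwc⟩ := signed_sq hm1 w hw0
  have hfs : IsSquare (2 + s * τ) ↔ IsSquare (2 + τ) := by
    rcases hs with rfl | rfl
    · rw [one_mul]
    · have h1 : 2 + -1 * τ = 2 - τ := by ring
      rw [h1, hsame]
  have hss : s * s = 1 := by rcases hs with rfl | rfl <;> ring
  have hfw : w * w + τ * w + 1 = c₁ ^ 4 + s * τ * c₁ ^ 2 + 1 := by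
    rw [hwc]
    linear_combination (c₁ ^ 4) * hss
  have hc1 : c₁ * c₁ ≠ 1 := by
    intro h
    rw [h, mul_one] at hwc
    have h1 : w * w + τ * w + 1 = 2 + s * τ := by
      rw [hwc]
      linear_combination hss
    rw [h1, hfs] at hw
    exact iff_not_self hw
  by_cases hs2 : IsSquare (2 + τ)
  · obtain ⟨α, hα⟩ := hfs.2 hs2
    have hnw : ¬ IsSquare (w * w + τ * w + 1) := fun h => (hw.1 h) hs2
    obtain ⟨β, hβ⟩ := (sq_or_neg_sq hm1 _).resolve_left hnw
    refine ⟨s, c₁, α * β, hs, hc0, hc1, ?_⟩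
    rw [← hfw]
    linear_combination (-β * β) * hα - (2 + s * τ) * hβ
  · obtain ⟨β, hβ⟩ := hw.2 hs2
    have hns : ¬ IsSquare (2 + s * τ) := fun h => hs2 (hfs.1 h)
    obtain ⟨α, hα⟩ := (sq_or_neg_sq hm1 _).resolve_left hns
    refine ⟨s, c₁, α * β, hs, hc0, hc1, ?_⟩
    rw [← hfw]
    linear_combination (-β * β) * hα + (2 + s * τ) * hβ

theorem mid_of_data [Fintype F] (hq : Fintype.card F % 4 = 3) (hm1 : ¬ IsSquare (-1 : F))
    (A B : Matrix.SpecialLinearGroup (Fin 2) F) (hA : tr2 A = 0) (hB : tr2 B = 0) (c₁ m : F) (hc : c₁ ≠ 0) (hc1 : c₁ * c₁ ≠ 1)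
    (hΔ : tr2 (A * B) * tr2 (A * B) - 4 ≠ 0)
    (hm : m * m = -(2 + tr2 (A * B)) * (c₁ ^ 4 + tr2 (A * B) * c₁ ^ 2 + 1)) :
    ∃ C : Matrix.SpecialLinearGroup (Fin 2) F,
      IsConj (A : Matrix.ProjectiveSpecialLinearGroup (Fin 2) F) (C : Matrix.ProjectiveSpecialLinearGroup (Fin 2) F) ∧ (A : Matrix.ProjectiveSpecialLinearGroup (Fin 2) F) ≠ (C : Matrix.ProjectiveSpecialLinearGroup (Fin 2) F) ∧ (C : Matrix.ProjectiveSpecialLinearGroup (Fin 2) F) ≠ (B : Matrix.ProjectiveSpecialLinearGroup (Fin 2) F) ∧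
      OddPow (A * C) ∧ OddPow (B * C) := by
  obtain ⟨hA1, hA2⟩ := tr2_zero_data A hA
  obtain ⟨hB1, hB2⟩ := tr2_zero_data B hB
  have hτ := tr2_mul_zero A B hA hB
  obtain ⟨v, hv⟩ : ∃ v : F, v = c₁⁻¹ := ⟨_, rfl⟩
  have hinv : c₁ * v = 1 := by
    rw [hv]
    exact mul_inv_cancel₀ hc
  have hG : (m * v) * (m * v) =
      (2 + tr2 (A * B)) * (2 - tr2 (A * B) - (c₁ + v) * (c₁ + v)) := by
    linear_combination (v * v) * hm +
      (-(2 + tr2 (A * B)) * (-2 + (tr2 (A * B) + c₁ * c₁) * (c₁ * v + 1))) * hinv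
  rw [hτ] at hG hΔ
  obtain ⟨e1, e2, e3⟩ := ident_ns (ent A 0 0) (ent A 0 1) (ent A 1 0) (ent B 0 0) (ent B 0 1)
    (ent B 1 0) (c₁ + v) (m * v) hA2 hB2 hG
  obtain ⟨C, hC, hCtr⟩ := exists_trace_zero _ _ _ _ hΔ e1
  have hAC : tr2 (A * C) = c₁ + v := by
    apply mul_left_cancel₀ hΔ
    rw [hCtr A hA]
    exact e2
  have hBC : tr2 (B * C) = c₁ + v := by
    apply mul_left_cancel₀ hΔ
    rw [hCtr B hB]
    exact e3
  have hu4 : (c₁ + v) * (c₁ + v) ≠ 4 := by
    intro h4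
    apply hc1
    have h5 : (c₁ * c₁ - 1) * (c₁ * c₁ - 1) = 0 := by
      linear_combination (c₁ * c₁) * h4 + (-2 * c₁ * c₁ - (c₁ * v + 1)) * hinv
    exact sub_eq_zero.1 (mul_self_eq_zero.1 h5)
  have hv0 : v ≠ 0 := by
    rintro rfl
    simp at hinv
  refine ⟨C, ?_, ?_, ?_, ?_, ?_⟩
  · rcases sq_or_neg_sq hm1 c₁ with ⟨e, he⟩ | ⟨e, he⟩
    · have he0 : e ≠ 0 := by
        rintro rfl
        apply hc
        rw [he]
        ring
      have hc2 : c₁ + 1 ≠ 0 := by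
        intro h
        apply hc1
        have h1 : c₁ = -1 := by linear_combination h
        rw [h1]
        ring
      apply isConj_of_tr2_zero_sub A C hA hC ((c₁ + 1) * e * v)
        (mul_ne_zero (mul_ne_zero hc2 he0) hv0)
      rw [hAC]
      linear_combination ((c₁ + 1) ^ 2 * v ^ 2) * he + (-(c₁ + 2 + (c₁ + 1) ^ 2 * v)) * hinv
    · have he0 : e ≠ 0 := by
        rintro rfl
        apply hc
        have h1 : -c₁ = 0 := by rw [he]; ring
        exact neg_eq_zero.1 h1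
      have hc2 : c₁ - 1 ≠ 0 := by
        intro h
        apply hc1
        have h1 : c₁ = 1 := by linear_combination h
        rw [h1]
        ring
      apply isConj_of_tr2_zero_add A C hA hC ((c₁ - 1) * e * v)
        (mul_ne_zero (mul_ne_zero hc2 he0) hv0)
      rw [hAC]
      linear_combination ((c₁ - 1) ^ 2 * v ^ 2) * he + (c₁ - 2 + (c₁ - 1) ^ 2 * v) * hinv
  · intro he
    obtain ⟨r, hr, hr1, -⟩ := tr2_of_mk_eq A C hA he
    apply hu4
    rw [← hAC, hr1]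
    linear_combination 4 * hr
  · intro he
    obtain ⟨r, hr, hr1, -⟩ := tr2_of_mk_eq C B hC he
    apply hu4
    rw [← hBC, tr2_mul_comm B C, hr1]
    linear_combination 4 * hr
  · exact oddPow_of_split hq _ c₁ hc hc1 (by rw [hAC, hv])
  · exact oddPow_of_split hq _ c₁ hc hc1 (by rw [hBC, hv])

/-- The case where `-1` is not a square. -/
theorem case_nonsq [Fintype F] (p : ℕ) [Fact p.Prime] [CharP F p] (hp : p ≠ 2)
    (hq : 4 ≤ Fintype.card F) (hm1 : ¬ IsSquare (-1 : F))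
    (A B : Matrix.SpecialLinearGroup (Fin 2) F) (hA : tr2 A = 0) (hB : tr2 B = 0) :
    OddPow (A * B) ∨ ∃ C : Matrix.SpecialLinearGroup (Fin 2) F,
      IsConj (A : Matrix.ProjectiveSpecialLinearGroup (Fin 2) F) (C : Matrix.ProjectiveSpecialLinearGroup (Fin 2) F) ∧ (A : Matrix.ProjectiveSpecialLinearGroup (Fin 2) F) ≠ (C : Matrix.ProjectiveSpecialLinearGroup (Fin 2) F) ∧ (C : Matrix.ProjectiveSpecialLinearGroup (Fin 2) F) ≠ (B : Matrix.ProjectiveSpecialLinearGroup (Fin 2) F) ∧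
      OddPow (A * C) ∧ OddPow (B * C) := by
  have h2 : (2 : F) ≠ 0 := two_ne_zero_of_char p hp
  have hq3 : Fintype.card F % 4 = 3 := by
    by_contra h
    exact hm1 (FiniteField.isSquare_neg_one_iff.2 h)
  by_cases hsq : IsSquare (tr2 (A * B) * tr2 (A * B) - 4)
  · left
    obtain ⟨δ, hδ⟩ := hsq
    by_cases hδ0 : δ = 0
    · have h4 : (tr2 (A * B) - 2) * (tr2 (A * B) + 2) = 0 := by
        rw [hδ0] at hδ
        linear_combination hδ
      rcases mul_eq_zero.1 h4 with h | h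
      · exact oddPow_of_unip p hp _ 1 (by ring) (by linear_combination h)
      · exact oddPow_of_unip p hp _ (-1) (by ring) (by linear_combination h)
    · have hprod : ((tr2 (A * B) + δ) / 2) * ((tr2 (A * B) - δ) / 2) = 1 := by
        field_simp
        linear_combination hδ
      have hc0 : (tr2 (A * B) + δ) / 2 ≠ 0 := left_ne_zero_of_mul_eq_one hprod
      have hinv : ((tr2 (A * B) + δ) / 2)⁻¹ = (tr2 (A * B) - δ) / 2 :=
        inv_eq_of_mul_eq_one_right hprod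
      apply oddPow_of_split hq3 _ ((tr2 (A * B) + δ) / 2) hc0
      · intro h
        have h5 : (tr2 (A * B) + δ) / 2 = (tr2 (A * B) - δ) / 2 :=
          mul_left_cancel₀ hc0 (h.trans hprod.symm)
        apply hδ0
        have h6 : δ = ((tr2 (A * B) + δ) / 2) - ((tr2 (A * B) - δ) / 2) := by
          field_simp
          ring
        rw [h6, h5, sub_self]
      · rw [hinv]
        field_simp
        ring
  · right
    obtain ⟨s, c₁, m, hs, hc0, hc1, hm⟩ := exists_s_c_m hq h2 hm1 _ hsq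
    have hΔ : tr2 (A * B) * tr2 (A * B) - 4 ≠ 0 := by
      intro h
      apply hsq
      rw [h]
      exact IsSquare.zero
    rcases hs with rfl | rfl
    · simp only [one_mul] at hm
      exact mid_of_data hq3 hm1 A B hA hB c₁ m hc0 hc1 hΔ hm
    · have hB' : tr2 (negOne * B) = 0 := by
        rw [tr2, negOne_mul_ent, negOne_mul_ent]
        rw [tr2] at hB
        linear_combination (-1 : F) * hB
      have hτ' : tr2 (A * (negOne * B)) = - tr2 (A * B) := by
        rw [tr2_mul, tr2_mul]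
        simp only [negOne_mul_ent]
        ring
      obtain ⟨C, h1, h2', h3, h4, h5⟩ := mid_of_data hq3 hm1 A (negOne * B) hA hB' c₁ m hc0 hc1
        (by rw [hτ']; intro h; apply hΔ; linear_combination h)
        (by rw [hτ']; linear_combination hm)
      refine ⟨C, h1, h2', ?_, h4, ?_⟩
      · rwa [psl_mk_negOne_mul] at h3
      · apply oddPow_negOne_mul
        rwa [mul_assoc] at h5

end Cfsg.Agent.H41
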