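import Mathlib
import Cfsg.Agent.H41.InvGraphB

set_option autoImplicit false

namespace Cfsg.Agent.H41

open Matrix

variable {F : Type*} [Field F]

theorem isConj_of_entries (A C : Matrix.SpecialLinearGroup (Fin 2) F) (m00 m01 m10 m11 δ : F) (hδ : δ ≠ 0)
    (hdet : m00 * m11 - m01 * m10 = δ * δ)
    (h00 : m00 * ent A 0 0 + m01 * ent A 1 0 = ent C 0 0 * m00 + ent C 0 1 * m10)
    (h01 : m00 * ent A 0 1 + m01 * ent A 1 1 = ent C 0 0 * m01 + ent C 0 1 * m11)
    (h10 : m10 * ent A 0 0 + m11 * ent A 1 0 = ent C 1 0 * m00 + ent C 1 1 * m10)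
    (h11 : m10 * ent A 0 1 + m11 * ent A 1 1 = ent C 1 0 * m01 + ent C 1 1 * m11) :
    IsConj (A : Matrix.ProjectiveSpecialLinearGroup (Fin 2) F) (C : Matrix.ProjectiveSpecialLinearGroup (Fin 2) F) := by
  apply isConj_of_intertwine A C !![m00, m01; m10, m11] δ hδ
  · rw [Matrix.det_fin_two_of]
    exact hdet
  · ext i j
    fin_cases i <;> fin_cases j
    · simpa [Matrix.mul_apply, Fin.sum_univ_two] using h00
    · simpa [Matrix.mul_apply, Fin.sum_univ_two] using h01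
    · simpa [Matrix.mul_apply, Fin.sum_univ_two] using h10
    · simpa [Matrix.mul_apply, Fin.sum_univ_two] using h11

theorem offdiag_of_mk_ne_one_char_two [CharP F 2] (A : Matrix.SpecialLinearGroup (Fin 2) F) (hA : tr2 A = 0)
    (hA1 : (A : Matrix.ProjectiveSpecialLinearGroup (Fin 2) F) ≠ 1) : ent A 0 1 ≠ 0 ∨ ent A 1 0 ≠ 0 := by
  have h2 : (2 : F) = 0 := CharP.ofNat_eq_zero F 2
  rcases nonscalar_of_mk_ne_one A hA1 with h | h | h
  · exact Or.inl h
  · exact Or.inr h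
  · exfalso
    apply h
    rw [(tr2_zero_data A hA).1]
    linear_combination (ent A 0 0) * h2

/-- The characteristic two case. -/
theorem case_char_two [Fintype F] [CharP F 2] (A B : Matrix.SpecialLinearGroup (Fin 2) F) (hA : tr2 A = 0) (hB : tr2 B = 0)
    (hA1 : (A : Matrix.ProjectiveSpecialLinearGroup (Fin 2) F) ≠ 1) (hB1 : (B : Matrix.ProjectiveSpecialLinearGroup (Fin 2) F) ≠ 1) :
    OddPow (A * B) ∨ ∃ C : Matrix.SpecialLinearGroup (Fin 2) F,
      IsConj (A : Matrix.ProjectiveSpecialLinearGroup (Fin 2) F) (C : Matrix.ProjectiveSpecialLinearGroup (Fin 2) F) ∧ (A : Matrix.ProjectiveSpecialLinearGroup (Fin 2) F) ≠ (C : Matrix.ProjectiveSpecialLinearGroup (Fin 2) F) ∧ (C : Matrix.ProjectiveSpecialLinearGroup (Fin 2) F) ≠ (B : Matrix.ProjectiveSpecialLinearGroup (Fin 2) F) ∧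
      OddPow (A * C) ∧ OddPow (B * C) := by
  have h2 : (2 : F) = 0 := CharP.ofNat_eq_zero F 2
  by_cases hτ0 : tr2 (A * B) = 0
  swap
  · exact Or.inl (oddPow_char_two _ hτ0)
  right
  obtain ⟨hA11, hA2⟩ := tr2_zero_data A hA
  obtain ⟨hB11, hB2⟩ := tr2_zero_data B hB
  have hτ := tr2_mul_zero A B hA hB
  rw [hτ0] at hτ
  have hbc := offdiag_of_mk_ne_one_char_two A hA hA1
  have hbc2 := offdiag_of_mk_ne_one_char_two B hB hB1
  have key : ∀ C : Matrix.SpecialLinearGroup (Fin 2) F, tr2 C = 0 → IsConj (A : Matrix.ProjectiveSpecialLinearGroup (Fin 2) F) (C : Matrix.ProjectiveSpecialLinearGroup (Fin 2) F) → tr2 (A * C) ≠ 0 →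
      tr2 (B * C) ≠ 0 → ∃ C : Matrix.SpecialLinearGroup (Fin 2) F,
      IsConj (A : Matrix.ProjectiveSpecialLinearGroup (Fin 2) F) (C : Matrix.ProjectiveSpecialLinearGroup (Fin 2) F) ∧ (A : Matrix.ProjectiveSpecialLinearGroup (Fin 2) F) ≠ (C : Matrix.ProjectiveSpecialLinearGroup (Fin 2) F) ∧ (C : Matrix.ProjectiveSpecialLinearGroup (Fin 2) F) ≠ (B : Matrix.ProjectiveSpecialLinearGroup (Fin 2) F) ∧
      OddPow (A * C) ∧ OddPow (B * C) := by
    intro C hC hconj h1 h2'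
    refine ⟨C, hconj, ?_, ?_, oddPow_char_two _ h1, oddPow_char_two _ h2'⟩
    · intro he
      obtain ⟨r, hr, hr1, -⟩ := tr2_of_mk_eq A C hA he
      apply h1
      rw [hr1]
      linear_combination (-r) * h2
    · intro he
      obtain ⟨r, hr, hr1, -⟩ := tr2_of_mk_eq C B hC he
      apply h2'
      rw [tr2_mul_comm, hr1]
      linear_combination (-r) * h2
  by_cases hc : ent A 1 0 = 0
  · have hb : ent A 0 1 ≠ 0 := hbc.resolve_right (not_not.2 hc)
    have hc2 : ent B 1 0 = 0 := by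
      have h3 : ent A 0 1 * ent B 1 0 = 0 := by
        rw [hc] at hτ
        linear_combination (-1 : F) * hτ - (ent A 0 0 * ent B 0 0) * h2
      exact (mul_eq_zero.1 h3).resolve_left hb
    have hb2 : ent B 0 1 ≠ 0 := hbc2.resolve_right (not_not.2 hc2)
    have hdet : (ent A 0 0 - ent A 0 1) * (-(ent A 0 0 - ent A 0 1)) -
        ent A 0 1 * (2 * ent A 0 0 + ent A 1 0 - ent A 0 1) = 1 := by
      linear_combination (-1 : F) * hA2
    apply key (mkSL (ent A 0 0 - ent A 0 1) (ent A 0 1) (2 * ent A 0 0 + ent A 1 0 - ent A 0 1)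
      (-(ent A 0 0 - ent A 0 1)) hdet)
    · rw [tr2, mkSL00, mkSL11]
      ring
    · apply isConj_of_entries A _ 1 0 1 1 1 one_ne_zero (by ring)
      · rw [mkSL00, mkSL01]
        ring
      · rw [mkSL00, mkSL01]
        ring
      · rw [mkSL10, mkSL11]
        ring
      · rw [mkSL10, mkSL11, hA11]
        ring
    · rw [tr2_mul, mkSL00, mkSL01, mkSL10, mkSL11, hA11]
      intro h
      apply hb
      have h3 : ent A 0 1 * ent A 0 1 = 0 := by
        linear_combination (-1 : F) * h + 2 * hA2 - h2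
      exact mul_self_eq_zero.1 h3
    · rw [tr2_mul, mkSL00, mkSL01, mkSL10, mkSL11, hB11]
      intro h
      have h3 : ent A 0 1 * ent B 0 1 = 0 := by
        linear_combination (-1 : F) * h - hτ +
          (ent A 0 0 * ent B 0 1 - ent B 0 0 * ent A 0 1) * h2
      rcases mul_eq_zero.1 h3 with h4 | h4
      · exact hb h4
      · exact hb2 h4
  · have hc2 : ent B 1 0 ≠ 0 := by
      intro hc2
      have hb2 : ent B 0 1 ≠ 0 := hbc2.resolve_right (not_not.2 hc2)
      have h3 : ent A 1 0 * ent B 0 1 = 0 := by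
        rw [hc2] at hτ
        linear_combination (-1 : F) * hτ - (ent A 0 0 * ent B 0 0) * h2
      rcases mul_eq_zero.1 h3 with h4 | h4
      · exact hc h4
      · exact hb2 h4
    have hdet : (ent A 0 0 + ent A 1 0) * (-(ent A 0 0 + ent A 1 0)) -
        (ent A 0 1 - 2 * ent A 0 0 - ent A 1 0) * ent A 1 0 = 1 := by
      linear_combination (-1 : F) * hA2
    apply key (mkSL (ent A 0 0 + ent A 1 0) (ent A 0 1 - 2 * ent A 0 0 - ent A 1 0) (ent A 1 0)
      (-(ent A 0 0 + ent A 1 0)) hdet)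
    · rw [tr2, mkSL00, mkSL11]
      ring
    · apply isConj_of_entries A _ 1 1 0 1 1 one_ne_zero (by ring)
      · rw [mkSL00, mkSL01]
        ring
      · rw [mkSL00, mkSL01, hA11]
        ring
      · rw [mkSL10, mkSL11]
        ring
      · rw [mkSL10, mkSL11, hA11]
        ring
    · rw [tr2_mul, mkSL00, mkSL01, mkSL10, mkSL11, hA11]
      intro h
      apply hc
      have h3 : ent A 1 0 * ent A 1 0 = 0 := by
        linear_combination (-1 : F) * h + 2 * hA2 - h2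
      exact mul_self_eq_zero.1 h3
    · rw [tr2_mul, mkSL00, mkSL01, mkSL10, mkSL11, hB11]
      intro h
      have h3 : ent A 1 0 * ent B 1 0 = 0 := by
        linear_combination (-1 : F) * h - hτ +
          (ent B 0 0 * ent A 1 0 - ent A 0 0 * ent B 1 0) * h2
      rcases mul_eq_zero.1 h3 with h4 | h4
      · exact hc h4
      · exact hc2 h4

theorem anticomm_of_tr2 (A B : Matrix.SpecialLinearGroup (Fin 2) F) (hA : tr2 A = 0) (hB : tr2 B = 0) (h : tr2 (A * B) = 0) :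
    (A : Matrix (Fin 2) (Fin 2) F) * (B : Matrix (Fin 2) (Fin 2) F) = -((B : Matrix (Fin 2) (Fin 2) F) * (A : Matrix (Fin 2) (Fin 2) F)) := by
  have hτ := tr2_mul_zero A B hA hB
  rw [h] at hτ
  obtain ⟨hA1, -⟩ := tr2_zero_data A hA
  obtain ⟨hB1, -⟩ := tr2_zero_data B hB
  have hA1' : (A : Matrix (Fin 2) (Fin 2) F) 1 1 = -(A : Matrix (Fin 2) (Fin 2) F) 0 0 := hA1
  have hB1' : (B : Matrix (Fin 2) (Fin 2) F) 1 1 = -(B : Matrix (Fin 2) (Fin 2) F) 0 0 := hB1
  have hτ' : 0 = 2 * (A : Matrix (Fin 2) (Fin 2) F) 0 0 * (B : Matrix (Fin 2) (Fin 2) F) 0 0 + (A : Matrix (Fin 2) (Fin 2) F) 0 1 * (B : Matrix (Fin 2) (Fin 2) F) 1 0 +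
      (A : Matrix (Fin 2) (Fin 2) F) 1 0 * (B : Matrix (Fin 2) (Fin 2) F) 0 1 := hτ
  ext i j
  fin_cases i <;> fin_cases j <;>
    simp [Matrix.mul_apply, Fin.sum_univ_two, hA1', hB1'] <;>
    first | linear_combination hτ' | linear_combination (-1 : F) * hτ' | ring1

theorem det_one_add_of_tr2 (A : Matrix.SpecialLinearGroup (Fin 2) F) (hA : tr2 A = 0) : (1 + (A : Matrix (Fin 2) (Fin 2) F)).det = 2 := by
  have hdet := sl2_det A
  have hA' : ent A 0 0 + ent A 1 1 = 0 := hA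
  rw [Matrix.det_fin_two]
  simp only [Matrix.add_apply, Matrix.one_apply_eq, Matrix.one_apply_ne, ne_eq, zero_ne_one,
    one_ne_zero, not_false_eq_true, zero_add]
  have e : (1 + (A : Matrix (Fin 2) (Fin 2) F) 0 0) * (1 + (A : Matrix (Fin 2) (Fin 2) F) 1 1) - (A : Matrix (Fin 2) (Fin 2) F) 0 1 * (A : Matrix (Fin 2) (Fin 2) F) 1 0 =
      1 + (ent A 0 0 + ent A 1 1) + (ent A 0 0 * ent A 1 1 - ent A 0 1 * ent A 1 0) := by
    ring
  rw [e, hA', hdet]
  norm_num

theorem isConj_of_anticomm (h2 : (2 : F) ≠ 0) (A B : Matrix.SpecialLinearGroup (Fin 2) F) (hA : tr2 A = 0) (hB : tr2 B = 0)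
    (h : tr2 (A * B) = 0) : IsConj (A : Matrix.ProjectiveSpecialLinearGroup (Fin 2) F) (B : Matrix.ProjectiveSpecialLinearGroup (Fin 2) F) := by
  have hAA := sq_of_tr2_zero A hA
  have hBB := sq_of_tr2_zero B hB
  have hAB := anticomm_of_tr2 A B hA hB h
  apply isConj_of_intertwine A B ((1 + (A : Matrix (Fin 2) (Fin 2) F)) * (1 + (B : Matrix (Fin 2) (Fin 2) F))) 2 h2
  · rw [Matrix.det_mul, det_one_add_of_tr2 A hA, det_one_add_of_tr2 B hB]
  · have e1 : (A : Matrix (Fin 2) (Fin 2) F) * (B : Matrix (Fin 2) (Fin 2) F) * (A : Matrix (Fin 2) (Fin 2) F) = (B : Matrix (Fin 2) (Fin 2) F) := by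
      rw [hAB, neg_mul, mul_assoc, hAA]
      simp
    have e2 : (B : Matrix (Fin 2) (Fin 2) F) * (A : Matrix (Fin 2) (Fin 2) F) * (B : Matrix (Fin 2) (Fin 2) F) = (A : Matrix (Fin 2) (Fin 2) F) := by
      rw [mul_assoc, hAB, mul_neg, ← mul_assoc, hBB]
      simp
    have l1 : (1 + (A : Matrix (Fin 2) (Fin 2) F)) * (1 + (B : Matrix (Fin 2) (Fin 2) F)) * (A : Matrix (Fin 2) (Fin 2) F) =
        (A : Matrix (Fin 2) (Fin 2) F) + (B : Matrix (Fin 2) (Fin 2) F) * (A : Matrix (Fin 2) (Fin 2) F) + (A : Matrix (Fin 2) (Fin 2) F) * (A : Matrix (Fin 2) (Fin 2) F) +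
          (A : Matrix (Fin 2) (Fin 2) F) * (B : Matrix (Fin 2) (Fin 2) F) * (A : Matrix (Fin 2) (Fin 2) F) := by
      noncomm_ring
    have l2 : (B : Matrix (Fin 2) (Fin 2) F) * ((1 + (A : Matrix (Fin 2) (Fin 2) F)) * (1 + (B : Matrix (Fin 2) (Fin 2) F))) =
        (B : Matrix (Fin 2) (Fin 2) F) + (B : Matrix (Fin 2) (Fin 2) F) * (B : Matrix (Fin 2) (Fin 2) F) + (B : Matrix (Fin 2) (Fin 2) F) * (A : Matrix (Fin 2) (Fin 2) F) +
          (B : Matrix (Fin 2) (Fin 2) F) * (A : Matrix (Fin 2) (Fin 2) F) * (B : Matrix (Fin 2) (Fin 2) F) := by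
      noncomm_ring
    rw [l1, l2, hAA, hBB, e1, e2]
    abel

/-- In odd characteristic: a conjugate involution with product of order two. -/
theorem exists_anti_odd (p : ℕ) [Fact p.Prime] [CharP F p] (hp : p ≠ 2) (A : Matrix.SpecialLinearGroup (Fin 2) F)
    (hA : tr2 A = 0) :
    ∃ B : Matrix.SpecialLinearGroup (Fin 2) F, tr2 B = 0 ∧ IsConj (A : Matrix.ProjectiveSpecialLinearGroup (Fin 2) F) (B : Matrix.ProjectiveSpecialLinearGroup (Fin 2) F) ∧ tr2 (A * B) = 0 ∧
      ((A * B : Matrix.SpecialLinearGroup (Fin 2) F) : Matrix.ProjectiveSpecialLinearGroup (Fin 2) F) ≠ 1 := by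
  have h2 : (2 : F) ≠ 0 := two_ne_zero_of_char p hp
  have : NeZero p := ⟨(Fact.out : p.Prime).ne_zero⟩
  obtain ⟨x, y, hxy⟩ := CharP.sq_add_sq F p (-1)
  obtain ⟨P, hP⟩ : ∃ P : F, P = (x : F) := ⟨_, rfl⟩
  obtain ⟨R, hR⟩ : ∃ R : F, R = (y : F) := ⟨_, rfl⟩
  have hPR : P * P + R * R = -1 := by
    rw [hP, hR]
    push_cast at hxy
    linear_combination hxy
  obtain ⟨hA11, hA2⟩ := tr2_zero_data A hA
  have key : ∀ B : Matrix.SpecialLinearGroup (Fin 2) F, tr2 B = 0 → tr2 (A * B) = 0 →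
      ∃ B : Matrix.SpecialLinearGroup (Fin 2) F, tr2 B = 0 ∧ IsConj (A : Matrix.ProjectiveSpecialLinearGroup (Fin 2) F) (B : Matrix.ProjectiveSpecialLinearGroup (Fin 2) F) ∧ tr2 (A * B) = 0 ∧
      ((A * B : Matrix.SpecialLinearGroup (Fin 2) F) : Matrix.ProjectiveSpecialLinearGroup (Fin 2) F) ≠ 1 := by
    intro B hB hAB
    refine ⟨B, hB, isConj_of_anticomm h2 A B hA hB hAB, hAB, ?_⟩
    intro h
    obtain ⟨r, hr, hmat⟩ := (psl_mk_eq_one_iff _).1 h
    have e00 : ent (A * B) 0 0 = r := by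
      have e : ent (A * B) 0 0 = (r • (1 : Matrix (Fin 2) (Fin 2) F)) 0 0 := congrFun (congrFun hmat 0) 0
      rw [e]
      simp
    have e11 : ent (A * B) 1 1 = r := by
      have e : ent (A * B) 1 1 = (r • (1 : Matrix (Fin 2) (Fin 2) F)) 1 1 := congrFun (congrFun hmat 1) 1
      rw [e]
      simp
    have h3 : r = 0 := by
      rw [tr2, e00, e11] at hAB
      apply mul_left_cancel₀ h2
      linear_combination hAB
    rw [h3] at hr
    simp at hr
  by_cases hc : ent A 1 0 = 0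
  · by_cases hb : ent A 0 1 = 0
    · apply key (mkSL 0 1 (-1) 0 (by ring))
      · rw [tr2, mkSL00, mkSL11]
        ring
      · rw [tr2_mul, mkSL00, mkSL01, mkSL10, mkSL11, hb, hc]
        ring
    · obtain ⟨bi, hbi⟩ : ∃ bi : F, ent A 0 1 * bi = 1 := ⟨_, mul_inv_cancel₀ hb⟩
      have hdet : (-P - R * ent A 0 0) * (P + R * ent A 0 0) - (-R * ent A 0 1) *
          ((2 * ent A 0 0 * P + R * (ent A 0 0 * ent A 0 0 - 1)) * bi) = 1 := by
        linear_combination (-1 : F) * hPR +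
          (R * (2 * ent A 0 0 * P + R * (ent A 0 0 * ent A 0 0 - 1))) * hbi
      apply key (mkSL (-P - R * ent A 0 0) (-R * ent A 0 1)
        ((2 * ent A 0 0 * P + R * (ent A 0 0 * ent A 0 0 - 1)) * bi) (P + R * ent A 0 0) hdet)
      · rw [tr2, mkSL00, mkSL11]
        ring
      · rw [tr2_mul, mkSL00, mkSL01, mkSL10, mkSL11, hA11]
        linear_combination (-R) * hA2 +
          (2 * ent A 0 0 * P + R * (ent A 0 0 * ent A 0 0 - 1)) * hbi
  · obtain ⟨ci, hci⟩ : ∃ ci : F, ent A 1 0 * ci = 1 := ⟨_, mul_inv_cancel₀ hc⟩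
    have hdet : (-P - R * ent A 0 0) * (P + R * ent A 0 0) -
        ((2 * ent A 0 0 * P + R * (ent A 0 0 * ent A 0 0 - 1)) * ci) * (-R * ent A 1 0) = 1 := by
      linear_combination (-1 : F) * hPR +
        (R * (2 * ent A 0 0 * P + R * (ent A 0 0 * ent A 0 0 - 1))) * hci
    apply key (mkSL (-P - R * ent A 0 0)
      ((2 * ent A 0 0 * P + R * (ent A 0 0 * ent A 0 0 - 1)) * ci) (-R * ent A 1 0)
      (P + R * ent A 0 0) hdet)
    · rw [tr2, mkSL00, mkSL11]
      ring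
    · rw [tr2_mul, mkSL00, mkSL01, mkSL10, mkSL11, hA11]
      linear_combination (-R) * hA2 +
        (2 * ent A 0 0 * P + R * (ent A 0 0 * ent A 0 0 - 1)) * hci

/-- In characteristic two: a conjugate involution with product of order two. -/
theorem exists_anti_two [Fintype F] [CharP F 2] (hq : 4 ≤ Fintype.card F) (A : Matrix.SpecialLinearGroup (Fin 2) F)
    (hA : tr2 A = 0) (hA1 : (A : Matrix.ProjectiveSpecialLinearGroup (Fin 2) F) ≠ 1) :
    ∃ B : Matrix.SpecialLinearGroup (Fin 2) F, tr2 B = 0 ∧ IsConj (A : Matrix.ProjectiveSpecialLinearGroup (Fin 2) F) (B : Matrix.ProjectiveSpecialLinearGroup (Fin 2) F) ∧ tr2 (A * B) = 0 ∧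
      ((A * B : Matrix.SpecialLinearGroup (Fin 2) F) : Matrix.ProjectiveSpecialLinearGroup (Fin 2) F) ≠ 1 := by
  classical
  have h2 : (2 : F) = 0 := CharP.ofNat_eq_zero F 2
  obtain ⟨μ, hμ⟩ : ∃ μ : F, μ ∉ ({0, 1} : Finset F) := by
    by_contra hcon
    push Not at hcon
    have h1 : (Finset.univ : Finset F) ⊆ {0, 1} := fun x _ => hcon x
    have h3 := Finset.card_le_card h1
    have h4 : ({0, 1} : Finset F).card ≤ 2 := Finset.card_le_two
    rw [Finset.card_univ] at h3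
    omega
  simp only [Finset.mem_insert, Finset.mem_singleton, not_or] at hμ
  obtain ⟨hμ0, hμ1⟩ := hμ
  obtain ⟨s, hs⟩ := FiniteField.isSquare_of_char_two
    (CharP.ringChar_of_prime_eq_zero Nat.prime_two h2) μ
  have hs0 : s ≠ 0 := by
    rintro rfl
    apply hμ0
    rw [hs]
    ring
  obtain ⟨hA11, hA2⟩ := tr2_zero_data A hA
  have hbc := offdiag_of_mk_ne_one_char_two A hA hA1
  have hdet : (1 + μ * (ent A 0 0 - 1)) * (-(1 + μ * (ent A 0 0 - 1))) -
      (μ * ent A 0 1) * (μ * ent A 1 0) = 1 := by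
    linear_combination (μ^2) * hA2 + (-1 - (ent A 0 0) * μ + (ent A 0 0) * μ^2 - (ent A 0 0)^2 * μ^2 - (ent A 0 1) * (ent A 1 0) * μ^2 + μ - μ^2) * h2
  refine ⟨mkSL (1 + μ * (ent A 0 0 - 1)) (μ * ent A 0 1) (μ * ent A 1 0)
    (-(1 + μ * (ent A 0 0 - 1))) hdet, ?_, ?_, ?_, ?_⟩
  · rw [tr2, mkSL00, mkSL11]
    ring
  · by_cases hc : ent A 1 0 = 0
    · have hb : ent A 0 1 ≠ 0 := hbc.resolve_right (not_not.2 hc)
      apply isConj_of_entries A _ (μ * ent A 0 1) 0 (ent A 0 0 - 1 + μ * (-ent A 0 0 - 1))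
        (ent A 0 1) (s * ent A 0 1) (mul_ne_zero hs0 hb) (by rw [hs]; ring)
      · rw [mkSL00, mkSL01]
        linear_combination ((ent A 0 1) * μ^2) * h2
      · rw [mkSL00, mkSL01, hA11]
        ring
      · rw [mkSL10, mkSL11]
        linear_combination (1 + μ^2) * hA2 + (-1 - 2 * (ent A 0 0) * μ - (ent A 0 0)^2 * μ^2 - (ent A 0 1) * (ent A 1 0) * μ^2) * h2
      · rw [mkSL10, mkSL11, hA11]
        linear_combination (-(ent A 0 1) * μ) * h2
    · apply isConj_of_entries A _ (ent A 1 0) (-ent A 0 0 - 1 + μ * (ent A 0 0 - 1)) 0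
        (μ * ent A 1 0) (s * ent A 1 0) (mul_ne_zero hs0 hc) (by rw [hs]; ring)
      · rw [mkSL00, mkSL01]
        linear_combination (-(ent A 1 0)) * h2
      · rw [mkSL00, mkSL01, hA11]
        linear_combination (1 + μ^2) * hA2 + ((ent A 0 0) + (ent A 0 0) * μ^2 - (ent A 0 0)^2 * μ^2 - (ent A 0 1) * (ent A 1 0) * μ^2 - μ^2) * h2
      · rw [mkSL10, mkSL11]
        ring
      · rw [mkSL10, mkSL11, hA11]
        linear_combination ((ent A 1 0) * μ) * h2
  · rw [tr2_mul, mkSL00, mkSL01, mkSL10, mkSL11, hA11]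
    linear_combination (ent A 0 0 * (1 + μ * (ent A 0 0 - 1)) + μ * ent A 0 1 * ent A 1 0) * h2
  · intro h
    obtain ⟨r, hr, hmat⟩ := (psl_mk_eq_one_iff _).1 h
    have e01 : ent (A * mkSL (1 + μ * (ent A 0 0 - 1)) (μ * ent A 0 1) (μ * ent A 1 0)
        (-(1 + μ * (ent A 0 0 - 1))) hdet) 0 1 = 0 := by
      have e : ent (A * mkSL (1 + μ * (ent A 0 0 - 1)) (μ * ent A 0 1) (μ * ent A 1 0)
        (-(1 + μ * (ent A 0 0 - 1))) hdet) 0 1 = (r • (1 : Matrix (Fin 2) (Fin 2) F)) 0 1 :=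
        congrFun (congrFun hmat 0) 1
      rw [e]
      simp
    have e10 : ent (A * mkSL (1 + μ * (ent A 0 0 - 1)) (μ * ent A 0 1) (μ * ent A 1 0)
        (-(1 + μ * (ent A 0 0 - 1))) hdet) 1 0 = 0 := by
      have e : ent (A * mkSL (1 + μ * (ent A 0 0 - 1)) (μ * ent A 0 1) (μ * ent A 1 0)
        (-(1 + μ * (ent A 0 0 - 1))) hdet) 1 0 = (r • (1 : Matrix (Fin 2) (Fin 2) F)) 1 0 :=
        congrFun (congrFun hmat 1) 0
      rw [e]
      simp
    rw [sl2_mul01, mkSL01, mkSL11] at e01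
    rw [sl2_mul10, mkSL00, mkSL10, hA11] at e10
    have hμ1' : μ - 1 ≠ 0 := sub_ne_zero.2 hμ1
    have f01 : ent A 0 1 * (μ - 1) = 0 := by linear_combination e01
    have f10 : ent A 1 0 * (μ - 1) = 0 := by linear_combination (-1 : F) * e10
    rcases hbc with hb | hc
    · exact hb ((mul_eq_zero.1 f01).resolve_right hμ1')
    · exact hc ((mul_eq_zero.1 f10).resolve_right hμ1')

/-- The odd-product graph on a class of involutions of `PSL₂(F)` is connected of diameter two. -/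
theorem psl2_inv_graph {F : Type*} [Field F] [Fintype F] (hF : 4 ≤ Fintype.card F)
    (t : Matrix.ProjectiveSpecialLinearGroup (Fin 2) F) (ht : orderOf t = 2) :
    (SimpleGraph.fromRel fun x y : {x : Matrix.ProjectiveSpecialLinearGroup (Fin 2) F // IsConj t x} =>
        Odd (orderOf (x.1 * y.1))).Connected ∧
      (SimpleGraph.fromRel fun x y : {x : Matrix.ProjectiveSpecialLinearGroup (Fin 2) F // IsConj t x} =>
        Odd (orderOf (x.1 * y.1))).diam = 2 := by
  obtain ⟨p, hchar⟩ := CharP.exists F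
  have hp : p.Prime := CharP.char_is_prime F p
  have : Fact p.Prime := ⟨hp⟩
  have hord : ∀ x : Matrix.ProjectiveSpecialLinearGroup (Fin 2) F, IsConj t x → orderOf x = 2 := by
    intro x hx
    obtain ⟨c, hc⟩ := isConj_iff.1 hx
    rw [← hc, ← MulAut.conj_apply, MulEquiv.orderOf_eq]
    exact ht
  have hne1 : ∀ x : Matrix.ProjectiveSpecialLinearGroup (Fin 2) F, orderOf x = 2 → x ≠ 1 := by
    intro x hx h
    rw [h, orderOf_one] at hx
    omega
  have hI : ∀ A B : Matrix.SpecialLinearGroup (Fin 2) F, tr2 A = 0 → tr2 B = 0 → (A : Matrix.ProjectiveSpecialLinearGroup (Fin 2) F) ≠ 1 → (B : Matrix.ProjectiveSpecialLinearGroup (Fin 2) F) ≠ 1 →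
      OddPow (A * B) ∨ ∃ C : Matrix.SpecialLinearGroup (Fin 2) F,
      IsConj (A : Matrix.ProjectiveSpecialLinearGroup (Fin 2) F) (C : Matrix.ProjectiveSpecialLinearGroup (Fin 2) F) ∧ (A : Matrix.ProjectiveSpecialLinearGroup (Fin 2) F) ≠ (C : Matrix.ProjectiveSpecialLinearGroup (Fin 2) F) ∧ (C : Matrix.ProjectiveSpecialLinearGroup (Fin 2) F) ≠ (B : Matrix.ProjectiveSpecialLinearGroup (Fin 2) F) ∧
      OddPow (A * C) ∧ OddPow (B * C) := by
    intro A B hA hB hA1 hB1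
    by_cases hp2 : p = 2
    · subst hp2
      exact case_char_two A B hA hB hA1 hB1
    · by_cases hm1 : IsSquare (-1 : F)
      · obtain ⟨i, hi⟩ := hm1
        exact case_sq p hp2 i hi.symm A B hA hB
      · exact case_nonsq p hp2 hF hm1 A B hA hB
  have hII : ∀ A : Matrix.SpecialLinearGroup (Fin 2) F, tr2 A = 0 → (A : Matrix.ProjectiveSpecialLinearGroup (Fin 2) F) ≠ 1 →
      ∃ B : Matrix.SpecialLinearGroup (Fin 2) F, tr2 B = 0 ∧ IsConj (A : Matrix.ProjectiveSpecialLinearGroup (Fin 2) F) (B : Matrix.ProjectiveSpecialLinearGroup (Fin 2) F) ∧ tr2 (A * B) = 0 ∧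
      ((A * B : Matrix.SpecialLinearGroup (Fin 2) F) : Matrix.ProjectiveSpecialLinearGroup (Fin 2) F) ≠ 1 := by
    intro A hA hA1
    by_cases hp2 : p = 2
    · subst hp2
      exact exists_anti_two hF A hA hA1
    · exact exists_anti_odd p hp2 A hA
  apply graph_diam_two
  · rintro ⟨x, hx⟩ ⟨y, hy⟩ hxy
    have hox := hord x hx
    have hoy := hord y hy
    obtain ⟨A, rfl⟩ := QuotientGroup.mk_surjective x
    obtain ⟨B, rfl⟩ := QuotientGroup.mk_surjective y
    have hA := tr2_zero_of_orderOf A hox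
    have hB := tr2_zero_of_orderOf B hoy
    rcases hI A B hA hB (hne1 _ hox) (hne1 _ hoy) with h | ⟨C, hconj, hAC, hCB, h1, h2⟩
    · left
      rw [SimpleGraph.fromRel_adj]
      exact ⟨hxy, Or.inl (odd_orderOf_of_oddPow _ h)⟩
    · right
      refine ⟨⟨(C : Matrix.ProjectiveSpecialLinearGroup (Fin 2) F), hx.trans hconj⟩, ?_, ?_⟩
      · rw [SimpleGraph.fromRel_adj]
        exact ⟨fun h => hAC (congrArg Subtype.val h), Or.inl (odd_orderOf_of_oddPow _ h1)⟩
      · rw [SimpleGraph.fromRel_adj]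
        exact ⟨fun h => hCB (congrArg Subtype.val h), Or.inr (odd_orderOf_of_oddPow _ h2)⟩
  · obtain ⟨A, rfl⟩ := QuotientGroup.mk_surjective t
    have hA := tr2_zero_of_orderOf A ht
    obtain ⟨B, hB, hconj, hAB, hne⟩ := hII A hA (hne1 _ ht)
    refine ⟨⟨(A : Matrix.ProjectiveSpecialLinearGroup (Fin 2) F), IsConj.refl _⟩, ⟨(B : Matrix.ProjectiveSpecialLinearGroup (Fin 2) F), hconj⟩, ?_, ?_⟩
    · intro h
      have h' : (A : Matrix.ProjectiveSpecialLinearGroup (Fin 2) F) = (B : Matrix.ProjectiveSpecialLinearGroup (Fin 2) F) := congrArg Subtype.val h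
      apply hne
      rw [QuotientGroup.mk_mul, ← h', ← pow_two]
      exact mk_sq_of_tr2_zero A hA
    · rw [SimpleGraph.fromRel_adj]
      rintro ⟨-, h | h⟩
      · have h2 : orderOf ((A * B : Matrix.SpecialLinearGroup (Fin 2) F) : Matrix.ProjectiveSpecialLinearGroup (Fin 2) F) = 2 :=
          orderOf_eq_prime (mk_sq_of_tr2_zero (A * B) hAB) hne
        have h3 : Odd (orderOf ((A * B : Matrix.SpecialLinearGroup (Fin 2) F) : Matrix.ProjectiveSpecialLinearGroup (Fin 2) F)) := h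
        rw [h2] at h3
        exact absurd h3 (by decide)
      · have hBA : tr2 (B * A) = 0 := by
          rw [tr2_mul_comm]
          exact hAB
        have hne' : ((B * A : Matrix.SpecialLinearGroup (Fin 2) F) : Matrix.ProjectiveSpecialLinearGroup (Fin 2) F) ≠ 1 := by
          intro h1
          apply hne
          rw [QuotientGroup.mk_mul] at h1 ⊢
          exact mul_eq_one_comm.1 h1
        have h2 : orderOf ((B * A : Matrix.SpecialLinearGroup (Fin 2) F) : Matrix.ProjectiveSpecialLinearGroup (Fin 2) F) = 2 :=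
          orderOf_eq_prime (mk_sq_of_tr2_zero (B * A) hBA) hne'
        have h3 : Odd (orderOf ((B * A : Matrix.SpecialLinearGroup (Fin 2) F) : Matrix.ProjectiveSpecialLinearGroup (Fin 2) F)) := h
        rw [h2] at h3
        exact absurd h3 (by decide)

end Cfsg.Agent.H41
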