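import Mathlib
import Cfsg.Agent.Lib.Helper53.PGroupBasics

set_option autoImplicit false
set_option linter.unusedSimpArgs false
set_option linter.unusedSectionVars false
set_option linter.unusedVariables false
set_option linter.style.haveILetI false

namespace Cfsg.Agent.H41

section ord162

/-- An invariant complement to an invariant subgroup of order three in an elementary abelian
`3`-group acted on by an involution. -/
theorem exists_invariant_compl3 {A : Type*} [CommGroup A] [Finite A] (h3 : ∀ a : A, a ^ 3 = 1)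
    (τ : A ≃* A) (hτ : ∀ a, τ (τ a) = a) (Z : Subgroup A)
    (hZτ : ∀ c ∈ Z, τ c = c) :
    ∃ W : Subgroup A, (∀ w ∈ W, τ w ∈ W) ∧ W ⊓ Z = ⊥ ∧ W ⊔ Z = ⊤ := by
  classical
  obtain ⟨P, hP⟩ : ∃ P : Set (Subgroup A), P = {W | (∀ w ∈ W, τ w ∈ W) ∧ W ⊓ Z = ⊥} :=
    ⟨_, rfl⟩
  have hPfin : P.Finite := Set.toFinite P
  have hPne : P.Nonempty := ⟨⊥, by
    rw [hP]
    refine ⟨?_, bot_inf_eq _⟩
    intro w hw
    rw [Subgroup.mem_bot] at hw ⊢
    rw [hw, map_one]⟩
  obtain ⟨W, hW⟩ := hPfin.exists_maximal hPne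
  have hWP : (∀ w ∈ W, τ w ∈ W) ∧ W ⊓ Z = ⊥ := by
    have := hW.1
    rw [hP] at this
    exact this
  refine ⟨W, hWP.1, hWP.2, ?_⟩
  by_contra hne
  obtain ⟨e, he⟩ : ∃ e : A, e ∉ W ⊔ Z := by
    by_contra hcon
    push Not at hcon
    exact hne (eq_top_iff.2 fun x _ => hcon x)
  -- an element outside `W ⊔ Z` that is fixed or inverted
  obtain ⟨f, hf, hfτ⟩ : ∃ f : A, f ∉ W ⊔ Z ∧ (τ f = f ∨ τ f = f⁻¹) := by
    by_cases h1 : e * τ e ∈ W ⊔ Z
    · refine ⟨e * (τ e)⁻¹, ?_, Or.inr ?_⟩
      · intro h2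
        apply he
        have h4 : (e * τ e * (e * (τ e)⁻¹)) ^ 2 = e := by
          have : e * τ e * (e * (τ e)⁻¹) = e ^ 2 := by
            rw [mul_mul_mul_comm, mul_inv_cancel, mul_one, sq]
          rw [this, ← pow_mul]
          calc e ^ (2 * 2) = e ^ 3 * e := by rw [← pow_succ]
            _ = e := by rw [h3, one_mul]
        rw [← h4]
        exact pow_mem (mul_mem h1 h2) 2
      · rw [map_mul, map_inv, hτ, mul_inv_rev, inv_inv, mul_comm]
    · refine ⟨e * τ e, h1, Or.inl ?_⟩
      rw [map_mul, hτ, mul_comm]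
  have hfW : f ∉ W := fun h => hf (Subgroup.mem_sup_left h)
  obtain ⟨W', hW'⟩ : ∃ W' : Subgroup A, W' = W ⊔ Subgroup.zpowers f := ⟨_, rfl⟩
  have hτf : ∀ i : ℤ, τ (f ^ i) ∈ Subgroup.zpowers f := by
    intro i
    rw [map_zpow]
    rcases hfτ with h | h
    · rw [h]
      exact Subgroup.zpow_mem_zpowers f i
    · rw [h]
      exact zpow_mem (inv_mem (Subgroup.mem_zpowers f)) i
  have hW'P : W' ∈ P := by
    rw [hP]
    refine ⟨?_, ?_⟩
    · intro x hx
      rw [hW', Subgroup.mem_sup] at hx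
      obtain ⟨w, hw, y, hy, rfl⟩ := hx
      obtain ⟨i, rfl⟩ := Subgroup.mem_zpowers_iff.1 hy
      rw [map_mul, hW']
      exact mul_mem (Subgroup.mem_sup_left (hWP.1 w hw)) (Subgroup.mem_sup_right (hτf i))
    · rw [eq_bot_iff]
      intro c hc
      rw [Subgroup.mem_bot]
      by_contra hc1
      obtain ⟨hcW', hcZ⟩ := Subgroup.mem_inf.1 hc
      rw [hW', Subgroup.mem_sup] at hcW'
      obtain ⟨w, hw, y, hy, hwy⟩ := hcW'
      obtain ⟨i, rfl⟩ := Subgroup.mem_zpowers_iff.1 hy
      have hfi : f ^ i ∈ W ⊔ Z := by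
        have : f ^ i = w⁻¹ * c := by rw [← hwy, inv_mul_cancel_left]
        rw [this]
        exact mul_mem (Subgroup.mem_sup_left (inv_mem hw)) (Subgroup.mem_sup_right hcZ)
      have hf3 : f ^ (3 : ℤ) = 1 := by exact_mod_cast h3 f
      have hi : f ^ i = f ^ (i % 3) := by
        conv_lhs => rw [← Int.emod_add_mul_ediv i 3]
        rw [zpow_add, zpow_mul, hf3, one_zpow, mul_one]
      have hr : i % 3 = 0 ∨ i % 3 = 1 ∨ i % 3 = 2 := by omega
      rcases hr with h | h | h
      · rw [h, zpow_zero] at hi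
        rw [hi, mul_one] at hwy
        apply hc1
        have : c ∈ W ⊓ Z := Subgroup.mem_inf.2 ⟨hwy ▸ hw, hcZ⟩
        rw [hWP.2, Subgroup.mem_bot] at this
        exact this
      · rw [h, zpow_one] at hi
        rw [hi] at hfi
        exact hf hfi
      · rw [h] at hi
        rw [hi] at hfi
        apply hf
        have : f = (f ^ (2 : ℤ)) ^ 2 := by
          have h4 : (f ^ (2 : ℤ)) ^ 2 = f ^ 4 := by
            rw [← zpow_natCast, ← zpow_mul]
            norm_cast
          rw [h4]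
          calc f = f ^ 3 * f := by rw [h3, one_mul]
            _ = f ^ 4 := by rw [← pow_succ]
        rw [this]
        exact pow_mem hfi 2
  have hle : W ≤ W' := by
    rw [hW']
    exact le_sup_left
  have := hW.2 hW'P hle
  exact hfW (this (by rw [hW']; exact Subgroup.mem_sup_right (Subgroup.mem_zpowers f)))

/-- Version of `exists_invariant_compl3` inside an ambient group. -/
theorem exists_invariant_compl3' {G : Type*} [Group G] [Finite G] (J : Subgroup G)
    (hJc : ∀ a ∈ J, ∀ b ∈ J, a * b = b * a) (hJ3 : ∀ a ∈ J, a ^ 3 = 1) (t : G)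
    (htt : t * t = 1) (htJ : ∀ a ∈ J, t * a * t ∈ J) (Z : Subgroup G) (hZJ : Z ≤ J)
    (hZt : ∀ c ∈ Z, t * c * t = c) :
    ∃ W : Subgroup G, W ≤ J ∧ (∀ w ∈ W, t * w * t ∈ W) ∧ W ⊓ Z = ⊥ ∧
      ∀ a ∈ J, ∃ w ∈ W, ∃ c ∈ Z, a = w * c := by
  letI : CommGroup J := { (inferInstance : Group J) with
    mul_comm := fun a b => Subtype.ext (hJc a a.2 b b.2) }
  obtain ⟨τ, hτ⟩ : ∃ τ : J ≃* J, ∀ a : J, (τ a : G) = t * a * t := by
    refine ⟨{ toFun := fun a => ⟨t * a * t, htJ a a.2⟩
              invFun := fun a => ⟨t * a * t, htJ a a.2⟩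
              left_inv := ?_
              right_inv := ?_
              map_mul' := ?_ }, fun a => rfl⟩
    · intro a
      apply Subtype.ext
      show t * (t * (a : G) * t) * t = a
      calc t * (t * (a : G) * t) * t = (t * t) * (a : G) * (t * t) := by group
        _ = a := by rw [htt, one_mul, mul_one]
    · intro a
      apply Subtype.ext
      show t * (t * (a : G) * t) * t = a
      calc t * (t * (a : G) * t) * t = (t * t) * (a : G) * (t * t) := by group
        _ = a := by rw [htt, one_mul, mul_one]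
    · intro a b
      apply Subtype.ext
      show t * ((a : G) * (b : G)) * t = (t * (a : G) * t) * (t * (b : G) * t)
      calc t * ((a : G) * (b : G)) * t = t * (a : G) * 1 * (b : G) * t := by group
        _ = t * (a : G) * (t * t) * (b : G) * t := by rw [htt]
        _ = (t * (a : G) * t) * (t * (b : G) * t) := by group
  obtain ⟨Z', hZ'⟩ : ∃ Z' : Subgroup J, ∀ a : J, a ∈ Z' ↔ (a : G) ∈ Z :=
    ⟨Z.subgroupOf J, fun a => Subgroup.mem_subgroupOf⟩
  obtain ⟨W, hW1, hW2, hW3⟩ := exists_invariant_compl3 (A := J)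
    (fun a => Subtype.ext (hJ3 a a.2)) τ
    (fun a => Subtype.ext (by
      rw [hτ, hτ]
      calc t * (t * (a : G) * t) * t = (t * t) * (a : G) * (t * t) := by group
        _ = a := by rw [htt, one_mul, mul_one])) Z'
    (fun c hc => Subtype.ext (by
      rw [hτ]
      exact hZt c ((hZ' c).1 hc)))
  obtain ⟨W', hW'⟩ : ∃ W' : Subgroup G, ∀ g, g ∈ W' ↔ ∃ h : g ∈ J, (⟨g, h⟩ : J) ∈ W := by
    refine ⟨{ carrier := {g | ∃ h : g ∈ J, (⟨g, h⟩ : J) ∈ W}
              mul_mem' := ?_
              one_mem' := ⟨J.one_mem, W.one_mem⟩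
              inv_mem' := ?_ }, fun g => Iff.rfl⟩
    · rintro a b ⟨ha, haW⟩ ⟨hb, hbW⟩
      exact ⟨J.mul_mem ha hb, W.mul_mem haW hbW⟩
    · rintro a ⟨ha, haW⟩
      exact ⟨J.inv_mem ha, W.inv_mem haW⟩
  refine ⟨W', ?_, ?_, ?_, ?_⟩
  · intro g hg
    exact ((hW' g).1 hg).1
  · intro w hw
    obtain ⟨hwJ, hwW⟩ := (hW' w).1 hw
    rw [hW']
    refine ⟨htJ w hwJ, ?_⟩
    have h1 := hW1 _ hwW
    have h2 : τ ⟨w, hwJ⟩ = ⟨t * w * t, htJ w hwJ⟩ := Subtype.ext (hτ _)
    rw [h2] at h1
    exact h1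
  · rw [eq_bot_iff]
    intro g hg
    obtain ⟨hgW, hgZ⟩ := Subgroup.mem_inf.1 hg
    obtain ⟨hgJ, hgW'⟩ := (hW' g).1 hgW
    have : (⟨g, hgJ⟩ : J) ∈ W ⊓ Z' := Subgroup.mem_inf.2 ⟨hgW', (hZ' _).2 hgZ⟩
    rw [hW2, Subgroup.mem_bot] at this
    rw [Subgroup.mem_bot]
    exact congrArg Subtype.val this
  · intro a ha
    have hmem : (⟨a, ha⟩ : J) ∈ W ⊔ Z' := by
      rw [hW3]
      exact Subgroup.mem_top _
    rw [Subgroup.mem_sup] at hmem
    obtain ⟨w, hw, c, hc, hwc⟩ := hmem
    refine ⟨w, (hW' w).2 ⟨w.2, hw⟩, c, (hZ' c).1 hc, ?_⟩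
    exact (congrArg Subtype.val hwc).symm

/-- The product of a subgroup with an involution normalizing it. -/
theorem exists_mul_invol {G : Type*} [Group G] [Finite G] (W : Subgroup G) (t : G)
    (htt : t * t = 1) (htW : t ∉ W) (hconj : ∀ w ∈ W, t * w * t ∈ W) :
    ∃ H : Subgroup G, (∀ g, g ∈ H ↔ g ∈ W ∨ g * t ∈ W) ∧ Nat.card H = 2 * Nat.card W := by
  obtain ⟨H, hH⟩ : ∃ H : Subgroup G, ∀ g, g ∈ H ↔ g ∈ W ∨ g * t ∈ W := by
    refine ⟨{ carrier := {g | g ∈ W ∨ g * t ∈ W}
              mul_mem' := ?_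
              one_mem' := Or.inl W.one_mem
              inv_mem' := ?_ }, fun g => Iff.rfl⟩
    · rintro a b (ha | ha) (hb | hb)
      · exact Or.inl (mul_mem ha hb)
      · right
        rw [mul_assoc]
        exact mul_mem ha hb
      · right
        have : a * b * t = (a * t) * (t * b * t) := by
          calc a * b * t = a * 1 * b * t := by group
            _ = a * (t * t) * b * t := by rw [htt]
            _ = (a * t) * (t * b * t) := by group
        rw [this]
        exact mul_mem ha (hconj b hb)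
      · left
        have : a * b = (a * t) * (t * (b * t) * t) := by
          calc a * b = a * 1 * b * 1 := by group
            _ = a * (t * t) * b * (t * t) := by rw [htt]
            _ = (a * t) * (t * (b * t) * t) := by group
        rw [this]
        exact mul_mem ha (hconj _ hb)
    · rintro a (ha | ha)
      · exact Or.inl (inv_mem ha)
      · right
        have : a⁻¹ * t = t * (a * t)⁻¹ * t := by group
        rw [this]
        exact hconj _ (inv_mem ha)
  refine ⟨H, hH, ?_⟩
  have hWH : W ≤ H := fun w hw => (hH w).2 (Or.inl hw)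
  have htH : t ∈ H := (hH t).2 (Or.inr (by rw [htt]; exact W.one_mem))
  have hidx : (W.subgroupOf H).index = 2 := by
    rw [Subgroup.index_eq_two_iff]
    refine ⟨⟨t, htH⟩, ?_⟩
    intro b
    have hb := (hH b).1 b.2
    rw [Subgroup.mem_subgroupOf, Subgroup.mem_subgroupOf]
    by_cases hbW : (b : G) ∈ W
    · right
      refine ⟨hbW, ?_⟩
      intro h
      apply htW
      have : t = (b : G)⁻¹ * ((b : G) * t) := by group
      rw [this]
      exact mul_mem (inv_mem hbW) h
    · left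
      exact ⟨hb.resolve_left hbW, hbW⟩
  have h1 := (W.subgroupOf H).card_mul_index
  rw [hidx, Nat.card_congr (Subgroup.subgroupOfEquivOfLe hWH).toEquiv] at h1
  omega

/-- The product of three disjoint `3`-cycles used in the statement. -/
def sigma9 : Equiv.Perm (Fin 9) :=
  Equiv.swap (0 : Fin 9) 1 * Equiv.swap 1 2 * Equiv.swap 3 4 * Equiv.swap 4 5 *
    Equiv.swap 6 7 * Equiv.swap 7 8

/-- A fixed-point-free permutation of order three of nine points has cycle type `3, 3, 3`. -/
theorem cycleType_of_fpf3 (σ : Equiv.Perm (Fin 9)) (h3 : σ ^ 3 = 1) (hfpf : ∀ x, σ x ≠ x) :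
    σ.cycleType = Multiset.replicate 3 3 := by
  have h1 : σ ≠ 1 := by
    intro h
    apply hfpf 0
    rw [h]
    rfl
  haveI : Fact (Nat.Prime 3) := ⟨Nat.prime_three⟩
  have hord : orderOf σ = 3 := orderOf_eq_prime h3 h1
  obtain ⟨n, hn⟩ := Equiv.Perm.cycleType_prime_order (σ := σ) (by rw [hord]; exact Nat.prime_three)
  rw [hord] at hn
  have hsum := Equiv.Perm.sum_cycleType σ
  have hsupp : σ.support = Finset.univ := by
    ext x
    simp only [Equiv.Perm.mem_support, Finset.mem_univ, iff_true]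
    exact hfpf x
  rw [hsupp, hn, Multiset.sum_replicate, Finset.card_univ, Fintype.card_fin] at hsum
  have hn2 : n + 1 = 3 := by
    simp only [smul_eq_mul] at hsum
    omega
  rw [hn, hn2]

theorem card_centralizer_sigma9 (σ : Equiv.Perm (Fin 9))
    (hσ : σ.cycleType = Multiset.replicate 3 3) :
    Nat.card (Subgroup.centralizer ({σ} : Set (Equiv.Perm (Fin 9)))) = 162 := by
  rw [Equiv.Perm.nat_card_centralizer, hσ]
  simp [Multiset.sum_replicate, Multiset.prod_replicate, Multiset.toFinset_replicate,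
    Multiset.count_replicate]
  decide

/-- A group of order `162` with a core-free subgroup of order `18` and a central element of
order three is isomorphic to the centralizer in `Sym(9)` of a product of three `3`-cycles. -/
theorem iso_centralizer_of_coset_action {G : Type*} [Group G] [Finite G]
    (hG : Nat.card G = 162) (H : Subgroup G) (z : G) (hH : Nat.card H = 18)
    (hzc : ∀ g : G, g * z = z * g) (hz3 : z ^ 3 = 1) (hz1 : z ≠ 1) (hzH : z ∉ H)
    (hcore : H.normalCore = ⊥) :
    Nonempty (G ≃* Subgroup.centralizer ({sigma9} : Set (Equiv.Perm (Fin 9)))) := by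
  classical
  have hidx : H.index = 9 := by
    have := H.card_mul_index
    rw [hH, hG] at this
    omega
  have hcard : Nat.card (G ⧸ H) = 9 := by
    rw [← Subgroup.index_eq_card]
    exact hidx
  haveI : Finite (G ⧸ H) := Nat.finite_of_card_ne_zero (by rw [hcard]; norm_num)
  haveI : Fintype (G ⧸ H) := Fintype.ofFinite _
  obtain ⟨e⟩ : Nonempty (G ⧸ H ≃ Fin 9) := by
    refine ⟨Fintype.equivFinOfCardEq ?_⟩
    rw [← Nat.card_eq_fintype_card]
    exact hcard
  obtain ⟨φ, hφ⟩ : ∃ φ : G →* Equiv.Perm (G ⧸ H), φ = MulAction.toPermHom G (G ⧸ H) :=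
    ⟨_, rfl⟩
  have hφinj : Function.Injective φ := by
    rw [← MonoidHom.ker_eq_bot_iff, hφ, ← Subgroup.normalCore_eq_ker]
    exact hcore
  obtain ⟨ψ, hψ⟩ : ∃ ψ : G →* Equiv.Perm (Fin 9),
      ψ = (e.permCongrHom).toMonoidHom.comp φ := ⟨_, rfl⟩
  have hψinj : Function.Injective ψ := by
    rw [hψ]
    exact (e.permCongrHom).injective.comp hφinj
  have hψz3 : (ψ z) ^ 3 = 1 := by rw [← map_pow, hz3, map_one]
  have hψfpf : ∀ x, ψ z x ≠ x := by
    intro x hx
    rw [hψ] at hx
    simp only [MonoidHom.comp_apply, MulEquiv.coe_toMonoidHom, Equiv.permCongrHom_coe,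
      Equiv.permCongr_apply] at hx
    have hx' : φ z (e.symm x) = e.symm x := by
      apply e.injective
      rw [hx, Equiv.apply_symm_apply]
    rw [hφ, MulAction.toPermHom_apply, MulAction.toPerm_apply] at hx'
    obtain ⟨g, hg⟩ := QuotientGroup.mk_surjective (e.symm x)
    rw [← hg] at hx'
    have h2 : ((z * g : G) : G ⧸ H) = (g : G ⧸ H) := hx'
    rw [QuotientGroup.eq] at h2
    apply hzH
    have h3 : (z * g)⁻¹ * g = z⁻¹ := by
      rw [← hzc g, mul_inv_rev, inv_mul_cancel_right]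
    rw [h3] at h2
    exact (inv_mem_iff).1 h2
  have hct := cycleType_of_fpf3 (ψ z) hψz3 hψfpf
  have hct0 : sigma9.cycleType = Multiset.replicate 3 3 := by
    apply cycleType_of_fpf3
    · decide
    · decide
  obtain ⟨c, hc⟩ := isConj_iff.1 (Equiv.Perm.isConj_iff_cycleType_eq.2 (hct.trans hct0.symm))
  obtain ⟨ψ', hψ'⟩ : ∃ ψ' : G →* Equiv.Perm (Fin 9),
      ψ' = (MulAut.conj c).toMonoidHom.comp ψ := ⟨_, rfl⟩
  have hψ'inj : Function.Injective ψ' := by
    rw [hψ']
    exact (MulAut.conj c).injective.comp hψinj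
  have hψ'z : ψ' z = sigma9 := by
    rw [hψ']
    simp only [MonoidHom.comp_apply, MulEquiv.coe_toMonoidHom, MulAut.conj_apply]
    exact hc
  have hmem : ∀ g : G, ψ' g ∈ Subgroup.centralizer ({sigma9} : Set (Equiv.Perm (Fin 9))) := by
    intro g
    rw [Subgroup.mem_centralizer_iff]
    intro h hh
    rw [Set.mem_singleton_iff] at hh
    rw [hh, ← hψ'z, ← map_mul, ← map_mul, hzc g]
  obtain ⟨Ψ, hΨ⟩ : ∃ Ψ : G →* Subgroup.centralizer ({sigma9} : Set (Equiv.Perm (Fin 9))),
      ∀ g, (Ψ g : Equiv.Perm (Fin 9)) = ψ' g := ⟨ψ'.codRestrict _ hmem, fun g => rfl⟩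
  have hΨinj : Function.Injective Ψ := by
    intro a b hab
    apply hψ'inj
    rw [← hΨ, ← hΨ, hab]
  have hbij : Function.Bijective Ψ := by
    rw [Nat.bijective_iff_injective_and_card]
    exact ⟨hΨinj, by rw [hG, card_centralizer_sigma9 sigma9 hct0]⟩
  exact ⟨MulEquiv.ofBijective Ψ hbij⟩

/-- The core-free subgroup of index nine and the central element of order three. -/
theorem ord162_core {G : Type*} [Group G] [Finite G] (hG : Nat.card G = 162)
    (S : Sylow 3 G) (T : Sylow 2 G) (J : Subgroup G) [hJn : J.Normal]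
    (hJcomm : IsMulCommutative J)
    (hJexp : ∀ a ∈ J, a ^ 3 = 1) (hJcard : Nat.card J = 27)
    (Z : Subgroup G)
    (hZ : Z = (S : Subgroup G) ⊓ Subgroup.centralizer ((S : Subgroup G) : Set G))
    (hZcard : Nat.card Z = 3)
    (hZT : Z ≤ Subgroup.centralizer ((T : Subgroup G) : Set G))
    (hST : (S : Subgroup G) ⊓ Subgroup.centralizer ((T : Subgroup G) : Set G) ≠ S) :
    ∃ (H : Subgroup G) (z : G), Nat.card H = 18 ∧ (∀ g : G, g * z = z * g) ∧ z ^ 3 = 1 ∧
      z ≠ 1 ∧ z ∉ H ∧ H.normalCore = ⊥ := by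
  classical
  haveI : Fact (Nat.Prime 3) := ⟨Nat.prime_three⟩
  haveI : Fact (Nat.Prime 2) := ⟨Nat.prime_two⟩
  -- orders of `S` and `T`
  have hS : Nat.card S = 81 := by
    obtain ⟨k, hk⟩ := IsPGroup.iff_card.1 S.isPGroup'
    have h1 := (S : Subgroup G).card_mul_index
    have h2 := S.not_dvd_index
    rw [hG] at h1
    rw [hk] at h1 ⊢
    have hk4 : k ≤ 4 := by
      by_contra hcon
      push Not at hcon
      have : 3 ^ 5 ∣ 162 := by
        rw [← h1]
        exact Dvd.dvd.mul_right (pow_dvd_pow 3 hcon) _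
      norm_num at this
    interval_cases k
    · exfalso
      apply h2
      norm_num at h1
      omega
    · exfalso
      apply h2
      norm_num at h1
      omega
    · exfalso
      apply h2
      norm_num at h1
      omega
    · exfalso
      apply h2
      norm_num at h1
      omega
    · norm_num
  have hT : Nat.card T = 2 := by
    obtain ⟨k, hk⟩ := IsPGroup.iff_card.1 T.isPGroup'
    have h1 := (T : Subgroup G).card_mul_index
    have h2 := T.not_dvd_index
    rw [hG] at h1
    rw [hk] at h1 ⊢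
    have hk4 : k ≤ 1 := by
      by_contra hcon
      push Not at hcon
      have : 2 ^ 2 ∣ 162 := by
        rw [← h1]
        exact Dvd.dvd.mul_right (pow_dvd_pow 2 hcon) _
      norm_num at this
    interval_cases k
    · exfalso
      apply h2
      norm_num at h1
      omega
    · norm_num
  have hSidx : (S : Subgroup G).index = 2 := by
    have h1 := (S : Subgroup G).card_mul_index
    rw [hG, hS] at h1
    omega
  haveI hSn : (S : Subgroup G).Normal := Subgroup.normal_of_index_eq_two hSidx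
  -- the involution `t`
  obtain ⟨t, htT, ht1, htall⟩ : ∃ t ∈ (T : Subgroup G), t ≠ 1 ∧
      ∀ s ∈ (T : Subgroup G), s = 1 ∨ s = t := by
    obtain ⟨t', ht'1, ht'u⟩ := (Nat.card_eq_two_iff' (1 : (T : Subgroup G))).1 hT
    refine ⟨t', t'.2, fun h => ht'1 (Subtype.ext h), ?_⟩
    intro s hs
    by_cases hs1 : s = 1
    · exact Or.inl hs1
    · right
      have := ht'u ⟨s, hs⟩ (fun h => hs1 (congrArg Subtype.val h))
      exact congrArg Subtype.val this
  have htt : t * t = 1 := by
    rcases htall (t * t) (mul_mem htT htT) with h | h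
    · exact h
    · exact absurd (mul_eq_left.1 h) ht1
  have hSpow : ∀ s ∈ (S : Subgroup G), s ^ 81 = 1 := by
    intro s hs
    have h := pow_card_eq_one' (G := (S : Subgroup G)) (x := ⟨s, hs⟩)
    rw [hS] at h
    exact congrArg Subtype.val h
  have htS : t ∉ (S : Subgroup G) := by
    intro h
    apply ht1
    have h81 := hSpow t h
    have h2 : t ^ 2 = 1 := by rw [sq, htt]
    calc t = (t ^ 2) ^ 40 * t := by rw [h2, one_pow, one_mul]
      _ = t ^ 81 := by rw [← pow_mul, ← pow_succ]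
      _ = 1 := h81
  have hGst : ∀ g : G, g ∈ (S : Subgroup G) ∨ g * t ∈ (S : Subgroup G) := by
    intro g
    by_cases hg : g ∈ (S : Subgroup G)
    · exact Or.inl hg
    · right
      rw [Subgroup.mul_mem_iff_of_index_two hSidx]
      exact ⟨fun h => absurd h hg, fun h => absurd h htS⟩
  -- the centre `Z` of `S`
  have hZS : Z ≤ (S : Subgroup G) := by
    rw [hZ]
    exact inf_le_left
  have hZc : ∀ c ∈ Z, ∀ s ∈ (S : Subgroup G), s * c = c * s := by
    intro c hc s hs
    rw [hZ] at hc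
    exact Subgroup.mem_centralizer_iff.1 (Subgroup.mem_inf.1 hc).2 s hs
  have hZt : ∀ c ∈ Z, t * c = c * t := by
    intro c hc
    exact Subgroup.mem_centralizer_iff.1 (hZT hc) t htT
  have hZcentral : ∀ c ∈ Z, ∀ g : G, g * c = c * g := by
    intro c hc g
    rcases hGst g with hg | hg
    · exact hZc c hc g hg
    · have hg' : g = (g * t) * t := by rw [mul_assoc, htt, mul_one]
      rw [hg', mul_assoc, hZt c hc, ← mul_assoc, hZc c hc _ hg, mul_assoc]
  obtain ⟨z0, hz0Z, hz01⟩ : ∃ z0 ∈ Z, z0 ≠ 1 := by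
    by_contra hcon
    push Not at hcon
    have : Z = ⊥ := by
      rw [eq_bot_iff]
      intro c hc
      rw [Subgroup.mem_bot]
      exact hcon c hc
    rw [this, Subgroup.card_bot] at hZcard
    norm_num at hZcard
  have hZpow : ∀ c ∈ Z, c ^ 3 = 1 := by
    intro c hc
    have h := pow_card_eq_one' (G := Z) (x := ⟨c, hc⟩)
    rw [hZcard] at h
    exact congrArg Subtype.val h
  have hZeq : ∀ c ∈ Z, c ≠ 1 → Z = Subgroup.zpowers c := by
    intro c hc hc1
    symm
    apply Subgroup.eq_of_le_of_card_ge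
    · rw [Subgroup.zpowers_le]
      exact hc
    · rw [Nat.card_zpowers, hZcard, orderOf_eq_prime (hZpow c hc) hc1]
  have hZgen : ∀ M : Subgroup G, ∀ c ∈ Z, c ≠ 1 → c ∈ M → Z ≤ M := by
    intro M c hc hc1 hcM
    rw [hZeq c hc hc1, Subgroup.zpowers_le]
    exact hcM
  -- `J ≤ S`
  have hJS : J ≤ (S : Subgroup G) := by
    have hJp : IsPGroup 3 J := IsPGroup.of_card (n := 3) (by rw [hJcard]; norm_num)
    obtain ⟨Q, hQ⟩ := hJp.exists_le_sylow
    obtain ⟨g, hg⟩ := MulAction.exists_smul_eq G S Q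
    rw [Sylow.smul_eq_of_normal] at hg
    rw [hg]
    exact hQ
  -- normal subgroups meeting `S` contain `Z`
  have hB : ∀ M : Subgroup G, M.Normal → (∃ m ∈ M, m ∈ (S : Subgroup G) ∧ m ≠ 1) → Z ≤ M := by
    rintro M hM ⟨m, hmM, hmS, hm1⟩
    haveI := hM
    have hne : M.subgroupOf (S : Subgroup G) ≠ ⊥ := by
      intro h
      have hmem : (⟨m, hmS⟩ : (S : Subgroup G)) ∈ M.subgroupOf (S : Subgroup G) :=
        Subgroup.mem_subgroupOf.2 hmM
      rw [h, Subgroup.mem_bot] at hmem
      exact hm1 (congrArg Subtype.val hmem)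
    obtain ⟨c, hcM, hc1, hcc⟩ :=
      Cfsg.Agent.Lib.Helper53.PGroupBasics.exists_center_mem_normal S.isPGroup'
        (M.subgroupOf (S : Subgroup G)) hne
    apply hZgen M (c : G) ?_ ?_ (Subgroup.mem_subgroupOf.1 hcM)
    · rw [hZ]
      refine Subgroup.mem_inf.2 ⟨c.2, ?_⟩
      rw [Subgroup.mem_centralizer_iff]
      intro s hs
      have := Subgroup.mem_center_iff.1 hcc ⟨s, hs⟩
      exact congrArg Subtype.val this
    · intro h
      exact hc1 (Subtype.ext h)
  have hZJ : Z ≤ J := by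
    apply hB J hJn
    have hJne : J ≠ ⊥ := by
      intro h
      rw [h, Subgroup.card_bot] at hJcard
      norm_num at hJcard
    obtain ⟨m, hm1⟩ := (Subgroup.ne_bot_iff_exists_ne_one).1 hJne
    exact ⟨m, m.2, hJS m.2, fun h => hm1 (Subtype.ext h)⟩
  -- the invariant complement
  have htinv : t⁻¹ = t := inv_eq_of_mul_eq_one_left htt
  have htJ : ∀ a ∈ J, t * a * t ∈ J := by
    intro a ha
    have := hJn.conj_mem a ha t
    rw [htinv] at this
    exact this
  obtain ⟨W, hWJ, hWt, hWZ, hWall⟩ := exists_invariant_compl3' J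
    (fun a ha b hb => by
      have := mul_comm' (⟨a, ha⟩ : J) ⟨b, hb⟩
      exact congrArg Subtype.val this) hJexp t htt htJ Z hZJ
    (fun c hc => by rw [hZt c hc, mul_assoc, htt, mul_one])
  have hWcard : Nat.card W = 9 := by
    have hbij : Function.Bijective (fun p : W × Z => (⟨(p.1 : G) * (p.2 : G),
        J.mul_mem (hWJ p.1.2) (hZJ p.2.2)⟩ : J)) := by
      constructor
      · rintro ⟨⟨w, hw⟩, ⟨c, hc⟩⟩ ⟨⟨w', hw'⟩, ⟨c', hc'⟩⟩ h
        have h' : w * c = w' * c' := congrArg Subtype.val h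
        have h1 : w'⁻¹ * w = c' * c⁻¹ := by
          calc w'⁻¹ * w = w'⁻¹ * (w * c) * c⁻¹ := by group
            _ = c' * c⁻¹ := by rw [h']; group
        have h2 : w'⁻¹ * w ∈ W ⊓ Z :=
          Subgroup.mem_inf.2 ⟨mul_mem (inv_mem hw') hw, h1 ▸ mul_mem hc' (inv_mem hc)⟩
        rw [hWZ, Subgroup.mem_bot] at h2
        have hww : w = w' := by
          rw [inv_mul_eq_one] at h2
          exact h2.symm
        have hcc : c = c' := by
          rw [h2] at h1
          exact (mul_inv_eq_one.1 h1.symm).symm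
        subst hww
        subst hcc
        rfl
      · rintro ⟨a, ha⟩
        obtain ⟨w, hw, c, hc, hwc⟩ := hWall a ha
        exact ⟨⟨⟨w, hw⟩, ⟨c, hc⟩⟩, Subtype.ext hwc.symm⟩
    have h := Nat.card_congr (Equiv.ofBijective _ hbij)
    rw [Nat.card_prod, hZcard, hJcard] at h
    omega
  have htW : t ∉ W := fun h => htS (hJS (hWJ h))
  obtain ⟨H, hH, hHcard⟩ := exists_mul_invol W t htt htW hWt
  have hz0H : z0 ∉ H := by
    intro h
    rcases (hH z0).1 h with h1 | h1
    · have : z0 ∈ W ⊓ Z := Subgroup.mem_inf.2 ⟨h1, hz0Z⟩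
      rw [hWZ, Subgroup.mem_bot] at this
      exact hz01 this
    · apply htS
      have : t = z0⁻¹ * (z0 * t) := by group
      rw [this]
      exact mul_mem (inv_mem (hZS hz0Z)) (hJS (hWJ h1))
  refine ⟨H, z0, by rw [hHcard, hWcard], hZcentral z0 hz0Z, hZpow z0 hz0Z, hz01, hz0H, ?_⟩
  -- the core is trivial
  obtain ⟨N, hN⟩ : ∃ N : Subgroup G, N = H.normalCore := ⟨_, rfl⟩
  have hNn : N.Normal := by
    rw [hN]
    exact Subgroup.normalCore_normal H
  have hNH : N ≤ H := by
    rw [hN]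
    exact Subgroup.normalCore_le H
  rw [← hN]
  have hNS : ∀ n ∈ N, n ∈ (S : Subgroup G) → n = 1 := by
    intro n hn hnS
    by_contra hn1
    exact hz0H (hNH (hB N hNn ⟨n, hn, hnS, hn1⟩ hz0Z))
  rw [eq_bot_iff]
  intro n hn
  rw [Subgroup.mem_bot]
  by_contra hn1
  have hnS : n ∉ (S : Subgroup G) := fun h => hn1 (hNS n hn h)
  have hntW : n * t ∈ W := by
    rcases (hH n).1 (hNH hn) with h | h
    · exact absurd (hJS (hWJ h)) hnS
    · exact h
  have hntS : n * t ∈ (S : Subgroup G) := hJS (hWJ hntW)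
  -- `n` is central
  have hncent : ∀ g : G, g * n * g⁻¹ = n := by
    intro g
    have hgn : g * n * g⁻¹ ∈ N := hNn.conj_mem n hn g
    have hgnS : g * n * g⁻¹ ∉ (S : Subgroup G) := by
      intro h
      apply hnS
      have := hSn.conj_mem _ h g⁻¹
      have e : g⁻¹ * (g * n * g⁻¹) * g⁻¹⁻¹ = n := by group
      rw [e] at this
      exact this
    have hgtW : g * n * g⁻¹ * t ∈ (S : Subgroup G) := by
      rcases (hH _).1 (hNH hgn) with h | h
      · exact absurd (hJS (hWJ h)) hgnS
      · exact hJS (hWJ h)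
    have hq : (g * n * g⁻¹) * n⁻¹ ∈ (S : Subgroup G) := by
      have e : (g * n * g⁻¹) * n⁻¹ = (g * n * g⁻¹ * t) * (n * t)⁻¹ := by group
      rw [e]
      exact mul_mem hgtW (inv_mem hntS)
    have := hNS _ (mul_mem hgn (inv_mem hn)) hq
    exact mul_inv_eq_one.1 this
  have hnt : t * n = n * t := by
    have h := hncent t
    calc t * n = t * n * t⁻¹ * t := by group
      _ = n * t := by rw [h]
  have hs2 : (n * t) * (n * t) = n * n := by
    calc (n * t) * (n * t) = n * (t * n) * t := by group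
      _ = n * (n * t) * t := by rw [hnt]
      _ = n * n * (t * t) := by group
      _ = n * n := by rw [htt, mul_one]
  have hnn : n * n = 1 := by
    apply hNS _ (mul_mem hn hn)
    rw [← hs2]
    exact mul_mem hntS hntS
  have hs1 : n * t = 1 := by
    have h81 := hSpow _ hntS
    have h2 : (n * t) ^ 2 = 1 := by rw [sq, hs2, hnn]
    calc n * t = ((n * t) ^ 2) ^ 40 * (n * t) := by rw [h2, one_pow, one_mul]
      _ = (n * t) ^ 81 := by rw [← pow_mul, ← pow_succ]
      _ = 1 := h81
  have hnt' : n = t := by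
    have : n = t⁻¹ := eq_inv_of_mul_eq_one_left hs1
    rw [this, htinv]
  apply hST
  rw [inf_eq_left]
  intro s hs
  rw [Subgroup.mem_centralizer_iff]
  intro h hh
  rcases htall h hh with h1 | h1
  · rw [h1, one_mul, mul_one]
  · rw [h1]
    have hc := hncent s
    rw [hnt'] at hc
    calc t * s = (s * t * s⁻¹) * s := by rw [hc]
      _ = s * t := by group

end ord162

end Cfsg.Agent.H41
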