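import Mathlib
import Cfsg.Agent.H41.PSLn

set_option autoImplicit false
set_option linter.unusedSimpArgs false
set_option linter.unusedSectionVars false
set_option linter.unusedVariables false
set_option linter.style.haveILetI false
set_option linter.flexible false

namespace Cfsg.Agent.H41

open Matrix

section cc3

variable {F : Type*} [Field F]

/-- The second coefficient of the characteristic polynomial of a `3 × 3` matrix. -/
def e2m (M : Matrix (Fin 3) (Fin 3) F) : F :=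
  M 0 0 * M 1 1 - M 0 1 * M 1 0 + M 0 0 * M 2 2 - M 0 2 * M 2 0 + M 1 1 * M 2 2 - M 1 2 * M 2 1

/-- Companion matrices. -/
def comp3 (c0 c1 c2 : F) : Matrix (Fin 3) (Fin 3) F := !![0, 0, c0; 1, 0, c1; 0, 1, c2]

/-- The matrix with columns `u, v, w`. -/
def colMat (u v w : Fin 3 → F) : Matrix (Fin 3) (Fin 3) F :=
  !![u 0, v 0, w 0; u 1, v 1, w 1; u 2, v 2, w 2]

/-- The Krylov matrix with columns `v, M v, M² v`. -/
def kry (M : Matrix (Fin 3) (Fin 3) F) (v : Fin 3 → F) : Matrix (Fin 3) (Fin 3) F :=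
  colMat v (M *ᵥ v) (M *ᵥ (M *ᵥ v))

theorem mul_kry (M : Matrix (Fin 3) (Fin 3) F) (v : Fin 3 → F) :
    M * kry M v = kry M v * comp3 M.det (- e2m M) M.trace := by
  ext i j
  fin_cases i <;> fin_cases j <;>
    simp [kry, colMat, comp3, e2m, Matrix.mul_apply, Fin.sum_univ_three, Matrix.mulVec,
      dotProduct, Matrix.det_fin_three, Matrix.trace_fin_three] <;> ring

/-- The base element. -/
def xt (t : F) : Matrix (Fin 3) (Fin 3) F := !![1, 0, 0; 0, 0, -1; 0, 1, t]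

theorem xt_det (t : F) : (xt t).det = 1 := by
  simp [xt, Matrix.det_fin_three]

theorem xt_trace (t : F) : (xt t).trace = t + 1 := by
  simp [xt, Matrix.trace_fin_three]
  ring

theorem xt_e2 (t : F) : e2m (xt t) = t + 1 := by
  simp [xt, e2m]

theorem xt_kry_det (t : F) : (kry (xt t) ![1, 1, 0]).det = 2 - t := by
  simp [xt, kry, colMat, Matrix.det_fin_three, Matrix.mulVec, dotProduct, Fin.sum_univ_three]
  ring

/-- A matrix with the invariants of `xt t` and a cyclic vector is conjugate to `xt t`. -/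
theorem conj_xt (t : F) (ht : t ≠ 2) (M : Matrix (Fin 3) (Fin 3) F) (hdet : M.det = 1)
    (htr : M.trace = t + 1) (he2 : e2m M = t + 1) (v : Fin 3 → F) (hv : (kry M v).det ≠ 0) :
    ∃ R : Matrix (Fin 3) (Fin 3) F, R.det ≠ 0 ∧ M * R = R * xt t := by
  obtain ⟨P, hP⟩ : ∃ P : Matrix (Fin 3) (Fin 3) F, P = kry M v := ⟨_, rfl⟩
  obtain ⟨P₀, hP₀⟩ : ∃ P₀ : Matrix (Fin 3) (Fin 3) F, P₀ = kry (xt t) ![1, 1, 0] := ⟨_, rfl⟩
  obtain ⟨Cf, hCf⟩ : ∃ Cf : Matrix (Fin 3) (Fin 3) F, Cf = comp3 1 (-(t + 1)) (t + 1) :=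
    ⟨_, rfl⟩
  have h1 : M * P = P * Cf := by rw [hP, mul_kry, hdet, he2, htr, hCf]
  have h2 : xt t * P₀ = P₀ * Cf := by rw [hP₀, mul_kry, xt_det, xt_e2, xt_trace, hCf]
  have hP₀det : P₀.det ≠ 0 := by
    rw [hP₀, xt_kry_det]
    intro h
    apply ht
    linear_combination -h
  have hP₀u : IsUnit P₀.det := isUnit_iff_ne_zero.2 hP₀det
  refine ⟨P * P₀⁻¹, ?_, ?_⟩
  · rw [Matrix.det_mul, Matrix.det_nonsing_inv, Ring.inverse_eq_inv']
    exact mul_ne_zero (by rw [hP]; exact hv) (inv_ne_zero hP₀det)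
  · calc M * (P * P₀⁻¹) = (M * P) * P₀⁻¹ := by rw [mul_assoc]
      _ = P * Cf * P₀⁻¹ := by rw [h1]
      _ = P * (P₀⁻¹ * (P₀ * Cf)) * P₀⁻¹ := by
        rw [← mul_assoc P₀⁻¹, Matrix.nonsing_inv_mul _ hP₀u, one_mul]
      _ = P * (P₀⁻¹ * (xt t * P₀)) * P₀⁻¹ := by rw [h2]
      _ = P * P₀⁻¹ * xt t * (P₀ * P₀⁻¹) := by simp only [mul_assoc]
      _ = P * P₀⁻¹ * xt t := by rw [Matrix.mul_nonsing_inv _ hP₀u, mul_one]

/-- The explicit factorization of a matrix with first column `(0, 1, 0)`. -/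
theorem exists_factor_aux (t : F) (ht : t ≠ 2) (a b c d e f : F) (hdet : b * e - a * f = 1) :
    ∃ x₁ x₂ R₁ R₂ : Matrix (Fin 3) (Fin 3) F, R₁.det ≠ 0 ∧ R₂.det ≠ 0 ∧
      x₁ * R₁ = R₁ * xt t ∧ x₂ * R₂ = R₂ * xt t ∧
      !![0, a, b; 1, c, d; 0, e, f] = x₁ * x₂ := by
  obtain ⟨s, hs⟩ : ∃ s : F, s * e + f ≠ 0 := by
    by_cases he : e = 0
    · refine ⟨0, ?_⟩
      rw [zero_mul, zero_add]
      rintro rfl
      rw [he] at hdet
      simp at hdet
    · refine ⟨(1 - f) / e, ?_⟩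
      rw [div_mul_cancel₀ _ he]
      simp
  obtain ⟨y12, hy12⟩ : ∃ y12 : F,
      y12 = (t + 1) - s * c - d - (s * (t - s) - 1) * e - (t - s) * f := ⟨_, rfl⟩
  obtain ⟨y13, hy13⟩ : ∃ y13 : F, y13 = (-(s * a + b) +
      (y12 + s * c + d) * ((s * (t - s) - 1) * e + (t - s) * f) -
      ((s * (t - s) - 1) * c + (t - s) * d) * (s * e + f) - (t + 1)) / (s * e + f) := ⟨_, rfl⟩
  have hy13' : y13 * (s * e + f) = -(s * a + b) +
      (y12 + s * c + d) * ((s * (t - s) - 1) * e + (t - s) * f) -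
      ((s * (t - s) - 1) * c + (t - s) * d) * (s * e + f) - (t + 1) := by
    rw [hy13, div_mul_cancel₀ _ hs]
  obtain ⟨x₁, hx₁⟩ : ∃ x₁ : Matrix (Fin 3) (Fin 3) F,
      x₁ = !![0, s * a + b, (s * (t - s) - 1) * a + (t - s) * b;
              1, y12 + s * c + d, y13 + (s * (t - s) - 1) * c + (t - s) * d;
              0, s * e + f, (s * (t - s) - 1) * e + (t - s) * f] := ⟨_, rfl⟩
  obtain ⟨x₂, hx₂⟩ : ∃ x₂ : Matrix (Fin 3) (Fin 3) F,
      x₂ = !![1, y13 - y12 * (t - s), y12 * (s * (t - s) - 1) - y13 * s;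
              0, t - s, -(s * (t - s) - 1);
              0, -1, s] := ⟨_, rfl⟩
  have hprod : !![0, a, b; 1, c, d; 0, e, f] = x₁ * x₂ := by
    rw [hx₁, hx₂]
    ext i j
    fin_cases i <;> fin_cases j <;>
      simp [Matrix.mul_apply, Fin.sum_univ_three] <;> ring
  have hx₁det : x₁.det = 1 := by
    rw [hx₁, Matrix.det_fin_three]
    simp
    linear_combination hdet
  have hx₁tr : x₁.trace = t + 1 := by
    rw [hx₁, Matrix.trace_fin_three]
    simp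
    rw [hy12]
    ring
  have hx₁e2 : e2m x₁ = t + 1 := by
    rw [hx₁]
    simp [e2m]
    linear_combination (-1 : F) * hy13'
  have hx₁k : (kry x₁ ![1, 0, 0]).det = s * e + f := by
    rw [hx₁]
    simp [kry, colMat, Matrix.det_fin_three, Matrix.mulVec, dotProduct, Fin.sum_univ_three]
  have hx₂det : x₂.det = 1 := by
    rw [hx₂, Matrix.det_fin_three]
    simp
    ring
  have hx₂tr : x₂.trace = t + 1 := by
    rw [hx₂, Matrix.trace_fin_three]
    simp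
    ring
  have hx₂e2 : e2m x₂ = t + 1 := by
    rw [hx₂]
    simp [e2m]
    ring
  have hx₂k : (kry x₂ ![1, 1, 0]).det = (kry x₂ ![0, 1, 0]).det + (t - 2) := by
    rw [hx₂]
    simp [kry, colMat, Matrix.det_fin_three, Matrix.mulVec, dotProduct, Fin.sum_univ_three]
    ring
  obtain ⟨R₁, hR₁, hR₁'⟩ := conj_xt t ht x₁ hx₁det hx₁tr hx₁e2 ![1, 0, 0] (by rw [hx₁k]; exact hs)
  obtain ⟨R₂, hR₂, hR₂'⟩ : ∃ R : Matrix (Fin 3) (Fin 3) F, R.det ≠ 0 ∧ x₂ * R = R * xt t := by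
    by_cases hD : (kry x₂ ![0, 1, 0]).det = 0
    · apply conj_xt t ht x₂ hx₂det hx₂tr hx₂e2 ![1, 1, 0]
      rw [hx₂k, hD, zero_add]
      intro h
      apply ht
      linear_combination h
    · exact conj_xt t ht x₂ hx₂det hx₂tr hx₂e2 ![0, 1, 0] hD
  exact ⟨x₁, x₂, R₁, R₂, hR₁, hR₂, hR₁', hR₂', hprod⟩

/-- A non-scalar `3 × 3` matrix has a vector `v` with `v`, `g v` independent, completed to a
basis. -/
theorem exists_colMat_det_ne_zero (g : Matrix (Fin 3) (Fin 3) F) (hns : ¬ ∃ c : F, g = c • 1) :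
    ∃ v w : Fin 3 → F, (colMat v (g *ᵥ v) w).det ≠ 0 := by
  by_contra hcon
  push Not at hcon
  apply hns
  refine ⟨g 0 0, ?_⟩
  have h1 := hcon ![1, 0, 0] ![0, 0, 1]
  have h2 := hcon ![1, 0, 0] ![0, 1, 0]
  have h3 := hcon ![0, 1, 0] ![0, 0, 1]
  have h4 := hcon ![0, 1, 0] ![1, 0, 0]
  have h5 := hcon ![0, 0, 1] ![0, 1, 0]
  have h6 := hcon ![0, 0, 1] ![1, 0, 0]
  have h7 := hcon ![1, 1, 0] ![0, 0, 1]
  have h8 := hcon ![1, 0, 1] ![0, 1, 0]
  simp [colMat, Matrix.det_fin_three, Matrix.mulVec, dotProduct, Fin.sum_univ_three] at h1 h2 h3 h4 h5 h6 h7 h8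
  ext i j
  fin_cases i <;> fin_cases j <;> simp [Matrix.one_apply]
  all_goals first | assumption | linear_combination h7 - h1 + h3 | linear_combination -h8 - h2 + h5

/-- A non-scalar matrix is conjugate to one with first column `(0, 1, 0)`. -/
theorem exists_reduced (g : Matrix (Fin 3) (Fin 3) F) (hdet : g.det = 1)
    (hns : ¬ ∃ c : F, g = c • 1) :
    ∃ (Q : Matrix (Fin 3) (Fin 3) F) (a b c d e f : F), Q.det ≠ 0 ∧ b * e - a * f = 1 ∧
      g * Q = Q * !![0, a, b; 1, c, d; 0, e, f] := by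
  obtain ⟨v, w, hvw⟩ := exists_colMat_det_ne_zero g hns
  obtain ⟨Q, hQ⟩ : ∃ Q : Matrix (Fin 3) (Fin 3) F, Q = colMat v (g *ᵥ v) w := ⟨_, rfl⟩
  rw [← hQ] at hvw
  have hQu : IsUnit Q.det := isUnit_iff_ne_zero.2 hvw
  obtain ⟨g', hg'⟩ : ∃ g' : Matrix (Fin 3) (Fin 3) F, g' = Q⁻¹ * g * Q := ⟨_, rfl⟩
  have hgQ : g * Q = Q * g' := by
    rw [hg', ← mul_assoc, ← mul_assoc, Matrix.mul_nonsing_inv _ hQu, one_mul]
  have hcol : g' *ᵥ ![1, 0, 0] = ![0, 1, 0] := by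
    have h1 : Q *ᵥ ![1, 0, 0] = v := by
      rw [hQ]
      ext i
      fin_cases i <;> simp [colMat, Matrix.mulVec, dotProduct, Fin.sum_univ_three]
    have h2 : Q *ᵥ ![0, 1, 0] = g *ᵥ v := by
      rw [hQ]
      ext i
      fin_cases i <;> simp [colMat, Matrix.mulVec, dotProduct, Fin.sum_univ_three]
    rw [hg', ← Matrix.mulVec_mulVec, ← Matrix.mulVec_mulVec, h1, ← h2, Matrix.mulVec_mulVec,
      Matrix.nonsing_inv_mul _ hQu, Matrix.one_mulVec]
  have h00 : g' 0 0 = 0 := by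
    have := congrFun hcol 0
    simpa [Matrix.mulVec, dotProduct, Fin.sum_univ_three] using this
  have h10 : g' 1 0 = 1 := by
    have := congrFun hcol 1
    simpa [Matrix.mulVec, dotProduct, Fin.sum_univ_three] using this
  have h20 : g' 2 0 = 0 := by
    have := congrFun hcol 2
    simpa [Matrix.mulVec, dotProduct, Fin.sum_univ_three] using this
  have hdet' : g'.det = 1 := by
    rw [hg', Matrix.det_mul, Matrix.det_mul, Matrix.det_nonsing_inv, Ring.inverse_eq_inv', hdet,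
      mul_one, inv_mul_cancel₀ hvw]
  have heta : g' = !![0, g' 0 1, g' 0 2; 1, g' 1 1, g' 1 2; 0, g' 2 1, g' 2 2] := by
    conv_lhs => rw [Matrix.eta_fin_three g']
    rw [h00, h10, h20]
  refine ⟨Q, g' 0 1, g' 0 2, g' 1 1, g' 1 2, g' 2 1, g' 2 2, hvw, ?_, ?_⟩
  · rw [Matrix.det_fin_three, h00, h10, h20] at hdet'
    linear_combination hdet'
  · rw [← heta]
    exact hgQ

theorem exists_det_one_conj (t : F) (A R : Matrix (Fin 3) (Fin 3) F) (hR : R.det ≠ 0)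
    (h : A * R = R * xt t) :
    ∃ U : Matrix (Fin 3) (Fin 3) F, U.det = 1 ∧ A * U = U * xt t := by
  refine ⟨R * Matrix.diagonal ![R.det⁻¹, 1, 1], ?_, ?_⟩
  · rw [Matrix.det_mul, Matrix.det_diagonal, Fin.prod_univ_three]
    simp
    exact mul_inv_cancel₀ hR
  · have hc : Matrix.diagonal ![R.det⁻¹, 1, 1] * xt t =
        xt t * Matrix.diagonal ![R.det⁻¹, 1, 1] := by
      ext i j
      fin_cases i <;> fin_cases j <;>
        simp [xt, Matrix.mul_apply, Fin.sum_univ_three, Matrix.diagonal_apply]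
    rw [← mul_assoc, h, mul_assoc, mul_assoc, hc]

/-- Every non-scalar matrix of determinant `1` is a product of two conjugates of `xt t`. -/
theorem exists_conj_factor (t : F) (ht : t ≠ 2) (g : Matrix (Fin 3) (Fin 3) F)
    (hdet : g.det = 1) (hns : ¬ ∃ c : F, g = c • 1) :
    ∃ U₁ U₂ A₁ A₂ : Matrix (Fin 3) (Fin 3) F, U₁.det = 1 ∧ U₂.det = 1 ∧
      A₁ * U₁ = U₁ * xt t ∧ A₂ * U₂ = U₂ * xt t ∧ g = A₁ * A₂ := by
  obtain ⟨Q, a, b, c, d, e, f, hQ, hdet', hgQ⟩ := exists_reduced g hdet hns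
  obtain ⟨x₁, x₂, R₁, R₂, hR₁, hR₂, h1, h2, hprod⟩ := exists_factor_aux t ht a b c d e f hdet'
  have hQu : IsUnit Q.det := isUnit_iff_ne_zero.2 hQ
  have hQQ : Q * Q⁻¹ = 1 := Matrix.mul_nonsing_inv _ hQu
  have hQQ' : Q⁻¹ * Q = 1 := Matrix.nonsing_inv_mul _ hQu
  obtain ⟨U₁, hU₁, hU₁'⟩ := exists_det_one_conj t (Q * x₁ * Q⁻¹) (Q * R₁)
    (by rw [Matrix.det_mul]; exact mul_ne_zero hQ hR₁) (by
      calc Q * x₁ * Q⁻¹ * (Q * R₁) = Q * x₁ * (Q⁻¹ * Q) * R₁ := by simp only [mul_assoc]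
        _ = Q * (x₁ * R₁) := by rw [hQQ', mul_one, mul_assoc]
        _ = Q * R₁ * xt t := by rw [h1, mul_assoc])
  obtain ⟨U₂, hU₂, hU₂'⟩ := exists_det_one_conj t (Q * x₂ * Q⁻¹) (Q * R₂)
    (by rw [Matrix.det_mul]; exact mul_ne_zero hQ hR₂) (by
      calc Q * x₂ * Q⁻¹ * (Q * R₂) = Q * x₂ * (Q⁻¹ * Q) * R₂ := by simp only [mul_assoc]
        _ = Q * (x₂ * R₂) := by rw [hQQ', mul_one, mul_assoc]
        _ = Q * R₂ * xt t := by rw [h2, mul_assoc])
  refine ⟨U₁, U₂, Q * x₁ * Q⁻¹, Q * x₂ * Q⁻¹, hU₁, hU₂, hU₁', hU₂', ?_⟩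
  calc g = g * (Q * Q⁻¹) := by rw [hQQ, mul_one]
    _ = (g * Q) * Q⁻¹ := by rw [mul_assoc]
    _ = Q * (x₁ * x₂) * Q⁻¹ := by rw [hgQ, hprod]
    _ = Q * x₁ * (Q⁻¹ * Q) * x₂ * Q⁻¹ := by rw [hQQ', mul_one]; simp only [mul_assoc]
    _ = Q * x₁ * Q⁻¹ * (Q * x₂ * Q⁻¹) := by simp only [mul_assoc]

/-- The base element in `SL₃`. -/
def xtSL (t : F) : Matrix.SpecialLinearGroup (Fin 3) F := ⟨xt t, xt_det t⟩

theorem sl3_conj_coe (t : F) (u : Matrix.SpecialLinearGroup (Fin 3) F)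
    (A : Matrix (Fin 3) (Fin 3) F)
    (h : A * (u : Matrix (Fin 3) (Fin 3) F) = (u : Matrix (Fin 3) (Fin 3) F) * xt t) :
    ((u * xtSL t * u⁻¹ : Matrix.SpecialLinearGroup (Fin 3) F) : Matrix (Fin 3) (Fin 3) F) = A := by
  obtain ⟨X, hX⟩ : ∃ X : Matrix.SpecialLinearGroup (Fin 3) F, X = u * xtSL t * u⁻¹ := ⟨_, rfl⟩
  rw [← hX]
  have h3 : X * u = u * xtSL t := by
    rw [hX]
    group
  have h4 : (X : Matrix (Fin 3) (Fin 3) F) * (u : Matrix (Fin 3) (Fin 3) F) =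
      (u : Matrix (Fin 3) (Fin 3) F) * xt t := by
    have := congrArg (fun z : Matrix.SpecialLinearGroup (Fin 3) F =>
      (z : Matrix (Fin 3) (Fin 3) F)) h3
    simp only [Matrix.SpecialLinearGroup.coe_mul] at this
    exact this
  have hUu : IsUnit (u : Matrix (Fin 3) (Fin 3) F).det := by
    rw [u.det_coe]
    exact isUnit_one
  have h5 : (X : Matrix (Fin 3) (Fin 3) F) * (u : Matrix (Fin 3) (Fin 3) F) =
      A * (u : Matrix (Fin 3) (Fin 3) F) := by rw [h, h4]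
  have h6 := congrArg (fun z => z * (u : Matrix (Fin 3) (Fin 3) F)⁻¹) h5
  simp only [mul_assoc, Matrix.mul_nonsing_inv _ hUu, mul_one] at h6
  exact h6

theorem sl3_factor (t : F) (ht : t ≠ 2) (g : Matrix.SpecialLinearGroup (Fin 3) F)
    (hns : ¬ ∃ c : F, (g : Matrix (Fin 3) (Fin 3) F) = c • 1) :
    ∃ u v : Matrix.SpecialLinearGroup (Fin 3) F,
      g = (u * xtSL t * u⁻¹) * (v * xtSL t * v⁻¹) := by
  obtain ⟨U₁, U₂, A₁, A₂, hU₁, hU₂, h1, h2, hg⟩ := exists_conj_factor t ht g g.det_coe hns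
  refine ⟨⟨U₁, hU₁⟩, ⟨U₂, hU₂⟩, ?_⟩
  apply Subtype.ext
  rw [Matrix.SpecialLinearGroup.coe_mul, sl3_conj_coe t ⟨U₁, hU₁⟩ A₁ h1,
    sl3_conj_coe t ⟨U₂, hU₂⟩ A₂ h2]
  exact hg

/-- In `PSL₃(F)` every nontrivial element is a product of two conjugates of the image of
`xt t`. -/
theorem psl3_cc (t : F) (ht : t ≠ 2) (g : Matrix.ProjectiveSpecialLinearGroup (Fin 3) F)
    (hg : g ≠ 1) :
    ∃ u v : Matrix.ProjectiveSpecialLinearGroup (Fin 3) F,
      g = (u * (xtSL t : Matrix.ProjectiveSpecialLinearGroup (Fin 3) F) * u⁻¹) *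
        (v * (xtSL t : Matrix.ProjectiveSpecialLinearGroup (Fin 3) F) * v⁻¹) := by
  obtain ⟨g', rfl⟩ := QuotientGroup.mk_surjective g
  have hns : ¬ ∃ c : F, (g' : Matrix (Fin 3) (Fin 3) F) = c • 1 := by
    intro h
    apply hg
    have h1 := (psl_pow_eq_one_iff g' 1).2 (by simpa using h)
    simpa using h1
  obtain ⟨u, v, huv⟩ := sl3_factor t ht g' hns
  refine ⟨QuotientGroup.mk u, QuotientGroup.mk v, ?_⟩
  rw [huv]
  rfl

theorem xt_neg_one_pow : xt (-1 : F) ^ 3 = 1 := by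
  ext i j
  fin_cases i <;> fin_cases j <;>
    simp [xt, pow_succ, Matrix.mul_apply, Fin.sum_univ_three, Matrix.one_apply]

theorem xt_zero_pow : xt (0 : F) ^ 4 = 1 := by
  ext i j
  fin_cases i <;> fin_cases j <;>
    simp [xt, pow_succ, Matrix.mul_apply, Fin.sum_univ_three, Matrix.one_apply]

end cc3

end Cfsg.Agent.H41
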