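import Mathlib
import Cfsg.Prelude.Def_Characters
import Cfsg.Agent.Lib.CT.Ops
import Cfsg.Agent.Lib.Helper74.BLCore
import Cfsg.Agent.H41.TwBurn

set_option autoImplicit false

namespace Cfsg.Agent.H41.PermChar2

open Cfsg Cfsg.Agent.Lib.CT Cfsg.Agent.Lib.CT.Ops Cfsg.Agent.H41.TwBurn
open scoped BigOperators Pointwise ComplexConjugate

universe u w

section

variable {G : Type u} [Group G] {X : Type w} [MulAction G X]

/-- The permutation character: number of fixed points. -/
noncomputable def permChar (G : Type u) [Group G] (X : Type w) [MulAction G X] : G → ℂ :=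
  fun g => (Nat.card (MulAction.fixedBy X g) : ℂ)

theorem card_fixedBy_eq [Fintype X] [DecidableEq X] (g : G) :
    Nat.card (MulAction.fixedBy X g) = (Fx X g).card := by
  rw [← Nat.card_eq_finsetCard]
  refine Nat.card_congr (Equiv.subtypeEquivRight ?_)
  intro x
  simp [MulAction.mem_fixedBy, Fx]

theorem permChar_isCharacter [Finite X] : IsCharacter G (permChar G X) := by
  classical
  have : Fintype X := Fintype.ofFinite X
  have h := isCharacter_of_rep (Representation.ofMulAction ℂ G X)
  have h2 : (Representation.ofMulAction ℂ G X).character = permChar G X := by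
    funext g
    unfold Representation.character permChar
    rw [LinearMap.trace_eq_matrix_trace ℂ (MonoidAlgebra.basis X ℂ), Matrix.trace, card_fixedBy_eq,
      Fx, Finset.card_filter, Nat.cast_sum]
    refine Finset.sum_congr rfl (fun x _ => ?_)
    rw [Matrix.diag_apply, LinearMap.toMatrix_apply, MonoidAlgebra.basis_apply,
      Representation.ofMulAction_single]
    show ((MonoidAlgebra.single (g • x) (1 : ℂ)).coeff) x = _
    rw [MonoidAlgebra.coeff_single, Finsupp.single_apply]
    split_ifs <;> simp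
  rwa [h2] at h

theorem pair_eq_pair [DecidableEq X] {a b c d : X} :
    ({a, b} : Finset X) = {c, d} ↔ (a = c ∧ b = d) ∨ (a = d ∧ b = c) := by
  rw [← Finset.coe_inj, Finset.coe_pair, Finset.coe_pair]
  exact Set.pair_eq_pair_iff

theorem two_mul_fix2 [Fintype X] [DecidableEq X] (g : G) :
    Nat.card (MulAction.fixedBy (Set.powersetCard X 2) g) * 2
      = (Fx X g).offDiag.card + (Sw X g).card := by
  classical
  obtain ⟨F2, hF2⟩ : ∃ F2 : Finset (Finset X),
      F2 = Finset.univ.filter (fun s : Finset X => s.card = 2 ∧ g • s = s) := ⟨_, rfl⟩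
  have hmem : ∀ s, s ∈ F2 ↔ s.card = 2 ∧ g • s = s := by
    intro s
    rw [hF2]
    simp
  have h1 : Nat.card (MulAction.fixedBy (Set.powersetCard X 2) g) = F2.card := by
    rw [← Nat.card_eq_finsetCard]
    refine Nat.card_congr ?_
    refine
      { toFun := fun s => ⟨s.1.1, (hmem _).2 ⟨Set.powersetCard.mem_iff.1 s.1.2, ?_⟩⟩
        invFun := fun s => ⟨⟨s.1, Set.powersetCard.mem_iff.2 ((hmem _).1 s.2).1⟩, ?_⟩
        left_inv := fun s => rfl
        right_inv := fun s => rfl }
    · have := s.2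
      rw [MulAction.mem_fixedBy] at this
      have h := congrArg Subtype.val this
      rwa [Set.powersetCard.coe_smul] at h
    · rw [MulAction.mem_fixedBy]
      apply Subtype.ext
      rw [Set.powersetCard.coe_smul]
      exact ((hmem _).1 s.2).2
  obtain ⟨T, hT⟩ : ∃ T : Finset (X × X), T = (Fx X g).offDiag ∪ Sw X g := ⟨_, rfl⟩
  have hdisj : Disjoint (Fx X g).offDiag (Sw X g) := by
    rw [Finset.disjoint_left]
    rintro ⟨a, b⟩ h1 h2
    rw [Finset.mem_offDiag, mem_Fx, mem_Fx] at h1
    rw [mem_Sw] at h2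
    exact h2.2.2 (h1.1.symm.trans h2.1)
  have hTcard : T.card = (Fx X g).offDiag.card + (Sw X g).card := by
    rw [hT, Finset.card_union_of_disjoint hdisj]
  have hsm : ∀ a b : X, g • ({a, b} : Finset X) = {g • a, g • b} := by
    intro a b
    rw [Finset.smul_finset_def, Finset.image_insert, Finset.image_singleton]
  have hmaps : ∀ p ∈ T, ({p.1, p.2} : Finset X) ∈ F2 := by
    rintro ⟨a, b⟩ hp
    rw [hmem]
    rw [hT, Finset.mem_union, Finset.mem_offDiag, mem_Fx, mem_Fx, mem_Sw] at hp
    rcases hp with ⟨h1, h2, h3⟩ | ⟨h1, h2, h3⟩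
    · exact ⟨Finset.card_pair h3, by rw [hsm, h1, h2]⟩
    · exact ⟨Finset.card_pair h3, by rw [hsm, h1, h2, Finset.pair_comm]⟩
  have hfib : ∀ s ∈ F2, (T.filter (fun p => ({p.1, p.2} : Finset X) = s)).card = 2 := by
    intro s hs
    rw [hmem] at hs
    obtain ⟨a, b, hab, rfl⟩ := Finset.card_eq_two.1 hs.1
    have h2 := hs.2
    rw [hsm, pair_eq_pair] at h2
    have : T.filter (fun p => ({p.1, p.2} : Finset X) = {a, b}) = {(a, b), (b, a)} := by
      ext ⟨c, d⟩
      rw [Finset.mem_filter, hT, Finset.mem_union, Finset.mem_offDiag, mem_Fx, mem_Fx, mem_Sw,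
        pair_eq_pair, Finset.mem_insert, Finset.mem_singleton, Prod.mk.injEq, Prod.mk.injEq]
      constructor
      · rintro ⟨_, h | h⟩
        · left; exact h
        · right; exact h
      · rintro (⟨rfl, rfl⟩ | ⟨rfl, rfl⟩)
        · refine ⟨?_, Or.inl ⟨rfl, rfl⟩⟩
          rcases h2 with ⟨e1, e2⟩ | ⟨e1, e2⟩
          · left; exact ⟨e1, e2, hab⟩
          · right; exact ⟨e1, e2, hab⟩
        · refine ⟨?_, Or.inr ⟨rfl, rfl⟩⟩
          rcases h2 with ⟨e1, e2⟩ | ⟨e1, e2⟩
          · left; exact ⟨e2, e1, hab.symm⟩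
          · right; exact ⟨e2, e1, hab.symm⟩
    rw [this]
    exact Finset.card_pair (by intro h; exact hab (Prod.mk.inj h).1)
  rw [h1, ← hTcard, Finset.card_eq_sum_card_fiberwise hmaps, Finset.sum_congr rfl hfib,
    Finset.sum_const, smul_eq_mul]

end

section Irr

variable {G : Type u} [Group G] [Fintype G] {X : Type w} [MulAction G X] [Fintype X]
  [DecidableEq X]

theorem irr_of_real_norm {η : G → ℂ} (hη : IsGeneralizedCharacter G η)
    (hreal : ∀ g, conj (η g) = η g) (hsum : ∑ g : G, η g ^ 2 = (Fintype.card G : ℂ))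
    (n : ℕ) (hn : 0 < n) (h1 : η 1 = n) : IsIrrCharacter G η := by
  refine Cfsg.Agent.Lib.Helper74.BLCore.irr_of_norm_one hη ?_ n hn h1
  unfold classInner
  simp only [hreal]
  have : ∑ g : G, η g * η g = (Fintype.card G : ℂ) := by
    rw [← hsum]
    exact Finset.sum_congr rfl (fun g _ => (sq (η g)).symm)
  rw [this, Nat.card_eq_fintype_card]
  have hc : (Fintype.card G : ℂ) ≠ 0 := by exact_mod_cast Fintype.card_ne_zero
  exact inv_mul_cancel₀ hc

theorem Fx_one : (Fx X (1 : G)).card = Fintype.card X := by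
  simp [Fx]

theorem Sw_one : (Sw X (1 : G)).card = 0 := by
  rw [Finset.card_eq_zero, Sw, Finset.filter_eq_empty_iff]
  rintro ⟨a, b⟩ _ ⟨h1, _, h3⟩
  rw [one_smul] at h1
  exact h3 h1

theorem fix2_cast (g : G) :
    (Nat.card (MulAction.fixedBy (Set.powersetCard X 2) g) : ℂ) * 2
      = ((Fx X g).card : ℂ) * (Fx X g).card - (Fx X g).card + (Sw X g).card := by
  have h := two_mul_fix2 (X := X) g
  rw [Finset.offDiag_card] at h
  have := congrArg (Nat.cast : ℕ → ℂ) h
  push_cast [Nat.cast_sub (Nat.le_mul_self _)] at this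
  exact this

theorem theta2_eq (g : G) : permChar G (Set.powersetCard X 2) g - permChar G X g
    = (((Fx X g).card : ℂ) ^ 2 - 3 * ((Fx X g).card : ℂ) + ((Sw X g).card : ℂ)) / 2 := by
  unfold permChar
  have h' := fix2_cast (X := X) g
  rw [card_fixedBy_eq (X := X)]
  linear_combination h' / 2

theorem theta3_eq (g : G) :
    (permChar G X g * permChar G X g + 1)
      - (permChar G (Set.powersetCard X 2) g + permChar G X g + permChar G X g)
    = (((Fx X g).card : ℂ) ^ 2 - 3 * ((Fx X g).card : ℂ) + 2 - ((Sw X g).card : ℂ)) / 2 := by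
  unfold permChar
  have h' := fix2_cast (X := X) g
  rw [card_fixedBy_eq (X := X)]
  linear_combination (-1 : ℂ) * h' / 2

theorem fix2_one_lt (h4 : 4 ≤ Fintype.card X) :
    ∃ a : ℕ, a = Nat.card (MulAction.fixedBy (Set.powersetCard X 2) (1 : G))
      ∧ a * 2 + Fintype.card X = Fintype.card X * Fintype.card X := by
  refine ⟨_, rfl, ?_⟩
  have := two_mul_fix2 (X := X) (1 : G)
  rw [Finset.offDiag_card, Fx_one, Sw_one, add_zero] at this
  rw [this]
  exact Nat.sub_add_cancel (Nat.le_mul_self _)

theorem theta1_irr [MulAction.IsMultiplyPretransitive G X 2] (h2 : 2 ≤ Fintype.card X) :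
    IsIrrCharacter G (fun g => ((Fx X g).card : ℂ) - 1) := by
  have i0 : MulAction.IsPretransitive G X := MulAction.isPretransitive_of_is_two_pretransitive
  have hne : Nonempty X := Fintype.card_pos_iff.1 (by omega)
  have hgc : IsGeneralizedCharacter G (fun g => ((Fx X g).card : ℂ) - 1) :=
    ⟨permChar G X, fun _ => 1, permChar_isCharacter, isCharacter_one, by
      funext g
      rw [Pi.sub_apply, permChar, card_fixedBy_eq]⟩
  refine irr_of_real_norm hgc ?_ ?_ (Fintype.card X - 1) (by omega) ?_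
  · intro g
    simp
  · have a1 := sum_A1 X G
    have a2 := sum_A2 X G h2
    have e : ∀ g : G, (((Fx X g).card : ℂ) - 1) ^ 2
        = (((Fx X g).card : ℂ) * (Fx X g).card - (Fx X g).card) - (Fx X g).card + 1 := by
      intro g
      ring
    rw [Finset.sum_congr rfl (fun g _ => e g), Finset.sum_add_distrib, Finset.sum_sub_distrib,
      a1, a2]
    simp
  · show ((Fx X (1 : G)).card : ℂ) - 1 = _
    rw [Fx_one, Nat.cast_sub (by omega)]
    simp

theorem theta2_irr [MulAction.IsMultiplyPretransitive G X 4] (h4 : 4 ≤ Fintype.card X) :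
    IsIrrCharacter G (fun g =>
      (((Fx X g).card : ℂ) ^ 2 - 3 * ((Fx X g).card : ℂ) + ((Sw X g).card : ℂ)) / 2) := by
  have hgc : IsGeneralizedCharacter G (fun g =>
      (((Fx X g).card : ℂ) ^ 2 - 3 * ((Fx X g).card : ℂ) + ((Sw X g).card : ℂ)) / 2) :=
    ⟨permChar G (Set.powersetCard X 2), permChar G X, permChar_isCharacter, permChar_isCharacter,
      by
        funext g
        rw [Pi.sub_apply, theta2_eq]⟩
  obtain ⟨a, ha, h2a⟩ := fix2_one_lt (G := G) (X := X) h4
  have hlt : Fintype.card X < a := by nlinarith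
  refine irr_of_real_norm hgc ?_ ?_ (a - Fintype.card X) (by omega) ?_
  · intro g
    simp [map_ofNat]
  · have := moment2 X G h4
    simp only [div_pow]
    rw [← Finset.sum_div, this]
    norm_num
  · show (((Fx X (1 : G)).card : ℂ) ^ 2 - 3 * ((Fx X (1 : G)).card : ℂ)
      + ((Sw X (1 : G)).card : ℂ)) / 2 = _
    rw [← theta2_eq, permChar, permChar, ← ha, card_fixedBy_eq, Fx_one, Nat.cast_sub hlt.le]

theorem theta3_irr [MulAction.IsMultiplyPretransitive G X 4] (h4 : 4 ≤ Fintype.card X) :
    IsIrrCharacter G (fun g =>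
      (((Fx X g).card : ℂ) ^ 2 - 3 * ((Fx X g).card : ℂ) + 2 - ((Sw X g).card : ℂ)) / 2) := by
  have hgc : IsGeneralizedCharacter G (fun g =>
      (((Fx X g).card : ℂ) ^ 2 - 3 * ((Fx X g).card : ℂ) + 2 - ((Sw X g).card : ℂ)) / 2) :=
    ⟨permChar G X * permChar G X + (fun _ => 1),
      permChar G (Set.powersetCard X 2) + permChar G X + permChar G X,
      isCharacter_add (isCharacter_mul permChar_isCharacter permChar_isCharacter) isCharacter_one,
      isCharacter_add (isCharacter_add permChar_isCharacter permChar_isCharacter)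
        permChar_isCharacter,
      by
        funext g
        rw [Pi.sub_apply, Pi.add_apply, Pi.add_apply, Pi.add_apply, Pi.mul_apply, theta3_eq]⟩
  obtain ⟨a, ha, h2a⟩ := fix2_one_lt (G := G) (X := X) h4
  have hlt : a + Fintype.card X + Fintype.card X < Fintype.card X * Fintype.card X + 1 := by
    nlinarith
  refine irr_of_real_norm hgc ?_ ?_
    (Fintype.card X * Fintype.card X + 1 - (a + Fintype.card X + Fintype.card X)) (by omega) ?_
  · intro g
    simp [map_ofNat]
  · have := moment3 X G h4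
    simp only [div_pow]
    rw [← Finset.sum_div, this]
    norm_num
  · show (((Fx X (1 : G)).card : ℂ) ^ 2 - 3 * ((Fx X (1 : G)).card : ℂ) + 2
      - ((Sw X (1 : G)).card : ℂ)) / 2 = _
    rw [← theta3_eq, permChar, permChar, ← ha, card_fixedBy_eq, Fx_one, Nat.cast_sub hlt.le]
    push_cast
    ring

end Irr

end Cfsg.Agent.H41.PermChar2
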