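import Mathlib
import Cfsg.Agent.H41.SL2Entry
import Cfsg.Agent.Lib.Helper39.SL2Conj

set_option autoImplicit false

namespace Cfsg.Agent.H41

open Matrix Polynomial
open Cfsg.Agent.Lib.Helper39.SL2Conj

variable {F : Type*} [Field F]

theorem two_ne_zero_of_card_mod [Fintype F] (hodd : Fintype.card F % 2 = 1) : (2 : F) ≠ 0 := by
  intro h2
  have : CharP F 2 := CharTwo.of_one_ne_zero_of_two_eq_zero one_ne_zero h2
  obtain ⟨n, -, hn⟩ := FiniteField.card F 2
  rw [hn] at hodd
  have : Even (2 ^ (n : ℕ)) := (Nat.even_pow.2 ⟨even_two, n.ne_zero⟩)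
  rw [Nat.even_iff] at this
  omega

/-- A nondegenerate binary quadratic form over a finite field of odd order represents `1`. -/
theorem rep_one_odd [Fintype F] (hodd : Fintype.card F % 2 = 1) (a b c d : F)
    (hΔ : (d - a) ^ 2 + 4 * b * c ≠ 0) :
    ∃ x y : F, c * x ^ 2 + (d - a) * x * y - b * y ^ 2 = 1 := by
  have h2 : (2 : F) ≠ 0 := two_ne_zero_of_card_mod hodd
  have h4 : (4 : F) ≠ 0 := by
    have : (4 : F) = 2 * 2 := by norm_num
    rw [this]
    exact mul_ne_zero h2 h2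
  by_cases hc : c = 0
  · by_cases hb : b = 0
    · have hda : d - a ≠ 0 := by
        intro h
        apply hΔ
        rw [h, hb]
        ring
      refine ⟨1, (d - a)⁻¹, ?_⟩
      rw [hc, hb]
      field_simp
      ring
    · have hda : d - a ≠ 0 := by
        intro h
        apply hΔ
        rw [h, hc]
        ring
      have hk : (d - a) ^ 2 / (4 * b) ≠ 0 := by
        apply div_ne_zero (pow_ne_zero 2 hda) (mul_ne_zero h4 hb)
      obtain ⟨X₀, Y₀, h⟩ := FiniteField.exists_root_sum_quadratic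
        (f := C ((d - a) ^ 2 / (4 * b)) * X ^ 2 + C 0 * X + C (-1))
        (g := C (-b) * X ^ 2 + C 0 * X + C 0)
        (degree_quadratic hk) (degree_quadratic (neg_ne_zero.2 hb)) hodd
      simp only [eval_add, eval_mul, eval_C, eval_pow, eval_X] at h
      refine ⟨X₀, Y₀ + (d - a) * X₀ / (2 * b), ?_⟩
      rw [hc]
      field_simp
      field_simp at h
      linear_combination h
  · have hk : -((d - a) ^ 2 + 4 * b * c) / (4 * c) ≠ 0 := by
      apply div_ne_zero (neg_ne_zero.2 hΔ) (mul_ne_zero h4 hc)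
    obtain ⟨X₀, Y₀, h⟩ := FiniteField.exists_root_sum_quadratic
      (f := C c * X ^ 2 + C 0 * X + C (-1))
      (g := C (-((d - a) ^ 2 + 4 * b * c) / (4 * c)) * X ^ 2 + C 0 * X + C 0)
      (degree_quadratic hc) (degree_quadratic hk) hodd
    simp only [eval_add, eval_mul, eval_C, eval_pow, eval_X] at h
    refine ⟨X₀ - (d - a) * Y₀ / (2 * c), Y₀, ?_⟩
    field_simp
    field_simp at h
    linear_combination h

/-- In characteristic two the form attached to a matrix with nonzero trace represents `1`. -/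
theorem rep_one_even [Finite F] (h2 : (2 : F) = 0) (a b c d : F) (ht : d - a ≠ 0) :
    ∃ x y : F, c * x ^ 2 + (d - a) * x * y - b * y ^ 2 = 1 := by
  have : CharP F 2 := CharTwo.of_one_ne_zero_of_two_eq_zero one_ne_zero h2
  obtain ⟨x₀, y₀, h0⟩ : ∃ x y : F, c * x ^ 2 + (d - a) * x * y - b * y ^ 2 ≠ 0 := by
    by_cases hc : c = 0
    · by_cases hb : b = 0
      · refine ⟨1, 1, ?_⟩
        rw [hc, hb]
        simpa using ht
      · refine ⟨0, 1, ?_⟩
        simpa using hb
    · refine ⟨1, 0, ?_⟩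
      simpa using hc
  obtain ⟨s, hs⟩ := isSquare_of_charTwo' (c * x₀ ^ 2 + (d - a) * x₀ * y₀ - b * y₀ ^ 2)⁻¹
  refine ⟨s * x₀, s * y₀, ?_⟩
  have : c * (s * x₀) ^ 2 + (d - a) * (s * x₀) * (s * y₀) - b * (s * y₀) ^ 2 =
      (s * s) * (c * x₀ ^ 2 + (d - a) * x₀ * y₀ - b * y₀ ^ 2) := by ring
  rw [this, ← hs, inv_mul_cancel₀ h0]

/-- Elements of `SL₂` over a finite field with the same trace `t`, `t² ≠ 4`, are conjugate. -/
theorem isConj_of_trace [Fintype F] (A B : Matrix.SpecialLinearGroup (Fin 2) F)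
    (htr : ent A 0 0 + ent A 1 1 = ent B 0 0 + ent B 1 1)
    (hns : (ent A 0 0 + ent A 1 1) ^ 2 ≠ 4) : IsConj A B := by
  have key : ∀ M : Matrix.SpecialLinearGroup (Fin 2) F, (ent M 0 0 + ent M 1 1) ^ 2 ≠ 4 →
      IsConj (Mmat 1 (ent M 0 0 + ent M 1 1)) M := by
    intro M hM
    have hdet := sl2_det M
    obtain ⟨x, y, hxy⟩ : ∃ x y : F, ent M 1 0 * x ^ 2 + (ent M 1 1 - ent M 0 0) * x * y
        - ent M 0 1 * y ^ 2 = 1 := by
      by_cases h2 : (2 : F) = 0
      · apply rep_one_even h2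
        intro h
        apply hM
        have h4 : (4 : F) = 0 := by
          have : (4 : F) = 2 * 2 := by norm_num
          rw [this, h2, mul_zero]
        rw [h4]
        have : ent M 0 0 + ent M 1 1 = (ent M 1 1 - ent M 0 0) + 2 * ent M 0 0 := by ring
        rw [this, h, h2]
        ring
      · have hodd : Fintype.card F % 2 = 1 := by
          apply FiniteField.odd_card_of_char_ne_two
          intro hch
          have : CharP F 2 := ringChar.of_eq hch
          exact h2 (CharTwo.two_eq_zero)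
        apply rep_one_odd hodd
        intro h
        apply hM
        linear_combination h + 4 * hdet
    exact isConj_Mmat M x y 1 (by simpa using hxy)
  have h1 := key A hns
  have h2 := key B (by rw [← htr]; exact hns)
  rw [← htr] at h2
  exact h1.symm.trans h2

/-- A solution of the conic gives a factorization of `Mmat l s` into two elements of trace `t`. -/
theorem factor_of_conic (l : Fˣ) (s t a b : F)
    (h : a ^ 2 - s * a * b + b ^ 2 - t * (a - b) + 1 = 0) :
    ∃ A B : Matrix.SpecialLinearGroup (Fin 2) F, ent A 0 0 + ent A 1 1 = t ∧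
      ent B 0 0 + ent B 1 1 = t ∧ A * B = Mmat l s := by
  have hl : (l : F) ≠ 0 := l.ne_zero
  have hdet : a * (t - a) - b / (l : F) * ((l : F) * (t + b - a * s)) = 1 := by
    field_simp
    linear_combination (-1 : F) * h
  refine ⟨mkSL a (b / l) (l * (t + b - a * s)) (t - a) hdet,
    (mkSL a (b / l) (l * (t + b - a * s)) (t - a) hdet)⁻¹ * Mmat l s, ?_, ?_, by group⟩
  · rw [mkSL00, mkSL11]
    ring
  · have e00 : ent (Mmat l s) 0 0 = 0 := rfl
    have e01 : ent (Mmat l s) 0 1 = -(l : F)⁻¹ := rfl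
    have e10 : ent (Mmat l s) 1 0 = l := rfl
    have e11 : ent (Mmat l s) 1 1 = s := rfl
    rw [sl2_mul00, sl2_mul11, sl2_inv00, sl2_inv01, sl2_inv10, sl2_inv11, mkSL00, mkSL01, mkSL10,
      mkSL11, e00, e01, e10, e11]
    field_simp
    ring

/-- A non-scalar element of `SL₂` is conjugate to some `Mmat l s`. -/
theorem exists_isConj_Mmat (g : Matrix.SpecialLinearGroup (Fin 2) F)
    (hg : ent g 0 1 ≠ 0 ∨ ent g 1 0 ≠ 0 ∨ ent g 0 0 ≠ ent g 1 1) :
    ∃ l : Fˣ, IsConj (Mmat l (ent g 0 0 + ent g 1 1)) g := by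
  by_cases h01 : ent g 0 1 = 0
  · by_cases h10 : ent g 1 0 = 0
    · have hne : ent g 1 1 - ent g 0 0 ≠ 0 := by
        rcases hg with h | h | h
        · exact absurd h01 h
        · exact absurd h10 h
        · intro h'
          exact h (sub_eq_zero.1 h').symm
      refine ⟨Units.mk0 _ hne, isConj_Mmat g 1 1 _ ?_⟩
      show ent g 1 0 * 1 ^ 2 + (ent g 1 1 - ent g 0 0) * 1 * 1 - ent g 0 1 * 1 ^ 2 = _
      rw [h01, h10]
      simp
    · refine ⟨Units.mk0 _ h10, isConj_Mmat g 1 0 _ ?_⟩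
      show ent g 1 0 * 1 ^ 2 + (ent g 1 1 - ent g 0 0) * 1 * 0 - ent g 0 1 * 0 ^ 2 = _
      simp
  · refine ⟨Units.mk0 _ (neg_ne_zero.2 h01), isConj_Mmat g 0 1 _ ?_⟩
    show ent g 1 0 * 0 ^ 2 + (ent g 1 1 - ent g 0 0) * 0 * 1 - ent g 0 1 * 1 ^ 2 = _
    simp

theorem cover_of_factor [Fintype F] (x g : Matrix.SpecialLinearGroup (Fin 2) F)
    (ht : (ent x 0 0 + ent x 1 1) ^ 2 ≠ 4) (l : Fˣ) (s : F) (hconj : IsConj (Mmat l s) g)
    (hfac : ∃ A B : Matrix.SpecialLinearGroup (Fin 2) F,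
      ent A 0 0 + ent A 1 1 = ent x 0 0 + ent x 1 1 ∧
      ent B 0 0 + ent B 1 1 = ent x 0 0 + ent x 1 1 ∧ A * B = Mmat l s) :
    ∃ u v : Matrix.SpecialLinearGroup (Fin 2) F, g = (u * x * u⁻¹) * (v * x * v⁻¹) := by
  obtain ⟨A, B, hA, hB, hAB⟩ := hfac
  obtain ⟨u₀, hu⟩ := isConj_iff.1 (isConj_of_trace x A hA.symm ht)
  obtain ⟨v₀, hv⟩ := isConj_iff.1 (isConj_of_trace x B hB.symm ht)
  obtain ⟨c, hc⟩ := isConj_iff.1 hconj
  refine ⟨c * u₀, c * v₀, ?_⟩
  rw [← hc, ← hAB, ← hu, ← hv]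
  group

/-- Covering in the split case (any characteristic). -/
theorem cover_split [Fintype F] (x g : Matrix.SpecialLinearGroup (Fin 2) F) (lam : F)
    (hlam : lam ^ 2 - (ent x 0 0 + ent x 1 1) * lam + 1 = 0)
    (ht : (ent x 0 0 + ent x 1 1) ^ 2 ≠ 4)
    (hg : ent g 0 1 ≠ 0 ∨ ent g 1 0 ≠ 0 ∨ ent g 0 0 ≠ ent g 1 1) :
    ∃ u v : Matrix.SpecialLinearGroup (Fin 2) F, g = (u * x * u⁻¹) * (v * x * v⁻¹) := by
  obtain ⟨l, hl⟩ := exists_isConj_Mmat g hg
  apply cover_of_factor x g ht l _ hl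
  apply factor_of_conic l _ _ 0 (-lam)
  linear_combination hlam

/-- Covering in odd characteristic: every non-scalar `g` with trace `≠ 2` is a product of two
conjugates of `x`, if the trace `t` of `x` satisfies `t ≠ 0`, `t² ≠ 4`. -/
theorem cover_odd [Fintype F] (hodd : Fintype.card F % 2 = 1)
    (x g : Matrix.SpecialLinearGroup (Fin 2) F)
    (ht0 : ent x 0 0 + ent x 1 1 ≠ 0) (ht : (ent x 0 0 + ent x 1 1) ^ 2 ≠ 4)
    (hg : ent g 0 1 ≠ 0 ∨ ent g 1 0 ≠ 0 ∨ ent g 0 0 ≠ ent g 1 1)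
    (hs : ent g 0 0 + ent g 1 1 ≠ 2) :
    ∃ u v : Matrix.SpecialLinearGroup (Fin 2) F, g = (u * x * u⁻¹) * (v * x * v⁻¹) := by
  have h2 : (2 : F) ≠ 0 := two_ne_zero_of_card_mod hodd
  obtain ⟨l, hl⟩ := exists_isConj_Mmat g hg
  apply cover_of_factor x g ht l _ hl
  set s := ent g 0 0 + ent g 1 1 with hsdef
  set t := ent x 0 0 + ent x 1 1 with htdef
  by_cases hs2 : s = -2
  · apply factor_of_conic l s t (1 / (2 * t)) (-(1 / (2 * t)))
    rw [hs2]
    field_simp
    ring
  · have hα : 2 + s ≠ 0 := by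
      intro h
      apply hs2
      linear_combination h
    have hβ : 2 - s ≠ 0 := by
      intro h
      apply hs
      linear_combination (-1 : F) * h
    obtain ⟨u, v, huv⟩ := FiniteField.exists_root_sum_quadratic
      (f := C (2 + s) * X ^ 2 + C (-(4 * t)) * X + C 4)
      (g := C (2 - s) * X ^ 2 + C 0 * X + C 0)
      (degree_quadratic hα) (degree_quadratic hβ) hodd
    simp only [eval_add, eval_mul, eval_C, eval_pow, eval_X] at huv
    apply factor_of_conic l s t ((u + v) / 2) ((v - u) / 2)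
    field_simp
    linear_combination huv

end Cfsg.Agent.H41
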