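import Mathlib
import Cfsg.Agent.H41.SL2Torus
import Cfsg.Agent.H41.SL2Split
import Cfsg.Agent.H41.Commutant

set_option autoImplicit false

namespace Cfsg.Agent.H41

open Matrix

section general

variable {F : Type*} [Field F]

/-- The trace of an element of `SL₂`. -/
abbrev tr (g : Matrix.SpecialLinearGroup (Fin 2) F) : F := ent g 0 0 + ent g 1 1

theorem tr_conj (g a : Matrix.SpecialLinearGroup (Fin 2) F) : tr (g * a * g⁻¹) = tr a := by
  have hdet := sl2_det g
  simp only [tr, sl2_mul00, sl2_mul01, sl2_mul10, sl2_mul11, sl2_inv00, sl2_inv01, sl2_inv10,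
    sl2_inv11]
  linear_combination (ent a 0 0 + ent a 1 1) * hdet

theorem tr_inv (a : Matrix.SpecialLinearGroup (Fin 2) F) : tr a⁻¹ = tr a := by
  simp only [tr, sl2_inv00, sl2_inv11]
  ring

/-- Cayley–Hamilton in `SL₂`, entrywise form. -/
theorem sl2_CH (g : Matrix.SpecialLinearGroup (Fin 2) F) :
    (g : Matrix (Fin 2) (Fin 2) F) * (g : Matrix (Fin 2) (Fin 2) F)
      = tr g • (g : Matrix (Fin 2) (Fin 2) F) - 1 :=
  mul_self_eq_of_det_one _ g.2

theorem intertwiner_aux (a b c d a' b' c' d' : F) (hc : c ≠ 0) (h1 : a * d - b * c = 1)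
    (h2 : a' * d' - b' * c' = 1) (ht : a + d = a' + d') :
    !![1, (a' - a) / c; 0, c' / c] * !![a, b; c, d]
      = !![a', b'; c', d'] * !![1, (a' - a) / c; 0, c' / c] := by
  have e11 : d = a' + d' - a := by linear_combination ht
  subst e11
  ext i j
  fin_cases i <;> fin_cases j <;>
    simp [Matrix.mul_apply, Fin.sum_univ_two] <;> field_simp
  all_goals first | ring1 | linear_combination (-1 : F) * h1 + h2

/-- Two elements of `SL₂` with the same trace and non-zero lower-left entries are conjugate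
under `GL₂`, by an explicit upper triangular matrix. -/
theorem exists_intertwiner (g τ : Matrix.SpecialLinearGroup (Fin 2) F) (htr : tr g = tr τ)
    (hg : ent g 1 0 ≠ 0) :
    !![1, (ent τ 0 0 - ent g 0 0) / ent g 1 0; 0, ent τ 1 0 / ent g 1 0]
        * (g : Matrix (Fin 2) (Fin 2) F)
      = (τ : Matrix (Fin 2) (Fin 2) F)
        * !![1, (ent τ 0 0 - ent g 0 0) / ent g 1 0; 0, ent τ 1 0 / ent g 1 0] := by
  have h := intertwiner_aux (ent g 0 0) (ent g 0 1) (ent g 1 0) (ent g 1 1) (ent τ 0 0) (ent τ 0 1)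
    (ent τ 1 0) (ent τ 1 1) hg (sl2_det g) (sl2_det τ) htr
  have eg : (g : Matrix (Fin 2) (Fin 2) F) = !![ent g 0 0, ent g 0 1; ent g 1 0, ent g 1 1] :=
    Matrix.eta_fin_two _
  have eτ : (τ : Matrix (Fin 2) (Fin 2) F) = !![ent τ 0 0, ent τ 0 1; ent τ 1 0, ent τ 1 1] :=
    Matrix.eta_fin_two _
  calc _ = !![1, (ent τ 0 0 - ent g 0 0) / ent g 1 0; 0, ent τ 1 0 / ent g 1 0]
        * !![ent g 0 0, ent g 0 1; ent g 1 0, ent g 1 1] := by rw [← eg]
    _ = _ := h
    _ = _ := by rw [← eτ]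

end general

section nonsplit

variable {F : Type*} [Field F] [Fintype F]
variable {K : Type*} [Field K] [Algebra F K] [Finite K]
variable (h2 : Module.finrank F K = 2) (b : Module.Basis (Fin 2) F K)

omit [Fintype F] [Finite K] in
theorem leftMul_algebraMap (c : F) :
    Algebra.leftMulMatrix b (algebraMap F K c) = c • (1 : Matrix (Fin 2) (Fin 2) F) := by
  rw [AlgHom.commutes, Algebra.algebraMap_eq_smul_one]

omit [Fintype F] [Finite K] in
theorem leftMul_lin (u v : F) (x : K) :
    u • (1 : Matrix (Fin 2) (Fin 2) F) + v • Algebra.leftMulMatrix b x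
      = Algebra.leftMulMatrix b (algebraMap F K u + v • x) := by
  rw [map_add, map_smul, leftMul_algebraMap]

omit [Fintype F] [Finite K] in
/-- The commutant of the image of an element of `K` outside `F` is the image of `K`. -/
theorem mem_range_of_commute (x : K) (hx : x ∉ Set.range (algebraMap F K))
    (B : Matrix (Fin 2) (Fin 2) F)
    (hB : Algebra.leftMulMatrix b x * B = B * Algebra.leftMulMatrix b x) :
    ∃ y : K, Algebra.leftMulMatrix b y = B := by
  have hns : Algebra.leftMulMatrix b x 0 1 ≠ 0 ∨ Algebra.leftMulMatrix b x 1 0 ≠ 0 ∨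
      Algebra.leftMulMatrix b x 0 0 ≠ Algebra.leftMulMatrix b x 1 1 := by
    by_contra hcon
    push Not at hcon
    obtain ⟨h01, h10, h00⟩ := hcon
    apply hx
    refine ⟨Algebra.leftMulMatrix b x 0 0, ?_⟩
    apply Algebra.leftMulMatrix_injective b
    rw [leftMul_algebraMap]
    ext i j
    fin_cases i <;> fin_cases j <;> simp [h01, h10, ← h00]
  obtain ⟨u, v, huv⟩ := commutant_two _ B hns hB
  exact ⟨_, (leftMul_lin b u v x).symm.trans huv.symm⟩

omit [Fintype F] [Finite K] in
theorem not_mem_range_of_ne (g : Matrix.SpecialLinearGroup (Fin 2) F) (x : K)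
    (hx : Algebra.leftMulMatrix b x = (g : Matrix (Fin 2) (Fin 2) F)) (h1 : g ≠ 1)
    (hneg : g ≠ negOne) : x ∉ Set.range (algebraMap F K) := by
  rintro ⟨c, rfl⟩
  rw [leftMul_algebraMap] at hx
  have hdet := g.2
  rw [← hx] at hdet
  have hc : c * c = 1 := by simpa [Matrix.det_smul, pow_two] using hdet
  rcases mul_self_eq_one_iff.1 hc with rfl | rfl
  · apply h1
    apply Subtype.ext
    rw [← hx]
    simp
  · apply hneg
    apply Subtype.ext
    rw [← hx, negOne_coe]
    simp

theorem torus_comm (a c : Matrix.SpecialLinearGroup (Fin 2) F) (ha : a ∈ torus h2 b)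
    (hc : c ∈ torus h2 b) : a * c = c * a := by
  obtain ⟨x, rfl⟩ := ha
  obtain ⟨y, rfl⟩ := hc
  rw [← map_mul, ← map_mul, mul_comm]

theorem negOne_mem_torus : (negOne : Matrix.SpecialLinearGroup (Fin 2) F) ∈ torus h2 b := by
  rw [mem_torus_iff]
  exact ⟨-1, by rw [map_neg, map_one, negOne_coe]⟩

/-- The centralizer of a non-central element of the torus is the torus. -/
theorem centralizer_of_mem_torus (g : Matrix.SpecialLinearGroup (Fin 2) F) (hg : g ∈ torus h2 b)
    (h1 : g ≠ 1) (hneg : g ≠ negOne) :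
    Subgroup.centralizer ({g} : Set (Matrix.SpecialLinearGroup (Fin 2) F)) = torus h2 b := by
  obtain ⟨x, hx⟩ := (mem_torus_iff h2 b g).1 hg
  have hxF := not_mem_range_of_ne b g x hx h1 hneg
  ext h
  rw [Subgroup.mem_centralizer_iff]
  constructor
  · intro hh
    have h' := hh g (Set.mem_singleton g)
    rw [mem_torus_iff]
    apply mem_range_of_commute b x hxF
    rw [hx, ← Matrix.SpecialLinearGroup.coe_mul, ← Matrix.SpecialLinearGroup.coe_mul, h']
  · intro hh k hk
    rw [Set.mem_singleton_iff] at hk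
    subst hk
    exact torus_comm h2 b _ _ hg hh

/-- Involutions of the torus are `±1`. -/
theorem torus_sq_eq_one (a : Matrix.SpecialLinearGroup (Fin 2) F) (ha : a ∈ torus h2 b)
    (haa : a * a = 1) : a = 1 ∨ a = negOne := by
  obtain ⟨x, hx⟩ := (mem_torus_iff h2 b a).1 ha
  have hxx : x * x = 1 := by
    apply Algebra.leftMulMatrix_injective b
    rw [map_mul, hx, map_one, ← Matrix.SpecialLinearGroup.coe_mul, haa]
    rfl
  rcases mul_self_eq_one_iff.1 hxx with rfl | rfl
  · left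
    apply Subtype.ext
    rw [← hx]
    simp
  · right
    apply Subtype.ext
    rw [← hx, negOne_coe]
    simp

/-- Elements of the torus with equal traces are equal or inverse to each other. -/
theorem torus_eq_or_eq_inv_of_tr_eq (a a' : Matrix.SpecialLinearGroup (Fin 2) F)
    (ha : a ∈ torus h2 b) (ha' : a' ∈ torus h2 b) (htr : tr a' = tr a) : a' = a ∨ a' = a⁻¹ := by
  obtain ⟨x, hx⟩ := (mem_torus_iff h2 b a).1 ha
  obtain ⟨x', hx'⟩ := (mem_torus_iff h2 b a').1 ha'
  have key : ∀ (g : Matrix.SpecialLinearGroup (Fin 2) F) (y : K),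
      Algebra.leftMulMatrix b y = (g : Matrix (Fin 2) (Fin 2) F) →
      y * y - algebraMap F K (tr g) * y + 1 = 0 := by
    intro g y hy
    apply Algebra.leftMulMatrix_injective b
    rw [map_add, map_sub, map_mul, map_mul, map_one, map_zero, leftMul_algebraMap, hy, sl2_CH,
      smul_mul_assoc, one_mul]
    abel
  have e1 := key a x hx
  have e2 := key a' x' hx'
  rw [htr] at e2
  have hprod : (x' - x) * (x' - (algebraMap F K (tr a) - x)) = 0 := by
    linear_combination e2 - e1
  rcases mul_eq_zero.1 hprod with h | h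
  · left
    apply Subtype.ext
    rw [← hx, ← hx', sub_eq_zero.1 h]
  · right
    have hxx : x * x' = 1 := by
      rw [sub_eq_zero.1 h]
      linear_combination (-1 : K) * e1
    apply eq_inv_of_mul_eq_one_right
    apply Subtype.ext
    rw [Matrix.SpecialLinearGroup.coe_mul, ← hx, ← hx', ← map_mul, hxx, map_one]
    rfl

/-- An element of `SL₂` with the same trace as an element `τ` of the torus is `SL₂`-conjugate
to `τ` (when both lower-left entries are non-zero). -/
theorem exists_conj_of_tr_eq (τ : Matrix.SpecialLinearGroup (Fin 2) F) (hτ : τ ∈ torus h2 b)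
    (g : Matrix.SpecialLinearGroup (Fin 2) F) (htr : tr g = tr τ) (hg : ent g 1 0 ≠ 0)
    (hτ10 : ent τ 1 0 ≠ 0) : ∃ h : Matrix.SpecialLinearGroup (Fin 2) F, h * g * h⁻¹ = τ := by
  have hQg := exists_intertwiner g τ htr hg
  set Q : Matrix (Fin 2) (Fin 2) F :=
    !![1, (ent τ 0 0 - ent g 0 0) / ent g 1 0; 0, ent τ 1 0 / ent g 1 0] with hQ
  have hdetQ : Q.det = ent τ 1 0 / ent g 1 0 := by simp [hQ, Matrix.det_fin_two]
  obtain ⟨y, hy⟩ := FiniteField.norm_surjective F K (ent g 1 0 / ent τ 1 0)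
  obtain ⟨x, hx⟩ := (mem_torus_iff h2 b τ).1 hτ
  have hdet : (Algebra.leftMulMatrix b y * Q).det = 1 := by
    rw [Matrix.det_mul, ← Algebra.norm_eq_matrix_det, hy, hdetQ]
    field_simp
  let h : Matrix.SpecialLinearGroup (Fin 2) F := ⟨Algebra.leftMulMatrix b y * Q, hdet⟩
  refine ⟨h, ?_⟩
  rw [mul_inv_eq_iff_eq_mul]
  apply Subtype.ext
  rw [Matrix.SpecialLinearGroup.coe_mul, Matrix.SpecialLinearGroup.coe_mul]
  show Algebra.leftMulMatrix b y * Q * (g : Matrix (Fin 2) (Fin 2) F)
    = (τ : Matrix (Fin 2) (Fin 2) F) * (Algebra.leftMulMatrix b y * Q)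
  rw [Matrix.mul_assoc, hQg, ← Matrix.mul_assoc, ← Matrix.mul_assoc, ← hx, ← map_mul, ← map_mul,
    mul_comm]

omit [Fintype F] in
/-- An element of `SL₂` without eigenvectors has irreducible characteristic polynomial. -/
theorem no_root_of_no_eigenvector (g : Matrix.SpecialLinearGroup (Fin 2) F)
    (hg : ∀ (c : F) (v : Fin 2 → F), v ≠ 0 → (g : Matrix (Fin 2) (Fin 2) F).mulVec v ≠ c • v) :
    ∀ c : F, c ^ 2 - tr g * c + 1 ≠ 0 := by
  intro c hc
  have hdet : ((g : Matrix (Fin 2) (Fin 2) F) - c • (1 : Matrix (Fin 2) (Fin 2) F)).det = 0 := by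
    rw [Matrix.det_fin_two]
    simp only [Matrix.sub_apply, Matrix.smul_apply, Matrix.one_apply_eq, smul_eq_mul, mul_one,
      Matrix.one_apply_ne (show (0 : Fin 2) ≠ 1 by decide),
      Matrix.one_apply_ne (show (1 : Fin 2) ≠ 0 by decide), mul_zero, sub_zero]
    linear_combination hc + sl2_det g
  obtain ⟨v, hv0, hv⟩ := Matrix.exists_mulVec_eq_zero_iff.2 hdet
  apply hg c v hv0
  rw [Matrix.sub_mulVec, Matrix.smul_mulVec, Matrix.one_mulVec, sub_eq_zero] at hv
  exact hv

/-- Every element of `SL₂` without eigenvectors is conjugate into the torus. -/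
theorem exists_conj_mem_torus (p : ℕ) [Fact p.Prime] [CharP F p]
    (g : Matrix.SpecialLinearGroup (Fin 2) F)
    (hg : ∀ (c : F) (v : Fin 2 → F), v ≠ 0 → (g : Matrix (Fin 2) (Fin 2) F).mulVec v ≠ c • v) :
    ∃ h : Matrix.SpecialLinearGroup (Fin 2) F, h * g * h⁻¹ ∈ torus h2 b := by
  have hroot := no_root_of_no_eigenvector g hg
  have hirr : Irreducible (tpoly (tr g)) :=
    Polynomial.irreducible_of_degree_le_three_of_not_isRoot (by rw [tpoly_natDegree]; decide)
      (fun x hx => hroot x (by simpa [tpoly_eval] using hx))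
  obtain ⟨a, ha⟩ := exists_root_quad (K := K) p h2 (tpoly (tr g)) hirr (tpoly_natDegree _)
  have ha' : a ^ 2 - algebraMap F K (tr g) * a + 1 = 0 := by simpa [tpoly] using ha
  obtain ⟨-, h3⟩ := root_pow_card (tr g) hroot a ha'
  have hdetτ : (Algebra.leftMulMatrix b a).det = 1 := by
    rw [← Algebra.norm_eq_matrix_det]
    exact norm_eq_one_of_pow h2 a h3
  let τ : Matrix.SpecialLinearGroup (Fin 2) F := ⟨Algebra.leftMulMatrix b a, hdetτ⟩
  have hτ : τ ∈ torus h2 b := (mem_torus_iff h2 b τ).2 ⟨a, rfl⟩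
  have hτ2 : (τ : Matrix (Fin 2) (Fin 2) F) * (τ : Matrix (Fin 2) (Fin 2) F)
      = tr g • (τ : Matrix (Fin 2) (Fin 2) F) - 1 := by
    show Algebra.leftMulMatrix b a * Algebra.leftMulMatrix b a
      = tr g • Algebra.leftMulMatrix b a - 1
    have e : a * a = tr g • a - 1 := by
      rw [Algebra.smul_def]
      linear_combination ha'
    rw [← map_mul, e, map_sub, map_smul, map_one]
  have e00 := congrFun (congrFun hτ2 0) 0
  have e10 := congrFun (congrFun hτ2 1) 0
  simp only [Matrix.mul_apply, Fin.sum_univ_two, Matrix.sub_apply, Matrix.smul_apply,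
    Matrix.one_apply_eq, smul_eq_mul,
    Matrix.one_apply_ne (show (1 : Fin 2) ≠ 0 by decide), sub_zero] at e00 e10
  have hτ10 : ent τ 1 0 ≠ 0 := by
    intro h0
    apply hroot (ent τ 0 0)
    have h0' : (τ : Matrix (Fin 2) (Fin 2) F) 1 0 = 0 := h0
    rw [h0'] at e00
    linear_combination e00
  have htr : tr g = tr τ := by
    have h : ent τ 1 0 * (tr τ - tr g) = 0 := by
      simp only [tr, ent]
      linear_combination e10
    rcases mul_eq_zero.1 h with h | h
    · exact absurd h hτ10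
    · exact (sub_eq_zero.1 h).symm
  have hg10 : ent g 1 0 ≠ 0 := by
    intro h0
    apply hg (ent g 0 0) ![1, 0] (by
      intro h
      have := congrFun h 0
      simp at this)
    ext i
    fin_cases i
    · simp [Matrix.mulVec, dotProduct, Fin.sum_univ_two]
    · simpa [Matrix.mulVec, dotProduct, Fin.sum_univ_two] using h0
  obtain ⟨h, hh⟩ := exists_conj_of_tr_eq h2 b τ hτ g htr hg10 hτ10
  exact ⟨h, hh ▸ hτ⟩

end nonsplit

section normalizer

variable {F : Type*} [Field F] [Fintype F]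
variable {K : Type*} [Field K] [Algebra F K] [Finite K]
variable (h2 : Module.finrank F K = 2) (b : Module.Basis (Fin 2) F K)

omit [Fintype F] in
theorem negOne_comm (g : Matrix.SpecialLinearGroup (Fin 2) F) : negOne * g = g * negOne := by
  apply sl2_ext <;>
    simp only [sl2_mul00, sl2_mul01, sl2_mul10, sl2_mul11, negOne, mkSL00, mkSL01, mkSL10,
      mkSL11] <;> ring

omit [Fintype F] in
theorem negOne_inv : (negOne : Matrix.SpecialLinearGroup (Fin 2) F)⁻¹ = negOne :=
  inv_eq_of_mul_eq_one_left negOne_mul_self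

/-- The normalizer of the non-split torus. -/
noncomputable abbrev torusNormalizer : Subgroup (Matrix.SpecialLinearGroup (Fin 2) F) :=
  Subgroup.normalizer ((torus h2 b : Subgroup (Matrix.SpecialLinearGroup (Fin 2) F)) :
    Set (Matrix.SpecialLinearGroup (Fin 2) F))

/-- A non-central element of the torus exists when `q` is odd. -/
theorem exists_regular_mem_torus (hodd : Odd (Fintype.card F)) :
    ∃ a₀ : Matrix.SpecialLinearGroup (Fin 2) F, a₀ ∈ torus h2 b ∧ a₀ ≠ 1 ∧ a₀ ≠ negOne := by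
  have := isCyclic_torus h2 b
  obtain ⟨g₀, hg₀⟩ := IsCyclic.exists_ofOrder_eq_natCard (α := torus h2 b)
  rw [card_torus h2 b, ← Subgroup.orderOf_coe] at hg₀
  have hq : 2 ≤ Fintype.card F := Fintype.one_lt_card
  have hq3 : 3 ≤ Fintype.card F := by
    rcases hodd with ⟨k, hk⟩
    omega
  refine ⟨g₀, g₀.2, ?_, ?_⟩
  · intro h
    rw [h, orderOf_one] at hg₀
    omega
  · intro h
    rw [h] at hg₀
    have h1 : orderOf (negOne : Matrix.SpecialLinearGroup (Fin 2) F) ∣ 2 :=
      orderOf_dvd_of_pow_eq_one (by rw [pow_two]; exact negOne_mul_self)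
    have := Nat.le_of_dvd (by norm_num) h1
    omega

omit [Fintype F] [Finite K] in
theorem ent10_ne_zero_of_not_mem_range (x : K) (hx : x ∉ Set.range (algebraMap F K)) :
    Algebra.leftMulMatrix b x 1 0 ≠ 0 := by
  intro h0
  apply hx
  refine ⟨Algebra.leftMulMatrix b x 0 0, ?_⟩
  have hdet : (Algebra.leftMulMatrix b (x - algebraMap F K (Algebra.leftMulMatrix b x 0 0))).det
      = 0 := by
    rw [map_sub, leftMul_algebraMap, Matrix.det_fin_two]
    simp [h0]
  rw [← Algebra.norm_eq_matrix_det, Algebra.norm_eq_zero_iff_of_basis b] at hdet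
  exact (sub_eq_zero.1 hdet).symm

theorem mem_torus_of_commute (a₀ : Matrix.SpecialLinearGroup (Fin 2) F) (ha₀ : a₀ ∈ torus h2 b)
    (h1 : a₀ ≠ 1) (hneg : a₀ ≠ negOne) (h : Matrix.SpecialLinearGroup (Fin 2) F)
    (hc : Commute a₀ h) : h ∈ torus h2 b := by
  rw [← centralizer_of_mem_torus h2 b a₀ ha₀ h1 hneg, Subgroup.mem_centralizer_iff]
  intro k hk
  rw [Set.mem_singleton_iff] at hk
  subst hk
  exact hc.eq

/-- Elements of the normalizer outside the torus invert the torus. -/
theorem conj_eq_inv_of_mem_normalizer (g : Matrix.SpecialLinearGroup (Fin 2) F)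
    (hgN : g ∈ torusNormalizer h2 b) (hgT : g ∉ torus h2 b)
    (a : Matrix.SpecialLinearGroup (Fin 2) F) (ha : a ∈ torus h2 b) : g * a * g⁻¹ = a⁻¹ := by
  by_cases h1 : a = 1
  · subst h1; simp
  by_cases hneg : a = negOne
  · subst hneg
    rw [← negOne_comm, mul_assoc, mul_inv_cancel, mul_one, negOne_inv]
  have hmem : g * a * g⁻¹ ∈ torus h2 b := (Subgroup.mem_normalizer_iff.1 hgN a).1 ha
  rcases torus_eq_or_eq_inv_of_tr_eq h2 b a _ ha hmem (tr_conj g a) with h | h
  · exfalso
    apply hgT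
    apply mem_torus_of_commute h2 b a ha h1 hneg
    have : g * a = a * g := mul_inv_eq_iff_eq_mul.1 h
    exact this.symm
  · exact h

/-- Existence of an element inverting a given regular element of the torus. -/
theorem exists_inverting (a₀ : Matrix.SpecialLinearGroup (Fin 2) F) (ha₀ : a₀ ∈ torus h2 b)
    (h1 : a₀ ≠ 1) (hneg : a₀ ≠ negOne) :
    ∃ w : Matrix.SpecialLinearGroup (Fin 2) F, w * a₀ * w⁻¹ = a₀⁻¹ := by
  obtain ⟨x, hx⟩ := (mem_torus_iff h2 b a₀).1 ha₀
  have hxF := not_mem_range_of_ne b a₀ x hx h1 hneg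
  have h10 : ent a₀ 1 0 ≠ 0 := by
    have := ent10_ne_zero_of_not_mem_range b x hxF
    rw [hx] at this
    exact this
  have h10' : ent a₀⁻¹ 1 0 ≠ 0 := by
    rw [sl2_inv10]
    exact neg_ne_zero.2 h10
  exact exists_conj_of_tr_eq h2 b a₀⁻¹ ((torus h2 b).inv_mem ha₀) a₀ (tr_inv a₀).symm h10 h10'

/-- An element inverting a regular element of the torus normalizes the torus and lies outside. -/
theorem inverting_mem_normalizer (a₀ : Matrix.SpecialLinearGroup (Fin 2) F)
    (ha₀ : a₀ ∈ torus h2 b) (h1 : a₀ ≠ 1) (hneg : a₀ ≠ negOne)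
    (w : Matrix.SpecialLinearGroup (Fin 2) F) (hw : w * a₀ * w⁻¹ = a₀⁻¹) :
    w ∈ torusNormalizer h2 b ∧ w ∉ torus h2 b := by
  have hw' : w⁻¹ * a₀ * w = a₀⁻¹ := by
    have h5 : a₀ = w⁻¹ * a₀⁻¹ * w := by rw [← hw]; group
    have h6 : a₀⁻¹ = w⁻¹ * a₀ * w := by
      conv_lhs => rw [h5]
      group
    exact h6.symm
  constructor
  · rw [Subgroup.mem_normalizer_iff]
    intro h
    constructor
    · intro hh
      apply mem_torus_of_commute h2 b a₀ ha₀ h1 hneg
      have hc : Commute a₀ h := torus_comm h2 b a₀ h ha₀ hh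
      have hc2 : Commute (w * a₀ * w⁻¹) (w * h * w⁻¹) := by
        show w * a₀ * w⁻¹ * (w * h * w⁻¹) = w * h * w⁻¹ * (w * a₀ * w⁻¹)
        have e1 : w * a₀ * w⁻¹ * (w * h * w⁻¹) = w * (a₀ * h) * w⁻¹ := by group
        have e2 : w * h * w⁻¹ * (w * a₀ * w⁻¹) = w * (h * a₀) * w⁻¹ := by group
        rw [e1, e2, hc.eq]
      rw [hw] at hc2
      exact Commute.inv_left_iff.1 hc2
    · intro hh
      apply mem_torus_of_commute h2 b a₀ ha₀ h1 hneg
      have hc : Commute a₀ (w * h * w⁻¹) := torus_comm h2 b a₀ _ ha₀ hh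
      have hc2 : Commute (w⁻¹ * a₀ * w) (w⁻¹ * (w * h * w⁻¹) * w) := by
        show w⁻¹ * a₀ * w * (w⁻¹ * (w * h * w⁻¹) * w) = w⁻¹ * (w * h * w⁻¹) * w * (w⁻¹ * a₀ * w)
        have e1 : w⁻¹ * a₀ * w * (w⁻¹ * (w * h * w⁻¹) * w) = w⁻¹ * (a₀ * (w * h * w⁻¹)) * w := by
          group
        have e2 : w⁻¹ * (w * h * w⁻¹) * w * (w⁻¹ * a₀ * w) = w⁻¹ * ((w * h * w⁻¹) * a₀) * w := by
          group
        rw [e1, e2, hc.eq]
      rw [hw'] at hc2
      have e3 : w⁻¹ * (w * h * w⁻¹) * w = h := by group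
      rw [e3] at hc2
      exact Commute.inv_left_iff.1 hc2
  · intro hwT
    have hc := torus_comm h2 b w a₀ hwT ha₀
    have h3 : a₀⁻¹ = a₀ := by rw [← hw, hc, mul_inv_cancel_right]
    have h4 : a₀ * a₀ = 1 := by
      nth_rewrite 1 [← h3]
      exact inv_mul_cancel a₀
    rcases torus_sq_eq_one h2 b a₀ ha₀ h4 with h | h
    · exact h1 h
    · exact hneg h

theorem torusNormalizer_index (hodd : Odd (Fintype.card F)) :
    ((torus h2 b).subgroupOf (torusNormalizer h2 b)).index = 2 := by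
  obtain ⟨a₀, ha₀, h1, hneg⟩ := exists_regular_mem_torus h2 b hodd
  obtain ⟨w, hw⟩ := exists_inverting h2 b a₀ ha₀ h1 hneg
  obtain ⟨hwN, hwT⟩ := inverting_mem_normalizer h2 b a₀ ha₀ h1 hneg w hw
  rw [Subgroup.index_eq_two_iff']
  refine ⟨⟨w⁻¹, (torusNormalizer h2 b).inv_mem hwN⟩, ?_⟩
  intro g
  simp only [Subgroup.mem_subgroupOf, Subgroup.coe_mul]
  by_cases hg : (g : Matrix.SpecialLinearGroup (Fin 2) F) ∈ torus h2 b
  · right
    refine ⟨hg, ?_⟩
    intro h
    apply hwT
    have : w⁻¹ ∈ torus h2 b := by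
      have := (torus h2 b).mul_mem h ((torus h2 b).inv_mem hg)
      simpa using this
    simpa using (torus h2 b).inv_mem this
  · left
    refine ⟨?_, hg⟩
    apply mem_torus_of_commute h2 b a₀ ha₀ h1 hneg
    have e1 := conj_eq_inv_of_mem_normalizer h2 b g g.2 hg a₀ ha₀
    have e1' : (g : Matrix.SpecialLinearGroup (Fin 2) F) * a₀ = a₀⁻¹ * g :=
      mul_inv_eq_iff_eq_mul.1 e1
    have e2 : w * a₀ = a₀⁻¹ * w := mul_inv_eq_iff_eq_mul.1 hw
    have e3 : a₀ * w⁻¹ = w⁻¹ * a₀⁻¹ := by
      have : w⁻¹ * (w * a₀) * w⁻¹ = w⁻¹ * (a₀⁻¹ * w) * w⁻¹ := by rw [e2]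
      have l : w⁻¹ * (w * a₀) * w⁻¹ = a₀ * w⁻¹ := by group
      have r : w⁻¹ * (a₀⁻¹ * w) * w⁻¹ = w⁻¹ * a₀⁻¹ := by group
      rw [l, r] at this
      exact this
    show a₀ * (w⁻¹ * (g : Matrix.SpecialLinearGroup (Fin 2) F))
      = w⁻¹ * (g : Matrix.SpecialLinearGroup (Fin 2) F) * a₀
    rw [← mul_assoc, e3, mul_assoc, mul_assoc, e1']

theorem card_torusNormalizer (hodd : Odd (Fintype.card F)) :
    Nat.card (torusNormalizer h2 b) = 2 * (Fintype.card F + 1) := by
  have h := ((torus h2 b).subgroupOf (torusNormalizer h2 b)).card_mul_index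
  rw [torusNormalizer_index h2 b hodd,
    Nat.card_congr (Subgroup.subgroupOfEquivOfLe (Subgroup.le_normalizer)).toEquiv,
    card_torus] at h
  omega

theorem card_conjClasses_torusNormalizer (hodd : Odd (Fintype.card F)) :
    Nat.card (ConjClasses (torusNormalizer h2 b)) = (Fintype.card F + 7) / 2 := by
  have h2' : (2 : F) ≠ 0 := two_ne_zero_of_odd_card hodd
  have hzN : (negOne : Matrix.SpecialLinearGroup (Fin 2) F) ∈ torusNormalizer h2 b :=
    Subgroup.le_normalizer (negOne_mem_torus h2 b)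
  have key := card_conjClasses_dicyclic ((torus h2 b).subgroupOf (torusNormalizer h2 b))
    (torusNormalizer_index h2 b hodd)
    (by
      intro g hg a ha
      rw [Subgroup.mem_subgroupOf] at hg ha
      apply Subtype.ext
      simp only [Subgroup.coe_mul, Subgroup.coe_inv]
      exact conj_eq_inv_of_mem_normalizer h2 b _ g.2 hg _ ha)
    (by
      intro a ha c hc
      rw [Subgroup.mem_subgroupOf] at ha hc
      apply Subtype.ext
      simp only [Subgroup.coe_mul]
      exact torus_comm h2 b _ _ ha hc)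
    ⟨negOne, hzN⟩
    (by rw [Subgroup.mem_subgroupOf]; exact negOne_mem_torus h2 b)
    (by
      intro h
      exact negOne_ne_one h2' (congrArg Subtype.val h))
    (by
      apply Subtype.ext
      simp only [Subgroup.coe_mul, Subgroup.coe_one]
      exact negOne_mul_self)
    (by
      intro a ha haa
      rw [Subgroup.mem_subgroupOf] at ha
      have haa' := congrArg Subtype.val haa
      simp only [Subgroup.coe_mul, Subgroup.coe_one] at haa'
      rcases torus_sq_eq_one h2 b _ ha haa' with h | h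
      · left; exact Subtype.ext h
      · right; exact Subtype.ext h)
  rw [Nat.card_congr (Subgroup.subgroupOfEquivOfLe (Subgroup.le_normalizer)).toEquiv,
    card_torus] at key
  omega

/-- Elements of the normalizer outside the torus square to `-1`. -/
theorem torusNormalizer_mul_self (hodd : Odd (Fintype.card F))
    (g : Matrix.SpecialLinearGroup (Fin 2) F) (hgN : g ∈ torusNormalizer h2 b)
    (hgT : g ∉ torus h2 b) : g * g = negOne := by
  obtain ⟨a₀, ha₀, h1, hneg⟩ := exists_regular_mem_torus h2 b hodd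
  have e1 := conj_eq_inv_of_mem_normalizer h2 b g hgN hgT a₀ ha₀
  have e1' : g * a₀ = a₀⁻¹ * g := mul_inv_eq_iff_eq_mul.1 e1
  have e2 : g * a₀⁻¹ = a₀ * g := by
    have : a₀ * (g * a₀) * a₀⁻¹ = a₀ * (a₀⁻¹ * g) * a₀⁻¹ := by rw [e1']
    have l : a₀ * (g * a₀) * a₀⁻¹ = a₀ * g := by group
    have r : a₀ * (a₀⁻¹ * g) * a₀⁻¹ = g * a₀⁻¹ := by group
    rw [l, r] at this
    exact this.symm
  have hgg : g * g ∈ torus h2 b := by
    apply mem_torus_of_commute h2 b a₀ ha₀ h1 hneg
    show a₀ * (g * g) = g * g * a₀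
    rw [mul_assoc g g a₀, e1', ← mul_assoc g, e2, mul_assoc]
  obtain ⟨x, hx⟩ := (mem_torus_iff h2 b _).1 hgg
  rw [Matrix.SpecialLinearGroup.coe_mul, sl2_CH] at hx
  by_cases ht : tr g = 0
  · apply Subtype.ext
    rw [Matrix.SpecialLinearGroup.coe_mul, sl2_CH, ht, zero_smul, zero_sub, negOne_coe]
  · exfalso
    apply hgT
    rw [mem_torus_iff]
    refine ⟨(tr g)⁻¹ • (x + 1), ?_⟩
    rw [map_smul, map_add, map_one, hx, sub_add_cancel, smul_smul, inv_mul_cancel₀ ht, one_smul]

/-- The torus is self-centralizing. -/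
theorem centralizer_torus (hodd : Odd (Fintype.card F)) :
    Subgroup.centralizer ((torus h2 b : Subgroup (Matrix.SpecialLinearGroup (Fin 2) F)) :
      Set (Matrix.SpecialLinearGroup (Fin 2) F)) = torus h2 b := by
  obtain ⟨a₀, ha₀, h1, hneg⟩ := exists_regular_mem_torus h2 b hodd
  ext h
  rw [Subgroup.mem_centralizer_iff]
  constructor
  · intro hh
    exact mem_torus_of_commute h2 b a₀ ha₀ h1 hneg h (hh a₀ ha₀)
  · intro hh k hk
    exact torus_comm h2 b k h hk hh

end normalizer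

end Cfsg.Agent.H41
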