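import Mathlib

set_option autoImplicit false
set_option linter.unusedSimpArgs false
set_option linter.unusedSectionVars false
set_option linter.unusedVariables false
set_option linter.style.haveILetI false
set_option linter.flexible false

namespace Cfsg.Agent.H41

open Matrix

section sp4class

variable {F : Type*} [Field F]

/-- Upper unitriangular block matrices. -/
def uU (S : Matrix (Fin 2) (Fin 2) F) : Matrix (Fin 2 ⊕ Fin 2) (Fin 2 ⊕ Fin 2) F :=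
  fromBlocks 1 S 0 1

/-- Lower unitriangular block matrices. -/
def uL (T : Matrix (Fin 2) (Fin 2) F) : Matrix (Fin 2 ⊕ Fin 2) (Fin 2 ⊕ Fin 2) F :=
  fromBlocks 1 0 T 1

/-- Block diagonal matrices. -/
def lev (P Q : Matrix (Fin 2) (Fin 2) F) : Matrix (Fin 2 ⊕ Fin 2) (Fin 2 ⊕ Fin 2) F :=
  fromBlocks P 0 0 Q

theorem uU_mem (S : Matrix (Fin 2) (Fin 2) F) (hS : Sᵀ = S) :
    uU S ∈ symplecticGroup (Fin 2) F := by
  rw [uU, SymplecticGroup.fromBlocks_mem_iff]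
  simp [hS]

theorem uL_mem (T : Matrix (Fin 2) (Fin 2) F) (hT : Tᵀ = T) :
    uL T ∈ symplecticGroup (Fin 2) F := by
  rw [uL, SymplecticGroup.fromBlocks_mem_iff]
  simp [hT]

theorem lev_mem (P Q : Matrix (Fin 2) (Fin 2) F) (h : Pᵀ * Q = 1) :
    lev P Q ∈ symplecticGroup (Fin 2) F := by
  rw [lev, SymplecticGroup.fromBlocks_mem_iff]
  simp [h]

theorem uU_mul_neg (S : Matrix (Fin 2) (Fin 2) F) : uU S * uU (-S) = 1 := by
  simp [uU, fromBlocks_multiply, fromBlocks_one]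

theorem uL_mul_neg (T : Matrix (Fin 2) (Fin 2) F) : uL T * uL (-T) = 1 := by
  simp [uL, fromBlocks_multiply, fromBlocks_one]

theorem lev_mul (P Q P' Q' : Matrix (Fin 2) (Fin 2) F) :
    lev P Q * lev P' Q' = lev (P * P') (Q * Q') := by
  simp [lev, fromBlocks_multiply]

theorem lev_one : lev (1 : Matrix (Fin 2) (Fin 2) F) 1 = 1 := by
  simp [lev, fromBlocks_one]

/-- The coercion of the inverse of a symplectic matrix with an explicit inverse. -/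
theorem coe_inv_of_mul_eq_one (v : symplecticGroup (Fin 2) F)
    (W : Matrix (Fin 2 ⊕ Fin 2) (Fin 2 ⊕ Fin 2) F)
    (h : (v : Matrix (Fin 2 ⊕ Fin 2) (Fin 2 ⊕ Fin 2) F) * W = 1) :
    ((v⁻¹ : symplecticGroup (Fin 2) F) : Matrix (Fin 2 ⊕ Fin 2) (Fin 2 ⊕ Fin 2) F) = W := by
  rw [SymplecticGroup.coe_inv']
  exact Matrix.inv_eq_right_inv h

theorem coe_mul_coe_inv (v : symplecticGroup (Fin 2) F) :
    (v : Matrix (Fin 2 ⊕ Fin 2) (Fin 2 ⊕ Fin 2) F) *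
      ((v⁻¹ : symplecticGroup (Fin 2) F) : Matrix (Fin 2 ⊕ Fin 2) (Fin 2 ⊕ Fin 2) F) = 1 := by
  rw [← Submonoid.coe_mul, mul_inv_cancel, Submonoid.coe_one]

theorem coe_inv_mul_coe (v : symplecticGroup (Fin 2) F) :
    ((v⁻¹ : symplecticGroup (Fin 2) F) : Matrix (Fin 2 ⊕ Fin 2) (Fin 2 ⊕ Fin 2) F) *
      (v : Matrix (Fin 2 ⊕ Fin 2) (Fin 2 ⊕ Fin 2) F) = 1 := by
  rw [← Submonoid.coe_mul, inv_mul_cancel, Submonoid.coe_one]

/-- A symplectic matrix with upper left block `1` is a product of a lower and an upper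
unitriangular block matrix. -/
theorem blocks_of_one (B C D : Matrix (Fin 2) (Fin 2) F)
    (h : fromBlocks 1 B C D ∈ symplecticGroup (Fin 2) F) :
    Bᵀ = B ∧ Cᵀ = C ∧ fromBlocks 1 B C D = uL C * uU B := by
  rw [SymplecticGroup.fromBlocks_mem_iff] at h
  obtain ⟨h1, h2, h3⟩ := h
  simp only [transpose_one, Matrix.one_mul, Matrix.mul_one] at h1 h3
  have hC : Cᵀ = C := h1.symm
  have hD : D = 1 + C * B := by
    rw [hC] at h3
    rw [← h3]
    abel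
  have hB : Bᵀ = B := by
    rw [hD] at h2
    simp only [Matrix.mul_add, Matrix.mul_one, transpose_add, transpose_one, transpose_mul,
      Matrix.add_mul, Matrix.one_mul, hC] at h2
    have h4 : Bᵀ * (C * B) = Bᵀ * C * B := by rw [Matrix.mul_assoc]
    rw [h4] at h2
    exact add_right_cancel h2
  refine ⟨hB, hC, ?_⟩
  rw [uL, uU, fromBlocks_multiply, hD]
  simp [add_comm]

/-! ### The base element -/

/-- The companion matrix of `X² - t X + d`. -/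
def Ym (t d : F) : Matrix (Fin 2) (Fin 2) F := !![0, -d; 1, t]

/-- Its inverse. -/
def Yi (t d : F) : Matrix (Fin 2) (Fin 2) F := !![t / d, 1; -1 / d, 0]

theorem Ym_mul_Yi (t d : F) (hd : d ≠ 0) : Ym t d * Yi t d = 1 := by
  ext i j
  fin_cases i <;> fin_cases j <;> simp [Ym, Yi, Matrix.mul_apply, Fin.sum_univ_two] <;>
    field_simp <;> ring

theorem Yi_mul_Ym (t d : F) (hd : d ≠ 0) : Yi t d * Ym t d = 1 := by
  ext i j
  fin_cases i <;> fin_cases j <;> simp [Ym, Yi, Matrix.mul_apply, Fin.sum_univ_two] <;>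
    field_simp <;> ring

/-- The base element `diag(Y, Y⁻ᵀ)`. -/
def Xm (t d : F) : Matrix (Fin 2 ⊕ Fin 2) (Fin 2 ⊕ Fin 2) F := lev (Ym t d) (Yi t d)ᵀ

/-- The inverse of the base element. -/
def Xi (t d : F) : Matrix (Fin 2 ⊕ Fin 2) (Fin 2 ⊕ Fin 2) F := lev (Yi t d) (Ym t d)ᵀ

theorem Xm_mem (t d : F) (hd : d ≠ 0) : Xm t d ∈ symplecticGroup (Fin 2) F := by
  apply lev_mem
  rw [← transpose_mul, Yi_mul_Ym t d hd, transpose_one]

theorem Xi_mem (t d : F) (hd : d ≠ 0) : Xi t d ∈ symplecticGroup (Fin 2) F := by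
  apply lev_mem
  rw [← transpose_mul, Ym_mul_Yi t d hd, transpose_one]

theorem Xm_mul_Xi (t d : F) (hd : d ≠ 0) : Xm t d * Xi t d = 1 := by
  rw [Xm, Xi, lev_mul, Ym_mul_Yi t d hd, ← transpose_mul, Ym_mul_Yi t d hd, transpose_one, lev_one]

/-- Conjugates of the base element (as matrices). -/
def CxM (t d : F) (M : Matrix (Fin 2 ⊕ Fin 2) (Fin 2 ⊕ Fin 2) F) : Prop :=
  ∃ v : symplecticGroup (Fin 2) F,
    M = (v : Matrix (Fin 2 ⊕ Fin 2) (Fin 2 ⊕ Fin 2) F) * Xm t d *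
      ((v⁻¹ : symplecticGroup (Fin 2) F) : Matrix (Fin 2 ⊕ Fin 2) (Fin 2 ⊕ Fin 2) F)

theorem CxM_conj (t d : F) (M : Matrix (Fin 2 ⊕ Fin 2) (Fin 2 ⊕ Fin 2) F) (h : CxM t d M)
    (w : symplecticGroup (Fin 2) F) :
    CxM t d ((w : Matrix (Fin 2 ⊕ Fin 2) (Fin 2 ⊕ Fin 2) F) * M *
      ((w⁻¹ : symplecticGroup (Fin 2) F) : Matrix (Fin 2 ⊕ Fin 2) (Fin 2 ⊕ Fin 2) F)) := by
  obtain ⟨v, hv⟩ := h
  refine ⟨w * v, ?_⟩
  rw [hv, _root_.mul_inv_rev]
  simp only [Submonoid.coe_mul, Matrix.mul_assoc]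

/-- A conjugation by an explicit matrix with an explicit inverse. -/
theorem CxM_conj' (t d : F) (M : Matrix (Fin 2 ⊕ Fin 2) (Fin 2 ⊕ Fin 2) F) (h : CxM t d M)
    (W W' : Matrix (Fin 2 ⊕ Fin 2) (Fin 2 ⊕ Fin 2) F) (hW : W ∈ symplecticGroup (Fin 2) F)
    (hWW' : W * W' = 1) : CxM t d (W * M * W') := by
  have h1 := CxM_conj t d M h ⟨W, hW⟩
  rw [coe_inv_of_mul_eq_one ⟨W, hW⟩ W' hWW'] at h1
  exact h1

theorem CxM_self (t d : F) : CxM t d (Xm t d) := by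
  refine ⟨1, ?_⟩
  simp

/-- The discriminant-like quantity which has to be invertible. -/
def Dl (t d : F) : F := (d - 1) * ((d + 1) ^ 2 - t ^ 2)

/-- `u⁻(T) x` is conjugate to `x`. -/
theorem CxM_uL_mul (t d : F) (hd : d ≠ 0) (hD : Dl t d ≠ 0) (T : Matrix (Fin 2) (Fin 2) F)
    (hT : Tᵀ = T) : CxM t d (uL T * Xm t d) := by
  have h10 : T 1 0 = T 0 1 := by
    have := congrFun (congrFun hT 0) 1
    simpa using this
  obtain ⟨al, hal⟩ : ∃ al : F, al = T 1 1 := ⟨_, rfl⟩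
  obtain ⟨be, hbe⟩ : ∃ be : F, be = t * T 1 1 - d * T 0 1 := ⟨_, rfl⟩
  obtain ⟨ga, hga⟩ : ∃ ga : F, ga = d ^ 2 * T 0 0 - 2 * d * t * T 0 1 + t ^ 2 * T 1 1 :=
    ⟨_, rfl⟩
  obtain ⟨cp, hcp⟩ : ∃ cp : F, cp = (ga + d ^ 2 * al) * (d + 1) - 2 * d * t * be := ⟨_, rfl⟩
  obtain ⟨bp, hbp⟩ : ∃ bp : F, bp = t * (ga + d ^ 2 * al) - be * (t ^ 2 + d ^ 2 - 1) := ⟨_, rfl⟩
  obtain ⟨D0, hD0⟩ : ∃ D0 : F, D0 = Dl t d := ⟨_, rfl⟩
  have hD0ne : D0 ≠ 0 := by rw [hD0]; exact hD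
  obtain ⟨T₁, hT₁⟩ : ∃ T₁ : Matrix (Fin 2) (Fin 2) F,
      T₁ = !![(cp - al * D0) / D0, bp / D0; bp / D0, cp / D0] := ⟨_, rfl⟩
  have hT₁s : T₁ᵀ = T₁ := by
    rw [hT₁]
    ext i j
    fin_cases i <;> fin_cases j <;> simp
  have key : T₁ * Ym t d - (Yi t d)ᵀ * T₁ = T * Ym t d := by
    rw [hT₁]
    ext i j
    fin_cases i <;> fin_cases j <;>
      simp [Ym, Yi, Matrix.mul_apply, Fin.sum_univ_two, h10] <;> field_simp <;>
      simp only [hcp, hbp, hga, hbe, hal, hD0, Dl] <;> ring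
  have h1 := CxM_conj' t d (Xm t d) (CxM_self t d) (uL T₁) (uL (-T₁)) (uL_mem T₁ hT₁s)
    (uL_mul_neg T₁)
  have h2 : uL T₁ * Xm t d * uL (-T₁) = uL T * Xm t d := by
    rw [uL, uL, uL, Xm, lev, fromBlocks_multiply, fromBlocks_multiply, fromBlocks_multiply]
    simp only [Matrix.one_mul, Matrix.mul_one, Matrix.zero_mul, Matrix.mul_zero, add_zero,
      zero_add, Matrix.mul_neg]
    rw [← key, sub_eq_add_neg, neg_zero, add_zero]
  rw [h2] at h1
  exact h1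

theorem J_mul_neg_J : J (Fin 2) F * (-J (Fin 2) F) = 1 := by
  rw [Matrix.mul_neg, J_squared, neg_neg]

/-- The inverse of the base element is conjugate to the base element. -/
theorem CxM_Xi (t d : F) (hd : d ≠ 0) : CxM t d (Xi t d) := by
  obtain ⟨P, hP⟩ : ∃ P : Matrix (Fin 2) (Fin 2) F, P = !![1, 0; 0, -d] := ⟨_, rfl⟩
  obtain ⟨Pi, hPi⟩ : ∃ Pi : Matrix (Fin 2) (Fin 2) F, Pi = !![1, 0; 0, -1 / d] := ⟨_, rfl⟩
  have hPPi : P * Pi = 1 := by
    rw [hP, hPi]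
    ext i j
    fin_cases i <;> fin_cases j <;> simp [Matrix.mul_apply, Fin.sum_univ_two] <;> field_simp
  have hPiP : Pi * P = 1 := by
    rw [hP, hPi]
    ext i j
    fin_cases i <;> fin_cases j <;> simp [Matrix.mul_apply, Fin.sum_univ_two] <;> field_simp
  have hPt : Pᵀ = P := by
    rw [hP]
    ext i j
    fin_cases i <;> fin_cases j <;> simp
  have h1 := CxM_conj' t d (Xm t d) (CxM_self t d) (lev P Pi) (lev Pi P)
    (lev_mem P Pi (by rw [hPt, hPPi])) (by rw [lev_mul, hPPi, hPiP, lev_one])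
  have e1 : P * Ym t d * Pi = (Ym t d)ᵀ := by
    rw [hP, hPi]
    ext i j
    fin_cases i <;> fin_cases j <;> simp [Ym, Matrix.mul_apply, Fin.sum_univ_two] <;> field_simp
  have hYit : (Yi t d)ᵀ = !![t / d, -1 / d; 1, 0] := by
    ext i j
    fin_cases i <;> fin_cases j <;> simp [Yi]
  have e2 : Pi * (Yi t d)ᵀ * P = Yi t d := by
    rw [hYit, hP, hPi]
    ext i j
    fin_cases i <;> fin_cases j <;> simp [Yi, Matrix.mul_apply, Fin.sum_univ_two] <;>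
      field_simp
  have h2 : lev P Pi * Xm t d * lev Pi P = lev (Ym t d)ᵀ (Yi t d) := by
    rw [Xm, lev_mul, lev_mul, e1, e2]
  rw [h2] at h1
  have h3 := CxM_conj' t d _ h1 (J (Fin 2) F) (-J (Fin 2) F) (SymplecticGroup.J_mem _ _)
    J_mul_neg_J
  have h4 : J (Fin 2) F * lev (Ym t d)ᵀ (Yi t d) * (-J (Fin 2) F) = Xi t d := by
    rw [Xi, J, lev, fromBlocks_neg, fromBlocks_multiply, fromBlocks_multiply]
    simp [lev]
  rw [h4] at h3
  exact h3

/-- `x⁻¹ u(S)` is conjugate to `x`. -/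
theorem CxM_Xi_mul_uU (t d : F) (hd : d ≠ 0) (hD : Dl t d ≠ 0) (S : Matrix (Fin 2) (Fin 2) F)
    (hS : Sᵀ = S) : CxM t d (Xi t d * uU S) := by
  have h10 : S 1 0 = S 0 1 := by
    have := congrFun (congrFun hS 0) 1
    simpa using this
  obtain ⟨D0, hD0⟩ : ∃ D0 : F, D0 = Dl t d := ⟨_, rfl⟩
  have hD0ne : D0 ≠ 0 := by rw [hD0]; exact hD
  obtain ⟨c, hc⟩ : ∃ c : F, c = ((d + 1) * (S 0 0 + S 1 1) + 2 * t * S 0 1) / D0 := ⟨_, rfl⟩
  obtain ⟨b, hb⟩ : ∃ b : F,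
      b = -(S 0 1 * (d ^ 2 - 1 + t ^ 2) + d * t * (S 0 0 + S 1 1)) / D0 := ⟨_, rfl⟩
  obtain ⟨S₁, hS₁⟩ : ∃ S₁ : Matrix (Fin 2) (Fin 2) F,
      S₁ = !![d ^ 2 * c - S 0 0, b; b, c] := ⟨_, rfl⟩
  have hS₁s : S₁ᵀ = S₁ := by
    rw [hS₁]
    ext i j
    fin_cases i <;> fin_cases j <;> simp
  have hYt : (Ym t d)ᵀ = !![0, 1; -d, t] := by
    ext i j
    fin_cases i <;> fin_cases j <;> simp [Ym]
  have key : S₁ * (Ym t d)ᵀ - Yi t d * S₁ = Yi t d * S := by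
    rw [hYt, hS₁]
    ext i j
    fin_cases i <;> fin_cases j <;>
      simp [Ym, Yi, Matrix.mul_apply, Fin.sum_univ_two, h10] <;>
      simp only [hc, hb] <;> field_simp <;> simp only [hD0, Dl] <;> ring
  have h1 := CxM_conj' t d (Xi t d) (CxM_Xi t d hd) (uU S₁) (uU (-S₁)) (uU_mem S₁ hS₁s)
    (uU_mul_neg S₁)
  have h2 : uU S₁ * Xi t d * uU (-S₁) = Xi t d * uU S := by
    rw [uU, uU, uU, Xi, lev, fromBlocks_multiply, fromBlocks_multiply, fromBlocks_multiply]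
    simp only [Matrix.one_mul, Matrix.mul_one, Matrix.zero_mul, Matrix.mul_zero, add_zero,
      zero_add, Matrix.mul_neg]
    rw [← key, sub_eq_add_neg, neg_zero, zero_add, add_comm (S₁ * (Ym t d)ᵀ)]
  rw [h2] at h1
  exact h1

/-- The big cell lemma: a symplectic matrix whose upper left block is a commutator
`P Y P⁻¹ Y⁻¹` is a product of two conjugates of the base element. -/
theorem bigcell (t d : F) (hd : d ≠ 0) (hD : Dl t d ≠ 0)
    (a b c e P₁ P₁i : Matrix (Fin 2) (Fin 2) F) (hP : P₁ * P₁i = 1)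
    (ha : a = P₁ * Ym t d * P₁i * Yi t d)
    (hg : fromBlocks a b c e ∈ symplecticGroup (Fin 2) F) :
    ∃ y₁ y₂ : Matrix (Fin 2 ⊕ Fin 2) (Fin 2 ⊕ Fin 2) F,
      CxM t d y₁ ∧ CxM t d y₂ ∧ fromBlocks a b c e = y₁ * y₂ := by
  have hP' : P₁i * P₁ = 1 := mul_eq_one_comm.1 hP
  have hYY := Ym_mul_Yi t d hd
  have hYY' := Yi_mul_Ym t d hd
  obtain ⟨ai, hai⟩ : ∃ ai : Matrix (Fin 2) (Fin 2) F, ai = Ym t d * P₁ * Yi t d * P₁i :=
    ⟨_, rfl⟩
  have haai : a * ai = 1 := by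
    rw [ha, hai]
    calc P₁ * Ym t d * P₁i * Yi t d * (Ym t d * P₁ * Yi t d * P₁i)
        = P₁ * Ym t d * (P₁i * (Yi t d * Ym t d) * P₁) * Yi t d * P₁i := by
          simp only [Matrix.mul_assoc]
      _ = 1 := by
          rw [hYY', Matrix.mul_one, hP', Matrix.mul_one, Matrix.mul_assoc P₁, hYY,
            Matrix.mul_one, hP]
  have haia : ai * a = 1 := mul_eq_one_comm.1 haai
  have haiT : aiᵀ * aᵀ = 1 := by rw [← transpose_mul, haai, transpose_one]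
  rw [SymplecticGroup.fromBlocks_mem_iff] at hg
  obtain ⟨h1, h2, h3⟩ := hg
  obtain ⟨T, hT⟩ : ∃ T : Matrix (Fin 2) (Fin 2) F, T = c * ai := ⟨_, rfl⟩
  obtain ⟨S, hS⟩ : ∃ S : Matrix (Fin 2) (Fin 2) F, S = ai * b := ⟨_, rfl⟩
  have hTs : Tᵀ = T := by
    rw [hT, transpose_mul]
    calc aiᵀ * cᵀ = aiᵀ * (cᵀ * a) * ai := by
          rw [Matrix.mul_assoc, Matrix.mul_assoc, haai, Matrix.mul_one]
      _ = aiᵀ * (aᵀ * c) * ai := by rw [h1]
      _ = c * ai := by rw [← Matrix.mul_assoc aiᵀ, haiT, Matrix.one_mul]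
  have he : e = aiᵀ + T * b := by
    have h4 : aᵀ * e = 1 + cᵀ * b := by
      rw [← h3]
      abel
    calc e = aiᵀ * (aᵀ * e) := by rw [← Matrix.mul_assoc, haiT, Matrix.one_mul]
      _ = aiᵀ + aiᵀ * cᵀ * b := by rw [h4, Matrix.mul_add, Matrix.mul_one, Matrix.mul_assoc]
      _ = aiᵀ + T * b := by rw [← transpose_mul, ← hT, hTs]
  have hSs : Sᵀ = S := by
    rw [he] at h2
    simp only [Matrix.mul_add, transpose_add, transpose_transpose, transpose_mul,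
      Matrix.add_mul, hTs] at h2
    have h5 : bᵀ * (T * b) = bᵀ * T * b := by rw [Matrix.mul_assoc]
    rw [h5] at h2
    rw [hS, transpose_mul]
    exact add_right_cancel h2
  have hfac : fromBlocks a b c e = uL T * lev a aiᵀ * uU S := by
    rw [uL, lev, uU, fromBlocks_multiply, fromBlocks_multiply]
    simp only [Matrix.one_mul, Matrix.mul_one, Matrix.zero_mul, Matrix.mul_zero, add_zero,
      zero_add]
    have e1 : a * S = b := by rw [hS, ← Matrix.mul_assoc, haai, Matrix.one_mul]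
    have e2 : T * a = c := by rw [hT, Matrix.mul_assoc, haia, Matrix.mul_one]
    rw [e1, e2, he]
    congr 1
    rw [hT, hS, add_comm]
    congr 1
    simp only [Matrix.mul_assoc]
  have hlev : lev a aiᵀ = lev P₁ P₁iᵀ * Xm t d * lev P₁i P₁ᵀ * Xi t d := by
    rw [Xm, Xi, lev_mul, lev_mul, lev_mul, ha, hai]
    simp only [transpose_mul, Matrix.mul_assoc]
  obtain ⟨T', hT'⟩ : ∃ T' : Matrix (Fin 2) (Fin 2) F, T' = P₁ᵀ * T * P₁ := ⟨_, rfl⟩
  have hT's : T'ᵀ = T' := by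
    rw [hT']
    simp only [transpose_mul, transpose_transpose, hTs, Matrix.mul_assoc]
  have hcomm : uL T * lev P₁ P₁iᵀ = lev P₁ P₁iᵀ * uL T' := by
    rw [uL, uL, lev, fromBlocks_multiply, fromBlocks_multiply]
    simp only [Matrix.one_mul, Matrix.mul_one, Matrix.zero_mul, Matrix.mul_zero, add_zero,
      zero_add]
    congr 1
    rw [hT', ← Matrix.mul_assoc, ← Matrix.mul_assoc, ← transpose_mul, hP, transpose_one,
      Matrix.one_mul]
  refine ⟨lev P₁ P₁iᵀ * (uL T' * Xm t d) * lev P₁i P₁ᵀ, Xi t d * uU S, ?_, ?_, ?_⟩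
  · apply CxM_conj' t d _ (CxM_uL_mul t d hd hD T' hT's)
    · apply lev_mem
      rw [← transpose_mul, hP', transpose_one]
    · rw [lev_mul, hP, ← transpose_mul, hP, transpose_one, lev_one]
  · exact CxM_Xi_mul_uU t d hd hD S hSs
  · rw [hfac, hlev]
    simp only [← Matrix.mul_assoc]
    rw [hcomm]

end sp4class

end Cfsg.Agent.H41
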