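import Mathlib
import Cfsg.Agent.Lib.Helper13.SympMat
import Cfsg.Agent.H41.Sp4Class

set_option autoImplicit false
set_option linter.unusedSimpArgs false
set_option linter.unusedSectionVars false
set_option linter.unusedVariables false
set_option linter.style.haveILetI false
set_option linter.flexible false
set_option linter.unnecessarySeqFocus false

namespace Cfsg.Agent.H41

open Matrix

section sp4vec

variable {F : Type*} [Field F]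

/-- The symplectic form on column vectors. -/
noncomputable def om (u v : Fin 2 ⊕ Fin 2 → F) : F :=
  Cfsg.Agent.Lib.Helper13.SympMat.form 2 F u v

theorem om_eq (u v : Fin 2 ⊕ Fin 2 → F) : om u v = u ⬝ᵥ (J (Fin 2) F *ᵥ v) := by
  rw [om, Cfsg.Agent.Lib.Helper13.SympMat.form_apply]
  rfl

theorem om_add_left (u u' v : Fin 2 ⊕ Fin 2 → F) : om (u + u') v = om u v + om u' v := by
  simp [om]

theorem om_add_right (u v v' : Fin 2 ⊕ Fin 2 → F) : om u (v + v') = om u v + om u v' := by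
  simp [om]

theorem om_smul_left (c : F) (u v : Fin 2 ⊕ Fin 2 → F) : om (c • u) v = c * om u v := by
  simp [om]

theorem om_smul_right (c : F) (u v : Fin 2 ⊕ Fin 2 → F) : om u (c • v) = c * om u v := by
  simp [om]

theorem om_sub_left (u u' v : Fin 2 ⊕ Fin 2 → F) : om (u - u') v = om u v - om u' v := by
  simp [om]

theorem om_sub_right (u v v' : Fin 2 ⊕ Fin 2 → F) : om u (v - v') = om u v - om u v' := by
  simp [om]

theorem om_neg_left (u v : Fin 2 ⊕ Fin 2 → F) : om (-u) v = -om u v := by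
  simp [om]

theorem om_neg_right (u v : Fin 2 ⊕ Fin 2 → F) : om u (-v) = -om u v := by
  simp [om]

theorem om_zero_left (v : Fin 2 ⊕ Fin 2 → F) : om 0 v = 0 := by
  simp [om]

theorem om_zero_right (u : Fin 2 ⊕ Fin 2 → F) : om u 0 = 0 := by
  simp [om]

theorem om_self (u : Fin 2 ⊕ Fin 2 → F) : om u u = 0 :=
  Cfsg.Agent.Lib.Helper13.SympMat.form_alt 2 u

theorem om_swap (u v : Fin 2 ⊕ Fin 2 → F) : om u v = -om v u := by
  have h := om_self (u + v)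
  rw [om_add_left, om_add_right, om_add_right, om_self, om_self] at h
  linear_combination h

theorem om_mulVec (g : Matrix (Fin 2 ⊕ Fin 2) (Fin 2 ⊕ Fin 2) F)
    (hg : g ∈ symplecticGroup (Fin 2) F) (u v : Fin 2 ⊕ Fin 2 → F) :
    om (g *ᵥ u) (g *ᵥ v) = om u v :=
  (Cfsg.Agent.Lib.Helper13.SympMat.mem_symp_iff 2 g).1 hg u v

theorem om_nondeg (v : Fin 2 ⊕ Fin 2 → F) (h : ∀ w, om v w = 0) : v = 0 :=
  (Cfsg.Agent.Lib.Helper13.SympMat.form_nondeg 2).1 v h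

theorem exists_om_eq_one (v : Fin 2 ⊕ Fin 2 → F) (hv : v ≠ 0) : ∃ w, om v w = 1 := by
  by_contra hcon
  push Not at hcon
  apply hv
  apply om_nondeg
  intro w
  by_contra hw
  exact hcon ((om v w)⁻¹ • w) (by rw [om_smul_right, inv_mul_cancel₀ hw])

theorem exists_om_perp (u v : Fin 2 ⊕ Fin 2 → F) (hu : u ≠ 0) (h : ∀ c : F, v ≠ c • u) :
    ∃ z, om u z = 0 ∧ om v z = 1 := by
  obtain ⟨w, hw⟩ := exists_om_eq_one u hu
  have h1 : v - om v w • u ≠ 0 := fun h0 => h (om v w) (sub_eq_zero.1 h0)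
  obtain ⟨y, hy⟩ := exists_om_eq_one _ h1
  rw [om_sub_left, om_smul_left] at hy
  refine ⟨y - om u y • w, ?_, ?_⟩
  · rw [om_sub_right, om_smul_right, hw]
    ring
  · rw [om_sub_right, om_smul_right]
    linear_combination hy

theorem exists_perp_two (u v : Fin 2 ⊕ Fin 2 → F) : ∃ z, z ≠ 0 ∧ om u z = 0 ∧ om v z = 0 := by
  obtain ⟨f, hf⟩ : ∃ f : (Fin 2 ⊕ Fin 2 → F) →ₗ[F] F × F,
      f = (Cfsg.Agent.Lib.Helper13.SympMat.form 2 F u).prod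
        (Cfsg.Agent.Lib.Helper13.SympMat.form 2 F v) := ⟨_, rfl⟩
  have hlt : Module.finrank F (F × F) < Module.finrank F (Fin 2 ⊕ Fin 2 → F) := by
    simp
  have hker := LinearMap.ker_ne_bot_of_finrank_lt (f := f) hlt
  obtain ⟨z, hz, hz0⟩ := Submodule.exists_mem_ne_zero_of_ne_bot hker
  rw [LinearMap.mem_ker, hf] at hz
  exact ⟨z, hz0, congrArg Prod.fst hz, congrArg Prod.snd hz⟩

/-- The matrix with the given columns. -/
def colMat4 (E1 E2 F1 F2 : Fin 2 ⊕ Fin 2 → F) : Matrix (Fin 2 ⊕ Fin 2) (Fin 2 ⊕ Fin 2) F :=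
  Matrix.of fun i j => Sum.elim ![E1, E2] ![F1, F2] j i

theorem colMat4_mulVec (E1 E2 F1 F2 c : Fin 2 ⊕ Fin 2 → F) :
    colMat4 E1 E2 F1 F2 *ᵥ c = c (Sum.inl 0) • E1 + c (Sum.inl 1) • E2 + c (Sum.inr 0) • F1 +
      c (Sum.inr 1) • F2 := by
  ext k
  simp [colMat4, Matrix.mulVec, dotProduct, Fintype.sum_sum_type, Fin.sum_univ_two]
  ring

theorem colMat4_col (E1 E2 F1 F2 : Fin 2 ⊕ Fin 2 → F) (k : Fin 2 ⊕ Fin 2) :
    (fun l => colMat4 E1 E2 F1 F2 l k) = Sum.elim ![E1, E2] ![F1, F2] k := rfl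

theorem colMat4_transpose_J (E1 E2 F1 F2 v : Fin 2 ⊕ Fin 2 → F) (j : Fin 2 ⊕ Fin 2) :
    ((colMat4 E1 E2 F1 F2)ᵀ *ᵥ (J (Fin 2) F *ᵥ v)) j = om (Sum.elim ![E1, E2] ![F1, F2] j) v := by
  rw [om_eq]
  simp [Matrix.mulVec, dotProduct, colMat4]

theorem colMat4_gram (E1 E2 F1 F2 : Fin 2 ⊕ Fin 2 → F) (j k : Fin 2 ⊕ Fin 2) :
    ((colMat4 E1 E2 F1 F2)ᵀ * J (Fin 2) F * colMat4 E1 E2 F1 F2) j k =
      om (Sum.elim ![E1, E2] ![F1, F2] j) (Sum.elim ![E1, E2] ![F1, F2] k) := by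
  rw [← colMat4_transpose_J, Matrix.mulVec_mulVec, ← colMat4_col E1 E2 F1 F2 k]
  rfl

theorem colMat4_mem (E1 E2 F1 F2 : Fin 2 ⊕ Fin 2 → F) (r1 : om E1 E2 = 0) (r2 : om F1 F2 = 0)
    (r3 : om E1 F1 = -1) (r4 : om E1 F2 = 0) (r5 : om E2 F1 = 0) (r6 : om E2 F2 = -1) :
    colMat4 E1 E2 F1 F2 ∈ symplecticGroup (Fin 2) F := by
  rw [SymplecticGroup.mem_iff']
  have r1' : om E2 E1 = 0 := by rw [om_swap, r1, neg_zero]
  have r2' : om F2 F1 = 0 := by rw [om_swap, r2, neg_zero]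
  have r3' : om F1 E1 = 1 := by rw [om_swap, r3, neg_neg]
  have r4' : om F2 E1 = 0 := by rw [om_swap, r4, neg_zero]
  have r5' : om F1 E2 = 0 := by rw [om_swap, r5, neg_zero]
  have r6' : om F2 E2 = 1 := by rw [om_swap, r6, neg_neg]
  ext j k
  rw [colMat4_gram]
  rcases j with j | j <;> rcases k with k | k <;> fin_cases j <;> fin_cases k <;>
    simp [J, om_self, r1, r2, r3, r4, r5, r6, r1', r2', r3', r4', r5', r6']

theorem basis_perp_zero (E1 E2 F1 F2 : Fin 2 ⊕ Fin 2 → F) (r1 : om E1 E2 = 0)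
    (r2 : om F1 F2 = 0) (r3 : om E1 F1 = -1) (r4 : om E1 F2 = 0) (r5 : om E2 F1 = 0)
    (r6 : om E2 F2 = -1) (x : Fin 2 ⊕ Fin 2 → F) (h1 : om E1 x = 0) (h2 : om E2 x = 0)
    (h3 : om F1 x = 0) (h4 : om F2 x = 0) : x = 0 := by
  have hR := colMat4_mem E1 E2 F1 F2 r1 r2 r3 r4 r5 r6
  have h5 : ((colMat4 E1 E2 F1 F2)ᵀ * J (Fin 2) F) *ᵥ x = 0 := by
    rw [← Matrix.mulVec_mulVec]
    ext j
    rw [colMat4_transpose_J]
    rcases j with j | j <;> fin_cases j <;> simp [h1, h2, h3, h4]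
  have hdet : ((colMat4 E1 E2 F1 F2)ᵀ * J (Fin 2) F).det ≠ 0 := by
    rw [Matrix.det_mul, Matrix.det_transpose]
    exact mul_ne_zero (SymplecticGroup.symplectic_det hR).ne_zero
      (Matrix.isUnit_det_J (Fin 2) F).ne_zero
  exact Matrix.eq_zero_of_mulVec_eq_zero hdet h5

theorem basis_expand (E1 E2 F1 F2 : Fin 2 ⊕ Fin 2 → F) (r1 : om E1 E2 = 0)
    (r2 : om F1 F2 = 0) (r3 : om E1 F1 = -1) (r4 : om E1 F2 = 0) (r5 : om E2 F1 = 0)
    (r6 : om E2 F2 = -1) (x : Fin 2 ⊕ Fin 2 → F) :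
    x = om F1 x • E1 + om F2 x • E2 - om E1 x • F1 - om E2 x • F2 := by
  have r1' : om E2 E1 = 0 := by rw [om_swap, r1, neg_zero]
  have r2' : om F2 F1 = 0 := by rw [om_swap, r2, neg_zero]
  have r3' : om F1 E1 = 1 := by rw [om_swap, r3, neg_neg]
  have r4' : om F2 E1 = 0 := by rw [om_swap, r4, neg_zero]
  have r5' : om F1 E2 = 0 := by rw [om_swap, r5, neg_zero]
  have r6' : om F2 E2 = 1 := by rw [om_swap, r6, neg_neg]
  apply eq_of_sub_eq_zero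
  apply basis_perp_zero E1 E2 F1 F2 r1 r2 r3 r4 r5 r6 <;>
    simp only [om_sub_right, om_add_right, om_smul_right, om_self, r1, r2, r3, r4, r5, r6, r1',
      r2', r3', r4', r5', r6'] <;> ring

/-- Conjugates of products of a lower and an upper unitriangular block matrix. -/
def UUconj (g : Matrix (Fin 2 ⊕ Fin 2) (Fin 2 ⊕ Fin 2) F) : Prop :=
  ∃ R Ri : Matrix (Fin 2 ⊕ Fin 2) (Fin 2 ⊕ Fin 2) F, ∃ S T : Matrix (Fin 2) (Fin 2) F,
    R ∈ symplecticGroup (Fin 2) F ∧ R * Ri = 1 ∧ Sᵀ = S ∧ Tᵀ = T ∧ g = R * (uL T * uU S) * Ri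

theorem uuconj_of_basis (g : Matrix (Fin 2 ⊕ Fin 2) (Fin 2 ⊕ Fin 2) F)
    (hg : g ∈ symplecticGroup (Fin 2) F) (E1 E2 F1 F2 : Fin 2 ⊕ Fin 2 → F)
    (r1 : om E1 E2 = 0) (r2 : om F1 F2 = 0) (r3 : om E1 F1 = -1) (r4 : om E1 F2 = 0)
    (r5 : om E2 F1 = 0) (r6 : om E2 F2 = -1)
    (c11 : om (g *ᵥ E1 - E1) F1 = 0) (c12 : om (g *ᵥ E1 - E1) F2 = 0)
    (c21 : om (g *ᵥ E2 - E2) F1 = 0) (c22 : om (g *ᵥ E2 - E2) F2 = 0) : UUconj g := by
  have hR := colMat4_mem E1 E2 F1 F2 r1 r2 r3 r4 r5 r6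
  obtain ⟨R, hRdef⟩ : ∃ R : Matrix (Fin 2 ⊕ Fin 2) (Fin 2 ⊕ Fin 2) F,
      R = colMat4 E1 E2 F1 F2 := ⟨_, rfl⟩
  rw [← hRdef] at hR
  obtain ⟨Ri, hRi⟩ : ∃ Ri : Matrix (Fin 2 ⊕ Fin 2) (Fin 2 ⊕ Fin 2) F,
      Ri = ((⟨R, hR⟩⁻¹ : symplecticGroup (Fin 2) F) :
        Matrix (Fin 2 ⊕ Fin 2) (Fin 2 ⊕ Fin 2) F) := ⟨_, rfl⟩
  have hRRi : R * Ri = 1 := by
    rw [hRi]
    exact coe_mul_coe_inv ⟨R, hR⟩
  have hRiR : Ri * R = 1 := by
    rw [hRi]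
    exact coe_inv_mul_coe ⟨R, hR⟩
  have hRimem : Ri ∈ symplecticGroup (Fin 2) F := by
    rw [hRi]
    exact (⟨R, hR⟩⁻¹ : symplecticGroup (Fin 2) F).2
  -- coordinates
  have hcoord : ∀ x : Fin 2 ⊕ Fin 2 → F,
      Ri *ᵥ x = Sum.elim ![om F1 x, om F2 x] ![-om E1 x, -om E2 x] := by
    intro x
    have h1 : R *ᵥ (Sum.elim ![om F1 x, om F2 x] ![-om E1 x, -om E2 x]) = x := by
      rw [hRdef, colMat4_mulVec]
      conv_rhs => rw [basis_expand E1 E2 F1 F2 r1 r2 r3 r4 r5 r6 x]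
      simp
      abel
    conv_lhs => rw [← h1]
    rw [Matrix.mulVec_mulVec, hRiR, Matrix.one_mulVec]
  have hentry : ∀ a b : Fin 2 ⊕ Fin 2, (Ri * g * R) a b =
      (Ri *ᵥ (g *ᵥ (Sum.elim ![E1, E2] ![F1, F2] b))) a := by
    intro a b
    rw [Matrix.mulVec_mulVec, hRdef, ← colMat4_col E1 E2 F1 F2 b]
    rfl
  have r3' : om F1 E1 = 1 := by rw [om_swap, r3, neg_neg]
  have r5' : om F1 E2 = 0 := by rw [om_swap, r5, neg_zero]
  have r4' : om F2 E1 = 0 := by rw [om_swap, r4, neg_zero]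
  have r6' : om F2 E2 = 1 := by rw [om_swap, r6, neg_neg]
  have d11 : om F1 (g *ᵥ E1) = 1 := by
    rw [om_sub_left] at c11
    rw [om_swap]
    linear_combination -c11 - r3
  have d12 : om F2 (g *ᵥ E1) = 0 := by
    rw [om_sub_left] at c12
    rw [om_swap]
    linear_combination -c12 - r4
  have d21 : om F1 (g *ᵥ E2) = 0 := by
    rw [om_sub_left] at c21
    rw [om_swap]
    linear_combination -c21 - r5
  have d22 : om F2 (g *ᵥ E2) = 1 := by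
    rw [om_sub_left] at c22
    rw [om_swap]
    linear_combination -c22 - r6
  have h11 : (Ri * g * R).toBlocks₁₁ = 1 := by
    ext i j
    rw [Matrix.toBlocks₁₁, Matrix.of_apply, hentry, hcoord]
    fin_cases i <;> fin_cases j <;> simp [d11, d12, d21, d22]
  have hmem : Ri * g * R ∈ symplecticGroup (Fin 2) F :=
    mul_mem (mul_mem hRimem hg) hR
  have hfb := Matrix.fromBlocks_toBlocks (Ri * g * R)
  rw [h11] at hfb
  rw [← hfb] at hmem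
  obtain ⟨hB, hC, hBC⟩ := blocks_of_one _ _ _ hmem
  refine ⟨R, Ri, _, _, hR, hRRi, hB, hC, ?_⟩
  rw [← hBC, hfb]
  calc g = (R * Ri) * g * (R * Ri) := by rw [hRRi, Matrix.one_mul, Matrix.mul_one]
    _ = R * (Ri * g * R) * Ri := by simp only [Matrix.mul_assoc]

/-- The nondegenerate criterion. -/
theorem uuconj_M1 (g : Matrix (Fin 2 ⊕ Fin 2) (Fin 2 ⊕ Fin 2) F)
    (hg : g ∈ symplecticGroup (Fin 2) F) (e1 e2 : Fin 2 ⊕ Fin 2 → F) (h0 : om e1 e2 = 0)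
    (hs : om (g *ᵥ e1) e2 = om (g *ᵥ e2) e1)
    (hΔ : om (g *ᵥ e1) e1 * om (g *ᵥ e2) e2 - om (g *ᵥ e1) e2 ^ 2 ≠ 0) : UUconj g := by
  obtain ⟨p, hp⟩ : ∃ p : F, p = om (g *ᵥ e1) e1 := ⟨_, rfl⟩
  obtain ⟨r, hr⟩ : ∃ r : F, r = om (g *ᵥ e2) e2 := ⟨_, rfl⟩
  obtain ⟨m, hm⟩ : ∃ m : F, m = om (g *ᵥ e1) e2 := ⟨_, rfl⟩
  have hm' : om (g *ᵥ e2) e1 = m := by rw [← hs, hm]
  obtain ⟨Δ, hΔdef⟩ : ∃ Δ : F, Δ = p * r - m ^ 2 := ⟨_, rfl⟩
  have hΔne : Δ ≠ 0 := by rw [hΔdef, hp, hr, hm]; exact hΔ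
  obtain ⟨v1, hv1⟩ : ∃ v1 : Fin 2 ⊕ Fin 2 → F, v1 = g *ᵥ e1 - e1 := ⟨_, rfl⟩
  obtain ⟨v2, hv2⟩ : ∃ v2 : Fin 2 ⊕ Fin 2 → F, v2 = g *ᵥ e2 - e2 := ⟨_, rfl⟩
  have a11 : om e1 v1 = -p := by
    rw [hv1, om_sub_right, om_self, om_swap, ← hp]
    ring
  have a12 : om e1 v2 = -m := by
    rw [hv2, om_sub_right, h0, om_swap, hm']
    ring
  have a21 : om e2 v1 = -m := by
    rw [hv1, om_sub_right, om_swap e2 e1, h0, om_swap, ← hm]
    ring
  have a22 : om e2 v2 = -r := by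
    rw [hv2, om_sub_right, om_self, om_swap, ← hr]
    ring
  have b12 : om v1 v2 = 0 := by
    rw [hv1, hv2, om_sub_left, om_sub_right, om_sub_right, om_mulVec g hg, h0, ← hm,
      om_swap e1 (g *ᵥ e2), hm']
    ring
  have b21 : om v2 v1 = 0 := by rw [om_swap, b12, neg_zero]
  obtain ⟨F1, hF1⟩ : ∃ F1 : Fin 2 ⊕ Fin 2 → F, F1 = Δ⁻¹ • (r • v1 - m • v2) := ⟨_, rfl⟩
  obtain ⟨F2, hF2⟩ : ∃ F2 : Fin 2 ⊕ Fin 2 → F, F2 = Δ⁻¹ • (p • v2 - m • v1) := ⟨_, rfl⟩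
  apply uuconj_of_basis g hg e1 e2 F1 F2 h0
  · rw [hF1, hF2]
    simp only [om_smul_left, om_smul_right, om_sub_left, om_sub_right, om_self, b12, b21]
    ring
  · rw [hF1]
    simp only [om_smul_right, om_sub_right, a11, a12]
    rw [hΔdef] at hΔne ⊢
    field_simp
    ring
  · rw [hF2]
    simp only [om_smul_right, om_sub_right, a11, a12]
    ring
  · rw [hF1]
    simp only [om_smul_right, om_sub_right, a21, a22]
    ring
  · rw [hF2]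
    simp only [om_smul_right, om_sub_right, a21, a22]
    rw [hΔdef] at hΔne ⊢
    field_simp
    ring
  · rw [← hv1, hF1]
    simp only [om_smul_right, om_sub_right, om_self, b12]
    ring
  · rw [← hv1, hF2]
    simp only [om_smul_right, om_sub_right, om_self, b12]
    ring
  · rw [← hv2, hF1]
    simp only [om_smul_right, om_sub_right, om_self, b21]
    ring
  · rw [← hv2, hF2]
    simp only [om_smul_right, om_sub_right, om_self, b21]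
    ring

/-- The criterion for elements fixing a hyperbolic pair. -/
theorem uuconj_M2 (g : Matrix (Fin 2 ⊕ Fin 2) (Fin 2 ⊕ Fin 2) F)
    (hg : g ∈ symplecticGroup (Fin 2) F) (e1 f1 e2 : Fin 2 ⊕ Fin 2 → F)
    (h1 : g *ᵥ e1 = e1) (h2 : g *ᵥ f1 = f1) (h3 : om e1 f1 = -1) (h4 : om e1 e2 = 0)
    (h5 : om f1 e2 = 0) (h6 : om (g *ᵥ e2) e2 ≠ 0) : UUconj g := by
  obtain ⟨Q, hQ⟩ : ∃ Q : F, Q = om (g *ᵥ e2) e2 := ⟨_, rfl⟩
  have hQne : Q ≠ 0 := by rw [hQ]; exact h6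
  obtain ⟨v, hv⟩ : ∃ v : Fin 2 ⊕ Fin 2 → F, v = g *ᵥ e2 - e2 := ⟨_, rfl⟩
  have a1 : om e1 v = 0 := by
    rw [hv, om_sub_right, h4, sub_zero]
    calc om e1 (g *ᵥ e2) = om (g *ᵥ e1) (g *ᵥ e2) := by rw [h1]
      _ = 0 := by rw [om_mulVec g hg, h4]
  have a2 : om f1 v = 0 := by
    rw [hv, om_sub_right, h5, sub_zero]
    calc om f1 (g *ᵥ e2) = om (g *ᵥ f1) (g *ᵥ e2) := by rw [h2]
      _ = 0 := by rw [om_mulVec g hg, h5]
  have a3 : om e2 v = -Q := by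
    rw [hv, om_sub_right, om_self, om_swap, ← hQ]
    ring
  obtain ⟨F2, hF2⟩ : ∃ F2 : Fin 2 ⊕ Fin 2 → F, F2 = Q⁻¹ • v := ⟨_, rfl⟩
  apply uuconj_of_basis g hg e1 e2 f1 F2 h4
  · rw [hF2, om_smul_right, a2, mul_zero]
  · exact h3
  · rw [hF2, om_smul_right, a1, mul_zero]
  · rw [om_swap, h5, neg_zero]
  · rw [hF2, om_smul_right, a3]
    field_simp
  · rw [h1, sub_self, om_zero_left]
  · rw [h1, sub_self, om_zero_left]
  · rw [← hv, om_swap, a2, neg_zero]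
  · rw [← hv, hF2, om_smul_right, om_self, mul_zero]

end sp4vec

end Cfsg.Agent.H41
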