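import Mathlib
import Cfsg.Agent.H41.Sp4Vec

set_option autoImplicit false
set_option linter.unusedSimpArgs false
set_option linter.unusedSectionVars false
set_option linter.unusedVariables false
set_option linter.style.haveILetI false
set_option linter.flexible false
set_option linter.unnecessarySeqFocus false

namespace Cfsg.Agent.H41

open Matrix

section sp4tree

variable {F : Type*} [Field F]

/-- A symplectic matrix together with its inverse. -/
def SpPair (g gi : Matrix (Fin 2 ⊕ Fin 2) (Fin 2 ⊕ Fin 2) F) : Prop :=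
  g ∈ symplecticGroup (Fin 2) F ∧ gi ∈ symplecticGroup (Fin 2) F ∧ g * gi = 1 ∧ gi * g = 1

theorem SpPair.gi_g {g gi : Matrix (Fin 2 ⊕ Fin 2) (Fin 2 ⊕ Fin 2) F} (h : SpPair g gi)
    (u : Fin 2 ⊕ Fin 2 → F) : gi *ᵥ (g *ᵥ u) = u := by
  rw [Matrix.mulVec_mulVec, h.2.2.2, Matrix.one_mulVec]

theorem SpPair.g_gi {g gi : Matrix (Fin 2 ⊕ Fin 2) (Fin 2 ⊕ Fin 2) F} (h : SpPair g gi)
    (u : Fin 2 ⊕ Fin 2 → F) : g *ᵥ (gi *ᵥ u) = u := by
  rw [Matrix.mulVec_mulVec, h.2.2.1, Matrix.one_mulVec]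

theorem SpPair.om_g {g gi : Matrix (Fin 2 ⊕ Fin 2) (Fin 2 ⊕ Fin 2) F} (h : SpPair g gi)
    (u v : Fin 2 ⊕ Fin 2 → F) : om (g *ᵥ u) v = om u (gi *ᵥ v) := by
  rw [← om_mulVec gi h.2.1 (g *ᵥ u) v, h.gi_g]

theorem SpPair.om_gi {g gi : Matrix (Fin 2 ⊕ Fin 2) (Fin 2 ⊕ Fin 2) F} (h : SpPair g gi)
    (u v : Fin 2 ⊕ Fin 2 → F) : om (gi *ᵥ u) v = om u (g *ᵥ v) := by
  rw [← om_mulVec g h.1 (gi *ᵥ u) v, h.g_gi]

theorem matrix_eq_of_mulVec (A B : Matrix (Fin 2 ⊕ Fin 2) (Fin 2 ⊕ Fin 2) F)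
    (h : ∀ u, A *ᵥ u = B *ᵥ u) : A = B := by
  apply Matrix.toLin'.injective
  apply LinearMap.ext
  intro u
  rw [Matrix.toLin'_apply, Matrix.toLin'_apply, h]

/-- If `ω(g v, v)` vanishes identically then `g` is an involution. -/
theorem step0 {g gi : Matrix (Fin 2 ⊕ Fin 2) (Fin 2 ⊕ Fin 2) F} (h : SpPair g gi)
    (hQ : ∀ v, om (g *ᵥ v) v = 0) : g * g = 1 := by
  have h1 : ∀ u v, om (g *ᵥ u) v + om (g *ᵥ v) u = 0 := by
    intro u v
    have h2 := hQ (u + v)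
    rw [Matrix.mulVec_add, om_add_left, om_add_right, om_add_right, hQ u, hQ v] at h2
    linear_combination h2
  have h3 : g = gi := by
    apply matrix_eq_of_mulVec
    intro u
    apply eq_of_sub_eq_zero
    apply om_nondeg
    intro v
    rw [om_sub_left, h.om_gi, om_swap u (g *ᵥ v)]
    linear_combination h1 u v
  calc g * g = g * gi := by rw [← h3]
    _ = 1 := h.2.2.1

/-- The characteristic `2` involutions with `ω(g v, v) = 0`. -/
theorem step0_char2 {g gi : Matrix (Fin 2 ⊕ Fin 2) (Fin 2 ⊕ Fin 2) F} (h : SpPair g gi)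
    (hQ : ∀ v, om (g *ᵥ v) v = 0) (h2 : (2 : F) = 0) (hne : g ≠ 1) : UUconj g := by
  have hgg := step0 h hQ
  have hex : ∃ e, g *ᵥ e ≠ e := by
    by_contra hcon
    push Not at hcon
    apply hne
    apply matrix_eq_of_mulVec
    intro u
    rw [hcon u, Matrix.one_mulVec]
  obtain ⟨e, he⟩ := hex
  have he0 : e ≠ 0 := by
    intro h0
    apply he
    rw [h0, Matrix.mulVec_zero]
  have hnp : ∀ c : F, g *ᵥ e ≠ c • e := by
    intro c hc
    have h3 : e = (c * c) • e := by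
      calc e = (g * g) *ᵥ e := by rw [hgg, Matrix.one_mulVec]
        _ = g *ᵥ (g *ᵥ e) := by rw [Matrix.mulVec_mulVec]
        _ = (c * c) • e := by rw [hc, Matrix.mulVec_smul, hc, smul_smul]
    have h4 : (c * c - 1) • e = 0 := by
      rw [sub_smul, one_smul, ← h3, sub_self]
    have h5 : c * c - 1 = 0 := by
      rcases smul_eq_zero.1 h4 with h6 | h6
      · exact h6
      · exact absurd h6 he0
    have h6 : (c - 1) * (c - 1) = 0 := by linear_combination h5 - (c - 1) * h2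
    have h7 : c = 1 := by
      rcases mul_eq_zero.1 h6 with h8 | h8 <;> linear_combination h8
    apply he
    rw [hc, h7, one_smul]
  obtain ⟨z, hz1, hz2⟩ := exists_om_perp e (g *ᵥ e) he0 hnp
  have hgi : gi = g := by
    calc gi = gi * (g * g) := by rw [hgg, Matrix.mul_one]
      _ = g := by rw [← Matrix.mul_assoc, h.2.2.2, Matrix.one_mul]
  apply uuconj_M1 g h.1 e z hz1
  · rw [h.om_g z e, hgi, om_swap z, hz2]
    linear_combination h2
  · rw [hQ e, hQ z, hz2]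
    simp

/-- The case of a `g`-invariant nondegenerate plane. -/
theorem lemmaB {g gi : Matrix (Fin 2 ⊕ Fin 2) (Fin 2 ⊕ Fin 2) F} (h : SpPair g gi)
    (e : Fin 2 ⊕ Fin 2 → F) (hQ : om (g *ᵥ e) e ≠ 0) (α β : F)
    (hinv : gi *ᵥ e = α • e + β • g *ᵥ e) : UUconj g ∨ UUconj (-g) := by
  obtain ⟨Q, hQdef⟩ : ∃ Q : F, Q = om (g *ᵥ e) e := ⟨_, rfl⟩
  have hQne : Q ≠ 0 := by rw [hQdef]; exact hQ
  -- invariance of the orthogonal complement
  have hinvar : ∀ z, om e z = 0 → om (g *ᵥ e) z = 0 →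
      om e (g *ᵥ z) = 0 ∧ om (g *ᵥ e) (g *ᵥ z) = 0 := by
    intro z h1 h2
    refine ⟨?_, ?_⟩
    · rw [← h.om_gi, hinv, om_add_left, om_smul_left, om_smul_left, h1, h2]
      ring
    · rw [om_mulVec g h.1, h1]
  by_cases hb1 : ∃ z, om e z = 0 ∧ om (g *ᵥ e) z = 0 ∧ om (g *ᵥ z) z ≠ 0
  · obtain ⟨z, h1, h2, h3⟩ := hb1
    left
    apply uuconj_M1 g h.1 e z h1
    · rw [h2, om_swap, (hinvar z h1 h2).1, neg_zero]
    · rw [h2]
      simpa using mul_ne_zero hQ h3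
  · push Not at hb1
    obtain ⟨z1, hz10, hz11, hz12⟩ := exists_perp_two e (g *ᵥ e)
    obtain ⟨w, hw⟩ := exists_om_eq_one z1 hz10
    obtain ⟨z2, hz2def⟩ : ∃ z2 : Fin 2 ⊕ Fin 2 → F,
        z2 = -(w - (om (g *ᵥ e) w / Q) • e + (om e w / Q) • g *ᵥ e) := ⟨_, rfl⟩
    have hege : om e (g *ᵥ e) = -Q := by rw [om_swap, ← hQdef]
    have hz21 : om e z2 = 0 := by
      rw [hz2def, om_neg_right, om_add_right, om_sub_right, om_smul_right, om_smul_right,
        om_self, hege]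
      field_simp
      ring
    have hz22 : om (g *ᵥ e) z2 = 0 := by
      rw [hz2def, om_neg_right, om_add_right, om_sub_right, om_smul_right, om_smul_right,
        om_self, ← hQdef]
      field_simp
      ring
    have hz1e : om z1 e = 0 := by rw [om_swap, hz11, neg_zero]
    have hz1ge : om z1 (g *ᵥ e) = 0 := by rw [om_swap, hz12, neg_zero]
    have hz2e : om z2 e = 0 := by rw [om_swap, hz21, neg_zero]
    have hz2ge : om z2 (g *ᵥ e) = 0 := by rw [om_swap, hz22, neg_zero]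
    have hz12' : om z1 z2 = -1 := by
      rw [hz2def, om_neg_right, om_add_right, om_sub_right, om_smul_right, om_smul_right,
        hz1e, hz1ge, hw]
      ring
    have hz21' : om z2 z1 = 1 := by rw [om_swap, hz12', neg_neg]
    -- the symplectic basis z1, e, z2, Q⁻¹ g e
    obtain ⟨hh, hhdef⟩ : ∃ hh : Fin 2 ⊕ Fin 2 → F, hh = Q⁻¹ • g *ᵥ e := ⟨_, rfl⟩
    have r2 : om z2 hh = 0 := by rw [hhdef, om_smul_right, hz2ge, mul_zero]
    have r4 : om z1 hh = 0 := by rw [hhdef, om_smul_right, hz1ge, mul_zero]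
    have r6 : om e hh = -1 := by
      rw [hhdef, om_smul_right, hege]
      field_simp
    have hexp := basis_expand z1 e z2 hh hz1e r2 hz12' r4 hz21 r6
    have hhx : ∀ x, om hh x = Q⁻¹ * om (g *ᵥ e) x := by
      intro x
      rw [hhdef, om_smul_left]
    -- g z1 = c1 z1
    have hg1 : g *ᵥ z1 = om z2 (g *ᵥ z1) • z1 := by
      have h1 := hexp (g *ᵥ z1)
      rw [hhx, (hinvar z1 hz11 hz12).2, (hinvar z1 hz11 hz12).1, om_swap z1 (g *ᵥ z1),
        hb1 z1 hz11 hz12] at h1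
      refine h1.trans ?_
      simp
    have hg2 : g *ᵥ z2 = (-om z1 (g *ᵥ z2)) • z2 := by
      have h1 := hexp (g *ᵥ z2)
      rw [hhx, (hinvar z2 hz21 hz22).2, (hinvar z2 hz21 hz22).1, om_swap z2 (g *ᵥ z2),
        hb1 z2 hz21 hz22] at h1
      refine h1.trans ?_
      simp
    obtain ⟨c1, hc1⟩ : ∃ c1 : F, c1 = om z2 (g *ᵥ z1) := ⟨_, rfl⟩
    obtain ⟨c2, hc2⟩ : ∃ c2 : F, c2 = -om z1 (g *ᵥ z2) := ⟨_, rfl⟩
    rw [← hc1] at hg1
    rw [← hc2] at hg2
    have hc12 : c1 = c2 := by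
      have h1 := hb1 (z1 + z2) (by rw [om_add_right, hz11, hz21, add_zero])
        (by rw [om_add_right, hz12, hz22, add_zero])
      rw [Matrix.mulVec_add, hg1, hg2, om_add_left, om_add_right, om_add_right, om_smul_left,
        om_smul_left, om_smul_left, om_smul_left, om_self, om_self, hz12', hz21'] at h1
      linear_combination -h1
    have hc11 : c1 * c1 = 1 := by
      have h1 := om_mulVec g h.1 z1 z2
      rw [hg1, hg2, ← hc12, om_smul_left, om_smul_right, hz12'] at h1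
      linear_combination -h1
    have hc : c1 = 1 ∨ c1 = -1 := by
      have h1 : (c1 - 1) * (c1 + 1) = 0 := by linear_combination hc11
      rcases mul_eq_zero.1 h1 with h2 | h2
      · left; linear_combination h2
      · right; linear_combination h2
    rcases hc with hc | hc
    · left
      apply uuconj_M2 g h.1 z1 z2 e
      · rw [hg1, hc, one_smul]
      · rw [hg2, ← hc12, hc, one_smul]
      · exact hz12'
      · exact hz1e
      · exact hz2e
      · exact hQ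
    · right
      apply uuconj_M2 (-g) (SymplecticGroup.neg_mem h.1) z1 z2 e
      · rw [Matrix.neg_mulVec, hg1, hc]
        simp
      · rw [Matrix.neg_mulVec, hg2, ← hc12, hc]
        simp
      · exact hz12'
      · exact hz1e
      · exact hz2e
      · rw [Matrix.neg_mulVec, om_neg_left]
        exact neg_ne_zero.2 hQ

/-- The case where the plane spanned by `e` and `g e` is not `g`-invariant. -/
theorem caseA {g gi : Matrix (Fin 2 ⊕ Fin 2) (Fin 2 ⊕ Fin 2) F} (h : SpPair g gi)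
    (e : Fin 2 ⊕ Fin 2 → F) (hQ : om (g *ᵥ e) e ≠ 0)
    (hna : ¬ ∃ α β : F, gi *ᵥ e = α • e + β • g *ᵥ e) : UUconj g ∨ UUconj (-g) := by
  obtain ⟨Q, hQdef⟩ : ∃ Q : F, Q = om (g *ᵥ e) e := ⟨_, rfl⟩
  have hQne : Q ≠ 0 := by rw [hQdef]; exact hQ
  obtain ⟨se, hse⟩ : ∃ se : Fin 2 ⊕ Fin 2 → F, se = g *ᵥ e + gi *ᵥ e := ⟨_, rfl⟩
  obtain ⟨b, hb⟩ : ∃ b : F, b = om (g *ᵥ e) se := ⟨_, rfl⟩
  obtain ⟨Q2, hQ2⟩ : ∃ Q2 : F, Q2 = om (g *ᵥ se) se := ⟨_, rfl⟩
  have hege : om e (g *ᵥ e) = -Q := by rw [om_swap, ← hQdef]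
  have hegie : om e (gi *ᵥ e) = Q := by rw [← h.om_g, ← hQdef]
  have hgiee : om (gi *ᵥ e) e = -Q := by rw [om_swap, hegie]
  have hb' : om (g *ᵥ e) (gi *ᵥ e) = b := by rw [hb, hse, om_add_right, om_self, zero_add]
  have hb'' : om (gi *ᵥ e) (g *ᵥ e) = -b := by rw [om_swap, hb']
  have f1 : om e se = 0 := by
    rw [hse, om_add_right, hege, hegie]
    ring
  have f2 : om (g *ᵥ se) e = b := by
    rw [h.om_g, hse, om_add_left, om_self, add_zero, hb']
  have f3 : om (gi *ᵥ e) se = -b := by rw [hse, om_add_right, om_self, add_zero, hb'']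
  by_cases hD : Q * Q2 - b ^ 2 = 0
  swap
  · left
    apply uuconj_M1 g h.1 e se f1
    · rw [← hb, f2]
    · rw [← hQdef, ← hQ2, ← hb]
      exact hD
  -- the degenerate case
  obtain ⟨z, hz⟩ : ∃ z : Fin 2 ⊕ Fin 2 → F, z = b • e - Q • se := ⟨_, rfl⟩
  have z1 : om e z = 0 := by
    rw [hz, om_sub_right, om_smul_right, om_smul_right, om_self, f1]
    ring
  have z2 : om (g *ᵥ e) z = 0 := by
    rw [hz, om_sub_right, om_smul_right, om_smul_right, ← hQdef, ← hb]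
    ring
  have z3 : om (gi *ᵥ e) z = 0 := by
    rw [hz, om_sub_right, om_smul_right, om_smul_right, hgiee, f3]
    ring
  have hgz : g *ᵥ z = b • g *ᵥ e - Q • g *ᵥ se := by
    rw [hz, Matrix.mulVec_sub, Matrix.mulVec_smul, Matrix.mulVec_smul]
  have z4 : om (g *ᵥ z) z = 0 := by
    rw [hgz, hz]
    simp only [om_sub_left, om_sub_right, om_smul_left, om_smul_right]
    rw [← hQdef, ← hb, f2, ← hQ2]
    linear_combination Q * hD
  have hzne : ∀ c : F, z ≠ c • e := by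
    intro c hc
    apply hna
    refine ⟨(b - c) / Q, -1, ?_⟩
    have h1 : Q • se = (b - c) • e := by
      rw [sub_smul, ← hc, hz]
      abel
    have h2 : se = ((b - c) / Q) • e := by
      rw [div_eq_inv_mul, mul_smul, ← h1, smul_smul, inv_mul_cancel₀ hQne, one_smul]
    rw [hse] at h2
    rw [neg_one_smul, ← h2]
    abel
  have he0 : e ≠ 0 := by
    intro h0
    apply hQ
    rw [h0, om_zero_right]
  have hz0 : z ≠ 0 := by
    intro h0
    exact hzne 0 (by rw [h0, zero_smul])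
  -- a symplectic basis
  obtain ⟨F1', hF1a, hF1b⟩ := exists_om_perp z e hz0 (by
    intro c hc
    have hc0 : c ≠ 0 := by
      intro h0
      apply he0
      rw [hc, h0, zero_smul]
    exact hzne c⁻¹ (by
      calc z = c⁻¹ • (c • z) := by rw [smul_smul, inv_mul_cancel₀ hc0, one_smul]
        _ = c⁻¹ • e := by rw [← hc]))
  obtain ⟨F2', hF2a, hF2b⟩ := exists_om_perp e z he0 hzne
  obtain ⟨F1, hF1⟩ : ∃ F1 : Fin 2 ⊕ Fin 2 → F, F1 = -F1' := ⟨_, rfl⟩
  obtain ⟨F2, hF2⟩ : ∃ F2 : Fin 2 ⊕ Fin 2 → F, F2 = -F2' - om F1' F2' • e := ⟨_, rfl⟩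
  have r3 : om e F1 = -1 := by rw [hF1, om_neg_right, hF1b]
  have r5 : om z F1 = 0 := by rw [hF1, om_neg_right, hF1a, neg_zero]
  have r4 : om e F2 = 0 := by
    rw [hF2, om_sub_right, om_neg_right, om_smul_right, om_self, hF2a]
    ring
  have r6 : om z F2 = -1 := by
    rw [hF2, om_sub_right, om_neg_right, om_smul_right, hF2b, om_swap z e, z1]
    ring
  have r2 : om F1 F2 = 0 := by
    rw [hF1, hF2, om_neg_left, om_sub_right, om_neg_right, om_smul_right, om_swap F1' e, hF1b]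
    ring
  have hexp := basis_expand e z F1 F2 z1 r2 r3 r4 r5 r6
  -- `z` is an eigenvector
  have hgze : om e (g *ᵥ z) = 0 := by rw [← h.om_gi, z3]
  have hgzz : om z (g *ᵥ z) = 0 := by rw [om_swap, z4, neg_zero]
  obtain ⟨lam, hlam⟩ : ∃ lam : F, lam = om F2 (g *ᵥ z) := ⟨_, rfl⟩
  obtain ⟨al, hal⟩ : ∃ al : F, al = om F1 (g *ᵥ z) := ⟨_, rfl⟩
  have hgz1 : g *ᵥ z = al • e + lam • z := by
    have h1 := hexp (g *ᵥ z)
    rw [hgze, hgzz, ← hlam, ← hal] at h1
    refine h1.trans ?_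
    simp
  have hal0 : al = 0 := by
    have h1 := om_mulVec g h.1 e z
    rw [z1, hgz1, om_add_right, om_smul_right, om_smul_right, ← hQdef, z2] at h1
    have h2 : al * Q = 0 := by linear_combination h1
    rcases mul_eq_zero.1 h2 with h3 | h3
    · exact h3
    · exact absurd h3 hQne
  have hgz2 : g *ᵥ z = lam • z := by rw [hgz1, hal0, zero_smul, zero_add]
  have hlam0 : lam ≠ 0 := by
    intro h0
    apply hz0
    have h1 := h.gi_g z
    rw [hgz2, h0, zero_smul, Matrix.mulVec_zero] at h1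
    exact h1.symm
  have hgiz : gi *ᵥ z = lam⁻¹ • z := by
    have h1 := h.gi_g z
    rw [hgz2, Matrix.mulVec_smul] at h1
    calc gi *ᵥ z = lam⁻¹ • (lam • gi *ᵥ z) := by
          rw [smul_smul, inv_mul_cancel₀ hlam0, one_smul]
      _ = lam⁻¹ • z := by rw [h1]
  obtain ⟨s1, hs1⟩ : ∃ s1 : F, s1 = lam + lam⁻¹ := ⟨_, rfl⟩
  obtain ⟨s2, hs2⟩ : ∃ s2 : F, s2 = b / Q := ⟨_, rfl⟩
  have hse2 : se = s2 • e - Q⁻¹ • z := by
    rw [hz, hs2, smul_sub, smul_smul, smul_smul, inv_mul_cancel₀ hQne, one_smul, div_eq_inv_mul]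
    abel
  by_cases hσ : s2 = s1
  swap
  · -- distinct eigenvalues of `g + g⁻¹`
    obtain ⟨a2, ha2⟩ : ∃ a2 : Fin 2 ⊕ Fin 2 → F, a2 = (s2 - s1) • e - Q⁻¹ • z := ⟨_, rfl⟩
    have hga2 : g *ᵥ a2 = (s2 - s1) • g *ᵥ e - (Q⁻¹ * lam) • z := by
      rw [ha2, Matrix.mulVec_sub, Matrix.mulVec_smul, Matrix.mulVec_smul, hgz2, smul_smul]
    have hgia2 : gi *ᵥ a2 = (s2 - s1) • gi *ᵥ e - (Q⁻¹ * lam⁻¹) • z := by
      rw [ha2, Matrix.mulVec_sub, Matrix.mulVec_smul, Matrix.mulVec_smul, hgiz, smul_smul]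
    have hgie : gi *ᵥ e = s2 • e - Q⁻¹ • z - g *ᵥ e := by
      rw [← hse2, hse]
      abel
    apply lemmaB h a2 ?_ s2 (-1) ?_
    · rw [hga2, ha2]
      simp only [om_sub_left, om_sub_right, om_smul_left, om_smul_right, om_self]
      rw [← hQdef, z2, om_swap z e, z1]
      have h1 : (s2 - s1) * ((s2 - s1) * Q) ≠ 0 :=
        mul_ne_zero (sub_ne_zero.2 hσ) (mul_ne_zero (sub_ne_zero.2 hσ) hQne)
      intro h2
      apply h1
      linear_combination h2
    · rw [hgia2, hga2, hgie, ha2, hs1]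
      module
  -- equal eigenvalues
  have hse3 : se = s1 • e - Q⁻¹ • z := by rw [← hσ]; exact hse2
  obtain ⟨N, hN⟩ : ∃ N : Matrix (Fin 2 ⊕ Fin 2) (Fin 2 ⊕ Fin 2) F,
      N = g + gi - s1 • (1 : Matrix (Fin 2 ⊕ Fin 2) (Fin 2 ⊕ Fin 2) F) := ⟨_, rfl⟩
  have hNv : ∀ v, N *ᵥ v = g *ᵥ v + gi *ᵥ v - s1 • v := by
    intro v
    rw [hN, Matrix.sub_mulVec, Matrix.add_mulVec, Matrix.smul_mulVec, Matrix.one_mulVec]
  have hNe : N *ᵥ e = -(Q⁻¹ • z) := by
    rw [hNv, ← hse, hse3]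
    abel
  have hNz : N *ᵥ z = 0 := by
    rw [hNv, hgz2, hgiz, hs1]
    module
  have hNsa : ∀ u v, om (N *ᵥ u) v = om u (N *ᵥ v) := by
    intro u v
    rw [hNv, hNv, om_sub_left, om_add_left, om_sub_right, om_add_right, h.om_g, h.om_gi,
      om_smul_left, om_smul_right]
    ring
  have hNg : ∀ v, g *ᵥ (N *ᵥ v) = N *ᵥ (g *ᵥ v) := by
    intro v
    rw [hNv, hNv, Matrix.mulVec_sub, Matrix.mulVec_add, Matrix.mulVec_smul, h.g_gi, h.gi_g]
  have hNalt : ∀ u, om u (N *ᵥ u) = 0 := by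
    intro u
    rw [hNv, om_sub_right, om_add_right, om_smul_right, om_self, ← h.om_g,
      om_swap u (g *ᵥ u)]
    ring
  obtain ⟨l, hl⟩ : ∃ l : Fin 2 ⊕ Fin 2 → F, l = N *ᵥ F2 := ⟨_, rfl⟩
  have l1 : om l e = -Q⁻¹ := by
    rw [hl, hNsa, hNe, om_neg_right, om_smul_right, om_swap F2 z, r6]
    ring
  have l2 : om l z = 0 := by rw [hl, hNsa, hNz, om_zero_right]
  have l3 : om l F2 = 0 := by rw [hl, om_swap, hNalt, neg_zero]
  obtain ⟨kap, hkap⟩ : ∃ kap : F, kap = om F1 l := ⟨_, rfl⟩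
  have hlexp : l = kap • e - Q⁻¹ • F1 := by
    have h1 := hexp l
    rw [← hkap, om_swap F2 l, l3, om_swap e l, l1, om_swap z l, l2] at h1
    refine h1.trans ?_
    simp
  have hNF1 : N *ᵥ F1 = -(kap • z) := by
    have h1 := hexp (N *ᵥ F1)
    have e1 : om F1 (N *ᵥ F1) = 0 := hNalt F1
    have e2 : om F2 (N *ᵥ F1) = -kap := by rw [← hNsa, ← hl, om_swap, ← hkap]
    have e3 : om e (N *ᵥ F1) = 0 := by
      rw [← hNsa, hNe, om_neg_left, om_smul_left, r5, mul_zero, neg_zero]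
    have e4 : om z (N *ᵥ F1) = 0 := by rw [← hNsa, hNz, om_zero_left]
    rw [e1, e2, e3, e4] at h1
    refine h1.trans ?_
    simp
  have hNl : N *ᵥ l = 0 := by
    rw [hlexp, Matrix.mulVec_sub, Matrix.mulVec_smul, Matrix.mulVec_smul, hNe, hNF1]
    module
  have m1 : om (g *ᵥ l) z = 0 := by rw [h.om_g, hgiz, om_smul_right, l2, mul_zero]
  have m2 : om (g *ᵥ l) l = 0 := by
    calc om (g *ᵥ l) l = om (g *ᵥ (N *ᵥ F2)) l := by rw [hl]
      _ = om (N *ᵥ (g *ᵥ F2)) l := by rw [hNg]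
      _ = om (g *ᵥ F2) (N *ᵥ l) := by rw [hNsa]
      _ = 0 := by rw [hNl, om_zero_right]
  obtain ⟨C, hC⟩ : ∃ C : F, C = om e (g *ᵥ l) := ⟨_, rfl⟩
  obtain ⟨mu', hmu'⟩ : ∃ mu' : F, mu' = om F2 (g *ᵥ l) := ⟨_, rfl⟩
  have hF1gl : om F1 (g *ᵥ l) = kap * Q * C := by
    have h1 : om (g *ᵥ l) (kap • e - Q⁻¹ • F1) = 0 := by
      rw [← hlexp]
      exact m2
    rw [om_sub_right, om_smul_right, om_smul_right, om_swap (g *ᵥ l) e, ← hC,
      om_swap (g *ᵥ l) F1] at h1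
    have h2 : Q⁻¹ * om F1 (g *ᵥ l) = kap * C := by linear_combination h1
    calc om F1 (g *ᵥ l) = Q * (Q⁻¹ * om F1 (g *ᵥ l)) := by
          rw [← mul_assoc, mul_inv_cancel₀ hQne, one_mul]
      _ = kap * Q * C := by rw [h2]; ring
  have hgl : g *ᵥ l = (Q * C) • l + mu' • z := by
    have h1 := hexp (g *ᵥ l)
    rw [hF1gl, ← hmu', ← hC, om_swap z (g *ᵥ l), m1] at h1
    refine h1.trans ?_
    rw [hlexp, smul_sub, smul_smul, smul_smul]
    have e5 : Q * C * Q⁻¹ = C := by field_simp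
    have e6 : Q * C * kap = kap * Q * C := by ring
    rw [e5, e6]
    simp
    abel
  have hll : om l l = 0 := om_self l
  have hzl : om z l = 0 := by rw [om_swap, l2, neg_zero]
  have key : ∀ θ : F, θ * (Q⁻¹ * lam - C) - mu' ≠ 0 → UUconj g := by
    intro θ hθ
    obtain ⟨u, hu⟩ : ∃ u : Fin 2 ⊕ Fin 2 → F, u = F2 + θ • e := ⟨_, rfl⟩
    have hNu : N *ᵥ u = l - (θ * Q⁻¹) • z := by
      rw [hu, Matrix.mulVec_add, Matrix.mulVec_smul, ← hl, hNe]
      module
    have hgNu : g *ᵥ (N *ᵥ u) = (Q * C) • l + (mu' - θ * Q⁻¹ * lam) • z := by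
      rw [hNu, Matrix.mulVec_sub, Matrix.mulVec_smul, hgl, hgz2]
      module
    have hs : om (g *ᵥ u) (N *ᵥ u) = om (g *ᵥ (N *ᵥ u)) u := by
      rw [hNg, hNsa]
    have hval : om (g *ᵥ (N *ᵥ u)) u = θ * (Q⁻¹ * lam - C) - mu' := by
      rw [hgNu, hu]
      simp only [om_add_left, om_add_right, om_smul_left, om_smul_right, l3, l1, r6, z1,
        om_swap z e]
      have e5 : Q * C * Q⁻¹ = C := by field_simp
      linear_combination (-θ) * e5
    have hzero : om (g *ᵥ (N *ᵥ u)) (N *ᵥ u) = 0 := by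
      rw [hgNu, hNu]
      simp only [om_add_left, om_sub_right, om_smul_left, om_smul_right, hll, l2, hzl, om_self]
      ring
    apply uuconj_M1 g h.1 u (N *ᵥ u) (hNalt u) hs
    rw [hzero, hs, hval, mul_zero, zero_sub]
    exact neg_ne_zero.2 (pow_ne_zero 2 hθ)
  by_cases hmu : mu' = 0
  swap
  · left
    apply key 0
    rw [zero_mul, zero_sub]
    exact neg_ne_zero.2 hmu
  by_cases hC0 : Q⁻¹ * lam - C = 0
  swap
  · left
    apply key 1
    rw [hmu, one_mul, sub_zero]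
    exact hC0
  -- the contradiction
  exfalso
  have hQC : Q * C = lam := by
    have h1 : C = Q⁻¹ * lam := by linear_combination -hC0
    rw [h1, ← mul_assoc, mul_inv_cancel₀ hQne, one_mul]
  have hgl2 : g *ᵥ l = lam • l := by rw [hgl, hmu, zero_smul, add_zero, hQC]
  have hgil : gi *ᵥ l = lam⁻¹ • l := by
    have h1 := h.gi_g l
    rw [hgl2, Matrix.mulVec_smul] at h1
    calc gi *ᵥ l = lam⁻¹ • (lam • gi *ᵥ l) := by
          rw [smul_smul, inv_mul_cancel₀ hlam0, one_smul]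
      _ = lam⁻¹ • l := by rw [h1]
  obtain ⟨w, hw⟩ : ∃ w : Fin 2 ⊕ Fin 2 → F, w = g *ᵥ e - lam⁻¹ • e := ⟨_, rfl⟩
  have w1 : om w z = 0 := by
    rw [hw, om_sub_left, om_smul_left, z2, z1]
    ring
  have w2 : om w l = 0 := by
    rw [hw, om_sub_left, om_smul_left, h.om_g, hgil, om_smul_right]
    ring
  obtain ⟨c1, hc1⟩ : ∃ c1 : F, c1 = om e w := ⟨_, rfl⟩
  obtain ⟨c2, hc2⟩ : ∃ c2 : F, c2 = om F2 w := ⟨_, rfl⟩
  have hF1w : om F1 w = kap * Q * c1 := by
    have h1 : om w (kap • e - Q⁻¹ • F1) = 0 := by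
      rw [← hlexp]
      exact w2
    rw [om_sub_right, om_smul_right, om_smul_right, om_swap w e, ← hc1, om_swap w F1] at h1
    have h2 : Q⁻¹ * om F1 w = kap * c1 := by linear_combination h1
    calc om F1 w = Q * (Q⁻¹ * om F1 w) := by
          rw [← mul_assoc, mul_inv_cancel₀ hQne, one_mul]
      _ = kap * Q * c1 := by rw [h2]; ring
  have hwexp : w = (Q * c1) • l + c2 • z := by
    have h1 := hexp w
    rw [hF1w, ← hc2, ← hc1, om_swap z w, w1] at h1
    refine h1.trans ?_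
    rw [hlexp, smul_sub, smul_smul, smul_smul]
    have e5 : Q * c1 * Q⁻¹ = c1 := by field_simp
    have e6 : Q * c1 * kap = kap * Q * c1 := by ring
    rw [e5, e6]
    simp
    abel
  have hgw : g *ᵥ w = lam • w := by
    rw [hwexp, Matrix.mulVec_add, Matrix.mulVec_smul, Matrix.mulVec_smul, hgl2, hgz2]
    module
  have hgge : g *ᵥ (g *ᵥ e) = s1 • g *ᵥ e - e := by
    have h1 : g *ᵥ w = g *ᵥ (g *ᵥ e) - lam⁻¹ • g *ᵥ e := by
      rw [hw, Matrix.mulVec_sub, Matrix.mulVec_smul]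
    rw [hgw, hw] at h1
    have h2 : lam • lam⁻¹ • e = e := by rw [smul_smul, mul_inv_cancel₀ hlam0, one_smul]
    rw [smul_sub, h2] at h1
    rw [hs1, add_smul]
    rw [eq_sub_iff_add_eq] at h1
    rw [← h1]
    abel
  have hse4 : se = s1 • e := by
    have h1 := congrArg (fun v => gi *ᵥ v) hgge
    simp only [h.gi_g, Matrix.mulVec_sub, Matrix.mulVec_smul] at h1
    rw [hse, h1]
    abel
  apply hz0
  have h1 : Q⁻¹ • z = 0 := by
    have h2 := hse3
    rw [hse4] at h2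
    have h3 : s1 • e - (s1 • e - Q⁻¹ • z) = 0 := by rw [← h2, sub_self]
    rw [← h3]
    abel
  rcases smul_eq_zero.1 h1 with h2 | h2
  · exact absurd h2 (inv_ne_zero hQne)
  · exact h2

/-- The reduction theorem. -/
theorem sp4_tree {g gi : Matrix (Fin 2 ⊕ Fin 2) (Fin 2 ⊕ Fin 2) F} (h : SpPair g gi)
    (hne : g ≠ 1) : UUconj g ∨ UUconj (-g) ∨ ((2 : F) ≠ 0 ∧ g * g = 1) := by
  by_cases hQ : ∀ v, om (g *ᵥ v) v = 0
  · by_cases h2 : (2 : F) = 0
    · left
      exact step0_char2 h hQ h2 hne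
    · right
      right
      exact ⟨h2, step0 h hQ⟩
  · push Not at hQ
    obtain ⟨e, he⟩ := hQ
    by_cases hb : ∃ α β : F, gi *ᵥ e = α • e + β • g *ᵥ e
    · obtain ⟨α, β, hαβ⟩ := hb
      rcases lemmaB h e he α β hαβ with h1 | h1
      · exact Or.inl h1
      · exact Or.inr (Or.inl h1)
    · rcases caseA h e he hb with h1 | h1
      · exact Or.inl h1
      · exact Or.inr (Or.inl h1)

end sp4tree

end Cfsg.Agent.H41
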