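import Mathlib
import Cfsg.Agent.H41.Sp4Tree

set_option autoImplicit false
set_option linter.unusedSimpArgs false
set_option linter.unusedSectionVars false
set_option linter.unusedVariables false
set_option linter.style.haveILetI false
set_option linter.flexible false
set_option linter.unnecessarySeqFocus false

namespace Cfsg.Agent.H41

open Matrix

section sp4inv

variable {F : Type*} [Field F]

/-- Products of two conjugates of the base element. -/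
def CC (t d : F) (g : Matrix (Fin 2 ⊕ Fin 2) (Fin 2 ⊕ Fin 2) F) : Prop :=
  ∃ y₁ y₂ : Matrix (Fin 2 ⊕ Fin 2) (Fin 2 ⊕ Fin 2) F, CxM t d y₁ ∧ CxM t d y₂ ∧ g = y₁ * y₂

theorem CC_conj (t d : F) (g R Ri : Matrix (Fin 2 ⊕ Fin 2) (Fin 2 ⊕ Fin 2) F)
    (hR : R ∈ symplecticGroup (Fin 2) F) (hRRi : R * Ri = 1) (h : CC t d g) :
    CC t d (R * g * Ri) := by
  obtain ⟨y₁, y₂, h1, h2, h3⟩ := h
  have hRiR : Ri * R = 1 := mul_eq_one_comm.1 hRRi
  refine ⟨R * y₁ * Ri, R * y₂ * Ri, CxM_conj' t d y₁ h1 R Ri hR hRRi,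
    CxM_conj' t d y₂ h2 R Ri hR hRRi, ?_⟩
  rw [h3]
  calc R * (y₁ * y₂) * Ri = R * y₁ * (1 : Matrix (Fin 2 ⊕ Fin 2) (Fin 2 ⊕ Fin 2) F) * y₂ * Ri := by
        simp only [Matrix.mul_one, Matrix.mul_assoc]
    _ = R * y₁ * Ri * (R * y₂ * Ri) := by
        rw [← hRiR]
        simp only [Matrix.mul_assoc]

theorem uuconj_cc (t d : F) (hd : d ≠ 0) (hD : Dl t d ≠ 0)
    (g : Matrix (Fin 2 ⊕ Fin 2) (Fin 2 ⊕ Fin 2) F) (h : UUconj g) : CC t d g := by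
  obtain ⟨R, Ri, S, T, hR, hRRi, hS, hT, hg⟩ := h
  rw [hg]
  apply CC_conj t d _ R Ri hR hRRi
  have hmem : uL T * uU S ∈ symplecticGroup (Fin 2) F := mul_mem (uL_mem T hT) (uU_mem S hS)
  have hprod : uL T * uU S = fromBlocks 1 S T (T * S + 1) := by
    rw [uL, uU, fromBlocks_multiply]
    simp
  rw [hprod] at hmem ⊢
  exact bigcell t d hd hD 1 S T (T * S + 1) 1 1 (Matrix.one_mul 1)
    (by rw [Matrix.one_mul, Matrix.mul_one, Ym_mul_Yi t d hd]) hmem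

/-- The standard involution. -/
def G0 : Matrix (Fin 2 ⊕ Fin 2) (Fin 2 ⊕ Fin 2) F := lev !![1, 0; 0, -1] !![1, 0; 0, -1]

theorem G0_mulVec (c : Fin 2 ⊕ Fin 2 → F) :
    (G0 : Matrix (Fin 2 ⊕ Fin 2) (Fin 2 ⊕ Fin 2) F) *ᵥ c =
      Sum.elim ![c (Sum.inl 0), -c (Sum.inl 1)] ![c (Sum.inr 0), -c (Sum.inr 1)] := by
  ext k
  rcases k with k | k <;> fin_cases k <;>
    simp [G0, lev, Matrix.mulVec, dotProduct, Fintype.sum_sum_type, Fin.sum_univ_two]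

/-- The standard involution is a product of two conjugates of the base element, if the
relevant conic has a point. -/
theorem G0_cc (t d : F) (hd : d ≠ 0) (hD : Dl t d ≠ 0) (h2 : (2 : F) ≠ 0) (p s : F)
    (hs : s ≠ 0) (hcon : p ^ 2 + t * p * s + d * s ^ 2 - t * p + d = 0) :
    CC t d (G0 : Matrix (Fin 2 ⊕ Fin 2) (Fin 2 ⊕ Fin 2) F) := by
  obtain ⟨S₀, hS₀⟩ : ∃ S₀ : Matrix (Fin 2) (Fin 2) F,
      S₀ = !![-p, -s - 1; -s - 1, (s * t - t + p) / d] := ⟨_, rfl⟩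
  obtain ⟨T₀, hT₀⟩ : ∃ T₀ : Matrix (Fin 2) (Fin 2) F, T₀ = !![0, 1 / 2; 1 / 2, 0] := ⟨_, rfl⟩
  have hS₀s : S₀ᵀ = S₀ := by
    rw [hS₀]
    ext i j
    fin_cases i <;> fin_cases j <;> simp
  have hT₀s : T₀ᵀ = T₀ := by
    rw [hT₀]
    ext i j
    fin_cases i <;> fin_cases j <;> simp
  obtain ⟨W, hW⟩ : ∃ W : Matrix (Fin 2 ⊕ Fin 2) (Fin 2 ⊕ Fin 2) F, W = uL T₀ * uU S₀ :=
    ⟨_, rfl⟩
  obtain ⟨W', hW'⟩ : ∃ W' : Matrix (Fin 2 ⊕ Fin 2) (Fin 2 ⊕ Fin 2) F,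
      W' = uU (-S₀) * uL (-T₀) := ⟨_, rfl⟩
  have hWmem : W ∈ symplecticGroup (Fin 2) F := by
    rw [hW]
    exact mul_mem (uL_mem T₀ hT₀s) (uU_mem S₀ hS₀s)
  have hW'mem : W' ∈ symplecticGroup (Fin 2) F := by
    rw [hW']
    exact mul_mem (uU_mem (-S₀) (by rw [transpose_neg, hS₀s]))
      (uL_mem (-T₀) (by rw [transpose_neg, hT₀s]))
  have hWW' : W * W' = 1 := by
    rw [hW, hW']
    calc uL T₀ * uU S₀ * (uU (-S₀) * uL (-T₀)) = uL T₀ * (uU S₀ * uU (-S₀)) * uL (-T₀) := by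
          simp only [Matrix.mul_assoc]
      _ = 1 := by rw [uU_mul_neg, Matrix.mul_one, uL_mul_neg]
  have hG0mem : (G0 : Matrix (Fin 2 ⊕ Fin 2) (Fin 2 ⊕ Fin 2) F) ∈ symplecticGroup (Fin 2) F := by
    apply lev_mem
    ext i j
    fin_cases i <;> fin_cases j <;> simp [Matrix.mul_apply, Fin.sum_univ_two]
  -- the conjugate with a good upper left block
  obtain ⟨P₁, hP₁⟩ : ∃ P₁ : Matrix (Fin 2) (Fin 2) F, P₁ = !![1, p; 0, s] := ⟨_, rfl⟩
  obtain ⟨P₁i, hP₁i⟩ : ∃ P₁i : Matrix (Fin 2) (Fin 2) F, P₁i = !![1, -p / s; 0, 1 / s] :=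
    ⟨_, rfl⟩
  have hPP : P₁ * P₁i = 1 := by
    rw [hP₁, hP₁i]
    ext i j
    fin_cases i <;> fin_cases j <;> simp [Matrix.mul_apply, Fin.sum_univ_two] <;> field_simp <;>
      ring
  have ha0 : P₁ * Ym t d * P₁i * Yi t d = !![-s, p; (s * t - t + p) / d, s] := by
    rw [hP₁, hP₁i]
    ext i j
    fin_cases i <;> fin_cases j <;>
      simp [Ym, Yi, Matrix.mul_apply, Fin.sum_univ_two] <;> field_simp <;>
      (first | linear_combination hcon | linear_combination -hcon | ring1)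
  have hblock : W' * G0 * W = fromBlocks (P₁ * Ym t d * P₁i * Yi t d)
      (W' * G0 * W).toBlocks₁₂ (W' * G0 * W).toBlocks₂₁ (W' * G0 * W).toBlocks₂₂ := by
    have h11 : (W' * G0 * W).toBlocks₁₁ = P₁ * Ym t d * P₁i * Yi t d := by
      rw [ha0, hW', hW, hS₀, hT₀]
      ext i j
      rw [Matrix.toBlocks₁₁, Matrix.of_apply]
      fin_cases i <;> fin_cases j <;>
        simp [G0, uU, uL, lev, Matrix.mul_apply, Fintype.sum_sum_type, Fin.sum_univ_two,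
          Matrix.one_apply] <;> field_simp <;> ring
    rw [← h11]
    exact (Matrix.fromBlocks_toBlocks _).symm
  have hmem : W' * G0 * W ∈ symplecticGroup (Fin 2) F := mul_mem (mul_mem hW'mem hG0mem) hWmem
  rw [hblock] at hmem
  have hcc := bigcell t d hd hD _ _ _ _ P₁ P₁i hPP rfl hmem
  rw [← hblock] at hcc
  have hW'W : W' * W = 1 := mul_eq_one_comm.1 hWW'
  have h3 := CC_conj t d _ W W' hWmem hWW' hcc
  have h4 : W * (W' * G0 * W) * W' = G0 := by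
    calc W * (W' * G0 * W) * W' = (W * W') * G0 * (W * W') := by simp only [Matrix.mul_assoc]
      _ = G0 := by rw [hWW', Matrix.one_mul, Matrix.mul_one]
  rw [h4] at h3
  exact h3

/-- Non-central involutions are products of two conjugates of the base element. -/
theorem involution_cc (t d : F) (hd : d ≠ 0) (hD : Dl t d ≠ 0) (h2 : (2 : F) ≠ 0) (p s : F)
    (hs : s ≠ 0) (hcon : p ^ 2 + t * p * s + d * s ^ 2 - t * p + d = 0)
    (g : Matrix (Fin 2 ⊕ Fin 2) (Fin 2 ⊕ Fin 2) F) (hg : g ∈ symplecticGroup (Fin 2) F)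
    (hgg : g * g = 1) (hne1 : g ≠ 1) (hne2 : g ≠ -1) : CC t d g := by
  have hpair : SpPair g g := ⟨hg, hg, hgg, hgg⟩
  have hggv : ∀ v, g *ᵥ (g *ᵥ v) = v := fun v => hpair.g_gi v
  -- eigenvectors
  have hex1 : ∃ a, a + g *ᵥ a ≠ 0 := by
    by_contra hcon'
    push Not at hcon'
    apply hne2
    apply matrix_eq_of_mulVec
    intro u
    rw [Matrix.neg_mulVec, Matrix.one_mulVec]
    exact eq_neg_of_add_eq_zero_right (hcon' u)
  have hex2 : ∃ a, a - g *ᵥ a ≠ 0 := by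
    by_contra hcon'
    push Not at hcon'
    apply hne1
    apply matrix_eq_of_mulVec
    intro u
    rw [Matrix.one_mulVec]
    exact (sub_eq_zero.1 (hcon' u)).symm
  obtain ⟨a1, ha1⟩ := hex1
  obtain ⟨a2, ha2⟩ := hex2
  obtain ⟨E1, hE1⟩ : ∃ E1 : Fin 2 ⊕ Fin 2 → F, E1 = a1 + g *ᵥ a1 := ⟨_, rfl⟩
  obtain ⟨E2, hE2⟩ : ∃ E2 : Fin 2 ⊕ Fin 2 → F, E2 = a2 - g *ᵥ a2 := ⟨_, rfl⟩
  have hgE1 : g *ᵥ E1 = E1 := by
    rw [hE1, Matrix.mulVec_add, hggv]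
    abel
  have hgE2 : g *ᵥ E2 = -E2 := by
    rw [hE2, Matrix.mulVec_sub, hggv]
    abel
  obtain ⟨w1, hw1⟩ := exists_om_eq_one E1 (by rw [hE1]; exact ha1)
  obtain ⟨w2, hw2⟩ := exists_om_eq_one E2 (by rw [hE2]; exact ha2)
  obtain ⟨F1, hF1⟩ : ∃ F1 : Fin 2 ⊕ Fin 2 → F, F1 = (-1 / 2 : F) • (w1 + g *ᵥ w1) := ⟨_, rfl⟩
  obtain ⟨F2, hF2⟩ : ∃ F2 : Fin 2 ⊕ Fin 2 → F, F2 = (-1 / 2 : F) • (w2 - g *ᵥ w2) := ⟨_, rfl⟩
  have hgF1 : g *ᵥ F1 = F1 := by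
    rw [hF1, Matrix.mulVec_smul, Matrix.mulVec_add, hggv]
    congr 1
    abel
  have hgF2 : g *ᵥ F2 = -F2 := by
    rw [hF2, Matrix.mulVec_smul, Matrix.mulVec_sub, hggv, ← smul_neg]
    congr 1
    abel
  -- orthogonality of the eigenspaces
  have horth : ∀ u v, g *ᵥ u = u → g *ᵥ v = -v → om u v = 0 := by
    intro u v hu hv
    have h1 := om_mulVec g hg u v
    rw [hu, hv, om_neg_right] at h1
    have h3 : 2 * om u v = 0 := by linear_combination -h1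
    rcases mul_eq_zero.1 h3 with h4 | h4
    · exact absurd h4 h2
    · exact h4
  have r1 : om E1 E2 = 0 := horth E1 E2 hgE1 hgE2
  have r2 : om F1 F2 = 0 := horth F1 F2 hgF1 hgF2
  have r4 : om E1 F2 = 0 := horth E1 F2 hgE1 hgF2
  have r5 : om E2 F1 = 0 := by rw [om_swap, horth F1 E2 hgF1 hgE2, neg_zero]
  have r3 : om E1 F1 = -1 := by
    rw [hF1, om_smul_right, om_add_right, hw1]
    have h1 : om E1 (g *ᵥ w1) = 1 := by
      calc om E1 (g *ᵥ w1) = om (g *ᵥ E1) (g *ᵥ w1) := by rw [hgE1]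
        _ = 1 := by rw [om_mulVec g hg, hw1]
    rw [h1]
    field_simp
    ring
  have r6 : om E2 F2 = -1 := by
    rw [hF2, om_smul_right, om_sub_right, hw2]
    have h1 : om E2 (g *ᵥ w2) = -1 := by
      have h3 := om_mulVec g hg E2 w2
      rw [hgE2, om_neg_left, hw2] at h3
      linear_combination -h3
    rw [h1]
    field_simp
    ring
  have hR := colMat4_mem E1 E2 F1 F2 r1 r2 r3 r4 r5 r6
  obtain ⟨R, hRdef⟩ : ∃ R : Matrix (Fin 2 ⊕ Fin 2) (Fin 2 ⊕ Fin 2) F,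
      R = colMat4 E1 E2 F1 F2 := ⟨_, rfl⟩
  rw [← hRdef] at hR
  obtain ⟨Ri, hRi⟩ : ∃ Ri : Matrix (Fin 2 ⊕ Fin 2) (Fin 2 ⊕ Fin 2) F,
      Ri = ((⟨R, hR⟩⁻¹ : symplecticGroup (Fin 2) F) :
        Matrix (Fin 2 ⊕ Fin 2) (Fin 2 ⊕ Fin 2) F) := ⟨_, rfl⟩
  have hRRi : R * Ri = 1 := by
    rw [hRi]
    exact coe_mul_coe_inv ⟨R, hR⟩
  have hgR : g * R = R * G0 := by
    apply matrix_eq_of_mulVec
    intro c
    rw [← Matrix.mulVec_mulVec, ← Matrix.mulVec_mulVec, G0_mulVec, hRdef, colMat4_mulVec,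
      colMat4_mulVec]
    simp only [Matrix.mulVec_add, Matrix.mulVec_smul, hgE1, hgE2, hgF1, hgF2]
    simp
  have hgeq : g = R * G0 * Ri := by
    calc g = g * (R * Ri) := by rw [hRRi, Matrix.mul_one]
      _ = R * G0 * Ri := by rw [← Matrix.mul_assoc, hgR]
  rw [hgeq]
  exact CC_conj t d _ R Ri hR hRRi (G0_cc t d hd hD h2 p s hs hcon)

end sp4inv

end Cfsg.Agent.H41
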