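import Mathlib
import Cfsg.Agent.H41.Sp4Inv
import Cfsg.Agent.H41.PSpRP

set_option autoImplicit false
set_option linter.unusedSimpArgs false
set_option linter.unusedSectionVars false
set_option linter.unusedVariables false
set_option linter.style.haveILetI false
set_option linter.flexible false
set_option linter.unnecessarySeqFocus false

namespace Cfsg.Agent.H41

open Matrix

section sp4main

variable {F : Type*} [Field F]

theorem Ym_pow_form (t d : F) (k : ℕ) :
    ∃ a b : F, Ym t d ^ k = a • (1 : Matrix (Fin 2) (Fin 2) F) + b • Ym t d := by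
  induction k with
  | zero => exact ⟨1, 0, by simp⟩
  | succ k ih =>
    obtain ⟨a, b, hab⟩ := ih
    refine ⟨-(b * d), a + b * t, ?_⟩
    rw [pow_succ, hab]
    ext i j
    fin_cases i <;> fin_cases j <;> simp [Ym, Matrix.mul_apply, Fin.sum_univ_two] <;> ring

/-- The companion matrix of a quadratic polynomial without roots has order prime to the
characteristic. -/
theorem Ym_order [Fintype F] (p : ℕ) [Fact p.Prime] [CharP F p] (t d : F) (hd : d ≠ 0)
    (hroot : ∀ u : F, u ^ 2 - t * u + d ≠ 0) : ∃ m : ℕ, ¬ p ∣ m ∧ Ym t d ^ m = 1 := by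
  classical
  have hp : p.Prime := Fact.out
  obtain ⟨Yu, hYu⟩ : ∃ Yu : (Matrix (Fin 2) (Fin 2) F)ˣ,
      (Yu : Matrix (Fin 2) (Fin 2) F) = Ym t d :=
    ⟨⟨Ym t d, Yi t d, Ym_mul_Yi t d hd, Yi_mul_Ym t d hd⟩, rfl⟩
  refine ⟨orderOf Yu, ?_, ?_⟩
  swap
  · rw [← hYu, ← Units.val_pow_eq_pow_val, pow_orderOf_eq_one, Units.val_one]
  intro hdiv
  obtain ⟨k, hk⟩ := hdiv
  have hpos : 0 < orderOf Yu := orderOf_pos Yu
  have hk0 : 0 < k := by
    rcases Nat.eq_zero_or_pos k with h0 | h0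
    · rw [h0, mul_zero] at hk
      omega
    · exact h0
  have hklt : k < orderOf Yu := by
    rw [hk]
    have := hp.two_le
    nlinarith
  have hne : Yu ^ k ≠ 1 := pow_ne_one_of_lt_orderOf hk0.ne' hklt
  have hp1 : (Yu ^ k) ^ p = 1 := by rw [← pow_mul, mul_comm, ← hk, pow_orderOf_eq_one]
  obtain ⟨a, b, hab⟩ := Ym_pow_form t d k
  have hY1 : (Ym t d ^ k) ^ p = 1 := by
    have h1 := congrArg Units.val hp1
    rw [Units.val_pow_eq_pow_val, Units.val_pow_eq_pow_val, hYu, Units.val_one] at h1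
    exact h1
  have hM : (Ym t d ^ k - 1) ^ p = 0 := by
    haveI : Nonempty (Fin 2) := ⟨0⟩
    rw [sub_pow_char_of_commute (p := p) (Commute.one_right _), hY1, one_pow, sub_self]
  have hdet : (Ym t d ^ k - 1).det = 0 := by
    have h1 := congrArg Matrix.det hM
    rw [Matrix.det_pow, Matrix.det_zero] at h1
    exact (pow_eq_zero_iff hp.ne_zero).1 h1
  rw [hab] at hdet
  have hdet' : (a - 1) ^ 2 + (a - 1) * b * t + b ^ 2 * d = 0 := by
    rw [← hdet, Matrix.det_fin_two]
    simp [Ym]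
    ring
  by_cases hb : b = 0
  · rw [hb] at hdet'
    have ha : a = 1 := by
      have h1 : (a - 1) ^ 2 = 0 := by linear_combination hdet'
      have h2 := (pow_eq_zero_iff (two_ne_zero)).1 h1
      linear_combination h2
    apply hne
    apply Units.ext
    rw [Units.val_pow_eq_pow_val, hYu, hab, ha, hb]
    simp
  · apply hroot (-(a - 1) / b)
    field_simp
    linear_combination hdet'

theorem Xm_pow (t d : F) (m : ℕ) : Xm t d ^ m = lev (Ym t d ^ m) ((Yi t d)ᵀ ^ m) := by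
  induction m with
  | zero => simp [lev_one]
  | succ m ih => rw [pow_succ, ih, Xm, lev_mul, ← pow_succ, ← pow_succ]

theorem Xm_pow_eq_one (t d : F) (hd : d ≠ 0) (m : ℕ) (h : Ym t d ^ m = 1) : Xm t d ^ m = 1 := by
  have h1 : (Yi t d)ᵀ ^ m = 1 := by
    have h2 : Yi t d ^ m = 1 := by
      have h3 : Commute (Yi t d) (Ym t d) := by
        rw [Commute, SemiconjBy, Yi_mul_Ym t d hd, Ym_mul_Yi t d hd]
      have h4 := h3.mul_pow m
      rw [Yi_mul_Ym t d hd, one_pow, h, mul_one] at h4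
      exact h4.symm
    rw [← Matrix.transpose_pow, h2, Matrix.transpose_one]
  rw [Xm_pow, h, h1, lev_one]

/-- Existence of a quadratic polynomial without roots and with constant term `≠ 0, 1`. -/
theorem exists_td [Fintype F] (h3 : 3 ≤ Fintype.card F) :
    ∃ t d : F, d ≠ 0 ∧ d ≠ 1 ∧ ∀ u : F, u ^ 2 - t * u + d ≠ 0 := by
  classical
  have hd : ∃ d : F, d ≠ 0 ∧ d ≠ 1 := by
    have h1 : ({0, 1} : Finset F).card < (Finset.univ : Finset F).card := by
      rw [Finset.card_univ]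
      have := Finset.card_le_two (a := (0 : F)) (b := 1)
      omega
    obtain ⟨e, -, he⟩ := Finset.exists_mem_notMem_of_card_lt_card h1
    refine ⟨e, ?_, ?_⟩
    · intro h0
      apply he
      rw [h0]
      simp
    · intro h0
      apply he
      rw [h0]
      simp
  obtain ⟨d, hd0, hd1⟩ := hd
  have hns : ¬ Function.Surjective (fun u : Fˣ => (u : F) + d / u) := by
    intro hsurj
    have h1 := Fintype.card_le_of_surjective _ hsurj
    rw [Fintype.card_units] at h1
    have : 0 < Fintype.card F := Fintype.card_pos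
    omega
  rw [Function.Surjective] at hns
  push Not at hns
  obtain ⟨t, ht⟩ := hns
  refine ⟨t, d, hd0, hd1, ?_⟩
  intro u hu
  by_cases hu0 : u = 0
  · rw [hu0] at hu
    apply hd0
    linear_combination hu
  · apply ht (Units.mk0 u hu0)
    rw [Units.val_mk0]
    field_simp
    linear_combination hu

/-- Existence of a point on the conic used for the involutions. -/
theorem exists_conic [Fintype F] (h2 : (2 : F) ≠ 0) (t d : F)
    (hroot : ∀ u : F, u ^ 2 - t * u + d ≠ 0) :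
    ∃ p s : F, s ≠ 0 ∧ p ^ 2 + t * p * s + d * s ^ 2 - t * p + d = 0 := by
  classical
  have hodd : Fintype.card F % 2 = 1 := by
    apply FiniteField.odd_card_of_char_ne_two
    intro hc
    apply h2
    have h1 : ((ringChar F : ℕ) : F) = 0 := ringChar.Nat.cast_ringChar
    rw [hc] at h1
    exact_mod_cast h1
  have hne : d - t ^ 2 / 4 ≠ 0 := by
    have h1 := hroot (t / 2)
    have h4 : (4 : F) ≠ 0 := by
      have : (4 : F) = 2 * 2 := by norm_num
      rw [this]
      exact mul_ne_zero h2 h2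
    intro h0
    apply h1
    field_simp
    field_simp at h0
    linear_combination h0
  obtain ⟨f, hf⟩ : ∃ f : Polynomial F, f = Polynomial.C 1 * Polynomial.X ^ 2 +
      Polynomial.C (-t) * Polynomial.X + Polynomial.C d := ⟨_, rfl⟩
  obtain ⟨g, hg⟩ : ∃ g : Polynomial F, g = Polynomial.C (d - t ^ 2 / 4) * Polynomial.X ^ 2 +
      Polynomial.C (t ^ 2 / 2) * Polynomial.X + Polynomial.C 0 := ⟨_, rfl⟩
  have hf2 : f.degree = 2 := by
    rw [hf]
    exact Polynomial.degree_quadratic one_ne_zero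
  have hg2 : g.degree = 2 := by
    rw [hg]
    exact Polynomial.degree_quadratic hne
  obtain ⟨p', s, hps⟩ := FiniteField.exists_root_sum_quadratic hf2 hg2 hodd
  rw [hf, hg] at hps
  simp only [Polynomial.eval_add, Polynomial.eval_mul, Polynomial.eval_C, Polynomial.eval_X,
    Polynomial.eval_pow] at hps
  obtain ⟨c, hc⟩ : ∃ c : F, 2 * c = t * s := ⟨t * s / 2, by field_simp⟩
  refine ⟨p' - c, s, ?_, ?_⟩
  · intro hs0
    rw [hs0] at hps
    apply hroot p'
    linear_combination hps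
  · have h4 : (4 : F) ≠ 0 := by
      have : (4 : F) = 2 * 2 := by norm_num
      rw [this]
      exact mul_ne_zero h2 h2
    have h8 : (8 : F) ≠ 0 := by
      have : (8 : F) = 2 * 4 := by norm_num
      rw [this]
      exact mul_ne_zero h2 h4
    field_simp at hps
    have h9 : 8 * ((p' - c) ^ 2 + t * (p' - c) * s + d * s ^ 2 - t * (p' - c) + d) = 0 := by
      linear_combination hps + (-8 * p' + 2 * (2 * c - t * s) + 4 * t) * hc
    rcases mul_eq_zero.1 h9 with h10 | h10
    · exact absurd h10 h8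
    · exact h10

end sp4main

section final

variable {F : Type*} [Field F] [Fintype F]

/-- From a factorization of matrices to a factorization in `PSp`. -/
theorem cc_to_psp (t d : F) (hd : d ≠ 0) (g₀ : symplecticGroup (Fin 2) F)
    (h : CC t d (g₀ : Matrix (Fin 2 ⊕ Fin 2) (Fin 2 ⊕ Fin 2) F)) :
    ∃ u v : Cfsg.PSp 2 F, (QuotientGroup.mk g₀ : Cfsg.PSp 2 F) =
      (u * (QuotientGroup.mk ⟨Xm t d, Xm_mem t d hd⟩ : Cfsg.PSp 2 F) * u⁻¹) *
        (v * (QuotientGroup.mk ⟨Xm t d, Xm_mem t d hd⟩ : Cfsg.PSp 2 F) * v⁻¹) := by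
  obtain ⟨y₁, y₂, ⟨v₁, hv₁⟩, ⟨v₂, hv₂⟩, hy⟩ := h
  refine ⟨QuotientGroup.mk v₁, QuotientGroup.mk v₂, ?_⟩
  rw [← QuotientGroup.mk_inv, ← QuotientGroup.mk_inv, ← QuotientGroup.mk_mul,
    ← QuotientGroup.mk_mul, ← QuotientGroup.mk_mul, ← QuotientGroup.mk_mul,
    ← QuotientGroup.mk_mul]
  congr 1
  apply Subtype.ext
  simp only [Submonoid.coe_mul]
  rw [hy, hv₁, hv₂]

/-- A class square theorem for `PSp₄(F)`. -/
theorem psp4_cc (p : ℕ) [Fact p.Prime] [CharP F p] (h3 : 3 ≤ Fintype.card F) :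
    ∃ x : Cfsg.PSp 2 F, ¬ p ∣ orderOf x ∧ ∀ g : Cfsg.PSp 2 F, g ≠ 1 →
      ∃ u v : Cfsg.PSp 2 F, g = (u * x * u⁻¹) * (v * x * v⁻¹) := by
  obtain ⟨t, d, hd0, hd1, hroot⟩ := exists_td h3
  have hD : Dl t d ≠ 0 := by
    unfold Dl
    have h1 := hroot 1
    have h2 := hroot (-1)
    have e : (d + 1) ^ 2 - t ^ 2 = (1 ^ 2 - t * 1 + d) * ((-1) ^ 2 - t * (-1) + d) := by ring
    rw [e]
    exact mul_ne_zero (sub_ne_zero.2 hd1) (mul_ne_zero h1 h2)
  refine ⟨QuotientGroup.mk ⟨Xm t d, Xm_mem t d hd0⟩, ?_, ?_⟩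
  · obtain ⟨m, hm, hYm⟩ := Ym_order p t d hd0 hroot
    have hX := Xm_pow_eq_one t d hd0 m hYm
    have h1 : (QuotientGroup.mk ⟨Xm t d, Xm_mem t d hd0⟩ : Cfsg.PSp 2 F) ^ m = 1 := by
      rw [psp_pow_eq_one_iff (by norm_num)]
      exact ⟨1, one_pow 2, by rw [one_smul]; exact hX⟩
    intro hdiv
    exact hm (dvd_trans hdiv (orderOf_dvd_of_pow_eq_one h1))
  · intro g hg
    induction g using QuotientGroup.induction_on with
    | H g₀ =>
      obtain ⟨M, hM⟩ : ∃ M : Matrix (Fin 2 ⊕ Fin 2) (Fin 2 ⊕ Fin 2) F,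
          M = (g₀ : Matrix (Fin 2 ⊕ Fin 2) (Fin 2 ⊕ Fin 2) F) := ⟨_, rfl⟩
      have hns : ∀ c : F, c ^ 2 = 1 → M ≠ c • (1 : Matrix (Fin 2 ⊕ Fin 2) (Fin 2 ⊕ Fin 2) F) := by
        intro c hc hMc
        apply hg
        have h1 := (psp_pow_eq_one_iff (by norm_num) g₀ 1).2 ⟨c, hc, by rw [pow_one, ← hM, hMc]⟩
        rwa [pow_one] at h1
      have hne1 : M ≠ 1 := by
        intro h
        exact hns 1 (one_pow 2) (by rw [h, one_smul])
      have hne2 : M ≠ -1 := by
        intro h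
        exact hns (-1) (by ring) (by rw [h]; simp)
      have hpair : SpPair M ((g₀⁻¹ : symplecticGroup (Fin 2) F) :
          Matrix (Fin 2 ⊕ Fin 2) (Fin 2 ⊕ Fin 2) F) :=
        ⟨by rw [hM]; exact g₀.2, (g₀⁻¹).2, by rw [hM]; exact coe_mul_coe_inv g₀,
          by rw [hM]; exact coe_inv_mul_coe g₀⟩
      rcases sp4_tree hpair hne1 with h1 | h1 | ⟨h2, hgg⟩
      · exact cc_to_psp t d hd0 g₀ (by rw [← hM]; exact uuconj_cc t d hd0 hD M h1)
      · have hcc := uuconj_cc t d hd0 hD (-M) h1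
        obtain ⟨ng, hng⟩ : ∃ ng : symplecticGroup (Fin 2) F,
            (ng : Matrix (Fin 2 ⊕ Fin 2) (Fin 2 ⊕ Fin 2) F) = -M :=
          ⟨⟨-M, SymplecticGroup.neg_mem hpair.1⟩, rfl⟩
        have h5 := cc_to_psp t d hd0 ng (by rw [hng]; exact hcc)
        have h6 : (QuotientGroup.mk g₀ : Cfsg.PSp 2 F) = QuotientGroup.mk ng := by
          rw [QuotientGroup.eq, Subgroup.mem_center_iff]
          intro B
          apply Subtype.ext
          simp only [Submonoid.coe_mul]
          have h7 : ((g₀⁻¹ : symplecticGroup (Fin 2) F) :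
              Matrix (Fin 2 ⊕ Fin 2) (Fin 2 ⊕ Fin 2) F) *
              (ng : Matrix (Fin 2 ⊕ Fin 2) (Fin 2 ⊕ Fin 2) F) = -1 := by
            rw [hng, hM, Matrix.mul_neg, coe_inv_mul_coe]
          rw [h7]
          simp
        rw [h6]
        exact h5
      · obtain ⟨pp, s, hs, hcon⟩ := exists_conic h2 t d hroot
        exact cc_to_psp t d hd0 g₀ (by
          rw [← hM]
          exact involution_cc t d hd0 hD h2 pp s hs hcon M hpair.1 hgg hne1 hne2)

end final

end Cfsg.Agent.H41
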