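import Mathlib

set_option autoImplicit false
set_option linter.unusedSimpArgs false
set_option linter.unusedSectionVars false
set_option linter.unusedVariables false
set_option linter.style.haveILetI false
set_option linter.flexible false

namespace Cfsg.Agent.H41

open scoped Pointwise

section sylinter

variable {G : Type*} [Group G]

/-- The conjugate subgroup `y P y⁻¹`. -/
def cjs (y : G) (P : Subgroup G) : Subgroup G := MulAut.conj y • P

theorem mem_cjs (y : G) (P : Subgroup G) (w : G) : w ∈ cjs y P ↔ y⁻¹ * w * y ∈ P := by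
  rw [cjs, Subgroup.mem_pointwise_smul_iff_inv_smul_mem]
  simp [MulAut.smul_def]

theorem cjs_mul (a b : G) (P : Subgroup G) : cjs (a * b) P = cjs a (cjs b P) := by
  ext w
  simp only [mem_cjs]
  rw [mul_inv_rev]
  simp only [mul_assoc]

theorem cjs_one (P : Subgroup G) : cjs 1 P = P := by
  ext w
  simp [mem_cjs]

theorem cjs_of_mem (y : G) (P : Subgroup G) (hy : y ∈ P) : cjs y P = P := by
  ext w
  rw [mem_cjs]
  constructor
  · intro h
    have e : w = y * (y⁻¹ * w * y) * y⁻¹ := by group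
    rw [e]
    exact mul_mem (mul_mem hy h) (inv_mem hy)
  · intro h
    exact mul_mem (mul_mem (inv_mem hy) h) hy

theorem cjs_inf (y : G) (P Q : Subgroup G) : cjs y (P ⊓ Q) = cjs y P ⊓ cjs y Q := by
  ext w
  simp only [mem_cjs, Subgroup.mem_inf]

theorem cjs_bot (y : G) : cjs y (⊥ : Subgroup G) = ⊥ := by
  ext w
  rw [mem_cjs, Subgroup.mem_bot, Subgroup.mem_bot]
  constructor
  · intro h
    have e : w = y * (y⁻¹ * w * y) * y⁻¹ := by group
    rw [e, h]
    group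
  · intro h
    rw [h]
    group

theorem cjs_eq_bot (y : G) (P : Subgroup G) (h : cjs y P = ⊥) : P = ⊥ := by
  have h1 : cjs y⁻¹ (cjs y P) = P := by rw [← cjs_mul, inv_mul_cancel, cjs_one]
  rw [← h1, h, cjs_bot]

theorem cjs_mono (y : G) {P Q : Subgroup G} (h : P ≤ Q) : cjs y P ≤ cjs y Q := by
  intro w hw
  rw [mem_cjs] at hw ⊢
  exact h hw

theorem cjs_le_normal (N : Subgroup G) [N.Normal] (y : G) (P : Subgroup G) (h : P ≤ N) :
    cjs y P ≤ N := by
  intro w hw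
  rw [mem_cjs] at hw
  have h1 := h hw
  have e : w = y * (y⁻¹ * w * y) * y⁻¹ := by group
  rw [e]
  exact Subgroup.Normal.conj_mem inferInstance _ h1 y

theorem cjs_normal (N : Subgroup G) [N.Normal] (y : G) : cjs y N = N := by
  apply le_antisymm (cjs_le_normal N y N le_rfl)
  intro w hw
  rw [mem_cjs]
  have := Subgroup.Normal.conj_mem (inferInstance : N.Normal) w hw y⁻¹
  rwa [inv_inv] at this

theorem card_cjs (y : G) (P : Subgroup G) : Nat.card (cjs y P) = Nat.card P := by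
  rw [cjs, Subgroup.pointwise_smul_def]
  exact Subgroup.card_map_of_injective (MulAction.injective (MulAut.conj y))

theorem isPGroup_cjs (p : ℕ) (y : G) (P : Subgroup G) (hP : IsPGroup p P) :
    IsPGroup p (cjs y P) := by
  rw [cjs, Subgroup.pointwise_smul_def]
  exact hP.map _

/-- A self-normalizing `2`-subgroup is a Sylow `2`-subgroup. -/
theorem exists_sylow_of_selfNormalizing {L : Type*} [Group L] [Finite L] (B : Subgroup L)
    (hB2 : IsPGroup 2 B) (hself : ∀ l : L, (∀ b ∈ B, l * b * l⁻¹ ∈ B) → l ∈ B) :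
    ∃ S : Sylow 2 L, (S : Subgroup L) = B := by
  haveI : Fact (Nat.Prime 2) := ⟨Nat.prime_two⟩
  obtain ⟨Q, hQ⟩ := hB2.exists_le_sylow
  refine ⟨Q, ?_⟩
  by_contra hne
  have hlt : B < (Q : Subgroup L) := lt_of_le_of_ne hQ (Ne.symm hne)
  haveI hnil : Group.IsNilpotent (Q : Subgroup L) := Q.2.isNilpotent
  have hnc : NormalizerCondition (Q : Subgroup L) := Group.normalizerCondition_of_isNilpotent
  have hlt' : B.subgroupOf Q < ⊤ := by
    rw [lt_top_iff_ne_top]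
    intro h
    rw [Subgroup.subgroupOf_eq_top] at h
    exact hlt.not_ge h
  have h1 := hnc (B.subgroupOf Q) hlt'
  obtain ⟨⟨z, hzQ⟩, hz1, hz2⟩ := SetLike.exists_of_lt h1
  apply hz2
  rw [Subgroup.mem_subgroupOf]
  apply hself
  intro b hb
  have h2 := (Subgroup.mem_normalizer_iff.1 hz1) ⟨b, hQ hb⟩
  rw [Subgroup.mem_subgroupOf, Subgroup.mem_subgroupOf] at h2
  exact h2.1 hb

/-- The abstract intersection argument, with the Borel subgroup inside `G`. -/
theorem sylow_inter_ne_bot [Finite G] (N : Subgroup G) [N.Normal] (hidx : N.index = 2)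
    (B : Subgroup G) (hBN : B ≤ N) (hB2 : IsPGroup 2 B)
    (hself : ∀ y ∈ N, (∀ b ∈ B, y * b * y⁻¹ ∈ B) → y ∈ B)
    (hsyl : ∀ P : Subgroup G, P ≤ N → IsPGroup 2 P → Nat.card B ≤ Nat.card P →
      ∃ y ∈ N, P = cjs y B)
    (hopp : ∀ y₁ ∈ N, ∀ y₂ ∈ N, B ⊓ cjs y₁ B = ⊥ → B ⊓ cjs y₂ B = ⊥ →
      ∃ u ∈ B, cjs y₂ B = cjs u (cjs y₁ B))
    (H : Sylow 2 G) (x : G) : (H : Subgroup G) ⊓ MulAut.conj x • (H : Subgroup G) ≠ ⊥ := by
  haveI : Fact (Nat.Prime 2) := ⟨Nat.prime_two⟩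
  intro hbot
  have hbot' : (H : Subgroup G) ⊓ cjs x H = ⊥ := hbot
  obtain ⟨U, hU⟩ : ∃ U : Subgroup G, U = (H : Subgroup G) ⊓ N := ⟨_, rfl⟩
  have hUH : U ≤ H := by rw [hU]; exact inf_le_left
  have hUN : U ≤ N := by rw [hU]; exact inf_le_right
  have hU2 : IsPGroup 2 U := H.2.to_le hUH
  have hcard : Nat.card B ≤ Nat.card U := by
    obtain ⟨Q, hQ⟩ := hB2.exists_le_sylow
    obtain ⟨z, hz⟩ := MulAction.exists_smul_eq G Q H
    have hzH : (H : Subgroup G) = cjs z Q := by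
      rw [← hz]
      rfl
    have h1 : cjs z B ≤ U := by
      rw [hU]
      apply le_inf
      · rw [hzH]
        exact cjs_mono z hQ
      · exact cjs_le_normal N z B hBN
    calc Nat.card B = Nat.card (cjs z B) := (card_cjs z B).symm
      _ ≤ Nat.card U := Subgroup.card_le_of_le h1
  obtain ⟨y₀, hy₀N, hUy₀⟩ := hsyl U hUN hU2 hcard
  have hτ : ∃ τ ∈ (H : Subgroup G), τ ∉ N := by
    by_contra hcon
    push Not at hcon
    have hHN : (H : Subgroup G) ≤ N := hcon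
    have h1 : Nat.card (H : Subgroup G) ∣ Nat.card N := Subgroup.card_dvd_of_le hHN
    have h2 : Nat.card N * 2 = Nat.card G := by
      rw [← hidx]
      exact Subgroup.card_mul_index N
    have h3 := H.card_eq_multiplicity
    have hN0 : Nat.card N ≠ 0 := Nat.card_pos.ne'
    have h4 : (Nat.card G).factorization 2 = (Nat.card N).factorization 2 + 1 := by
      rw [← h2, Nat.factorization_mul hN0 (by norm_num)]
      simp [Nat.Prime.factorization_self Nat.prime_two]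
    rw [h3, h4] at h1
    exact Nat.pow_succ_factorization_not_dvd hN0 Nat.prime_two h1
  obtain ⟨τ, hτH, hτN⟩ := hτ
  have hτU : cjs τ U = U := by
    rw [hU, cjs_inf, cjs_of_mem τ _ hτH, cjs_normal]
  have hτU' : cjs τ⁻¹ U = U := by
    conv_lhs => rw [← hτU]
    rw [← cjs_mul, inv_mul_cancel, cjs_one]
  have key : ∀ σ' ∈ N, cjs σ' U = U → σ' ∈ U := by
    intro σ' hσ'N hσ'
    have h1 : y₀⁻¹ * σ' * y₀ ∈ B := by
      apply hself _ (N.mul_mem (N.mul_mem (N.inv_mem hy₀N) hσ'N) hy₀N)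
      intro b hb
      have hb' : y₀ * b * y₀⁻¹ ∈ U := by
        rw [hUy₀, mem_cjs]
        have e : y₀⁻¹ * (y₀ * b * y₀⁻¹) * y₀ = b := by group
        rw [e]
        exact hb
      have h2 : σ' * (y₀ * b * y₀⁻¹) * σ'⁻¹ ∈ U := by
        rw [← hσ', mem_cjs]
        have e : σ'⁻¹ * (σ' * (y₀ * b * y₀⁻¹) * σ'⁻¹) * σ' = y₀ * b * y₀⁻¹ := by group
        rw [e]
        exact hb'
      rw [hUy₀, mem_cjs] at h2
      have e : y₀⁻¹ * σ' * y₀ * b * (y₀⁻¹ * σ' * y₀)⁻¹ =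
          y₀⁻¹ * (σ' * (y₀ * b * y₀⁻¹) * σ'⁻¹) * y₀ := by group
      rw [e]
      exact h2
    rw [hUy₀, mem_cjs]
    exact h1
  have hnormU : ∀ σ : G, cjs σ U = U → σ ∈ (H : Subgroup G) := by
    intro σ hσ
    by_cases hσN : σ ∈ N
    · exact hUH (key σ hσN hσ)
    · have h1 : τ⁻¹ * σ ∈ N := by
        rw [Subgroup.mul_mem_iff_of_index_two hidx, inv_mem_iff]
        exact ⟨fun h => absurd h hτN, fun h => absurd h hσN⟩
      have h2 : cjs (τ⁻¹ * σ) U = U := by rw [cjs_mul, hσ, hτU']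
      have h3 := hUH (key _ h1 h2)
      have e : σ = τ * (τ⁻¹ * σ) := by group
      rw [e]
      exact mul_mem hτH h3
  obtain ⟨U', hU'⟩ : ∃ U' : Subgroup G, U' = cjs x U := ⟨_, rfl⟩
  have hU'N : U' ≤ N := by
    rw [hU']
    exact cjs_le_normal N x U hUN
  have hU'2 : IsPGroup 2 U' := by
    rw [hU']
    exact isPGroup_cjs 2 x U hU2
  have hU'card : Nat.card U' = Nat.card U := by rw [hU', card_cjs]
  obtain ⟨y₁, hy₁N, hU'y₁⟩ := hsyl U' hU'N hU'2 (by rw [hU'card]; exact hcard)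
  obtain ⟨U'', hU''⟩ : ∃ U'' : Subgroup G, U'' = cjs τ U' := ⟨_, rfl⟩
  have hU''N : U'' ≤ N := by
    rw [hU'']
    exact cjs_le_normal N τ U' hU'N
  have hU''2 : IsPGroup 2 U'' := by
    rw [hU'']
    exact isPGroup_cjs 2 τ U' hU'2
  have hU''card : Nat.card U'' = Nat.card U := by rw [hU'', card_cjs, hU'card]
  obtain ⟨y₂, hy₂N, hU''y₂⟩ := hsyl U'' hU''N hU''2 (by rw [hU''card]; exact hcard)
  have hUU' : U ⊓ U' = ⊥ := by
    rw [eq_bot_iff, ← hbot']
    exact inf_le_inf hUH (by rw [hU']; exact cjs_mono x hUH)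
  have hUU'' : U ⊓ U'' = ⊥ := by
    rw [hU'']
    conv_lhs => rw [← hτU]
    rw [← cjs_inf, hUU', cjs_bot]
  have hB1 : B ⊓ cjs (y₀⁻¹ * y₁) B = ⊥ := by
    apply cjs_eq_bot y₀
    rw [cjs_inf, ← cjs_mul, mul_inv_cancel_left, ← hUy₀, ← hU'y₁, hUU']
  have hB2' : B ⊓ cjs (y₀⁻¹ * y₂) B = ⊥ := by
    apply cjs_eq_bot y₀
    rw [cjs_inf, ← cjs_mul, mul_inv_cancel_left, ← hUy₀, ← hU''y₂, hUU'']
  obtain ⟨u, hu, huu⟩ := hopp (y₀⁻¹ * y₁) (N.mul_mem (N.inv_mem hy₀N) hy₁N) (y₀⁻¹ * y₂)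
    (N.mul_mem (N.inv_mem hy₀N) hy₂N) hB1 hB2'
  obtain ⟨ū, hū⟩ : ∃ ū : G, ū = y₀ * u * y₀⁻¹ := ⟨_, rfl⟩
  have hūU : ū ∈ U := by
    rw [hUy₀, mem_cjs, hū]
    have e : y₀⁻¹ * (y₀ * u * y₀⁻¹) * y₀ = u := by group
    rw [e]
    exact hu
  have hU''eq : U'' = cjs ū U' := by
    rw [hU''y₂, hU'y₁, hū]
    have e1 : cjs y₂ B = cjs y₀ (cjs (y₀⁻¹ * y₂) B) := by
      rw [← cjs_mul, mul_inv_cancel_left]
    rw [e1, huu, ← cjs_mul, ← cjs_mul, ← cjs_mul]
    congr 1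
    group
  have hσ : cjs (ū⁻¹ * τ) U' = U' := by
    rw [cjs_mul, ← hU'', hU''eq, ← cjs_mul, inv_mul_cancel, cjs_one]
  have hσH : ū⁻¹ * τ ∈ (H : Subgroup G) := mul_mem (inv_mem (hUH hūU)) hτH
  have h5 : cjs (x⁻¹ * (ū⁻¹ * τ) * x) U = U := by
    rw [cjs_mul, cjs_mul, ← hU', hσ, hU', ← cjs_mul, inv_mul_cancel, cjs_one]
  have h6 := hnormU _ h5
  have h7 : ū⁻¹ * τ ∈ (H : Subgroup G) ⊓ cjs x H := by
    rw [Subgroup.mem_inf, mem_cjs]
    exact ⟨hσH, h6⟩
  rw [hbot', Subgroup.mem_bot] at h7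
  apply hτN
  have e : τ = ū := by
    have e2 : τ = ū * (ū⁻¹ * τ) := by group
    rw [e2, h7, mul_one]
  rw [e]
  exact hUN hūU

/-- The intersection theorem transported along an isomorphism of the normal subgroup. -/
theorem sylow_inter_ne_bot_of_equiv [Finite G] (N : Subgroup G) [N.Normal] (hidx : N.index = 2)
    {L : Type*} [Group L] (e : N ≃* L) (B : Subgroup L) (hB2 : IsPGroup 2 B)
    (hself : ∀ l : L, (∀ b ∈ B, l * b * l⁻¹ ∈ B) → l ∈ B)
    (hopp : ∀ g₁ g₂ : L, (∀ t ∈ B, g₁⁻¹ * t * g₁ ∈ B → t = 1) →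
      (∀ t ∈ B, g₂⁻¹ * t * g₂ ∈ B → t = 1) → ∃ u ∈ B, ∃ u' ∈ B, g₂ = u * g₁ * u')
    (H : Sylow 2 G) (x : G) : (H : Subgroup G) ⊓ MulAut.conj x • (H : Subgroup G) ≠ ⊥ := by
  haveI : Fact (Nat.Prime 2) := ⟨Nat.prime_two⟩
  haveI : Finite L := Finite.of_equiv N e.toEquiv
  obtain ⟨ι, hι⟩ : ∃ ι : L →* G, ι = N.subtype.comp e.symm.toMonoidHom := ⟨_, rfl⟩
  have hιinj : Function.Injective ι := by
    rw [hι]
    exact N.subtype_injective.comp e.symm.injective
  have hιN : ∀ l, ι l ∈ N := by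
    intro l
    rw [hι]
    exact (e.symm l).2
  have hιsurj : ∀ y ∈ N, ∃ l, ι l = y := by
    intro y hy
    refine ⟨e ⟨y, hy⟩, ?_⟩
    rw [hι]
    simp
  obtain ⟨B', hB'⟩ : ∃ B' : Subgroup G, B' = B.map ι := ⟨_, rfl⟩
  have hmemB' : ∀ l, ι l ∈ B' ↔ l ∈ B := by
    intro l
    rw [hB']
    exact Subgroup.mem_map_iff_mem hιinj
  have hB'N : B' ≤ N := by
    rw [hB']
    rintro _ ⟨b, -, rfl⟩
    exact hιN b
  apply sylow_inter_ne_bot N hidx B' hB'N (by rw [hB']; exact hB2.map ι)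
  · intro y hy hnorm
    obtain ⟨l, rfl⟩ := hιsurj y hy
    rw [hmemB']
    apply hself
    intro b hb
    rw [← hmemB', map_mul, map_mul, map_inv]
    exact hnorm _ ((hmemB' b).2 hb)
  · intro P hPN hP2 hcard
    obtain ⟨S, hS⟩ := exists_sylow_of_selfNormalizing B hB2 hself
    obtain ⟨Q, hQ⟩ := (hP2.comap_of_injective ι hιinj).exists_le_sylow
    obtain ⟨l, hl⟩ := MulAction.exists_smul_eq L S Q
    refine ⟨ι l, hιN l, ?_⟩
    have hQl : (Q : Subgroup L) = cjs l B := by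
      rw [← hl, ← hS]
      rfl
    have h1 : P.comap ι ≤ cjs l B := by
      rw [← hQl]
      exact hQ
    have hc1 : Nat.card (P.comap ι) = Nat.card P := by
      have h2 : (P.comap ι).map ι = P := by
        rw [Subgroup.map_comap_eq, inf_eq_right]
        intro w hw
        obtain ⟨lw, rfl⟩ := hιsurj w (hPN hw)
        exact ⟨lw, rfl⟩
      conv_rhs => rw [← h2]
      exact (Subgroup.card_map_of_injective hιinj).symm
    have hc3 : Nat.card B' = Nat.card B := by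
      rw [hB']
      exact Subgroup.card_map_of_injective hιinj
    have h2 : P.comap ι = cjs l B :=
      Subgroup.eq_of_le_of_card_ge h1 (by rw [hc1, card_cjs, ← hc3]; exact hcard)
    ext w
    rw [mem_cjs]
    constructor
    · intro hw
      obtain ⟨lw, rfl⟩ := hιsurj w (hPN hw)
      have h3 : lw ∈ cjs l B := by
        rw [← h2]
        exact hw
      rw [mem_cjs] at h3
      rw [← map_inv, ← map_mul, ← map_mul, hmemB']
      exact h3
    · intro hw
      have hwN : w ∈ N := by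
        have h3 := hB'N hw
        have e2 : w = ι l * ((ι l)⁻¹ * w * ι l) * (ι l)⁻¹ := by group
        rw [e2]
        exact N.mul_mem (N.mul_mem (hιN l) h3) (N.inv_mem (hιN l))
      obtain ⟨lw, rfl⟩ := hιsurj w hwN
      rw [← map_inv, ← map_mul, ← map_mul, hmemB'] at hw
      have h3 : lw ∈ P.comap ι := by
        rw [h2, mem_cjs]
        exact hw
      exact h3
  · intro y₁ hy₁ y₂ hy₂ h1 h2
    obtain ⟨l₁, rfl⟩ := hιsurj y₁ hy₁
    obtain ⟨l₂, rfl⟩ := hιsurj y₂ hy₂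
    have hO : ∀ l : L, B' ⊓ cjs (ι l) B' = ⊥ → ∀ t ∈ B, l⁻¹ * t * l ∈ B → t = 1 := by
      intro l hl t ht ht'
      have h3 : ι t ∈ B' ⊓ cjs (ι l) B' := by
        rw [Subgroup.mem_inf, mem_cjs, ← map_inv, ← map_mul, ← map_mul, hmemB', hmemB']
        exact ⟨ht, ht'⟩
      rw [hl, Subgroup.mem_bot] at h3
      exact hιinj (by rw [h3, map_one])
    obtain ⟨u, hu, u', hu', huu⟩ := hopp l₁ l₂ (hO l₁ h1) (hO l₂ h2)
    refine ⟨ι u, (hmemB' u).2 hu, ?_⟩
    rw [huu, map_mul, map_mul, cjs_mul, cjs_mul, cjs_of_mem (ι u') B' ((hmemB' u').2 hu')]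

end sylinter

end Cfsg.Agent.H41
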